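import Mathlib
import Cfsg.Agent.Lib.H1.Hall
import Cfsg.Agent.Lib.H4.Burnside

/-!
Finite groups with an abelian subgroup of odd order and 2-power index: solvability and heredity.
-/

namespace H58.AbComp

open Subgroup

universe u

/-- there is an abelian Hall `2'`-subgroup -/
def AHall (G : Type*) [Group G] : Prop :=
  ∃ C : Subgroup G, IsMulCommutative C ∧ (∃ k, C.index = 2 ^ k) ∧ Odd (Nat.card C)

theorem of_complement {G : Type*} [Group G] [Finite G] (S : Sylow 2 G) (C : Subgroup G)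
    (hC : IsMulCommutative C) (h : IsComplement' (S : Subgroup G) C) : AHall G := by
  have hp : Fact (Nat.Prime 2) := ⟨Nat.prime_two⟩
  refine ⟨C, hC, ?_, ?_⟩
  · obtain ⟨k, hk⟩ := IsPGroup.iff_card.1 S.isPGroup'
    exact ⟨k, by rw [h.index_eq_card, hk]⟩
  · rw [← h.symm.index_eq_card, ← Nat.not_even_iff_odd, even_iff_two_dvd]
    exact S.not_dvd_index

theorem exists_complement {G : Type*} [Group G] [Finite G] (h : AHall G) :
    ∃ (P : Sylow 2 G) (D : Subgroup G), IsMulCommutative D ∧ IsComplement' (P : Subgroup G) D := by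
  have hp : Fact (Nat.Prime 2) := ⟨Nat.prime_two⟩
  obtain ⟨C, hC, ⟨k, hk⟩, hodd⟩ := h
  obtain ⟨P⟩ : Nonempty (Sylow 2 G) := inferInstance
  refine ⟨P, C, hC, ?_⟩
  have hcop : (Nat.card P).Coprime (Nat.card C) := by
    obtain ⟨j, hj⟩ := IsPGroup.iff_card.1 P.isPGroup'
    rw [hj]
    exact Nat.Coprime.pow_left _ ((Nat.coprime_two_left).2 hodd)
  apply isComplement'_of_coprime _ hcop
  -- cardinalities
  have h1 := Subgroup.card_mul_index (P : Subgroup G)
  have h2 := Subgroup.card_mul_index C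
  have h3 : Nat.card P ∣ C.index := by
    have : Nat.card P ∣ Nat.card C * C.index := by rw [h2, ← h1]; exact dvd_mul_right _ _
    exact hcop.dvd_of_dvd_mul_left this
  have h4 : C.index ∣ Nat.card P := by
    have h5 : C.index.Coprime (P : Subgroup G).index := by
      rw [hk]
      apply Nat.Coprime.pow_left
      rw [Nat.coprime_two_left, ← Nat.not_even_iff_odd, even_iff_two_dvd]
      exact P.not_dvd_index
    have : C.index ∣ Nat.card P * (P : Subgroup G).index := by rw [h1, ← h2]; exact dvd_mul_left _ _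
    exact h5.dvd_of_dvd_mul_right this
  have h5 : Nat.card P = C.index := Nat.dvd_antisymm h3 h4
  rw [h5, mul_comm, h2]

theorem quotient {G : Type*} [Group G] [Finite G] (h : AHall G) (N : Subgroup G) [N.Normal] :
    AHall (G ⧸ N) := by
  obtain ⟨C, hC, ⟨k, hk⟩, hodd⟩ := h
  refine ⟨C.map (QuotientGroup.mk' N), ?_, ?_, ?_⟩
  · refine ⟨⟨?_⟩⟩
    rintro ⟨_, x, hx, rfl⟩ ⟨_, y, hy, rfl⟩
    apply Subtype.ext
    show QuotientGroup.mk' N x * QuotientGroup.mk' N y = QuotientGroup.mk' N y * QuotientGroup.mk' N x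
    rw [← map_mul, ← map_mul]
    have : (⟨x, hx⟩ : C) * ⟨y, hy⟩ = ⟨y, hy⟩ * ⟨x, hx⟩ := mul_comm' _ _
    rw [show x * y = y * x from congrArg Subtype.val this]
  · have h1 : (C.map (QuotientGroup.mk' N)).index ∣ C.index :=
      Subgroup.index_map_dvd _ (QuotientGroup.mk'_surjective N)
    rw [hk] at h1
    obtain ⟨j, -, hj⟩ := (Nat.dvd_prime_pow Nat.prime_two).1 h1
    exact ⟨j, hj⟩
  · have h1 : Nat.card (C.map (QuotientGroup.mk' N)) ∣ Nat.card C := by
      exact Subgroup.card_map_dvd _ _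
    exact Odd.of_dvd_nat hodd h1

theorem normal {G : Type*} [Group G] [Finite G] (h : AHall G) (N : Subgroup G) [N.Normal] :
    AHall N := by
  obtain ⟨C, hC, ⟨k, hk⟩, hodd⟩ := h
  refine ⟨C.subgroupOf N, ?_, ?_, ?_⟩
  · refine ⟨⟨?_⟩⟩
    rintro ⟨⟨x, hxN⟩, hx⟩ ⟨⟨y, hyN⟩, hy⟩
    apply Subtype.ext
    apply Subtype.ext
    have h1 : (⟨x, hx⟩ : C) * ⟨y, hy⟩ = ⟨y, hy⟩ * ⟨x, hx⟩ := mul_comm' _ _
    have h2 : x * y = y * x := congrArg Subtype.val h1
    exact h2
  · have h1 : C.relIndex N ∣ C.index := by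
      have h2 := H1.Hall.card_sup_mul_card_inf C N
      have h3 : Nat.card (C ⊓ N : Subgroup G) * C.relIndex N = Nat.card N := by
        have h4 := Subgroup.card_mul_index (C.subgroupOf N)
        have h5 : Nat.card (C.subgroupOf N) = Nat.card (C ⊓ N : Subgroup G) := by
          rw [← Subgroup.inf_subgroupOf_right]
          exact Nat.card_congr (Subgroup.subgroupOfEquivOfLe inf_le_right).toEquiv
        rw [h5] at h4
        exact h4
      have h4 : Nat.card (C ⊔ N : Subgroup G) = Nat.card C * C.relIndex N := by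
        apply Nat.eq_of_mul_eq_mul_right (Nat.card_pos (α := (C ⊓ N : Subgroup G)))
        rw [h2, mul_assoc, mul_comm (C.relIndex N), h3]
      have h5 : Nat.card (C ⊔ N : Subgroup G) ∣ Nat.card G := Subgroup.card_subgroup_dvd_card _
      rw [h4, ← Subgroup.card_mul_index C] at h5
      exact Nat.dvd_of_mul_dvd_mul_left Nat.card_pos h5
    rw [hk] at h1
    obtain ⟨j, -, hj⟩ := (Nat.dvd_prime_pow Nat.prime_two).1 h1
    exact ⟨j, hj⟩
  · have h1 : Nat.card (C.subgroupOf N) ∣ Nat.card C :=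
      Subgroup.card_comap_dvd_of_injective C N.subtype N.subtype_injective
    exact Odd.of_dvd_nat hodd h1

theorem isSolvable_aux : ∀ (n : ℕ) (G : Type u) [Group G] [Finite G], Nat.card G = n → AHall G →
    Group.IsSolvable G := by
  intro n
  induction n using Nat.strong_induction_on with
  | _ n ih =>
  intro G _ _ hn h
  have hp : Fact (Nat.Prime 2) := ⟨Nat.prime_two⟩
  -- reduction: a proper nontrivial normal subgroup
  have hred : ∀ N : Subgroup G, N.Normal → N ≠ ⊥ → N ≠ ⊤ → Group.IsSolvable G := by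
    intro N hN hN1 hN2
    have hlt1 : Nat.card N < n := by
      rw [← hn]
      rcases lt_or_eq_of_le (Subgroup.card_le_card_group N) with h3 | h3
      · exact h3
      · exact absurd ((Subgroup.card_eq_iff_eq_top N).1 h3) hN2
    have hlt2 : Nat.card (G ⧸ N) < n := by
      rw [← hn, Subgroup.card_eq_card_quotient_mul_card_subgroup N]
      have h3 : 1 < Nat.card N := Subgroup.one_lt_card_iff_ne_bot N |>.2 hN1
      have h4 : 0 < Nat.card (G ⧸ N) := Nat.card_pos
      nlinarith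
    have h1 := ih _ hlt1 N rfl (normal h N)
    have h2 := ih _ hlt2 (G ⧸ N) rfl (quotient h N)
    exact Group.isSolvable_of_ker_le_range N.subtype (QuotientGroup.mk' N) (by
      rw [QuotientGroup.ker_mk', Subgroup.range_subtype])
  by_cases hsimple : IsSimpleGroup G
  · obtain ⟨C, hC, ⟨k, hk⟩, hodd⟩ := h
    by_cases hC1 : C = ⊥
    · rw [hC1, Subgroup.index_bot] at hk
      have h1 : IsPGroup 2 G := IsPGroup.of_card hk
      have h2 : Group.IsNilpotent G := h1.isNilpotent
      infer_instance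
    · obtain ⟨⟨c, hc⟩, hc1'⟩ := Subgroup.ne_bot_iff_exists_ne_one.1 hC1
      have hc1 : c ≠ 1 := fun h => hc1' (Subtype.ext h)
      have h1 : C ≤ centralizer ({(c : G)} : Set G) := by
        intro x hx
        rw [mem_centralizer_singleton_iff]
        have : (⟨x, hx⟩ : C) * ⟨c, hc⟩ = ⟨c, hc⟩ * ⟨x, hx⟩ := mul_comm' _ _
        exact congrArg Subtype.val this
      have h2 : (centralizer ({(c : G)} : Set G)).index ∣ 2 ^ k := by
        rw [← hk]; exact Subgroup.index_dvd_of_le h1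
      obtain ⟨j, -, hj⟩ := (Nat.dvd_prime_pow Nat.prime_two).1 h2
      have h3 := H4.Burnside.prime_card_of_class 2 j Nat.prime_two (c : G) hc1 hj
      have h4 : Fact (Nat.card G).Prime := ⟨h3⟩
      have h5 : IsCyclic G := isCyclic_of_prime_card (p := Nat.card G) rfl
      have h6 : IsMulCommutative G := inferInstance
      exact isSolvable_of_comm (fun a b => mul_comm' a b)
  · by_cases hnt : Nontrivial G
    · have h1 : ∃ N : Subgroup G, N.Normal ∧ N ≠ ⊥ ∧ N ≠ ⊤ := by
        by_contra hcon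
        push Not at hcon
        apply hsimple
        exact ⟨fun N hN => by
          by_cases h3 : N = ⊥
          · exact Or.inl h3
          · exact Or.inr (hcon N hN h3)⟩
      obtain ⟨N, hN, hN1, hN2⟩ := h1
      exact hred N hN hN1 hN2
    · rw [not_nontrivial_iff_subsingleton] at hnt
      infer_instance

theorem isSolvable {G : Type*} [Group G] [Finite G] (h : AHall G) : Group.IsSolvable G :=
  isSolvable_aux _ G rfl h

theorem subgroup {G : Type*} [Group G] [Finite G] (h : AHall G) (L : Subgroup G) : AHall L := by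
  have hs := isSolvable h
  obtain ⟨C, hC, ⟨k, hk⟩, hodd⟩ := h
  have hL : Group.IsSolvable L := inferInstance
  obtain ⟨k', m', hm', hLc⟩ := Nat.exists_eq_two_pow_mul_odd (n := Nat.card L) Nat.card_pos.ne'
  obtain ⟨D, hD⟩ := H1.Hall.exists_card_eq hL m' (2 ^ k') (by rw [hLc, mul_comm])
    (Nat.Coprime.pow_right _ (Nat.coprime_two_right.2 hm'))
  have hcG : Nat.card G = Nat.card C * 2 ^ k := by rw [← hk, Subgroup.card_mul_index]
  have hcopG : (Nat.card C).Coprime (2 ^ k) := Nat.Coprime.pow_right _ (Nat.coprime_two_right.2 hodd)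
  have hDc : Nat.card (D.map L.subtype) = m' := by
    rw [Subgroup.card_map_of_injective L.subtype_injective, hD]
  obtain ⟨K1, hH1, hle⟩ := H1.Hall.exists_card_eq_ge hs _ _ hcG hcopG (D.map L.subtype) (by
    rw [hDc]; exact Nat.Coprime.pow_right _ (Nat.coprime_two_right.2 hm'))
  obtain ⟨g, hg⟩ := H1.Hall.conj_of_card_eq hs _ _ hcG hcopG K1 C hH1 rfl
  refine ⟨D, ⟨⟨?_⟩⟩, ⟨k', ?_⟩, by rw [hD]; exact hm'⟩
  · rintro ⟨x, hx⟩ ⟨y, hy⟩
    apply Subtype.ext
    apply Subtype.ext
    show (x : G) * y = y * x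
    have hx1 : g * x * g⁻¹ ∈ C := by
      rw [← hg]
      exact ⟨x, hle ⟨x, hx, rfl⟩, rfl⟩
    have hy1 : g * y * g⁻¹ ∈ C := by
      rw [← hg]
      exact ⟨y, hle ⟨y, hy, rfl⟩, rfl⟩
    have h1 : (⟨g * x * g⁻¹, hx1⟩ : C) * ⟨g * y * g⁻¹, hy1⟩ = ⟨g * y * g⁻¹, hy1⟩ * ⟨g * x * g⁻¹, hx1⟩ :=
      mul_comm' _ _
    have h2 : (g * x * g⁻¹) * (g * y * g⁻¹) = (g * y * g⁻¹) * (g * x * g⁻¹) := congrArg Subtype.val h1
    have h3 : g * (x * y) * g⁻¹ = g * (y * x) * g⁻¹ := by
      calc g * (x * y) * g⁻¹ = (g * x * g⁻¹) * (g * y * g⁻¹) := by group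
        _ = (g * y * g⁻¹) * (g * x * g⁻¹) := h2
        _ = g * (y * x) * g⁻¹ := by group
    exact mul_left_cancel (mul_right_cancel h3)
  · have h1 := Subgroup.card_mul_index D
    rw [hD, hLc, mul_comm] at h1
    exact Nat.eq_of_mul_eq_mul_right (Odd.pos hm') h1

end H58.AbComp
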