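import Mathlib
import Cfsg.Agent.Lib.H16.NA1
import Cfsg.Agent.S2135

/-! The Sylow 2-subgroups of `J_3` are not abelian (helper58, for S2883). -/

set_option autoImplicit false

namespace H58.AbJ3

open Cfsg

theorem not_abS_J3 {K : Type*} [Group K] [Finite K] (hK : Spor.IsoJ3 K) (h : H16.NA.AbS K) : False := by
  obtain ⟨F, _, _, ω, hF, hω, ⟨e⟩⟩ := hK
  haveI : Finite (Spor.J3 F ω) := Finite.of_equiv _ e.toEquiv
  have h1 : H16.NA.AbS (Spor.J3 F ω) := H16.NA.AbS.of_equiv h e.symm
  obtain ⟨_, t, ht, Q, hN, hQ, hcard, _⟩ := Cfsg.Agent.S2135.result hF ω hω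
  have hP : IsPGroup 2 (Q.map (Subgroup.centralizer ({t} : Set (Spor.J3 F ω))).subtype) :=
    IsPGroup.of_card (n := 5) (by rw [Subgroup.card_map_of_injective (Subgroup.subtype_injective _), hcard]; norm_num)
  have hcen : Subgroup.center Q = ⊤ := by
    rw [Subgroup.eq_top_iff']
    intro x
    rw [Subgroup.mem_center_iff]
    intro y
    have h2 := H16.NA.comm_of_two_group h1 _ hP (Subgroup.mem_map_of_mem _ y.2) (Subgroup.mem_map_of_mem _ x.2)
    apply Subtype.ext
    apply Subtype.ext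
    exact h2
  have h3 := hQ.2
  rw [hcen, Subgroup.card_top, hcard] at h3
  norm_num at h3

end H58.AbJ3
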