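import Mathlib
import Cfsg.Agent.Lib.H58.AbSyl
import Cfsg.Agent.Lib.H58.MaxCent

/-!
A finite group `G` with elementary abelian Sylow 2-subgroups of order 8 has no perfect central
extension by a 2-group, provided it is perfect.
-/

set_option autoImplicit false

namespace H58.DCover

open Subgroup

section double

variable {L : Type*} [Group L] [Finite L] {G : Type*} [Group G] [Finite G]

/-- no perfect central extension with kernel of order two -/
theorem no_double_cover (hL : _root_.commutator L = ⊤) (π : L →* G) (hπ : Function.Surjective π)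
    (hc : π.ker ≤ center L) (hk : Nat.card π.ker = 2)
    (h8 : ∀ S : Sylow 2 G, IsMulCommutative ↥(S : Subgroup G) ∧ Nat.card ↥(S : Subgroup G) = 8) : False := by
  have hp : Fact (Nat.Prime 2) := ⟨Nat.prime_two⟩
  obtain ⟨P⟩ : Nonempty (Sylow 2 L) := inferInstance
  let S : Sylow 2 G := P.mapSurjective hπ
  have hSmem : ∀ x, x ∈ (S : Subgroup G) ↔ ∃ y ∈ (P : Subgroup L), π y = x := fun x => Iff.rfl
  obtain ⟨hSc, hS8⟩ := h8 S
  have hker2 : IsPGroup 2 π.ker := IsPGroup.of_card (n := 1) (by rw [hk, pow_one])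
  have hkerP : π.ker ≤ (P : Subgroup L) := IsPGroup.le_sylow_of_normal hker2 P
  have hGperf : _root_.commutator G = ⊤ := by
    rw [eq_top_iff, ← Subgroup.map_top_of_surjective π hπ, ← hL, _root_.commutator_def,
      Subgroup.map_commutator, _root_.commutator_def]
    exact Subgroup.commutator_mono le_top le_top
  have hScomm : ∀ a ∈ (S : Subgroup G), ∀ b ∈ (S : Subgroup G), a * b = b * a := fun a ha b hb =>
    congrArg Subtype.val (mul_comm' (⟨a, ha⟩ : (S : Subgroup G)) ⟨b, hb⟩)
  -- commutators of elements of `P` lie in the kernel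
  have hcomk : ∀ a ∈ (P : Subgroup L), ∀ b ∈ (P : Subgroup L), a * b * a⁻¹ * b⁻¹ ∈ π.ker := by
    intro a ha b hb
    rw [MonoidHom.mem_ker, map_mul, map_mul, map_mul, map_inv, map_inv,
      hScomm (π a) ⟨a, ha, rfl⟩ (π b) ⟨b, hb, rfl⟩]
    group
  by_cases hPc : ∀ a ∈ (P : Subgroup L), ∀ b ∈ (P : Subgroup L), a * b = b * a
  · -- abelian case
    have hPcomm : IsMulCommutative (P : Subgroup L) := ⟨⟨fun a b => Subtype.ext (hPc a a.2 b b.2)⟩⟩
    have h1 : π.ker = ⊥ := by
      rw [Subgroup.eq_bot_iff_forall]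
      intro z hz
      apply H58.AbSyl.eq_one_of_fixed hL P hPcomm (hkerP hz)
      intro n _
      exact Subgroup.mem_center_iff.1 (hc hz) n
    rw [h1, Subgroup.card_bot] at hk
    omega
  · push Not at hPc
    obtain ⟨x, hx, y, hy, hxy⟩ := hPc
    -- order of `P` is 16
    have hPcard : Nat.card (P : Subgroup L) = 16 := by
      have h1 := H1.Hall.card_map_mul_card_inf_ker π (P : Subgroup L)
      have h2 : (P : Subgroup L) ⊓ π.ker = π.ker := inf_eq_right.2 hkerP
      rw [h2, hk] at h1
      have h3 : Nat.card ((P : Subgroup L).map π) = 8 := hS8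
      rw [h3] at h1
      exact h1.symm
    -- centralizers of elements have index at most two in `P`
    have hidx : ∀ u ∈ (P : Subgroup L), (centralizer ({u} : Set L)).relIndex (P : Subgroup L) ∣ 2 := by
      intro u hu
      let f : ↥(P : Subgroup L) →* ↥π.ker := MonoidHom.mk'
        (fun g => ⟨(g : L) * u * (g : L)⁻¹ * u⁻¹, hcomk g g.2 u hu⟩) (by
        intro a b
        apply Subtype.ext
        show (a : L) * b * u * ((a : L) * b)⁻¹ * u⁻¹ = (a * u * (a : L)⁻¹ * u⁻¹) * (b * u * (b : L)⁻¹ * u⁻¹)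
        have hb := Subgroup.mem_center_iff.1 (hc (hcomk b b.2 u hu))
        have h1 := hb (a * u * (a : L)⁻¹ * u⁻¹)
        rw [h1]
        have h2 := hb (a : L)
        calc (a : L) * b * u * ((a : L) * b)⁻¹ * u⁻¹ = (a * (b * u * (b : L)⁻¹ * u⁻¹)) * u * (a : L)⁻¹ * u⁻¹ := by group
          _ = ((b * u * (b : L)⁻¹ * u⁻¹) * a) * u * (a : L)⁻¹ * u⁻¹ := by rw [h2]
          _ = (b * u * (b : L)⁻¹ * u⁻¹) * (a * u * (a : L)⁻¹ * u⁻¹) := by group)
      have hker : f.ker = (centralizer ({u} : Set L)).subgroupOf (P : Subgroup L) := by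
        ext g
        rw [MonoidHom.mem_ker, Subgroup.mem_subgroupOf, Subgroup.mem_centralizer_singleton_iff]
        constructor
        · intro h
          have h1 : (g : L) * u * (g : L)⁻¹ * u⁻¹ = 1 := congrArg Subtype.val h
          rw [mul_inv_eq_one] at h1
          exact mul_inv_eq_iff_eq_mul.1 h1
        · intro h
          apply Subtype.ext
          show (g : L) * u * (g : L)⁻¹ * u⁻¹ = 1
          rw [h]; group
      have h1 : (centralizer ({u} : Set L)).relIndex (P : Subgroup L) = Nat.card f.range := by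
        rw [← Subgroup.index_ker, hker]; rfl
      rw [h1]
      exact (Subgroup.card_subgroup_dvd_card f.range).trans (dvd_of_eq hk)
    set K := (P : Subgroup L) ⊓ (centralizer ({x} : Set L) ⊓ centralizer ({y} : Set L)) with hK
    have hrel : ∀ A B : Subgroup L, A ≤ B → Nat.card A * A.relIndex B = Nat.card B := by
      intro A B hAB
      have h6 := Subgroup.card_mul_index (A.subgroupOf B)
      rw [Nat.card_congr (Subgroup.subgroupOfEquivOfLe hAB).toEquiv] at h6
      exact h6
    have hKidx : (centralizer ({x} : Set L) ⊓ centralizer ({y} : Set L)).relIndex (P : Subgroup L) ≤ 4 := by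
      refine (Subgroup.relIndex_inf_le).trans ?_
      have h1 := Nat.le_of_dvd (by norm_num) (hidx x hx)
      have h2 := Nat.le_of_dvd (by norm_num) (hidx y hy)
      calc _ ≤ 2 * 2 := Nat.mul_le_mul h1 h2
        _ = 4 := by norm_num
    have hKrel : K.relIndex (P : Subgroup L) = (centralizer ({x} : Set L) ⊓ centralizer ({y} : Set L)).relIndex (P : Subgroup L) := by
      rw [hK, inf_comm, Subgroup.inf_relIndex_right]
    have hK4 : 4 ≤ Nat.card K := by
      have h1 := hrel K (P : Subgroup L) inf_le_left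
      rw [hPcard, hKrel] at h1
      by_contra hlt
      push Not at hlt
      have h2 : Nat.card K * (centralizer ({x} : Set L) ⊓ centralizer ({y} : Set L)).relIndex (P : Subgroup L) ≤ 3 * 4 :=
        Nat.mul_le_mul (by omega) hKidx
      omega
    have hkerK : π.ker ≤ K := by
      intro z hz
      have hzc := Subgroup.mem_center_iff.1 (hc hz)
      refine Subgroup.mem_inf.2 ⟨hkerP hz, Subgroup.mem_inf.2 ⟨?_, ?_⟩⟩
      · rw [mem_centralizer_singleton_iff]; exact (hzc x).symm
      · rw [mem_centralizer_singleton_iff]; exact (hzc y).symm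
    -- `x ∉ K`, `y ∉ K`, `x y ∉ K`; `K, xK, yK, xyK` are distinct, so `|K| ≤ 4` and they cover `P`
    have hxK : x ∉ K := fun h => hxy (mem_centralizer_singleton_iff.1 h.2.2)
    have hyK : y ∉ K := fun h => hxy (mem_centralizer_singleton_iff.1 h.2.1).symm
    have hxyK : x * y ∉ K := by
      intro h
      have h1 : x * y * x = x * (x * y) := mem_centralizer_singleton_iff.1 h.2.1
      apply hxy
      have h3 : y * x = x * y := by
        apply mul_left_cancel (a := x)
        rw [← mul_assoc]; exact h1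
      exact h3.symm
    have hxyK' : x⁻¹ * y ∉ K := by
      intro h
      have h1 : x⁻¹ * y * x = x * (x⁻¹ * y) := mem_centralizer_singleton_iff.1 h.2.1
      apply hxy
      have h3 : x⁻¹ * y * x = y := by rw [h1]; group
      have h4 : y * x = x * y := by
        calc y * x = x * (x⁻¹ * y * x) := by group
          _ = x * y := by rw [h3]
      exact h4.symm
    have hcover : ∀ p ∈ (P : Subgroup L), p ∈ K ∨ x⁻¹ * p ∈ K ∨ y⁻¹ * p ∈ K ∨ (x * y)⁻¹ * p ∈ K := by
      intro p hp'
      -- index arguments: `C_P(x)`, `C_P(y)` of index two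
      have hix : ∀ u ∈ (P : Subgroup L), (∃ v ∈ (P : Subgroup L), v ∉ centralizer ({u} : Set L)) →
          ((centralizer ({u} : Set L)).subgroupOf (P : Subgroup L)).index = 2 := by
        rintro u hu ⟨v, hv, hvu⟩
        rcases (Nat.dvd_prime Nat.prime_two).1 (hidx u hu) with h | h
        · exfalso
          rw [Subgroup.relIndex_eq_one] at h
          exact hvu (h hv)
        · exact h
      have h1 := hix x hx ⟨y, hy, fun h => hxy (mem_centralizer_singleton_iff.1 h).symm⟩
      have h2 := hix y hy ⟨x, hx, fun h => hxy (mem_centralizer_singleton_iff.1 h)⟩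
      -- membership transfer
      have m1 : ∀ a ∈ (P : Subgroup L), ∀ b ∈ (P : Subgroup L), a * b ∈ centralizer ({x} : Set L) ↔
          (a ∈ centralizer ({x} : Set L) ↔ b ∈ centralizer ({x} : Set L)) := by
        intro a ha b hb
        have := Subgroup.mul_mem_iff_of_index_two h1 (a := ⟨a, ha⟩) (b := ⟨b, hb⟩)
        simpa [Subgroup.mem_subgroupOf] using this
      have m2 : ∀ a ∈ (P : Subgroup L), ∀ b ∈ (P : Subgroup L), a * b ∈ centralizer ({y} : Set L) ↔
          (a ∈ centralizer ({y} : Set L) ↔ b ∈ centralizer ({y} : Set L)) := by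
        intro a ha b hb
        have := Subgroup.mul_mem_iff_of_index_two h2 (a := ⟨a, ha⟩) (b := ⟨b, hb⟩)
        simpa [Subgroup.mem_subgroupOf] using this
      have xx : x ∈ centralizer ({x} : Set L) := mem_centralizer_singleton_iff.2 rfl
      have yy : y ∈ centralizer ({y} : Set L) := mem_centralizer_singleton_iff.2 rfl
      have xny : x ∉ centralizer ({y} : Set L) := fun h => hxy (mem_centralizer_singleton_iff.1 h)
      have ynx : y ∉ centralizer ({x} : Set L) := fun h => hxy (mem_centralizer_singleton_iff.1 h).symm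
      have hKm : ∀ a ∈ (P : Subgroup L), a ∈ K ↔ a ∈ centralizer ({x} : Set L) ∧ a ∈ centralizer ({y} : Set L) := by
        intro a ha
        rw [hK, Subgroup.mem_inf, Subgroup.mem_inf]
        exact ⟨fun h => h.2, fun h => ⟨ha, h⟩⟩
      have hxi : x⁻¹ ∈ (P : Subgroup L) := inv_mem hx
      have hyi : y⁻¹ ∈ (P : Subgroup L) := inv_mem hy
      have hxyi : (x * y)⁻¹ ∈ (P : Subgroup L) := inv_mem (mul_mem hx hy)
      rw [hKm p hp', hKm _ (mul_mem hxi hp'), hKm _ (mul_mem hyi hp'), hKm _ (mul_mem hxyi hp'),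
        m1 _ hxi _ hp', m2 _ hxi _ hp', m1 _ hyi _ hp', m2 _ hyi _ hp', m1 _ hxyi _ hp', m2 _ hxyi _ hp',
        inv_mem_iff, inv_mem_iff, inv_mem_iff, inv_mem_iff, inv_mem_iff, inv_mem_iff, m1 _ hx _ hy, m2 _ hx _ hy]
      tauto
    -- `K` is central in `P`
    have hKab : ∀ a ∈ K, ∀ b ∈ K, a * b = b * a := by
      -- `|K| = 4`
      have hKle : Nat.card K ≤ 4 := by
        have h1 := hrel K (P : Subgroup L) inf_le_left
        rw [hPcard] at h1
        by_contra hlt
        push Not at hlt
        have h3 : K.relIndex (P : Subgroup L) ≤ 3 := by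
          by_contra h4
          push Not at h4
          have : 5 * 4 ≤ Nat.card K * K.relIndex (P : Subgroup L) := Nat.mul_le_mul (by omega) h4
          omega
        -- card K divides 16, K.relIndex divides 16 : relIndex ∈ {1,2}
        have h4 : K.relIndex (P : Subgroup L) ∣ 16 := ⟨Nat.card K, by rw [mul_comm]; exact h1.symm⟩
        have h5 : K.relIndex (P : Subgroup L) ≠ 1 := by
          intro h
          rw [Subgroup.relIndex_eq_one] at h
          exact hxK (h hx)
        have h6 : K.relIndex (P : Subgroup L) = 2 := by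
          interval_cases h : K.relIndex (P : Subgroup L)
          · omega
          · omega
          · rfl
          · omega
        have h7 := Subgroup.mul_mem_iff_of_index_two (H := K.subgroupOf (P : Subgroup L)) h6
          (a := ⟨x, hx⟩) (b := ⟨y, hy⟩)
        have h8 : x * y ∈ K ↔ (x ∈ K ↔ y ∈ K) := by simpa [Subgroup.mem_subgroupOf] using h7
        exact hxyK (h8.2 ⟨fun h => absurd h hxK, fun h => absurd h hyK⟩)
      have hKcard : Nat.card K = 2 ^ 2 := by omega
      have h1 := IsPGroup.isMulCommutative_of_card_eq_prime_sq (p := 2) hKcard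
      intro a ha b hb
      exact congrArg Subtype.val (mul_comm' (⟨a, ha⟩ : K) ⟨b, hb⟩)
    have hKcen : ∀ k ∈ K, ∀ p ∈ (P : Subgroup L), p * k = k * p := by
      intro k hk p hp'
      have hkx : x * k = k * x := (mem_centralizer_singleton_iff.1 hk.2.1).symm
      have hky : y * k = k * y := (mem_centralizer_singleton_iff.1 hk.2.2).symm
      rcases hcover p hp' with h | h | h | h
      · exact (hKab k hk p h).symm
      · have h1 : p = x * (x⁻¹ * p) := by group
        have c1 : Commute x k := hkx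
        have c2 : Commute (x⁻¹ * p) k := hKab _ h k hk
        rw [h1]; exact (c1.mul_left c2).eq
      · have h1 : p = y * (y⁻¹ * p) := by group
        have c1 : Commute y k := hky
        have c2 : Commute (y⁻¹ * p) k := hKab _ h k hk
        rw [h1]; exact (c1.mul_left c2).eq
      · have h1 : p = (x * y) * ((x * y)⁻¹ * p) := by group
        have c0 : Commute (x * y) k := (show Commute x k from hkx).mul_left (show Commute y k from hky)
        have c2 : Commute ((x * y)⁻¹ * p) k := hKab _ h k hk
        rw [h1]; exact (c0.mul_left c2).eq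
    have hKiff : ∀ p ∈ (P : Subgroup L), p ∈ K ↔ ∀ q ∈ (P : Subgroup L), q * p = p * q := by
      intro p hp'
      constructor
      · intro h q hq; exact hKcen p h q hq
      · intro h
        refine Subgroup.mem_inf.2 ⟨hp', Subgroup.mem_inf.2 ⟨?_, ?_⟩⟩
        · rw [mem_centralizer_singleton_iff]; exact (h x hx).symm
        · rw [mem_centralizer_singleton_iff]; exact (h y hy).symm
    -- `|K| = 4`, so the image of `K` is `{1, r}`
    have hKle : Nat.card K ≤ 4 := by
      have h1 := hrel K (P : Subgroup L) inf_le_left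
      rw [hPcard] at h1
      by_contra hlt
      push Not at hlt
      have h3 : K.relIndex (P : Subgroup L) ≤ 3 := by
        by_contra h4
        push Not at h4
        have : 5 * 4 ≤ Nat.card K * K.relIndex (P : Subgroup L) := Nat.mul_le_mul (by omega) h4
        omega
      have h4 : K.relIndex (P : Subgroup L) ∣ 16 := ⟨Nat.card K, by rw [mul_comm]; exact h1.symm⟩
      have h5 : K.relIndex (P : Subgroup L) ≠ 1 := by
        intro h
        rw [Subgroup.relIndex_eq_one] at h
        exact hxK (h hx)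
      have h6 : K.relIndex (P : Subgroup L) = 2 := by
        interval_cases h : K.relIndex (P : Subgroup L)
        · omega
        · omega
        · rfl
        · omega
      have h7 := Subgroup.mul_mem_iff_of_index_two (H := K.subgroupOf (P : Subgroup L)) h6
        (a := ⟨x, hx⟩) (b := ⟨y, hy⟩)
      have h8 : x * y ∈ K ↔ (x ∈ K ↔ y ∈ K) := by simpa [Subgroup.mem_subgroupOf] using h7
      exact hxyK (h8.2 ⟨fun h => absurd h hxK, fun h => absurd h hyK⟩)
    have hmapK : Nat.card (K.map π) = 2 := by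
      have h1 := H1.Hall.card_map_mul_card_inf_ker π K
      rw [inf_eq_right.2 hkerK, hk] at h1
      omega
    obtain ⟨r, hr⟩ := exists_prime_orderOf_dvd_card' (G := K.map π) 2 (by rw [hmapK])
    have hrv : orderOf (r : G) = 2 := by rw [Subgroup.orderOf_coe, hr]
    have hKz : K.map π = zpowers (r : G) := by
      symm
      apply Subgroup.eq_of_le_of_card_ge
      · rw [zpowers_le]; exact r.2
      · rw [hmapK, Nat.card_zpowers, hrv]
    have hrS : (r : G) ∈ (S : Subgroup G) := by
      obtain ⟨k, hk', hkr⟩ := r.2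
      exact ⟨k, hk'.1, hkr⟩
    have hr1 : (r : G) ≠ 1 := by intro h; rw [h, orderOf_one] at hrv; omega
    apply hr1
    apply H58.AbSyl.eq_one_of_fixed hGperf S hSc hrS
    intro n hn
    obtain ⟨l, rfl⟩ := hπ n
    -- `l` normalizes `P`
    have hlP : ∀ p, p ∈ (P : Subgroup L) → l * p * l⁻¹ ∈ (P : Subgroup L) := by
      intro p hp'
      have h1 : π (l * p * l⁻¹) ∈ (S : Subgroup G) := by
        rw [map_mul, map_mul, map_inv]
        exact (Subgroup.mem_normalizer_iff.1 hn (π p)).1 ⟨p, hp', rfl⟩
      obtain ⟨q, hq, hqe⟩ := h1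
      have h2 : q⁻¹ * (l * p * l⁻¹) ∈ π.ker := by
        rw [MonoidHom.mem_ker, map_mul, map_inv, hqe, inv_mul_cancel]
      have h3 : l * p * l⁻¹ = q * (q⁻¹ * (l * p * l⁻¹)) := by group
      rw [h3]; exact mul_mem hq (hkerP h2)
    have hlP' : ∀ p, p ∈ (P : Subgroup L) → l⁻¹ * p * l ∈ (P : Subgroup L) := by
      intro p hp'
      have h1 : π (l⁻¹ * p * l) ∈ (S : Subgroup G) := by
        rw [map_mul, map_mul, map_inv]
        have hn' := inv_mem hn
        have := (Subgroup.mem_normalizer_iff.1 hn' (π p)).1 ⟨p, hp', rfl⟩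
        rwa [inv_inv] at this
      obtain ⟨q, hq, hqe⟩ := h1
      have h2 : q⁻¹ * (l⁻¹ * p * l) ∈ π.ker := by
        rw [MonoidHom.mem_ker, map_mul, map_inv, hqe, inv_mul_cancel]
      have h3 : l⁻¹ * p * l = q * (q⁻¹ * (l⁻¹ * p * l)) := by group
      rw [h3]; exact mul_mem hq (hkerP h2)
    have hlK : ∀ k ∈ K, l * k * l⁻¹ ∈ K := by
      intro k hk'
      rw [hKiff _ (hlP k hk'.1)]
      intro q hq
      have h1 := hKcen k hk' _ (hlP' q hq)
      calc q * (l * k * l⁻¹) = l * ((l⁻¹ * q * l) * k) * l⁻¹ := by group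
        _ = l * (k * (l⁻¹ * q * l)) * l⁻¹ := by rw [h1]
        _ = l * k * l⁻¹ * q := by group
    obtain ⟨k, hk', hkr⟩ := r.2
    have h1 : π l * r * (π l)⁻¹ ∈ zpowers (r : G) := by
      rw [← hKz]
      refine ⟨l * k * l⁻¹, hlK k hk', ?_⟩
      rw [map_mul, map_mul, map_inv, hkr]
    have hrr : (r : G) * r = 1 := by rw [← pow_two, ← hrv, pow_orderOf_eq_one]
    obtain ⟨i, hi⟩ := h1
    have hi' : (r : G) ^ i = π l * r * (π l)⁻¹ := hi
    rcases Int.even_or_odd' i with ⟨m, rfl | rfl⟩
    · exfalso
      rw [zpow_mul, zpow_two, hrr, one_zpow] at hi'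
      have h2 : π l * r * (π l)⁻¹ = 1 := hi'.symm
      rw [mul_inv_eq_one, mul_eq_left] at h2
      exact hr1 h2
    · rw [zpow_add, zpow_mul, zpow_two, hrr, one_zpow, one_mul, zpow_one] at hi'
      exact mul_inv_eq_iff_eq_mul.1 hi'.symm

end double

/-- no perfect central extension by a nontrivial 2-group -/
theorem ker_eq_bot {L : Type*} [Group L] [Finite L] {G : Type*} [Group G] [Finite G]
    (Z : Subgroup L) [hZn : Z.Normal] (hL : _root_.commutator L = ⊤) (hc : Z ≤ center L)
    (hZ2 : IsPGroup 2 Z) (e : L ⧸ Z ≃* G)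
    (h8 : ∀ S : Sylow 2 G, IsMulCommutative ↥(S : Subgroup G) ∧ Nat.card ↥(S : Subgroup G) = 8) :
    Z = ⊥ := by
  have hp : Fact (Nat.Prime 2) := ⟨Nat.prime_two⟩
  by_contra hZ
  -- a subgroup of index two in `Z`
  obtain ⟨m, hm⟩ := IsPGroup.iff_card.1 hZ2
  have hm0 : m ≠ 0 := by
    rintro rfl
    rw [pow_zero, Subgroup.card_eq_one] at hm
    exact hZ hm
  obtain ⟨Y, hY⟩ := Sylow.exists_subgroup_card_pow_prime (G := Z) 2 (n := m - 1) (by
    rw [hm]; exact pow_dvd_pow 2 (by omega))
  set Z0 := Y.map Z.subtype with hZ0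
  have hZ0Z : Z0 ≤ Z := Subgroup.map_subtype_le Y
  have hZ0c : Z0 ≤ center L := hZ0Z.trans hc
  have hZ0n : Z0.Normal := by
    refine ⟨fun z hz g => ?_⟩
    have := Subgroup.mem_center_iff.1 (hZ0c hz) g
    rw [this, mul_inv_cancel_right]; exact hz
  have hZ0card : Nat.card Z0 = 2 ^ (m - 1) := by
    rw [hZ0, Subgroup.card_map_of_injective Z.subtype_injective, hY]
  -- quotient
  let π : L ⧸ Z0 →* G := e.toMonoidHom.comp (QuotientGroup.lift Z0 (QuotientGroup.mk' Z) (by
    intro z hz
    exact (QuotientGroup.eq_one_iff z).2 (hZ0Z hz)))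
  have hπmk : ∀ l : L, π (QuotientGroup.mk' Z0 l) = e (QuotientGroup.mk' Z l) := fun l => rfl
  have hπ : Function.Surjective π := by
    intro g
    obtain ⟨q, rfl⟩ := e.surjective g
    obtain ⟨l, rfl⟩ := QuotientGroup.mk'_surjective Z q
    exact ⟨QuotientGroup.mk' Z0 l, hπmk l⟩
  have hker : π.ker = Z.map (QuotientGroup.mk' Z0) := by
    ext q
    obtain ⟨l, rfl⟩ := QuotientGroup.mk'_surjective Z0 q
    rw [MonoidHom.mem_ker, hπmk, map_eq_one_iff e e.injective]
    constructor
    · intro h
      exact ⟨l, (QuotientGroup.eq_one_iff l).1 h, rfl⟩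
    · rintro ⟨z, hz, hzl⟩
      have h1 : z⁻¹ * l ∈ Z0 := by
        have := (QuotientGroup.eq).1 hzl
        exact this
      have h2 : l = z * (z⁻¹ * l) := by group
      have h3 : l ∈ Z := by rw [h2]; exact mul_mem hz (hZ0Z h1)
      exact (QuotientGroup.eq_one_iff l).2 h3
  refine no_double_cover (L := L ⧸ Z0) (G := G) ?_ π hπ ?_ ?_ h8
  · rw [eq_top_iff, ← Subgroup.map_top_of_surjective (QuotientGroup.mk' Z0) (QuotientGroup.mk'_surjective Z0),
      ← hL, _root_.commutator_def, Subgroup.map_commutator, _root_.commutator_def]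
    exact Subgroup.commutator_mono le_top le_top
  · rw [hker]
    rintro _ ⟨z, hz, rfl⟩
    rw [Subgroup.mem_center_iff]
    intro q
    obtain ⟨l, rfl⟩ := QuotientGroup.mk'_surjective Z0 q
    rw [← map_mul, ← map_mul, Subgroup.mem_center_iff.1 (hc hz) l]
  · rw [hker]
    have h1 := H1.Hall.card_map_mk_mul_card_inf Z Z0
    rw [inf_eq_right.2 hZ0Z, hZ0card, hm] at h1
    have h2 : 2 ^ m = 2 * 2 ^ (m - 1) := by
      rw [← pow_succ']; congr 1; omega
    rw [h2] at h1
    exact Nat.eq_of_mul_eq_mul_right (by positivity) h1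

end H58.DCover
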