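import Mathlib
import Cfsg.Agent.Lib.H46.PSL2Orders
import Cfsg.Agent.Lib.H46.UModels
import Cfsg.Agent.Lib.H24.U3Syl
import Cfsg.Agent.Lib.H24.SzIso
import Cfsg.Agent.Lib.H8.SuzGroup
import Cfsg.Agent.Lib.H98.DicksonPGL

/-! Sections of `GL (Fin 5) (ZMod 2)` (helper58). -/

set_option autoImplicit false
set_option linter.style.haveILetI false

namespace H58.GL52

open Subgroup
open scoped Pointwise

theorem card_GL52 : Nat.card (GL (Fin 5) (ZMod 2)) = 9999360 := by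
  rw [Matrix.card_GL_field]
  simp [Fin.prod_univ_succ, ZMod.card]

def A : Matrix (Fin 5) (Fin 5) (ZMod 2) :=
  !![0, 1, 0, 0, 0; 1, 1, 0, 0, 0; 0, 0, 1, 0, 0; 0, 0, 0, 1, 0; 0, 0, 0, 0, 1]

def B : Matrix (Fin 5) (Fin 5) (ZMod 2) :=
  !![0, 1, 0, 0, 0; 1, 1, 0, 0, 0; 0, 0, 0, 1, 0; 0, 0, 1, 1, 0; 0, 0, 0, 0, 1]

theorem A3 : A * (A * A) = 1 := by decide
theorem B3 : B * (B * B) = 1 := by decide

def a : GL (Fin 5) (ZMod 2) := ⟨A, A * A, A3, by rw [mul_assoc]; exact A3⟩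
def b : GL (Fin 5) (ZMod 2) := ⟨B, B * B, B3, by rw [mul_assoc]; exact B3⟩

theorem a3 : a ^ 3 = 1 := by
  apply Units.ext
  change A ^ 3 = 1
  rw [pow_succ, pow_two, mul_assoc, A3]

theorem b3 : b ^ 3 = 1 := by
  apply Units.ext
  change B ^ 3 = 1
  rw [pow_succ, pow_two, mul_assoc, B3]

theorem trA : Matrix.trace A = 0 := by decide
theorem trAA : Matrix.trace (A * A) = 0 := by decide
theorem trB : Matrix.trace B = 1 := by decide
theorem trBB : Matrix.trace (B * B) = 1 := by decide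

def tr (g : GL (Fin 5) (ZMod 2)) : ZMod 2 := Matrix.trace (g : Matrix (Fin 5) (Fin 5) (ZMod 2))

theorem tr_conj (g h : GL (Fin 5) (ZMod 2)) : tr (h * g * h⁻¹) = tr g := by
  unfold tr
  rw [Units.val_mul, Matrix.trace_mul_comm, Units.val_mul, ← mul_assoc, ← Units.val_mul, inv_mul_cancel,
    Units.val_one, one_mul]

theorem sylow_card (P : Sylow 3 (GL (Fin 5) (ZMod 2))) : Nat.card P = 9 := by
  haveI : Fact (Nat.Prime 3) := ⟨by norm_num⟩
  rw [Sylow.card_eq_multiplicity, card_GL52]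
  have : (9999360 : ℕ).factorization 3 = 2 := by
    have h1 : (9999360 : ℕ) = 3 ^ 2 * 1111040 := by norm_num
    rw [h1, Nat.factorization_mul (by norm_num) (by norm_num), Nat.factorization_pow]
    simp only [Finsupp.coe_add, Finsupp.coe_smul, Pi.add_apply, Pi.smul_apply, smul_eq_mul]
    rw [Nat.Prime.factorization_self (by norm_num), Nat.factorization_eq_zero_of_not_dvd (by norm_num)]
  rw [this]; norm_num

theorem exists_conj {g : GL (Fin 5) (ZMod 2)} (hg : orderOf g = 9) {x : GL (Fin 5) (ZMod 2)} (hx : x ^ 3 = 1) :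
    ∃ h : GL (Fin 5) (ZMod 2), h * x * h⁻¹ ∈ zpowers g := by
  haveI : Fact (Nat.Prime 3) := ⟨by norm_num⟩
  have h1 : IsPGroup 3 (zpowers g) := IsPGroup.of_card (n := 2) (by rw [Nat.card_zpowers, hg]; norm_num)
  obtain ⟨P, hP⟩ := h1.exists_le_sylow
  have h2 : zpowers g = (P : Subgroup _) := by
    apply Subgroup.eq_of_le_of_card_ge hP
    rw [Nat.card_zpowers, hg]
    exact (sylow_card P).le
  have h3 : IsPGroup 3 (zpowers x) := by
    have h4 : orderOf x ∣ 3 ^ 1 := by rw [pow_one]; exact orderOf_dvd_of_pow_eq_one hx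
    obtain ⟨k, -, hk⟩ := (Nat.dvd_prime_pow (by norm_num)).1 h4
    exact IsPGroup.of_card (n := k) (by rw [Nat.card_zpowers, hk])
  obtain ⟨Q, hQ⟩ := h3.exists_le_sylow
  obtain ⟨h, hh⟩ := MulAction.exists_smul_eq (GL (Fin 5) (ZMod 2)) Q P
  refine ⟨h, ?_⟩
  rw [h2, ← hh]
  change _ ∈ (MulAut.conj h • (Q : Subgroup (GL (Fin 5) (ZMod 2))))
  rw [Subgroup.mem_pointwise_smul_iff_inv_smul_mem]
  have h5 : (MulAut.conj h)⁻¹ • (h * x * h⁻¹) = x := by
    rw [MulAut.smul_def, MulAut.conj_inv_apply]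
    group
  rw [h5]
  exact hQ (mem_zpowers x)

theorem eq_or {g x : GL (Fin 5) (ZMod 2)} (hg : orderOf g = 9) (hx : x ^ 3 = 1) (hx1 : x ≠ 1) (h : x ∈ zpowers g) :
    x = g ^ 3 ∨ x = (g ^ 3) * (g ^ 3) := by
  obtain ⟨k, hk⟩ := (mem_zpowers_iff_mem_range_orderOf (x := g) (y := x)).1 h |> Finset.mem_image.1
  obtain ⟨hk1, hk2⟩ := hk
  rw [hg, Finset.mem_range] at hk1
  have h1 : 9 ∣ k * 3 := by
    rw [← hg]
    apply orderOf_dvd_of_pow_eq_one
    rw [pow_mul, hk2, hx]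
  rw [← pow_add]
  have h2 : k = 0 ∨ k = 3 ∨ k = 6 := by omega
  rcases h2 with rfl | rfl | rfl
  · rw [pow_zero] at hk2
    exact absurd hk2.symm hx1
  · exact Or.inl hk2.symm
  · exact Or.inr hk2.symm

theorem no_nine (g : GL (Fin 5) (ZMod 2)) : orderOf g ≠ 9 := by
  intro hg
  obtain ⟨u, hu⟩ := exists_conj hg a3
  obtain ⟨v, hv⟩ := exists_conj hg b3
  have ha1 : tr a = 0 := trA
  have ha2 : tr (a * a) = 0 := trAA
  have hb1 : tr b = 1 := trB
  have hb2 : tr (b * b) = 1 := trBB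
  have hone : tr (1 : GL (Fin 5) (ZMod 2)) = 1 := by unfold tr; rw [Units.val_one]; decide
  have hane : a ≠ 1 := by
    intro h; rw [h, hone] at ha1; exact absurd ha1 (by decide)
  have hbne : b ≠ 1 := by
    intro h
    have h1 : (b : Matrix (Fin 5) (Fin 5) (ZMod 2)) = 1 := by rw [h]; rfl
    have h2 : B = 1 := h1
    have h3 : B ≠ 1 := by decide
    exact h3 h2
  have hcube : ∀ (x h : GL (Fin 5) (ZMod 2)), x ^ 3 = 1 → (h * x * h⁻¹) ^ 3 = 1 := by
    intro x h hx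
    rw [conj_pow, hx]; group
  have hne : ∀ (x h : GL (Fin 5) (ZMod 2)), x ≠ 1 → (h * x * h⁻¹) ≠ 1 := by
    intro x h hx hh
    exact hx (conj_eq_one_iff.1 hh)
  have hsq : ∀ (x h : GL (Fin 5) (ZMod 2)), (h * x * h⁻¹) * (h * x * h⁻¹) = h * (x * x) * h⁻¹ := by
    intro x h; group
  have e1 : tr (g ^ 3) = 0 := by
    rcases eq_or hg (hcube a u a3) (hne a u hane) hu with h | h
    · rw [← h, tr_conj, ha1]
    · have h5 : g ^ 3 = (u * a * u⁻¹) * (u * a * u⁻¹) := by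
        have h6 : (g ^ 3 * g ^ 3) * (g ^ 3 * g ^ 3) = g ^ 9 * g ^ 3 := by
          rw [← pow_add, ← pow_add, ← pow_add]
        rw [h, h6, ← hg, pow_orderOf_eq_one, one_mul]
      rw [h5, hsq, tr_conj, ha2]
  have e2 : tr (g ^ 3) = 1 := by
    rcases eq_or hg (hcube b v b3) (hne b v hbne) hv with h | h
    · rw [← h, tr_conj, hb1]
    · have h5 : g ^ 3 = (v * b * v⁻¹) * (v * b * v⁻¹) := by
        have h6 : (g ^ 3 * g ^ 3) * (g ^ 3 * g ^ 3) = g ^ 9 * g ^ 3 := by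
          rw [← pow_add, ← pow_add, ← pow_add]
        rw [h, h6, ← hg, pow_orderOf_eq_one, one_mul]
      rw [h5, hsq, tr_conj, hb2]
  rw [e1] at e2
  exact absurd e2 (by decide)

theorem section_no_nine {H : Subgroup (GL (Fin 5) (ZMod 2))} {K : Subgroup ↥H} [K.Normal] (x : ↥H ⧸ K) :
    orderOf x ≠ 9 := by
  intro hx
  obtain ⟨h, rfl⟩ := QuotientGroup.mk_surjective x
  have h1 : orderOf (h : ↥H ⧸ K) ∣ orderOf h := orderOf_map_dvd (QuotientGroup.mk' K) h
  rw [hx] at h1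
  have h2 : orderOf (h ^ (orderOf h / 9)) = 9 := by
    apply orderOf_pow_orderOf_div (orderOf_pos h).ne' h1
  have h3 : orderOf ((h ^ (orderOf h / 9) : ↥H) : GL (Fin 5) (ZMod 2)) = 9 := by
    rw [Subgroup.orderOf_coe]; exact h2
  exact no_nine _ h3

theorem section_card {H : Subgroup (GL (Fin 5) (ZMod 2))} {K : Subgroup ↥H} [K.Normal] :
    Nat.card (↥H ⧸ K) ∣ 9999360 := by
  rw [← card_GL52]
  exact (Subgroup.card_quotient_dvd_card K).trans (Subgroup.card_subgroup_dvd_card H)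

theorem psl_case {H : Subgroup (GL (Fin 5) (ZMod 2))} {K : Subgroup ↥H} [K.Normal] {n : ℕ} {F : Type*} [Field F]
    [Fintype F] (hn : 2 ≤ n) (hF : Fintype.card F = 2 ^ n)
    (e : (↥H ⧸ K) ≃* Matrix.ProjectiveSpecialLinearGroup (Fin 2) F) : n = 2 := by
  haveI : Fact (Nat.Prime 2) := ⟨Nat.prime_two⟩
  have h1 := H98.DicksonPGL.card_psl_eq F
  rw [Nat.card_eq_fintype_card (α := F), hF] at h1
  have hodd : Nat.gcd 2 (2 ^ n - 1) = 1 := by
    refine Nat.coprime_two_left.2 ?_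
    refine Nat.Even.sub_odd (Nat.one_le_two_pow) ((Nat.even_pow.2 ⟨even_two, by omega⟩)) odd_one
  rw [hodd, one_mul] at h1
  have h2 := section_card (K := K)
  rw [Nat.card_congr e.toEquiv, h1] at h2
  have h3 : n ≤ 10 := by
    by_contra hcon
    push Not at hcon
    have h4 : 2 ^ 11 ∣ 9999360 := by
      refine dvd_trans ?_ h2
      refine Dvd.dvd.mul_left (Dvd.dvd.mul_right (pow_dvd_pow 2 hcon) _) _
    norm_num at h4
  interval_cases n
  · rfl
  · exfalso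
    haveI : CharP F 2 := charP_of_card_eq_prime_pow hF
    have h5 := H46.PSL2Orders.spectrum (F := F) 2
    have h6 : 9 ∈ Set.range (orderOf : Matrix.ProjectiveSpecialLinearGroup (Fin 2) F → ℕ) := by
      rw [h5, Nat.card_eq_fintype_card, hF]
      right; right
      norm_num
    obtain ⟨x, hx⟩ := h6
    exact section_no_nine (K := K) (e.symm x) (by rw [MulEquiv.orderOf_eq, hx])
  all_goals norm_num at h2

theorem sz_case {H : Subgroup (GL (Fin 5) (ZMod 2))} {K : Subgroup ↥H} [K.Normal] {m : ℕ} {F : Type*} [Field F]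
    [Fintype F] (hm : 1 ≤ m) (hF : Fintype.card F = 2 ^ (2 * m + 1))
    (e : (↥H ⧸ K) ≃* ↥(Cfsg.Lie.Sz F (2 ^ (m + 1)))) : False := by
  have h1 := H8.SuzGroup.card_Sz hm hF
  have e' := (H24.SzIso.equiv hF hm)
  have h2 := section_card (K := K)
  rw [Nat.card_congr e.toEquiv, ← Nat.card_congr e'.toEquiv, h1] at h2
  have h3 : m ≤ 2 := by
    by_contra hcon
    push Not at hcon
    have h4 : 2 ^ 14 ∣ 9999360 := by
      refine dvd_trans ?_ h2
      rw [← pow_mul]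
      refine Dvd.dvd.mul_right (Dvd.dvd.mul_right (pow_dvd_pow 2 (by omega)) _) _
    norm_num at h4
  interval_cases m
  all_goals norm_num at h2

theorem psu_case {H : Subgroup (GL (Fin 5) (ZMod 2))} {K : Subgroup ↥H} [K.Normal] {n : ℕ} {F : Type*} [Field F]
    [Fintype F] (hn : 2 ≤ n) (hF : Fintype.card F = 4 ^ n)
    (e : (↥H ⧸ K) ≃* Cfsg.PSU 3 F (2 ^ n)) : False := by
  haveI : Fact (Nat.Prime 2) := ⟨Nat.prime_two⟩
  have hF' : Fintype.card F = (2 ^ n) ^ 2 := by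
    rw [hF, ← pow_mul, mul_comm n 2, pow_mul]; norm_num
  haveI hch : CharP F 2 := charP_of_card_eq_prime_pow (f := 2 * n) (by rw [hF', ← pow_mul, mul_comm n 2])
  have two : (2 : F) = 0 := by exact_mod_cast CharP.cast_eq_zero F 2
  have h2 := section_card (K := K)
  rw [Nat.card_congr e.toEquiv] at h2
  haveI : Finite (Cfsg.PSU 3 F (2 ^ n)) := Finite.of_equiv _ e.toEquiv
  obtain ⟨S⟩ := (inferInstance : Nonempty (Sylow 2 (Cfsg.PSU 3 F (2 ^ n))))
  obtain ⟨f⟩ := H24.U3Syl.main two hF' hn rfl S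
  have h3 : Nat.card S = (2 ^ n) ^ 3 := by
    rw [Nat.card_congr f.toEquiv, H24.U3Syl.card_U two hF']
  have h4 : (2 ^ n) ^ 3 ∣ 9999360 := by
    rw [← h3]
    exact (Subgroup.card_subgroup_dvd_card (S : Subgroup _)).trans h2
  have h5 : n ≤ 3 := by
    by_contra hcon
    push Not at hcon
    have h4 : 2 ^ 12 ∣ 9999360 := by
      refine dvd_trans ?_ h4
      rw [← pow_mul]
      exact pow_dvd_pow 2 (by omega)
    norm_num at h4
  have h6 := H46.UModels.torus_mem (K := F) (q := 2 ^ n) hF' (n := 3) (by norm_num)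
  obtain ⟨x, hx⟩ := h6
  have h7 : H46.UNum.MM (2 ^ n) 3 / Nat.gcd 3 (2 ^ n + 1) ∣ 9999360 := by
    rw [← hx]
    exact (orderOf_dvd_natCard x).trans h2
  have h8 : ((H46.UNum.MM (2 ^ n) 3 : ℕ) : ℤ) = (2 ^ n) ^ 2 - 2 ^ n + 1 := by
    rw [H46.UNum.MM_eq _ _ (by positivity)]
    simp [Finset.sum_range_succ]
    ring
  interval_cases n
  · have h9 : H46.UNum.MM (2 ^ 2) 3 = 13 := by
      have : ((H46.UNum.MM (2 ^ 2) 3 : ℕ) : ℤ) = 13 := by rw [h8]; norm_num
      exact_mod_cast this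
    rw [h9] at h7
    norm_num at h7
  · have h9 : H46.UNum.MM (2 ^ 3) 3 = 57 := by
      have : ((H46.UNum.MM (2 ^ 3) 3 : ℕ) : ℤ) = 57 := by rw [h8]; norm_num
      exact_mod_cast this
    rw [h9] at h7
    norm_num at h7

end H58.GL52
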