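import Mathlib

/-! Facts on the alternating groups of degree 4 and 5 by evaluation (helper58). -/

set_option autoImplicit false
set_option maxRecDepth 100000
set_option maxHeartbeats 1000000
set_option synthInstance.maxHeartbeats 200000
set_option synthInstance.maxSize 1000

namespace H58.J2Alt

abbrev A4 := alternatingGroup (Fin 4)
abbrev A5 := alternatingGroup (Fin 5)

theorem F1 : ∀ v : A4, v * v = 1 → v ≠ 1 → ∀ v' : A4, v' * v' = 1 → v' ≠ 1 → ∃ a, a * v * a⁻¹ = v' := by decide +kernel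
theorem F2 : ∀ v : A4, v * v = 1 → v ≠ 1 → ∃ v' : A4, v' * v' = 1 ∧ v' ≠ 1 ∧ v' ≠ v := by decide +kernel
theorem F3 : ∀ v : A4, v * v = 1 → ∀ v' : A4, v' * v' = 1 → v * v' = v' * v ∧ (v * v') * (v * v') = 1 := by decide +kernel
theorem F4 : ∀ v y : A4, (v * v = 1 ∧ v ≠ 1 ∧ y * y * y = 1 ∧ y ≠ 1) → v * (y * v * y⁻¹) * (y * (y * v * y⁻¹) * y⁻¹) = 1 := by decide +kernel
theorem F5 : ∃ y : A4, y * y * y = 1 ∧ y ≠ 1 := by decide +kernel
theorem F6 : ∀ v : A4, v * v = 1 → v ≠ 1 → ∀ x : A4, x * v = v * x → x * x = 1 := by decide +kernel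
theorem F7 : ((Finset.univ : Finset A4).filter (fun v => v * v = 1)).card = 4 := by decide +kernel

theorem G1 : ∀ v : A5, v * v = 1 → v ≠ 1 → ∀ v' : A5, v' * v' = 1 → v' ≠ 1 → ∃ a, a * v * a⁻¹ = v' := by decide +kernel
theorem G2 : ∀ v : A5, v * v = 1 → v ≠ 1 → ∃ v' : A5, v' * v' = 1 ∧ v' ≠ 1 ∧ v' ≠ v ∧ v * v' = v' * v := by decide +kernel
theorem G3 : ∀ b : A5, b * b = 1 → b ≠ 1 → ∀ b' : A5, b' * b' = 1 → b' ≠ 1 → b ≠ b' → b * b' = b' * b →
    ∃ r : A5, r * r * r = 1 ∧ r * b = b' * r ∧ r * b' = b * b' * r := by decide +kernel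
theorem G4 : ∀ b : A5, b * b = 1 → ∀ b' : A5, b' * b' = 1 → b * b' ≠ b' * b →
    ∀ x : A5, x * b = b * x → x * b' = b' * x → x = 1 := by decide +kernel

end H58.J2Alt
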