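import Mathlib
import Cfsg.Agent.Lib.H58.J2A

/-! Anticommuting involutions and the model of the extraspecial group (helper58). -/

set_option autoImplicit false
set_option linter.style.haveILetI false
set_option maxRecDepth 100000

namespace H58.J2B

open H58.J2A Subgroup

variable {C : Type*} [Group C]

/-- five anticommuting involutions with product 1 -/
structure AC (z : C) (e : Fin 5 → C) : Prop where
  z1 : z ≠ 1
  zz : z * z = 1
  zc : ∀ i, e i * z = z * e i
  sq : ∀ i, e i * e i = 1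
  ac : ∀ i j, i ≠ j → e i * e j = z * (e j * e i)
  pr : e 0 * e 1 * e 2 * e 3 * e 4 = 1

variable {z : C} {e : Fin 5 → C}

/-- the element with given digits -/
def TT' (z : C) (e : Fin 5 → C) (a b c d s : ℕ) : C := e 0 ^ a * (e 1 ^ b * (e 2 ^ c * (e 3 ^ d * z ^ s)))

def T (z : C) (e : Fin 5 → C) (q : ℕ) : C := TT' z e (q % 2) (q / 2 % 2) (q / 4 % 2) (q / 8 % 2) (q / 16)

theorem sw (h : AC z e) {i j : Fin 5} (hij : i ≠ j) (m n : ℕ) : e j ^ m * e i ^ n = z ^ (m * n) * (e i ^ n * e j ^ m) := by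
  have hz : ∀ k : ℕ, e j * z ^ k = z ^ k * e j := fun k => ((show Commute (e j) z from h.zc j).pow_right k)
  have h1 : ∀ n : ℕ, e j * e i ^ n = z ^ n * (e i ^ n * e j) := by
    intro n
    induction n with
    | zero => simp
    | succ n ih =>
      have hz' : z ^ n * e i = e i * z ^ n := ((show Commute (e i) z from h.zc i).pow_right n).symm
      calc e j * e i ^ (n + 1) = e j * e i * e i ^ n := by rw [pow_succ', mul_assoc]
        _ = z * (e i * e j) * e i ^ n := by rw [h.ac j i hij.symm]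
        _ = z * (e i * (e j * e i ^ n)) := by simp only [mul_assoc]
        _ = z * (e i * (z ^ n * (e i ^ n * e j))) := by rw [ih]
        _ = z * (z ^ n * e i * (e i ^ n * e j)) := by rw [hz']; simp only [mul_assoc]
        _ = z ^ (n + 1) * (e i ^ (n + 1) * e j) := by rw [pow_succ' z, pow_succ' (e i)]; simp only [mul_assoc]
  induction m with
  | zero => simp
  | succ m ih =>
    have hz' : e j * z ^ (m * n) = z ^ (m * n) * e j := hz _
    calc e j ^ (m + 1) * e i ^ n = e j * (e j ^ m * e i ^ n) := by rw [pow_succ', mul_assoc]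
      _ = e j * (z ^ (m * n) * (e i ^ n * e j ^ m)) := by rw [ih]
      _ = z ^ (m * n) * (e j * e i ^ n * e j ^ m) := by rw [← mul_assoc, hz']; simp only [mul_assoc]
      _ = z ^ (m * n) * (z ^ n * (e i ^ n * e j) * e j ^ m) := by rw [h1]
      _ = z ^ ((m + 1) * n) * (e i ^ n * e j ^ (m + 1)) := by
        rw [add_mul, one_mul, pow_add, pow_succ' (e j)]; simp only [mul_assoc]

theorem TT_mul (h : AC z e) (a b c d s a' b' c' d' s' : ℕ) :
    TT' z e a b c d s * TT' z e a' b' c' d' s' =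
      TT' z e (a + a') (b + b') (c + c') (d + d') (s + s' + (a' * (b + c + d) + b' * (c + d) + c' * d)) := by
  have zc : ∀ (i : Fin 5) (m k : ℕ), z ^ k * e i ^ m = e i ^ m * z ^ k := fun i m k =>
    ((show Commute (e i) z from h.zc i).pow_pow m k).symm
  have zc' : ∀ (i : Fin 5) (m k : ℕ) (R : C), z ^ k * (e i ^ m * R) = e i ^ m * (z ^ k * R) := fun i m k R => by
    rw [← mul_assoc, zc, mul_assoc]
  have s01 : ∀ (m n : ℕ) (R : C), e 1 ^ m * (e 0 ^ n * R) = e 0 ^ n * (e 1 ^ m * (z ^ (m * n) * R)) := fun m n R => by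
    rw [← mul_assoc, sw h (i := 0) (j := 1) (by decide), mul_assoc, mul_assoc, zc', zc']
  have s02 : ∀ (m n : ℕ) (R : C), e 2 ^ m * (e 0 ^ n * R) = e 0 ^ n * (e 2 ^ m * (z ^ (m * n) * R)) := fun m n R => by
    rw [← mul_assoc, sw h (i := 0) (j := 2) (by decide), mul_assoc, mul_assoc, zc', zc']
  have s03 : ∀ (m n : ℕ) (R : C), e 3 ^ m * (e 0 ^ n * R) = e 0 ^ n * (e 3 ^ m * (z ^ (m * n) * R)) := fun m n R => by
    rw [← mul_assoc, sw h (i := 0) (j := 3) (by decide), mul_assoc, mul_assoc, zc', zc']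
  have s12 : ∀ (m n : ℕ) (R : C), e 2 ^ m * (e 1 ^ n * R) = e 1 ^ n * (e 2 ^ m * (z ^ (m * n) * R)) := fun m n R => by
    rw [← mul_assoc, sw h (i := 1) (j := 2) (by decide), mul_assoc, mul_assoc, zc', zc']
  have s13 : ∀ (m n : ℕ) (R : C), e 3 ^ m * (e 1 ^ n * R) = e 1 ^ n * (e 3 ^ m * (z ^ (m * n) * R)) := fun m n R => by
    rw [← mul_assoc, sw h (i := 1) (j := 3) (by decide), mul_assoc, mul_assoc, zc', zc']
  have s23 : ∀ (m n : ℕ) (R : C), e 3 ^ m * (e 2 ^ n * R) = e 2 ^ n * (e 3 ^ m * (z ^ (m * n) * R)) := fun m n R => by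
    rw [← mul_assoc, sw h (i := 2) (j := 3) (by decide), mul_assoc, mul_assoc, zc', zc']
  have cc : ∀ (i : Fin 5) (m n : ℕ) (R : C), e i ^ m * (e i ^ n * R) = e i ^ (m + n) * R := fun i m n R => by
    rw [pow_add, mul_assoc]
  have cz : ∀ (m n : ℕ) (R : C), z ^ m * (z ^ n * R) = z ^ (m + n) * R := fun m n R => by
    rw [pow_add, mul_assoc]
  simp only [TT', mul_assoc, zc', s01, s02, s03, s12, s13, s23, cc, cz]
  simp only [← pow_add]
  congr 5
  ring

theorem TT_mod (h : AC z e) (a b c d s : ℕ) : TT' z e a b c d s = TT' z e (a % 2) (b % 2) (c % 2) (d % 2) (s % 2) := by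
  have h2 : ∀ i, e i ^ 2 = 1 := fun i => by rw [pow_two]; exact h.sq i
  have hz2 : z ^ 2 = 1 := by rw [pow_two]; exact h.zz
  rw [TT', TT', ← pow_eq_pow_mod a (h2 0), ← pow_eq_pow_mod b (h2 1), ← pow_eq_pow_mod c (h2 2), ← pow_eq_pow_mod d (h2 3),
    ← pow_eq_pow_mod s hz2]

theorem digits0 : allN (fun x => allN (fun y => Bool.and (Nat.beq (qm x y % 2) ((x % 2 + y % 2) % 2))
    (Bool.and (Nat.beq (qm x y / 2 % 2) ((x / 2 % 2 + y / 2 % 2) % 2))
    (Bool.and (Nat.beq (qm x y / 4 % 2) ((x / 4 % 2 + y / 4 % 2) % 2))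
    (Bool.and (Nat.beq (qm x y / 8 % 2) ((x / 8 % 2 + y / 8 % 2) % 2))
    (Nat.beq (qm x y / 16) ((x / 16 + y / 16 + ((y % 2) * (x / 2 % 2 + x / 4 % 2 + x / 8 % 2) +
      (y / 2 % 2) * (x / 4 % 2 + x / 8 % 2) + (y / 4 % 2) * (x / 8 % 2))) % 2)))))) 32) 32 = true := by decide +kernel

theorem T_mul (h : AC z e) {a b : ℕ} (ha : a < 32) (hb : b < 32) : T z e (qm a b) = T z e a * T z e b := by
  have h0 := allN_iff.1 (allN_iff.1 digits0 a ha) b hb
  simp only [Bool.and_eq_true, Nat.beq_eq] at h0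
  obtain ⟨h1, h2, h3, h4, h5⟩ := h0
  rw [T, T, T, TT_mul h, TT_mod h (a % 2 + b % 2), h1, h2, h3, h4, h5]

theorem T_zero : T z e 0 = 1 := by simp [T, TT']
theorem T_16 : T z e 16 = z := by simp [T, TT']
theorem T_1 : T z e 1 = e 0 := by simp [T, TT']
theorem T_2 : T z e 2 = e 1 := by simp [T, TT']
theorem T_4 : T z e 4 = e 2 := by simp [T, TT']
theorem T_8 : T z e 8 = e 3 := by simp [T, TT']
theorem T_15 (h : AC z e) : T z e 15 = e 4 := by
  have h1 : T z e 15 = e 0 * e 1 * e 2 * e 3 := by simp [T, TT', mul_assoc]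
  have h2 := h.pr
  rw [h1]
  rw [mul_eq_one_iff_eq_inv] at h2
  rw [h2, inv_eq_iff_mul_eq_one]
  exact h.sq 4

/-- the code of `e i` -/
def EC (i : ℕ) : ℕ := cond (Nat.beq i 4) 15 (Nat.shiftLeft 1 i)

theorem T_EC (h : AC z e) (i : Fin 5) : T z e (EC i.val) = e i := by
  fin_cases i
  · exact T_1
  · exact T_2
  · exact T_4
  · exact T_8
  · exact T_15 h

theorem EC_lt (i : Fin 5) : EC i.val < 32 := by fin_cases i <;> decide

theorem inj0 : allN (fun a => Bool.or (Nat.beq a 0) (Bool.or (Nat.beq a 16) (Bool.or (Nat.beq (qm a 1) (qm (qm 1 a) 16))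
    (Bool.or (Nat.beq (qm a 2) (qm (qm 2 a) 16)) (Bool.or (Nat.beq (qm a 4) (qm (qm 4 a) 16))
    (Nat.beq (qm a 8) (qm (qm 8 a) 16))))))) 32 = true := by decide +kernel

theorem zq (h : AC z e) {a : ℕ} (ha : a < 32) : T z e a * z = z * T z e a := by
  have h1 : allN (fun a => Nat.beq (qm a 16) (qm 16 a)) 32 = true := by decide +kernel
  have h2 := Nat.eq_of_beq_eq_true (allN_iff.1 h1 a ha)
  have h3 := congrArg (T z e) h2
  rw [T_mul h ha (by norm_num), T_mul h (by norm_num) ha, T_16] at h3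
  exact h3

theorem T_eq_one (h : AC z e) {a : ℕ} (ha : a < 32) (h1 : T z e a = 1) : a = 0 := by
  have h0 := allN_iff.1 inj0 a ha
  simp only [Bool.or_eq_true, Nat.beq_eq] at h0
  have key : ∀ b : ℕ, b < 32 → qm a b = qm (qm b a) 16 → False := by
    intro b hb hab
    have h3 := congrArg (T z e) hab
    rw [T_mul h ha hb, T_mul h (q_lt hb ha) (by norm_num), T_mul h hb ha, h1, one_mul, mul_one, T_16] at h3
    exact h.z1 (by
      have := congrArg (fun x => (T z e b)⁻¹ * x) h3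
      simpa using this.symm)
  rcases h0 with h0 | h0 | h0 | h0 | h0 | h0
  · exact h0
  · rw [h0, T_16] at h1; exact absurd h1 h.z1
  · exact (key _ (by norm_num) h0).elim
  · exact (key _ (by norm_num) h0).elim
  · exact (key _ (by norm_num) h0).elim
  · exact (key _ (by norm_num) h0).elim

theorem T_inj (h : AC z e) {a b : ℕ} (ha : a < 32) (hb : b < 32) (hab : T z e a = T z e b) : a = b := by
  have h1 : T z e (qm (qi a) b) = 1 := by
    rw [T_mul h (q_inv_lt ha) hb, ← hab, ← T_mul h (q_inv_lt ha) ha, q_inv_mul ha, T_zero]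
  have h2 := T_eq_one h (q_lt (q_inv_lt ha) hb) h1
  have h3 : allN (fun a => Nat.beq (qm a (qi a)) 0) 32 = true := by decide +kernel
  have h4 := Nat.eq_of_beq_eq_true (allN_iff.1 h3 a ha)
  rw [← q_one_mul hb, ← h4, q_assoc ha (q_inv_lt ha) hb, h2, q_mul_one ha]

end H58.J2B
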