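import Mathlib
import Cfsg.Agent.Lib.H58.J2B

/-! Extraspecial groups of order 32 with an automorphism of order 5 (helper58). -/

set_option autoImplicit false
set_option linter.style.haveILetI false
set_option maxRecDepth 100000
set_option linter.unusedSectionVars false

namespace H58.J2C

open H58.J2A H58.J2B Subgroup

variable {C : Type*} [Group C] [Finite C]

structure QD (Q : Subgroup C) (z : C) : Prop where
  nrm : ∀ c x, x ∈ Q → c * x * c⁻¹ ∈ Q
  zQ : z ∈ Q
  z1 : z ≠ 1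
  zz : z * z = 1
  zC : ∀ c : C, c * z = z * c
  comm : ∀ x ∈ Q, ∀ y ∈ Q, x * y = y * x ∨ x * y = z * (y * x)
  sq : ∀ x ∈ Q, x * x = 1 ∨ x * x = z
  cc : ∀ c, (∀ q ∈ Q, q * c = c * q) → c = 1 ∨ c = z
  card : Nat.card Q = 32
  cardC : Nat.card C = 1920

theorem fixmod (A : Subgroup C) (f : C) (hf : f ^ 5 = 1) (hA : ∀ a ∈ A, f * a * f⁻¹ ∈ A) :
    Nat.card A ≡ Nat.card {a : C // a ∈ A ∧ f * a = a * f} [MOD 5] := by
  classical
  have : Fact (Nat.Prime 5) := ⟨by norm_num⟩
  have : Fintype A := Fintype.ofFinite A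
  let g : Function.End A := fun a => ⟨f * a * f⁻¹, hA a a.2⟩
  have hg : ∀ n : ℕ, ∀ a : A, ((g ^ n) a : C) = f ^ n * a * (f ^ n)⁻¹ := by
    intro n
    induction n with
    | zero => intro a; simp; rfl
    | succ n ih =>
      intro a
      rw [pow_succ']
      change f * ((g ^ n) a : C) * f⁻¹ = _
      rw [ih, pow_succ']
      group
  have hg5 : g ^ 5 ^ 1 = 1 := by
    funext a
    apply Subtype.ext
    rw [pow_one, hg, hf]
    simp
    rfl
  have h1 := Equiv.Perm.card_fixedPoints_modEq (p := 5) (n := 1) hg5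
  rw [← Nat.card_eq_fintype_card, ← Nat.card_eq_fintype_card] at h1
  have h2 : Nat.card (Function.fixedPoints g) = Nat.card {a : C // a ∈ A ∧ f * a = a * f} := by
    apply Nat.card_congr
    refine ⟨fun x => ⟨x.1.1, x.1.2, ?_⟩, fun x => ⟨⟨x.1, x.2.1⟩, ?_⟩, fun x => rfl, fun x => rfl⟩
    · have := congrArg Subtype.val x.2
      change f * x.1.1 * f⁻¹ = x.1.1 at this
      rw [mul_inv_eq_iff_eq_mul] at this
      exact this
    · change (⟨f * x.1 * f⁻¹, _⟩ : A) = ⟨x.1, x.2.1⟩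
      apply Subtype.ext
      change f * x.1 * f⁻¹ = x.1
      rw [mul_inv_eq_iff_eq_mul]
      exact x.2.2
  rwa [h2] at h1

theorem dvd32 {m : ℕ} (h : m ∣ 32) (h2 : 32 ≡ m [MOD 5]) : m = 2 ∨ m = 32 := by
  have h3 : m ≤ 32 := Nat.le_of_dvd (by norm_num) h
  have : m ∈ Finset.range 33 := by rw [Finset.mem_range]; omega
  revert h h2
  have key : ∀ m ∈ Finset.range 33, m ∣ 32 → 32 % 5 = m % 5 → m = 2 ∨ m = 32 := by decide
  intro h h2
  exact key m this h h2

theorem fixf {Q : Subgroup C} {z : C} (h : QD Q z) {f : C} (hf : orderOf f = 5) {x : C} (hx : x ∈ Q) (hfx : f * x = x * f) :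
    x = 1 ∨ x = z := by
  have hf5 : f ^ 5 = 1 := by rw [← hf]; exact pow_orderOf_eq_one f
  have h1 := fixmod Q f hf5 (fun a ha => h.nrm f a ha)
  have h2 : Nat.card {a : C // a ∈ Q ∧ f * a = a * f} = Nat.card (Q ⊓ centralizer {f} : Subgroup C) := by
    apply Nat.card_congr
    refine Equiv.subtypeEquivRight fun a => ?_
    rw [mem_inf, mem_centralizer_singleton_iff]
    exact and_congr_right fun _ => eq_comm
  rw [h2, h.card] at h1
  have h3 : Nat.card (Q ⊓ centralizer {f} : Subgroup C) ∣ 32 := by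
    rw [← h.card]; exact card_dvd_of_le inf_le_left
  rcases dvd32 h3 h1 with h4 | h4
  · -- order 2
    have hz : z ∈ (Q ⊓ centralizer {f} : Subgroup C) := by
      rw [mem_inf, mem_centralizer_singleton_iff]
      exact ⟨h.zQ, (h.zC f).symm⟩
    have hx' : x ∈ (Q ⊓ centralizer {f} : Subgroup C) := by
      rw [mem_inf, mem_centralizer_singleton_iff]
      exact ⟨hx, hfx.symm⟩
    rw [Nat.card_eq_two_iff' (1 : (Q ⊓ centralizer {f} : Subgroup C))] at h4
    obtain ⟨y, hy, hyu⟩ := h4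
    by_cases hx1 : x = 1
    · exact Or.inl hx1
    · right
      have e1 := hyu ⟨x, hx'⟩ (fun hh => hx1 (congrArg Subtype.val hh))
      have e2 := hyu ⟨z, hz⟩ (fun hh => h.z1 (congrArg Subtype.val hh))
      exact congrArg Subtype.val (e1.trans e2.symm)
  · exfalso
    have h5 : (Q ⊓ centralizer {f} : Subgroup C) = Q :=
      Subgroup.eq_of_le_of_card_ge inf_le_left (by rw [h4, h.card])
    have h6 : ∀ q ∈ Q, q * f = f * q := by
      intro q hq
      rw [← h5, mem_inf, mem_centralizer_singleton_iff] at hq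
      exact hq.2
    rcases h.cc f h6 with h7 | h7
    · rw [h7, orderOf_one] at hf; omega
    · have h8 : f ^ 2 = 1 := by rw [pow_two, h7, h.zz]
      have h9 := orderOf_dvd_of_pow_eq_one h8
      rw [hf] at h9
      omega

theorem subf {Q : Subgroup C} {z : C} (h : QD Q z) {f : C} (hf : orderOf f = 5) (A : Subgroup C) (hAQ : A ≤ Q) (hz : z ∈ A)
    (hA : ∀ a ∈ A, f * a * f⁻¹ ∈ A) {x : C} (hx : x ∈ A) (hx1 : x ≠ 1) (hxz : x ≠ z) : A = Q := by
  have hf5 : f ^ 5 = 1 := by rw [← hf]; exact pow_orderOf_eq_one f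
  have h1 := fixmod A f hf5 hA
  have h2 : Nat.card {a : C // a ∈ A ∧ f * a = a * f} = 2 := by
    rw [Nat.card_eq_two_iff' (⟨1, A.one_mem, by simp⟩ : {a : C // a ∈ A ∧ f * a = a * f})]
    refine ⟨⟨z, hz, h.zC f⟩, fun hh => h.z1 (congrArg Subtype.val hh), ?_⟩
    rintro ⟨a, ha1, ha2⟩ ha3
    apply Subtype.ext
    rcases fixf h hf (hAQ ha1) ha2 with h3 | h3
    · exact absurd (Subtype.ext h3) ha3
    · exact h3
  rw [h2] at h1
  have h3 : Nat.card A ∣ 32 := by rw [← h.card]; exact card_dvd_of_le hAQ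
  have h4 : 32 ≡ Nat.card A [MOD 5] := by
    have h5 : 32 ≡ 2 [MOD 5] := by decide
    exact h5.trans h1.symm
  rcases dvd32 h3 h4 with h5 | h5
  · exfalso
    rw [Nat.card_eq_two_iff' (1 : A)] at h5
    obtain ⟨y, hy, hyu⟩ := h5
    have e1 := hyu ⟨x, hx⟩ (fun hh => hx1 (congrArg Subtype.val hh))
    have e2 := hyu ⟨z, hz⟩ (fun hh => h.z1 (congrArg Subtype.val hh))
    exact hxz (congrArg Subtype.val (e1.trans e2.symm))
  · exact Subgroup.eq_of_le_of_card_ge hAQ (by rw [h5, h.card])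

/-- commutation up to `z ^ k` -/
def R (z : C) (k : ℕ) (x y : C) : Prop := x * y = z ^ k * (y * x)

section
variable {z : C} (hz : z * z = 1) (hC : ∀ c : C, c * z = z * c)
include hz hC

omit hz in
theorem zk (k : ℕ) (c : C) : c * z ^ k = z ^ k * c := (show Commute c z from hC c).pow_right k

theorem R_symm {k : ℕ} {x y : C} (h : R z k x y) : R z k y x := by
  have h2 : z ^ k * z ^ k = 1 := by rw [← pow_add, ← two_mul, pow_mul, pow_two, hz, one_pow]
  change y * x = z ^ k * (x * y)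
  rw [h, ← mul_assoc, h2, one_mul]

omit hz in
theorem R_mul_left {k l : ℕ} {x y w : C} (h1 : R z k x w) (h2 : R z l y w) : R z (k + l) (x * y) w := by
  change x * y * w = z ^ (k + l) * (w * (x * y))
  have h1' : x * w = z ^ k * (w * x) := h1
  have h2' : y * w = z ^ l * (w * y) := h2
  calc x * y * w = x * (z ^ l * (w * y)) := by rw [mul_assoc, h2']
    _ = z ^ l * (x * w * y) := by rw [← mul_assoc, zk hC]; simp only [mul_assoc]
    _ = z ^ l * (z ^ k * (w * x) * y) := by rw [h1']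
    _ = _ := by rw [add_comm k l, pow_add]; simp only [mul_assoc]

theorem R_mul_right {k l : ℕ} {x y w : C} (h1 : R z k w x) (h2 : R z l w y) : R z (k + l) w (x * y) :=
  R_symm hz hC (R_mul_left hC (R_symm hz hC h1) (R_symm hz hC h2))

omit hz in
theorem R_conj {k : ℕ} {x y : C} (h : R z k x y) (g : C) : R z k (g * x * g⁻¹) (g * y * g⁻¹) := by
  have h' : x * y = z ^ k * (y * x) := h
  change g * x * g⁻¹ * (g * y * g⁻¹) = z ^ k * (g * y * g⁻¹ * (g * x * g⁻¹))
  calc g * x * g⁻¹ * (g * y * g⁻¹) = g * (x * y) * g⁻¹ := by group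
    _ = g * z ^ k * (y * x) * g⁻¹ := by rw [h']; simp only [mul_assoc]
    _ = z ^ k * (g * (y * x) * g⁻¹) := by rw [zk hC]; simp only [mul_assoc]
    _ = _ := by congr 1; group

theorem R_mod {k l : ℕ} {x y : C} (h : R z k x y) (hkl : k % 2 = l % 2) : R z l x y := by
  have h2 : z ^ 2 = 1 := by rw [pow_two, hz]
  change x * y = z ^ l * (y * x)
  rw [pow_eq_pow_mod l h2, ← hkl, ← pow_eq_pow_mod k h2]
  exact h
end

/-- powers of `f` acting -/
def cj (f : C) (n : ℕ) (x : C) : C := f ^ n * x * (f ^ n)⁻¹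

theorem cj_cj (f : C) (m n : ℕ) (x : C) : cj f m (cj f n x) = cj f (m + n) x := by
  unfold cj; rw [pow_add]; group

theorem cj_mod {f : C} (hf : f ^ 5 = 1) (n : ℕ) (x : C) : cj f n x = cj f (n % 5) x := by
  unfold cj; rw [← pow_eq_pow_mod n hf]

theorem cj_mul (f : C) (n : ℕ) (x y : C) : cj f n (x * y) = cj f n x * cj f n y := by
  unfold cj; group

end H58.J2C
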