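import Mathlib
import Cfsg.Agent.Lib.H58.J2C

/-! Five anticommuting involutions (helper58). -/

set_option autoImplicit false
set_option linter.style.haveILetI false
set_option maxRecDepth 100000
set_option linter.unusedSectionVars false

namespace H58.J2C

open H58.J2A H58.J2B Subgroup

variable {C : Type*} [Group C] [Finite C]

theorem exists_good {Q : Subgroup C} {z : C} (h : QD Q z) {f : C} (hf : orderOf f = 5) :
    ∃ x ∈ Q, x ≠ 1 ∧ x ≠ z ∧ R z 1 x (cj f 1 x) ∧ R z 1 x (cj f 2 x) := by
  have hf5 : f ^ 5 = 1 := by rw [← hf]; exact pow_orderOf_eq_one f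
  have cjQ : ∀ n : ℕ, ∀ x ∈ Q, cj f n x ∈ Q := fun n x hx => h.nrm _ _ hx
  -- an element outside the centre
  obtain ⟨x, hx, hx1, hxz⟩ : ∃ x ∈ Q, x ≠ 1 ∧ x ≠ z := by
    by_contra hcon
    push Not at hcon
    have h1 : (Q : Set C) ⊆ {1, z} := by
      intro x hx
      by_cases h2 : x = 1
      · exact Or.inl h2
      · exact Or.inr (hcon x hx h2)
    have h2 : Nat.card Q ≤ 2 := by
      have h3 := Set.ncard_le_ncard h1 (Set.toFinite _)
      have h4 : ((Q : Set C)).ncard = Nat.card Q := rfl
      rw [h4] at h3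
      exact h3.trans ((Set.ncard_insert_le _ _).trans (by rw [Set.ncard_singleton]))
    rw [h.card] at h2
    omega
  have bit : ∀ y ∈ Q, ∀ w ∈ Q, R z 0 y w ∨ R z 1 y w := by
    intro y hy w hw
    rcases h.comm y hy w hw with h1 | h1
    · left; change y * w = z ^ 0 * (w * y); rw [pow_zero, one_mul]; exact h1
    · right; change y * w = z ^ 1 * (w * y); rw [pow_one]; exact h1
  have rs : ∀ {k : ℕ} {x y : C}, R z k x y → R z k y x := fun hh => R_symm h.zz h.zC hh
  have shift : ∀ (k m n l : ℕ) (y w : C), R z k (cj f m y) (cj f n w) → R z k (cj f (l + m) y) (cj f (l + n) w) := by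
    intro k m n l y w hh
    have := R_conj h.zC hh (f ^ l)
    have e1 : f ^ l * cj f m y * (f ^ l)⁻¹ = cj f (l + m) y := cj_cj f l m y
    have e2 : f ^ l * cj f n w * (f ^ l)⁻¹ = cj f (l + n) w := cj_cj f l n w
    rwa [e1, e2] at this
  have c0 : ∀ y : C, cj f 0 y = y := fun y => by simp [cj]
  -- all commutation bits from two
  have all : ∀ (y : C) (b1 b2 : ℕ), R z b1 y (cj f 1 y) → R z b2 y (cj f 2 y) →
      R z b2 y (cj f 3 y) ∧ R z b1 y (cj f 4 y) ∧ R z 0 y y := by
    intro y b1 b2 h1 h2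
    refine ⟨?_, ?_, by change y * y = z ^ 0 * (y * y); simp⟩
    · have h3 := shift b2 0 2 3 y y (by rw [c0]; exact h2)
      rw [cj_mod hf5 (3 + 2)] at h3
      simp only [Nat.reduceAdd, Nat.reduceMod, c0] at h3
      exact rs h3
    · have h3 := shift b1 0 1 4 y y (by rw [c0]; exact h1)
      rw [cj_mod hf5 (4 + 1)] at h3
      simp only [Nat.reduceAdd, Nat.reduceMod, c0] at h3
      exact rs h3
  have hx1Q := cjQ 1 x hx
  have hx2Q := cjQ 2 x hx
  have ml : ∀ {k l : ℕ} {x y w : C}, R z k x w → R z l y w → R z (k + l) (x * y) w := fun h1 h2 => R_mul_left h.zC h1 h2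
  have mr : ∀ {k l : ℕ} {x y w : C}, R z k w x → R z l w y → R z (k + l) w (x * y) := fun h1 h2 => R_mul_right h.zz h.zC h1 h2
  -- products of two conjugates are not in the centre
  have nz : ∀ m : ℕ, m = 1 ∨ m = 2 → x * cj f m x ≠ 1 ∧ x * cj f m x ≠ z := by
    have aux : ∀ m : ℕ, m = 1 ∨ m = 2 → ∀ s : C, (s = 1 ∨ s = z) → x * cj f m x = s → False := by
      intro m hm s hs hxm
      have hss : s * s = 1 := by rcases hs with rfl | rfl; exact mul_one 1; exact h.zz
      have hsC : ∀ c : C, c * s = s * c := by rcases hs with rfl | rfl; · intro c; simp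
                                              · exact h.zC
      -- cj m x = x⁻¹ s, hence cj (2 m) x = x ...
      have e1 : cj f m x = x⁻¹ * s := by rw [← hxm]; group
      have e2 : ∀ g : C, g * (x⁻¹ * s) * g⁻¹ = (g * x * g⁻¹)⁻¹ * s := by
        intro g
        calc g * (x⁻¹ * s) * g⁻¹ = g * x⁻¹ * (s * g⁻¹) := by group
          _ = g * x⁻¹ * (g⁻¹ * s) := by rw [← hsC]
          _ = _ := by group
      have e3 : cj f (m + m) x = x := by
        rw [← cj_cj, e1]
        change f ^ m * (x⁻¹ * s) * (f ^ m)⁻¹ = x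
        rw [e2]
        change (cj f m x)⁻¹ * s = x
        rw [e1, mul_inv_rev, inv_inv, inv_eq_of_mul_eq_one_left hss, ← hsC, mul_assoc, hss, mul_one]
      have e4 : ∀ n : ℕ, cj f (n * (m + m)) x = x := by
        intro n
        induction n with
        | zero => rw [zero_mul, c0]
        | succ n ih => rw [Nat.succ_mul, ← cj_cj, e3, ih]
      have e5 : cj f 1 x = x := by
        rcases hm with rfl | rfl
        · have := e4 3
          rw [cj_mod hf5] at this
          exact this
        · have := e4 4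
          rw [cj_mod hf5] at this
          exact this
      have e6 : f * x = x * f := by
        have : f ^ 1 * x * (f ^ 1)⁻¹ = x := e5
        rw [pow_one, mul_inv_eq_iff_eq_mul] at this
        exact this
      rcases fixf h hf hx e6 with h7 | h7
      · exact hx1 h7
      · exact hxz h7
    intro m hm
    exact ⟨fun hh => aux m hm 1 (Or.inl rfl) hh, fun hh => aux m hm z (Or.inr rfl) hh⟩
  rcases bit x hx _ hx1Q with hb1 | hb1 <;> rcases bit x hx _ hx2Q with hb2 | hb2
  · -- abelian
    exfalso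
    obtain ⟨h3, h4, h5⟩ := all x 0 0 hb1 hb2
    have hall : ∀ n : ℕ, R z 0 x (cj f n x) := by
      intro n
      rw [cj_mod hf5]
      have : n % 5 < 5 := Nat.mod_lt _ (by norm_num)
      interval_cases n % 5
      · rw [c0]; exact h5
      · exact hb1
      · exact hb2
      · exact h3
      · exact h4
    have hcomm : ∀ m n : ℕ, cj f m x * cj f n x = cj f n x * cj f m x := by
      intro m n
      have h6 : R z 0 (cj f (m + 0) x) (cj f (m + (n + 4 * m)) x) := shift 0 0 (n + 4 * m) m x x (by rw [c0]; exact hall _)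
      have h7 : cj f (m + (n + 4 * m)) x = cj f n x := by
        rw [cj_mod hf5, cj_mod hf5 n]; congr 1; omega
      rw [h7, add_zero] at h6
      have h6' : cj f m x * cj f n x = z ^ 0 * (cj f n x * cj f m x) := h6
      rwa [pow_zero, one_mul] at h6'
    set S : Set C := insert z (Set.range fun n : ℕ => cj f n x) with hS
    have hSc : ∀ a ∈ S, ∀ b ∈ S, a * b = b * a := by
      intro a ha b hb
      rw [hS, Set.mem_insert_iff] at ha hb
      rcases ha with rfl | ⟨m, rfl⟩
      · exact (h.zC b).symm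
      · rcases hb with rfl | ⟨n, rfl⟩
        · exact h.zC _
        · exact hcomm m n
    have hAQ : closure S ≤ Q := by
      rw [closure_le]
      intro a ha
      rw [hS, Set.mem_insert_iff] at ha
      rcases ha with rfl | ⟨m, rfl⟩
      · exact h.zQ
      · exact cjQ m x hx
    have hAf : ∀ a ∈ closure S, f * a * f⁻¹ ∈ closure S := by
      intro a ha
      induction ha using closure_induction with
      | mem a ha =>
        rw [hS, Set.mem_insert_iff] at ha
        rcases ha with rfl | ⟨m, rfl⟩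
        · rw [h.zC f, mul_inv_cancel_right]; exact subset_closure (by rw [hS]; exact Set.mem_insert _ _)
        · have : f * cj f m x * f⁻¹ = cj f (1 + m) x := by
            rw [← cj_cj]; simp [cj]
          change f * cj f m x * f⁻¹ ∈ _
          rw [this]
          exact subset_closure (by rw [hS]; exact Set.mem_insert_of_mem _ ⟨_, rfl⟩)
      | one => simp
      | mul a b _ _ ha hb =>
        have : f * (a * b) * f⁻¹ = (f * a * f⁻¹) * (f * b * f⁻¹) := by group
        rw [this]; exact mul_mem ha hb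
      | inv a _ ha =>
        have : f * a⁻¹ * f⁻¹ = (f * a * f⁻¹)⁻¹ := by group
        rw [this]; exact inv_mem ha
    have hxA : x ∈ closure S := subset_closure (by rw [hS]; exact Set.mem_insert_of_mem _ ⟨0, c0 x⟩)
    have hA := subf h hf (closure S) hAQ (subset_closure (by rw [hS]; exact Set.mem_insert _ _)) hAf hxA hx1 hxz
    have hcc : ∀ q ∈ Q, q * x = x * q := by
      intro q hq
      rw [← hA] at hq
      have hxx : x ∈ S := by rw [hS]; exact Set.mem_insert_of_mem _ ⟨0, c0 x⟩
      induction hq using closure_induction with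
      | mem a ha => exact hSc a ha x hxx
      | one => simp
      | mul a b _ _ ha hb => rw [mul_assoc, hb, ← mul_assoc, ha, mul_assoc]
      | inv a _ ha => rw [inv_mul_eq_iff_eq_mul, ← mul_assoc, ha, mul_inv_cancel_right]
    rcases h.cc x hcc with h8 | h8
    · exact hx1 h8
    · exact hxz h8
  · -- b1 = 0, b2 = 1 : take x * x1
    obtain ⟨h3, h4, h5⟩ := all x 0 1 hb1 hb2
    have g : ∀ m n b, R z b x (cj f n x) → R z b (cj f m x) (cj f (m + n) x) := fun m n b hh =>
      shift b 0 n m x x (by rw [c0]; exact hh)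
    refine ⟨x * cj f 1 x, mul_mem hx hx1Q, (nz 1 (Or.inl rfl)).1, (nz 1 (Or.inl rfl)).2, ?_, ?_⟩
    · rw [cj_mul, cj_cj]
      -- (x + x1, x1 + x2)
      refine R_mod h.zz h.zC (ml (mr hb1 hb2) (mr (g 1 0 0 (by rw [c0]; exact h5)) (g 1 1 0 hb1))) (by norm_num)
    · rw [cj_mul, cj_cj]
      refine R_mod h.zz h.zC (ml (mr hb2 h3) (mr (g 1 1 0 hb1) (g 1 2 1 hb2))) (by norm_num)
  · -- b1 = 1, b2 = 0 : take x * x2
    obtain ⟨h3, h4, h5⟩ := all x 1 0 hb1 hb2
    have g : ∀ m n b, R z b x (cj f n x) → R z b (cj f m x) (cj f (m + n) x) := fun m n b hh =>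
      shift b 0 n m x x (by rw [c0]; exact hh)
    refine ⟨x * cj f 2 x, mul_mem hx hx2Q, (nz 2 (Or.inr rfl)).1, (nz 2 (Or.inr rfl)).2, ?_, ?_⟩
    · rw [cj_mul, cj_cj]
      -- (x + x2, x1 + x3)
      refine R_mod h.zz h.zC (ml (mr hb1 h3) (mr (rs (g 1 1 1 hb1)) (g 2 1 1 hb1))) (by norm_num)
    · rw [cj_mul, cj_cj]
      -- (x + x2, x2 + x4)
      refine R_mod h.zz h.zC (ml (mr hb2 h4) (mr (g 2 0 0 (by rw [c0]; exact h5)) (g 2 2 0 hb2))) (by norm_num)
  · exact ⟨x, hx, hx1, hxz, hb1, hb2⟩

end H58.J2C
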