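import Mathlib
import Cfsg.Agent.Lib.H58.J2D

/-! Five anticommuting involutions, their permutation (helper58). -/

set_option autoImplicit false
set_option linter.style.haveILetI false
set_option maxRecDepth 100000
set_option linter.unusedSectionVars false

namespace H58.J2C

open H58.J2A H58.J2B Subgroup

variable {C : Type*} [Group C] [Finite C]

theorem exists_AC {Q : Subgroup C} {z : C} (h : QD Q z) :
    ∃ e : Fin 5 → C, AC z e ∧ ∀ i, e i ∈ Q := by
  have : Fact (Nat.Prime 5) := ⟨by norm_num⟩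
  obtain ⟨f, hf⟩ := exists_prime_orderOf_dvd_card' (G := C) 5 (by rw [h.cardC]; norm_num)
  have hf5 : f ^ 5 = 1 := by rw [← hf]; exact pow_orderOf_eq_one f
  obtain ⟨x, hx, hx1, hxz, h1, h2⟩ := exists_good h hf
  have cjQ : ∀ n : ℕ, ∀ x ∈ Q, cj f n x ∈ Q := fun n x hx => h.nrm _ _ hx
  have rs : ∀ {k : ℕ} {x y : C}, R z k x y → R z k y x := fun hh => R_symm h.zz h.zC hh
  have shift : ∀ (k m n l : ℕ) (y w : C), R z k (cj f m y) (cj f n w) → R z k (cj f (l + m) y) (cj f (l + n) w) := by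
    intro k m n l y w hh
    have := R_conj h.zC hh (f ^ l)
    have e1 : f ^ l * cj f m y * (f ^ l)⁻¹ = cj f (l + m) y := cj_cj f l m y
    have e2 : f ^ l * cj f n w * (f ^ l)⁻¹ = cj f (l + n) w := cj_cj f l n w
    rwa [e1, e2] at this
  have c0 : ∀ y : C, cj f 0 y = y := fun y => by simp [cj]
  have h3 : R z 1 x (cj f 3 x) := by
    have h3 := shift 1 0 2 3 x x (by rw [c0]; exact h2)
    rw [cj_mod hf5 (3 + 2)] at h3
    simp only [Nat.reduceAdd, Nat.reduceMod, c0] at h3
    exact rs h3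
  have h4 : R z 1 x (cj f 4 x) := by
    have h3 := shift 1 0 1 4 x x (by rw [c0]; exact h1)
    rw [cj_mod hf5 (4 + 1)] at h3
    simp only [Nat.reduceAdd, Nat.reduceMod, c0] at h3
    exact rs h3
  have hall : ∀ i j : ℕ, i < j → j < 5 → R z 1 (cj f i x) (cj f j x) := by
    intro i j hij hj
    have hd : j = i + (j - i) := by omega
    rw [hd]
    have : R z 1 (cj f 0 x) (cj f (j - i) x) := by
      have h5 : j - i = 1 ∨ j - i = 2 ∨ j - i = 3 ∨ j - i = 4 := by omega
      rw [c0]
      rcases h5 with h5 | h5 | h5 | h5 <;> rw [h5] <;> assumption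
    have := shift 1 0 (j - i) i x x this
    simpa using this
  have hall' : ∀ i j : Fin 5, i ≠ j → R z 1 (cj f i x) (cj f j x) := by
    intro i j hij
    rcases lt_or_gt_of_ne (fun hh => hij (Fin.ext hh) : i.val ≠ j.val) with h5 | h5
    · exact hall _ _ h5 j.isLt
    · exact rs (hall _ _ h5 i.isLt)
  have hsq : ∀ n : ℕ, cj f n x * cj f n x = x * x := by
    intro n
    rw [← cj_mul]
    rcases h.sq x hx with h5 | h5
    · rw [h5]; simp [cj]
    · rw [h5]; unfold cj; rw [h.zC, mul_inv_cancel_right]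
  have key : ∀ δ : C, δ = 1 ∨ δ = z → cj f 0 x * cj f 1 x * cj f 2 x * cj f 3 x * cj f 4 x = δ →
      ∃ e : Fin 5 → C, AC z e ∧ ∀ i, e i ∈ Q := by
    intro δ hδ hp
    have hδδ : δ * δ = 1 := by
      rcases hδ with rfl | rfl
      · exact mul_one 1
      · exact h.zz
    have hδC : ∀ c : C, c * δ = δ * c := by
      rcases hδ with rfl | rfl
      · intro c; simp
      · exact h.zC
    have hδQ : δ ∈ Q := by
      rcases hδ with rfl | rfl
      · exact one_mem _
      · exact h.zQ
    have dd : ∀ a : C, δ * (δ * a) = a := fun a => by rw [← mul_assoc, hδδ, one_mul]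
    have cm : ∀ a b : C, a * (δ * b) = δ * (a * b) := fun a b => by rw [← mul_assoc, hδC, mul_assoc]
    have p1 : ∀ a b : C, δ * a * (δ * b) = a * b := fun a b => by
      rw [mul_assoc, cm, dd]
    set e : Fin 5 → C := fun i => δ * cj f i x with he
    have hac : ∀ i j, i ≠ j → e i * e j = z * (e j * e i) := by
      intro i j hij
      have := hall' i j hij
      have h5 : cj f i x * cj f j x = z ^ 1 * (cj f j x * cj f i x) := this
      rw [pow_one] at h5
      simp only [he]
      rw [p1, p1, h5]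
    have hpr : e 0 * e 1 * e 2 * e 3 * e 4 = 1 := by
      have e1 : e 0 * e 1 * e 2 * e 3 * e 4 = δ * (cj f 0 x * cj f 1 x * cj f 2 x * cj f 3 x * cj f 4 x) := by
        simp only [he, mul_assoc, cm, dd]
        simp
      rw [e1, hp, hδδ]
    have hsqe : ∀ i j, e i * e i = e j * e j := by
      intro i j
      simp only [he]
      rw [p1, p1, hsq, hsq]
    have hzc : ∀ i, e i * z = z * e i := fun i => h.zC _
    have heQ : ∀ i, e i ∈ Q := fun i => mul_mem hδQ (cjQ _ _ hx)
    have hs4 : ∀ i, e i * e i = 1 := by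
      intro i
      rw [hsqe i 0]
      -- e0 = (e1 e2 e3 e4)⁻¹
      have h0 : e 0 = (e 1 * e 2 * e 3 * e 4)⁻¹ := by
        rw [eq_inv_iff_mul_eq_one]
        simpa only [mul_assoc] using hpr
      rw [h0, ← mul_inv_rev, inv_eq_one]
      have a : ∀ i j : Fin 5, i ≠ j → ∀ r : C, e i * (e j * r) = z * (e j * (e i * r)) := by
        intro i j hij r
        rw [← mul_assoc, hac i j hij]; simp only [mul_assoc]
      have zl : ∀ i : Fin 5, ∀ r : C, e i * (z * r) = z * (e i * r) := fun i r => by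
        rw [← mul_assoc, hzc, mul_assoc]
      have zz' : ∀ r : C, z * (z * r) = r := fun r => by rw [← mul_assoc, h.zz, one_mul]
      have hss : ∀ i : Fin 5, ∀ r : C, e i * (e i * r) = e 0 * (e 0 * r) := fun i r => by
        rw [← mul_assoc, hsqe i 0, mul_assoc]
      have e1 : e 1 * e 2 * e 3 * e 4 * (e 1 * e 2 * e 3 * e 4) = (e 1 * e 1) * ((e 2 * e 2) * ((e 3 * e 3) * (e 4 * e 4))) := by
        simp only [mul_assoc]
        rw [a 4 1 (by decide)]
        simp only [zl]
        rw [a 3 1 (by decide)]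
        simp only [zl, zz']
        rw [a 2 1 (by decide)]
        simp only [zl]
        rw [a 4 2 (by decide)]
        simp only [zl, zz']
        rw [a 3 2 (by decide)]
        simp only [zl]
        rw [a 4 3 (by decide)]
        simp only [zl, zz']
      rw [e1, hsqe 1 0, hsqe 2 0, hsqe 3 0, hsqe 4 0]
      rcases h.sq (e 0) (heQ 0) with h5 | h5
      · rw [h5]; simp
      · rw [h5]
        rw [h.zz, mul_one, h.zz]
    exact ⟨e, ⟨h.z1, h.zz, hzc, hs4, hac, hpr⟩, heQ⟩
  -- the product is fixed by f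
  have hfx : f * (cj f 0 x * cj f 1 x * cj f 2 x * cj f 3 x * cj f 4 x) =
      (cj f 0 x * cj f 1 x * cj f 2 x * cj f 3 x * cj f 4 x) * f := by
    have e1 : f * (cj f 0 x * cj f 1 x * cj f 2 x * cj f 3 x * cj f 4 x) * f⁻¹ =
        cj f 1 x * cj f 2 x * cj f 3 x * cj f 4 x * cj f 5 x := by
      unfold cj; group
    have e5 : cj f 5 x = cj f 0 x := by rw [cj_mod hf5 5]
    rw [e5] at e1
    have a : ∀ i : ℕ, 0 < i → i < 5 → cj f i x * cj f 0 x = z * (cj f 0 x * cj f i x) := by
      intro i hi hi5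
      have h6 : cj f i x * cj f 0 x = z ^ 1 * (cj f 0 x * cj f i x) := rs (hall 0 i hi hi5)
      rwa [pow_one] at h6
    have zl : ∀ i : ℕ, ∀ r : C, cj f i x * (z * r) = z * (cj f i x * r) := fun i r => by
      rw [← mul_assoc, h.zC, mul_assoc]
    have zz' : ∀ r : C, z * (z * r) = r := fun r => by rw [← mul_assoc, h.zz, one_mul]
    have a' : ∀ i : ℕ, 0 < i → i < 5 → ∀ r, cj f i x * (cj f 0 x * r) = z * (cj f 0 x * (cj f i x * r)) := by
      intro i hi hi5 r
      rw [← mul_assoc, a i hi hi5]; simp only [mul_assoc]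
    have e2 : cj f 1 x * cj f 2 x * cj f 3 x * cj f 4 x * cj f 0 x =
        cj f 0 x * cj f 1 x * cj f 2 x * cj f 3 x * cj f 4 x := by
      simp only [mul_assoc]
      rw [a 4 (by norm_num) (by norm_num), zl, a' 3 (by norm_num) (by norm_num), zz', a' 2 (by norm_num) (by norm_num), zl,
        a' 1 (by norm_num) (by norm_num), zz']
    rw [e2, mul_inv_eq_iff_eq_mul] at e1
    exact e1
  have hQ' : cj f 0 x * cj f 1 x * cj f 2 x * cj f 3 x * cj f 4 x ∈ Q :=
    mul_mem (mul_mem (mul_mem (mul_mem (cjQ _ _ hx) (cjQ _ _ hx)) (cjQ _ _ hx)) (cjQ _ _ hx)) (cjQ _ _ hx)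
  rcases fixf h hf hQ' hfx with h6 | h6
  · exact key 1 (Or.inl rfl) h6
  · exact key z (Or.inr rfl) h6

end H58.J2C
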