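import Mathlib
import Cfsg.Agent.Lib.H58.J2E

/-! The action of `C` on the five pairs (helper58). -/

set_option autoImplicit false
set_option linter.style.haveILetI false
set_option maxRecDepth 100000
set_option linter.unusedSectionVars false

namespace H58.J2C

open H58.J2A H58.J2B Subgroup

variable {C : Type*} [Group C] [Finite C]

structure ACC (Q : Subgroup C) (z : C) (e : Fin 5 → C) : Prop where
  qd : QD Q z
  ac : AC z e
  eQ : ∀ i, e i ∈ Q

variable {Q : Subgroup C} {z : C} {e : Fin 5 → C}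

theorem T_mem (h : ACC Q z e) (q : ℕ) : T z e q ∈ Q := by
  unfold T TT'
  exact mul_mem (pow_mem (h.eQ _) _) (mul_mem (pow_mem (h.eQ _) _) (mul_mem (pow_mem (h.eQ _) _)
    (mul_mem (pow_mem (h.eQ _) _) (pow_mem h.qd.zQ _))))

theorem exists_T (h : ACC Q z e) {x : C} (hx : x ∈ Q) : ∃ q < 32, T z e q = x := by
  let F : Fin 32 → Q := fun q => ⟨T z e q.val, T_mem h _⟩
  have hF : Function.Injective F := by
    intro a b hab
    exact Fin.ext (T_inj h.ac a.isLt b.isLt (congrArg Subtype.val hab))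
  have hc : Nat.card (Fin 32) = Nat.card Q := by rw [Nat.card_fin, h.qd.card]
  have hb := (Nat.bijective_iff_injective_and_card F).2 ⟨hF, hc⟩
  obtain ⟨q, hq⟩ := hb.2 ⟨x, hx⟩
  exact ⟨q.val, q.isLt, congrArg Subtype.val hq⟩

/-- permuted -/
def PJ (z : C) (e : Fin 5 → C) (c : C) (i j : Fin 5) : Prop := c * e i * c⁻¹ = e j ∨ c * e i * c⁻¹ = z * e j

theorem PJ_unique (h : ACC Q z e) {c : C} {i j k : Fin 5} (h1 : PJ z e c i j) (h2 : PJ z e c i k) : j = k := by
  by_contra hjk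
  have h3 := h.ac.ac j k hjk
  have hzz := h.ac.zz
  -- e j = z ^ δ * e k
  have h4 : e j = e k ∨ e j = z * e k := by
    rcases h1 with h1 | h1 <;> rcases h2 with h2 | h2
    · left; rw [← h1, h2]
    · right; rw [← h1, h2]
    · right
      rw [← h2, h1, ← mul_assoc, hzz, one_mul]
    · left
      exact mul_left_cancel (h1.symm.trans h2)
  have h5 : e j * e k = e k * e j := by
    rcases h4 with h4 | h4
    · rw [h4]
    · rw [h4, mul_assoc, ← mul_assoc (e k) z, h.ac.zc, mul_assoc]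
  rw [h5] at h3
  have h6 : (1 : C) = z := mul_right_cancel (b := e k * e j) (by rw [one_mul]; exact h3)
  exact h.ac.z1 h6.symm

theorem invol0 : allN (fun q => Bool.or (Bool.not (Nat.beq (qm q q) 0)) (Bool.or (Nat.beq q 0) (Bool.or (Nat.beq q 16)
    (Bool.not (allN (fun i => Bool.and (Bool.not (Nat.beq q (EC i))) (Bool.not (Nat.beq q (qm 16 (EC i))))) 5))))) 32 = true := by
  decide +kernel

theorem invol (h : ACC Q z e) {x : C} (hx : x ∈ Q) (hxx : x * x = 1) (hx1 : x ≠ 1) (hxz : x ≠ z) :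
    ∃ i, x = e i ∨ x = z * e i := by
  obtain ⟨q, hq, rfl⟩ := exists_T h hx
  have h0 := allN_iff.1 invol0 q hq
  simp only [Bool.or_eq_true, Bool.not_eq_true', Nat.beq_eq] at h0
  rcases h0 with h0 | h0 | h0 | h0
  · exfalso
    rw [← T_mul h.ac hq hq] at hxx
    have := T_eq_one h.ac (q_lt hq hq) hxx
    rw [this] at h0
    exact absurd h0 (by decide)
  · rw [h0] at hx1; exact absurd T_zero hx1
  · rw [h0] at hxz; exact absurd T_16 hxz
  · have h1 : ∃ i < 5, ¬ (Bool.and (Bool.not (Nat.beq q (EC i))) (Bool.not (Nat.beq q (qm 16 (EC i)))) = true) := by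
      by_contra hcon
      push Not at hcon
      rw [allN_iff.2 hcon] at h0
      exact absurd h0 (by decide)
    obtain ⟨i, hi, hi2⟩ := h1
    have h2 : q = EC i ∨ q = qm 16 (EC i) := by
      by_contra hcon
      push Not at hcon
      apply hi2
      simp only [Bool.and_eq_true, Bool.not_eq_true', ← Bool.not_eq_true, Nat.beq_eq]
      exact hcon
    refine ⟨⟨i, hi⟩, ?_⟩
    rcases h2 with h2 | h2
    · left; rw [h2]; exact T_EC h.ac ⟨i, hi⟩
    · right
      rw [h2, T_mul h.ac (by norm_num) (EC_lt ⟨i, hi⟩), T_16]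
      congr 1
      exact T_EC h.ac ⟨i, hi⟩

theorem e_ne (h : ACC Q z e) (i : Fin 5) : e i ≠ 1 ∧ e i ≠ z := by
  obtain ⟨j, hj⟩ : ∃ j : Fin 5, i ≠ j := ⟨i + 1, by revert i; decide⟩
  have h1 := h.ac.ac i j hj
  constructor
  · intro h2
    rw [h2, one_mul, mul_one] at h1
    exact h.ac.z1 (by
      have := congrArg (fun x => x * (e j)⁻¹) h1
      simpa using this.symm)
  · intro h2
    rw [h2, h.ac.zc] at h1
    have h6 : (1 : C) = z := mul_right_cancel (b := z * e j) (by rw [one_mul]; exact h1)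
    exact h.ac.z1 h6.symm

theorem PJ_exists (h : ACC Q z e) (c : C) (i : Fin 5) : ∃ j, PJ z e c i j := by
  have h1 := h.qd.nrm c _ (h.eQ i)
  have h2 : c * e i * c⁻¹ * (c * e i * c⁻¹) = 1 := by
    have : c * e i * c⁻¹ * (c * e i * c⁻¹) = c * (e i * e i) * c⁻¹ := by group
    rw [this, h.ac.sq]; simp
  apply invol h h1 h2
  · intro h3
    apply (e_ne h i).1
    have := congrArg (fun x => c⁻¹ * x * c) h3
    simpa [mul_assoc] using this
  · intro h3
    apply (e_ne h i).2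
    have := congrArg (fun x => c⁻¹ * x * c) h3
    simp only [mul_assoc, inv_mul_cancel_left, inv_mul_cancel, mul_one] at this
    rw [this, ← h.qd.zC, inv_mul_cancel_left]

noncomputable def pi (h : ACC Q z e) (c : C) (i : Fin 5) : Fin 5 := Classical.choose (PJ_exists h c i)
theorem pi_spec (h : ACC Q z e) (c : C) (i : Fin 5) : PJ z e c i (pi h c i) := Classical.choose_spec (PJ_exists h c i)
theorem pi_eq (h : ACC Q z e) {c : C} {i j : Fin 5} (h1 : PJ z e c i j) : pi h c i = j := PJ_unique h (pi_spec h c i) h1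

theorem PJ_mul (h : ACC Q z e) {c d : C} {i j k : Fin 5} (h1 : PJ z e d i j) (h2 : PJ z e c j k) : PJ z e (c * d) i k := by
  have e1 : c * d * e i * (c * d)⁻¹ = c * (d * e i * d⁻¹) * c⁻¹ := by group
  unfold PJ
  rw [e1]
  have hzz := h.ac.zz
  have zz' : ∀ r : C, z * (z * r) = r := fun r => by rw [← mul_assoc, hzz, one_mul]
  have e2 : ∀ x : C, c * (z * x) * c⁻¹ = z * (c * x * c⁻¹) := fun x => by
    rw [← mul_assoc, h.qd.zC]; simp only [mul_assoc]
  rcases h1 with h1 | h1 <;> rcases h2 with h2 | h2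
  · left; rw [h1, h2]
  · right; rw [h1, h2]
  · right; rw [h1, e2, h2]
  · left; rw [h1, e2, h2, zz']

theorem pi_mul (h : ACC Q z e) (c d : C) (i : Fin 5) : pi h (c * d) i = pi h c (pi h d i) :=
  pi_eq h (PJ_mul h (pi_spec h d i) (pi_spec h c _))

theorem pi_one (h : ACC Q z e) (i : Fin 5) : pi h 1 i = i := pi_eq h (Or.inl (by simp))

noncomputable def piH (h : ACC Q z e) : C →* Equiv.Perm (Fin 5) where
  toFun c := ⟨pi h c, pi h c⁻¹, fun i => by rw [← pi_mul, inv_mul_cancel, pi_one], fun i => by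
    rw [← pi_mul, mul_inv_cancel, pi_one]⟩
  map_one' := by ext i; simp [pi_one]
  map_mul' c d := by ext i; simp [pi_mul]

theorem piH_apply (h : ACC Q z e) (c : C) (i : Fin 5) : piH h c i = pi h c i := rfl

theorem sgn0 : allN (fun d => Bool.not (allN (fun q => Bool.not (allN (fun i =>
    Nat.beq (qm q (EC i)) (qm (Nat.mul 16 (Nat.mod (Nat.shiftRight d i) 2)) (qm (EC i) q))) 4)) 32)) 16 = true := by decide +kernel

theorem centr (h : ACC Q z e) {c : C} (hc : ∀ i : Fin 5, i.val < 4 → c * e i = e i * c) : c = 1 ∨ c = z := by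
  apply h.qd.cc
  intro q hq
  obtain ⟨a, _, rfl⟩ := exists_T h hq
  have hh : ∀ i : Fin 5, i.val < 4 → ∀ n : ℕ, Commute (e i ^ n) c := fun i hi n =>
    ((show Commute c (e i) from hc i hi).pow_right n).symm
  have hz : ∀ n : ℕ, Commute (z ^ n) c := fun n => ((show Commute c z from h.qd.zC c).pow_right n).symm
  unfold T TT'
  exact ((hh 0 (by decide) _).mul_left ((hh 1 (by decide) _).mul_left ((hh 2 (by decide) _).mul_left
    ((hh 3 (by decide) _).mul_left (hz _)))))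

theorem dig (a b c d : Bool) : (cond a 1 0) + 2 * (cond b 1 0) + 4 * (cond c 1 0) + 8 * (cond d 1 0) < 16 ∧
    Nat.mod (Nat.shiftRight ((cond a 1 0) + 2 * (cond b 1 0) + 4 * (cond c 1 0) + 8 * (cond d 1 0)) 0) 2 = cond a 1 0 ∧
    Nat.mod (Nat.shiftRight ((cond a 1 0) + 2 * (cond b 1 0) + 4 * (cond c 1 0) + 8 * (cond d 1 0)) 1) 2 = cond b 1 0 ∧
    Nat.mod (Nat.shiftRight ((cond a 1 0) + 2 * (cond b 1 0) + 4 * (cond c 1 0) + 8 * (cond d 1 0)) 2) 2 = cond c 1 0 ∧
    Nat.mod (Nat.shiftRight ((cond a 1 0) + 2 * (cond b 1 0) + 4 * (cond c 1 0) + 8 * (cond d 1 0)) 3) 2 = cond d 1 0 := by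
  cases a <;> cases b <;> cases c <;> cases d <;> decide

/-- adjusting signs -/
theorem adj (h : ACC Q z e) (d : Fin 5 → Bool) : ∃ q ∈ Q, ∀ i : Fin 5, i.val < 4 → q * e i * q⁻¹ = cond (d i) (z * e i) (e i) := by
  obtain ⟨h1, g0, g1, g2, g3⟩ := dig (d 0) (d 1) (d 2) (d 3)
  set dd : ℕ := (cond (d 0) 1 0) + 2 * (cond (d 1) 1 0) + 4 * (cond (d 2) 1 0) + 8 * (cond (d 3) 1 0) with hdd
  have h2 : ∀ i : Fin 5, i.val < 4 → Nat.mod (Nat.shiftRight dd i.val) 2 = cond (d i) 1 0 := by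
    intro i hi
    obtain ⟨i, hi'⟩ := i
    change i < 4 at hi
    interval_cases i
    · exact g0
    · exact g1
    · exact g2
    · exact g3
  have h3 := allN_iff.1 sgn0 dd h1
  rw [Bool.not_eq_true'] at h3
  have h4 : ∃ q < 32, ¬ (Bool.not (allN (fun i =>
    Nat.beq (qm q (EC i)) (qm (Nat.mul 16 (Nat.mod (Nat.shiftRight dd i) 2)) (qm (EC i) q))) 4) = true) := by
    by_contra hcon
    push Not at hcon
    rw [allN_iff.2 hcon] at h3
    exact absurd h3 (by decide)
  obtain ⟨q, hq, hq2⟩ := h4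
  rw [Bool.not_eq_true', Bool.not_eq_false] at hq2
  refine ⟨T z e q, T_mem h q, ?_⟩
  intro i hi
  have h5 := Nat.eq_of_beq_eq_true (allN_iff.1 hq2 i.val hi)
  rw [h2 i hi] at h5
  have h6 := congrArg (T z e) h5
  have hl : Nat.mul 16 (cond (d i) 1 0) < 32 := by rcases d i <;> decide
  rw [T_mul h.ac hq (EC_lt i), T_mul h.ac hl (q_lt (EC_lt i) hq), T_mul h.ac (EC_lt i) hq, T_EC h.ac] at h6
  rw [h6]
  rcases d i
  · change T z e 0 * (e i * T z e q) * (T z e q)⁻¹ = e i
    rw [T_zero]; group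
  · change T z e 16 * (e i * T z e q) * (T z e q)⁻¹ = z * e i
    rw [T_16]; group

theorem conj_z (h : ACC Q z e) (c x : C) : c * (z * x) * c⁻¹ = z * (c * x * c⁻¹) := by
  rw [← mul_assoc, h.qd.zC]; simp only [mul_assoc]

theorem zz' (h : ACC Q z e) (x : C) : z * (z * x) = x := by rw [← mul_assoc, h.ac.zz, one_mul]

theorem adj' (h : ACC Q z e) (c : C) :
    ∃ q ∈ Q, ∀ i : Fin 5, i.val < 4 → c * q * e i * (c * q)⁻¹ = e (pi h c i) := by
  classical
  obtain ⟨q, hq, hq2⟩ := adj h (fun i => decide (c * e i * c⁻¹ = z * e (pi h c i)))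
  refine ⟨q, hq, fun i hi => ?_⟩
  have e1 : c * q * e i * (c * q)⁻¹ = c * (q * e i * q⁻¹) * c⁻¹ := by group
  rw [e1, hq2 i hi]
  by_cases h1 : c * e i * c⁻¹ = z * e (pi h c i)
  · simp only [h1, decide_true, cond_true]
    rw [conj_z h, h1, zz' h]
  · simp only [h1, decide_false, cond_false]
    exact (pi_spec h c i).resolve_right h1

theorem ker_piH (h : ACC Q z e) : (piH h).ker = Q := by
  ext c
  rw [MonoidHom.mem_ker]
  constructor
  · intro hc
    have hc' : ∀ i, pi h c i = i := fun i => by rw [← piH_apply, hc]; rfl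
    obtain ⟨q, hq, hq2⟩ := adj' h c
    have h1 : c * q = 1 ∨ c * q = z := by
      apply centr h
      intro i hi
      have := hq2 i hi
      rw [hc', mul_inv_eq_iff_eq_mul] at this
      exact this
    have h2 : c * q ∈ Q := by
      rcases h1 with h1 | h1
      · rw [h1]; exact one_mem _
      · rw [h1]; exact h.qd.zQ
    exact (mul_mem_cancel_right hq).1 h2
  · intro hc
    ext i
    rw [piH_apply, pi_eq h (c := c) (i := i) (j := i)]
    · rfl
    · rcases h.qd.comm c hc _ (h.eQ i) with h1 | h1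
      · left; rw [h1]; group
      · right; rw [h1]; group

theorem card_range_piH (h : ACC Q z e) : Nat.card (piH h).range = 60 := by
  have h1 := Subgroup.card_eq_card_quotient_mul_card_subgroup (piH h).ker
  rw [ker_piH h, h.qd.card, h.qd.cardC] at h1
  have h2 : Nat.card (C ⧸ (piH h).ker) = Nat.card (piH h).range :=
    Nat.card_congr (QuotientGroup.quotientKerEquivRange (piH h)).toEquiv
  rw [← h2, ker_piH h]
  omega

theorem range_piH (h : ACC Q z e) : (piH h).range = alternatingGroup (Fin 5) := by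
  apply Equiv.Perm.eq_alternatingGroup_of_index_eq_two
  have h1 := Subgroup.index_mul_card (piH h).range
  rw [card_range_piH h, Nat.card_perm, Nat.card_fin] at h1
  have : Nat.factorial 5 = 120 := rfl
  omega

def pf (p : ℕ) (i : Fin 5) : Fin 5 := ⟨Nat.mod (pe p i.val) 5, Nat.mod_lt _ (by norm_num)⟩

theorem pf_inv : ∀ p : Fin 60, ∀ i : Fin 5, pf (ai p.val) (pf p.val i) = i ∧ pf p.val (pf (ai p.val) i) = i := by decide +kernel

def sp (p : Fin 60) : Equiv.Perm (Fin 5) := ⟨pf p.val, pf (ai p.val), fun i => (pf_inv p i).1, fun i => (pf_inv p i).2⟩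

theorem sp_sign : ∀ p : Fin 60, Equiv.Perm.sign (sp p) = 1 := by decide +kernel

theorem sp_inj0 : ∀ p r : Fin 60, (∀ i, pf p.val i = pf r.val i) → p = r := by decide +kernel

theorem sp_surj {σ : Equiv.Perm (Fin 5)} (hσ : σ ∈ alternatingGroup (Fin 5)) : ∃ p : Fin 60, sp p = σ := by
  let F : Fin 60 → alternatingGroup (Fin 5) := fun p => ⟨sp p, Equiv.Perm.mem_alternatingGroup.2 (sp_sign p)⟩
  have hF : Function.Injective F := by
    intro a b hab
    apply sp_inj0
    intro i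
    have := congrArg Subtype.val hab
    exact congrArg (fun f : Equiv.Perm (Fin 5) => f i) this
  have hc : Nat.card (Fin 60) = Nat.card (alternatingGroup (Fin 5)) := by
    rw [Nat.card_fin, nat_card_alternatingGroup, Nat.card_fin]; rfl
  obtain ⟨p, hp⟩ := ((Nat.bijective_iff_injective_and_card F).2 ⟨hF, hc⟩).2 ⟨σ, hσ⟩
  exact ⟨p, congrArg Subtype.val hp⟩

/-- lifts -/
def IsL (e : Fin 5 → C) (c : C) (p : ℕ) : Prop := ∀ i : Fin 5, c * e i * c⁻¹ = e (pf p i)

theorem prod0 : allN (fun p => Nat.beq (qm (qm (qm (qm (EC (pf p 0).val) (EC (pf p 1).val)) (EC (pf p 2).val)) (EC (pf p 3).val))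
    (EC (pf p 4).val)) 0) 60 = true := by decide +kernel

theorem prodp (h : ACC Q z e) {p : ℕ} (hp : p < 60) : e (pf p 0) * e (pf p 1) * e (pf p 2) * e (pf p 3) * e (pf p 4) = 1 := by
  have h1 := Nat.eq_of_beq_eq_true (allN_iff.1 prod0 p hp)
  have h2 := congrArg (T z e) h1
  rw [T_mul h.ac (q_lt (q_lt (q_lt (EC_lt _) (EC_lt _)) (EC_lt _)) (EC_lt _)) (EC_lt _),
    T_mul h.ac (q_lt (q_lt (EC_lt _) (EC_lt _)) (EC_lt _)) (EC_lt _),
    T_mul h.ac (q_lt (EC_lt _) (EC_lt _)) (EC_lt _), T_mul h.ac (EC_lt _) (EC_lt _), T_EC h.ac, T_EC h.ac, T_EC h.ac,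
    T_EC h.ac, T_EC h.ac, T_zero] at h2
  exact h2

theorem L_of_four (h : ACC Q z e) {c : C} {p : ℕ} (hp : p < 60) (hc : ∀ i : Fin 5, i.val < 4 → c * e i * c⁻¹ = e (pf p i)) :
    IsL e c p := by
  intro i
  by_cases hi : i.val < 4
  · exact hc i hi
  · have h4 : i = 4 := by
      apply Fin.ext
      have := i.isLt
      change i.val = 4
      omega
    rw [h4]
    have h1 := prodp h hp
    rw [← hc 0 (by decide), ← hc 1 (by decide), ← hc 2 (by decide), ← hc 3 (by decide)] at h1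
    have h2 : c * (e 0 * e 1 * e 2 * e 3) * c⁻¹ * e (pf p 4) = 1 := by
      rw [← h1]; group
    have h3 : c * (e 0 * e 1 * e 2 * e 3) * c⁻¹ * (c * e 4 * c⁻¹) = 1 := by
      have : c * (e 0 * e 1 * e 2 * e 3) * c⁻¹ * (c * e 4 * c⁻¹) = c * (e 0 * e 1 * e 2 * e 3 * e 4) * c⁻¹ := by group
      rw [this, h.ac.pr]; simp
    exact mul_left_cancel (h3.trans h2.symm)

theorem exists_L (h : ACC Q z e) (c : C) : ∃ p < 60, ∃ q ∈ Q, IsL e (c * q) p := by
  have h1 : piH h c ∈ alternatingGroup (Fin 5) := by rw [← range_piH h]; exact ⟨c, rfl⟩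
  obtain ⟨p, hp⟩ := sp_surj h1
  obtain ⟨q, hq, hq2⟩ := adj' h c
  refine ⟨p.val, p.isLt, q, hq, L_of_four h p.isLt ?_⟩
  intro i hi
  rw [hq2 i hi, ← piH_apply, ← hp]
  rfl

theorem exists_lift (h : ACC Q z e) {p : ℕ} (hp : p < 60) : ∃ c, IsL e c p := by
  have h1 : sp ⟨p, hp⟩ ∈ (piH h).range := by
    rw [range_piH h]; exact Equiv.Perm.mem_alternatingGroup.2 (sp_sign _)
  obtain ⟨c, hc⟩ := h1
  obtain ⟨q, hq, hq2⟩ := adj' h c
  refine ⟨c * q, L_of_four h hp ?_⟩
  intro i hi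
  rw [hq2 i hi, ← piH_apply, hc]
  rfl

theorem L_uniq (h : ACC Q z e) {c d : C} {p : ℕ} (hc : IsL e c p) (hd : IsL e d p) : d = c ∨ d = z * c := by
  have h1 : c⁻¹ * d = 1 ∨ c⁻¹ * d = z := by
    apply centr h
    intro i _
    have h2 := (hc i).trans (hd i).symm
    have h3 : c⁻¹ * (c * e i * c⁻¹) * d = c⁻¹ * (d * e i * d⁻¹) * d := by rw [h2]
    have h4 : c⁻¹ * (c * e i * c⁻¹) * d = e i * (c⁻¹ * d) := by group
    have h5 : c⁻¹ * (d * e i * d⁻¹) * d = c⁻¹ * d * e i := by group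
    rw [h4, h5] at h3
    exact h3.symm
  rcases h1 with h1 | h1
  · left; rw [inv_mul_eq_iff_eq_mul, mul_one] at h1; exact h1
  · right; rw [inv_mul_eq_iff_eq_mul, h.qd.zC] at h1; exact h1

theorem pf_mul0 : ∀ p r : Fin 60, ∀ i : Fin 5, pf (am p.val r.val) i = pf p.val (pf r.val i) := by decide +kernel

theorem L_mul {c d : C} {p r : ℕ} (hp : p < 60) (hr : r < 60) (hc : IsL e c p) (hd : IsL e d r) : IsL e (c * d) (am p r) := by
  intro i
  have e1 : c * d * e i * (c * d)⁻¹ = c * (d * e i * d⁻¹) * c⁻¹ := by group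
  rw [e1, hd i, hc, pf_mul0 ⟨p, hp⟩ ⟨r, hr⟩ i]

theorem L_one : IsL e (1 : C) 0 := by
  intro i
  have : pf 0 i = i := by revert i; decide +kernel
  rw [this]; simp

theorem L_z (h : ACC Q z e) {c : C} {p : ℕ} (hc : IsL e c p) : IsL e (z * c) p := by
  intro i
  rw [← hc i, mul_inv_rev]
  have : z * c * e i * (c⁻¹ * z⁻¹) = z * (c * e i * c⁻¹) * z⁻¹ := by group
  rw [this, ← h.qd.zC, mul_inv_cancel_right]

theorem L_p (h : ACC Q z e) {c : C} {p r : ℕ} (hp : p < 60) (hr : r < 60) (hc : IsL e c p) (hd : IsL e c r) : p = r := by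
  have h1 := sp_inj0 ⟨p, hp⟩ ⟨r, hr⟩ (fun i => by
    have h2 := (hc i).symm.trans (hd i)
    apply PJ_unique h (c := 1) (i := pf p i) (Or.inl (by simp)) (Or.inl (by simpa using h2)))
  exact congrArg Fin.val h1

theorem L_inv (h : ACC Q z e) {c : C} {p : ℕ} (hp : p < 60) (hc : IsL e c p) : IsL e c⁻¹ (ai p) := by
  intro i
  have h1 := hc (pf (ai p) i)
  rw [(pf_inv ⟨p, hp⟩ i).2] at h1
  rw [← h1]; group

end H58.J2C
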