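import Mathlib
import Cfsg.Agent.Lib.H58.J2F
import Cfsg.Agent.Lib.H58.TransferTwo

/-! A complement to `Q` in `C` and the isomorphism with the model (helper58). -/

set_option autoImplicit false
set_option linter.style.haveILetI false
set_option maxRecDepth 100000
set_option linter.unusedSectionVars false

namespace H58.J2C

open H58.J2A H58.J2B Subgroup MulAction

/-- transfer: a central involution avoided by a maximal subgroup of a Sylow 2-subgroup -/
theorem exists_compl {G : Type*} [Group G] [Finite G] (S : Sylow 2 G) (M : Subgroup G)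
    (hM : M.relIndex (S : Subgroup G) = 2) (x : G) (hx : x ∈ (S : Subgroup G))
    (hpow : ∀ r : ℕ, 2 ∣ r → ∀ g : G, g⁻¹ * x ^ r * g ∈ (S : Subgroup G) → g⁻¹ * x ^ r * g ∈ M)
    (hconj : ∀ g : G, g * x * g⁻¹ ∉ M) : ∃ H : Subgroup G, H.Normal ∧ H.index = 2 ∧ x ∉ H := by
  classical
  have : Fact (Nat.Prime 2) := ⟨Nat.prime_two⟩
  let ϕ : ↥(S : Subgroup G) →* ℤˣ := H58.TransferTwo.sgn (M.subgroupOf (S : Subgroup G)) hM
  have hfi : (S : Subgroup G).FiniteIndex := inferInstance
  let V : G →* ℤˣ := MonoidHom.transfer ϕ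
  have : Fintype (G ⧸ (S : Subgroup G)) := Fintype.ofFinite _
  have hVx : V x = ∏ q : Quotient (orbitRel (zpowers x) (G ⧸ (S : Subgroup G))),
      (-1 : ℤˣ) ^ (Function.minimalPeriod (x • ·) q.out) := by
    change MonoidHom.transfer ϕ x = _
    rw [MonoidHom.transfer_eq_prod_quotient_orbitRel_zpowers_quot]
    refine Finset.prod_congr rfl fun q _ => ?_
    set r := Function.minimalPeriod (x • ·) q.out with hr
    have hmem := QuotientGroup.out_conj_pow_minimalPeriod_mem (S : Subgroup G) x q.out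
    rw [← hr] at hmem
    -- r divides a power of two
    have hr2 : r = 1 ∨ 2 ∣ r := by
      obtain ⟨k, hk⟩ := S.isPGroup' ⟨x, hx⟩
      have hxk : x ^ (2 ^ k) = 1 := by simpa using congrArg Subtype.val hk
      have h1 : r ∣ 2 ^ k := by
        rw [hr, ← MulAction.pow_smul_eq_iff_minimalPeriod_dvd, hxk, one_smul]
      obtain ⟨j, _, hj⟩ := (Nat.dvd_prime_pow Nat.prime_two).1 h1
      rcases j with _ | j
      · left; simpa using hj
      · right; rw [hj]; exact dvd_pow_self 2 (Nat.succ_ne_zero j)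
    rcases hr2 with h1 | h2
    · have e1 : ((-1 : ℤˣ) ^ r) = -1 := by rw [h1, pow_one]
      refine Eq.trans ?_ e1.symm
      apply H58.TransferTwo.sgn_of_notMem
      rw [Subgroup.mem_subgroupOf]
      change q.out.out⁻¹ * x ^ r * q.out.out ∉ M
      rw [h1, pow_one]
      have := hconj q.out.out⁻¹
      rwa [inv_inv] at this
    · refine Eq.trans ?_ (even_iff_two_dvd.2 h2).neg_one_pow.symm
      apply H58.TransferTwo.sgn_of_mem
      rw [Subgroup.mem_subgroupOf]
      exact hpow r h2 _ hmem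
  have hne : V x ≠ 1 := by
    rw [hVx, Finset.prod_pow_eq_pow_sum, ← Subgroup.index_eq_sum_minimalPeriod]
    have hodd : Odd (S : Subgroup G).index := by
      rw [← Nat.not_even_iff_odd, even_iff_two_dvd]
      exact S.not_dvd_index
    rw [hodd.neg_one_pow]
    decide
  exact ⟨V.ker, inferInstance, H58.TransferTwo.index_ker_eq_two V (x := x) hne, fun hh => hne hh⟩

variable {C : Type*} [Group C] [Finite C]
variable {Q : Subgroup C} {z : C} {e : Fin 5 → C}

theorem noq0 : allN (fun p => Bool.or (Nat.beq p 0) (Bool.or (Bool.not (Nat.beq (am p p) 0))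
    (allN (fun a => Bool.not (Nat.beq (qm (ph p a) a) 16)) 32))) 60 = true := by decide +kernel

def ep (p : ℕ) (i : Fin 5) (d : ℕ) : ℕ := cond (Nat.beq d 0) 0 (EC (pf p i).val)

theorem ep_lt (p : ℕ) (i : Fin 5) (d : ℕ) : ep p i d < 32 := by
  unfold ep
  rcases Nat.beq d 0
  · exact EC_lt _
  · exact (by norm_num : (0 : ℕ) < 32)

theorem T_ep (h : ACC Q z e) (p : ℕ) (i : Fin 5) {d : ℕ} (hd : d < 2) : T z e (ep p i d) = e (pf p i) ^ d := by
  interval_cases d
  · change T z e 0 = _; rw [T_zero, pow_zero]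
  · change T z e (EC _) = _; rw [T_EC h.ac, pow_one]

theorem ph0 : allN (fun p => allN (fun q => Nat.beq (ph p q) (qm (ep p 0 (q % 2)) (qm (ep p 1 (q / 2 % 2))
    (qm (ep p 2 (q / 4 % 2)) (qm (ep p 3 (q / 8 % 2)) (Nat.mul 16 (q / 16))))))) 32) 60 = true := by decide +kernel

theorem T_ph (h : ACC Q z e) {p q : ℕ} (hp : p < 60) (hq : q < 32) {c : C} (hc : IsL e c p) :
    c * T z e q * c⁻¹ = T z e (ph p q) := by
  have h1 := Nat.eq_of_beq_eq_true (allN_iff.1 (allN_iff.1 ph0 p hp) q hq)
  have hs : q / 16 < 2 := by omega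
  have h2 : Nat.mul 16 (q / 16) < 32 := by
    change 16 * (q / 16) < 32
    omega
  have h3 : T z e (Nat.mul 16 (q / 16)) = z ^ (q / 16) := by
    interval_cases (q / 16)
    · change T z e 0 = _; rw [T_zero, pow_zero]
    · change T z e 16 = _; rw [T_16, pow_one]
  rw [h1, T_mul h.ac (ep_lt _ _ _) (q_lt (ep_lt _ _ _) (q_lt (ep_lt _ _ _) (q_lt (ep_lt _ _ _) h2))),
    T_mul h.ac (ep_lt _ _ _) (q_lt (ep_lt _ _ _) (q_lt (ep_lt _ _ _) h2)),
    T_mul h.ac (ep_lt _ _ _) (q_lt (ep_lt _ _ _) h2), T_mul h.ac (ep_lt _ _ _) h2,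
    T_ep h _ _ (Nat.mod_lt _ (by norm_num)), T_ep h _ _ (Nat.mod_lt _ (by norm_num)), T_ep h _ _ (Nat.mod_lt _ (by norm_num)),
    T_ep h _ _ (Nat.mod_lt _ (by norm_num)), h3, ← hc 0, ← hc 1, ← hc 2, ← hc 3]
  simp only [conj_pow]
  have hz : c * z ^ (q / 16) = z ^ (q / 16) * c := ((show Commute c z from h.qd.zC c).pow_right _)
  have hz2 : z ^ (q / 16) = c * z ^ (q / 16) * c⁻¹ := by rw [hz]; group
  rw [hz2]
  unfold T TT'
  group

theorem pi_of_L (h : ACC Q z e) {c : C} {p : ℕ} (hc : IsL e c p) (i : Fin 5) : piH h c i = pf p i :=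
  pi_eq h (Or.inl (hc i))

theorem pf0 : ∀ i : Fin 5, pf 0 i = i := by decide +kernel

theorem p_of_one (h : ACC Q z e) {c : C} {p : ℕ} (hp : p < 60) (hc : IsL e c p) (hcQ : c ∈ Q) : p = 0 := by
  have h1 : piH h c = 1 := by
    rw [← MonoidHom.mem_ker, ker_piH h]; exact hcQ
  have h2 := sp_inj0 ⟨p, hp⟩ ⟨0, by norm_num⟩ (fun i => by
    rw [← pi_of_L h hc i, h1, pf0]; rfl)
  exact congrArg Fin.val h2

/-- all lifts of double transpositions are involutions -/
theorem dt_conj0 : allN (fun p => Bool.or (Nat.beq p 0) (Bool.or (Bool.not (Nat.beq (am p p) 0))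
    (allN (fun r => Bool.or (Nat.beq r 0) (Bool.or (Bool.not (Nat.beq (am r r) 0))
      (Bool.not (allN (fun g => Bool.not (Nat.beq (am (am g p) (ai g)) r)) 60)))) 60))) 60 = true := by decide +kernel

theorem dt_conj {p r : ℕ} (hp : p < 60) (hp0 : p ≠ 0) (hpp : am p p = 0) (hr : r < 60) (hr0 : r ≠ 0) (hrr : am r r = 0) :
    ∃ g < 60, am (am g p) (ai g) = r := by
  have h0 := allN_iff.1 dt_conj0 p hp
  simp only [Bool.or_eq_true, Nat.beq_eq, Bool.not_eq_true'] at h0
  rcases h0 with h0 | h0 | h0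
  · exact absurd h0 hp0
  · rw [hpp] at h0; exact absurd h0 (by decide)
  · have h1 := allN_iff.1 h0 r hr
    simp only [Bool.or_eq_true, Nat.beq_eq, Bool.not_eq_true'] at h1
    rcases h1 with h1 | h1 | h1
    · exact absurd h1 hr0
    · rw [hrr] at h1; exact absurd h1 (by decide)
    · by_contra hcon
      push Not at hcon
      have h2 := (allN_iff (f := fun g => Bool.not (Nat.beq (am (am g p) (ai g)) r)) (n := 60)).2 (fun g hg => by
        rw [Bool.not_eq_true', ← Bool.not_eq_true, Nat.beq_eq]; exact hcon g hg)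
      rw [h2] at h1
      exact absurd h1 (by decide)

theorem lift_sq (h : ACC Q z e) {t : C} (ht : t * t = 1) (htQ : t ∉ Q) :
    ∀ p, p < 60 → p ≠ 0 → am p p = 0 → ∀ c, IsL e c p → c * c = 1 := by
  obtain ⟨p, hp, q, hq, hL⟩ := exists_L h t
  set l := t * q with hl
  have htl : t = l * q⁻¹ := by rw [hl]; group
  have hp0 : p ≠ 0 := by
    intro hp0
    rw [hp0] at hL
    rcases L_uniq h L_one hL with h1 | h1
    · apply htQ; rw [htl, h1, one_mul]; exact inv_mem hq
    · apply htQ; rw [htl, h1, mul_one]; exact mul_mem h.qd.zQ (inv_mem hq)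
  have hllQ : l * l ∈ Q := by
    rw [← ker_piH h, MonoidHom.mem_ker]
    have h2 : piH h q = 1 := by rw [← MonoidHom.mem_ker, ker_piH h]; exact hq
    rw [hl, map_mul, map_mul, h2, mul_one, ← map_mul, ht, map_one]
  have hLL : IsL e (l * l) (am p p) := L_mul hp hp hL hL
  have hpp : am p p = 0 := p_of_one h (a_lt hp hp) hLL hllQ
  have hll : l * l = 1 := by
    rw [hpp] at hLL
    rcases L_uniq h L_one hLL with h1 | h1
    · exact h1
    · exfalso
      rw [mul_one] at h1
      obtain ⟨a, ha, haq⟩ := exists_T h (inv_mem hq)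
      have h2 : l * T z e a * l⁻¹ = T z e (ph p a) := T_ph h hp ha hL
      have h3 : T z e (qm (ph p a) a) = z := by
        rw [T_mul h.ac (p_lt hp ha) ha, ← h2]
        have h4 : l * T z e a * l⁻¹ * T z e a = l * T z e a * (l * T z e a) * (T z e a)⁻¹ * (l * l)⁻¹ * T z e a := by group
        rw [h4, haq, ← htl, ht, h1, one_mul, inv_inv]
        have h5 : z⁻¹ = z := inv_eq_of_mul_eq_one_left h.ac.zz
        rw [h5, h.qd.zC, mul_inv_cancel_right]
      have h4 := T_inj h.ac (q_lt (p_lt hp ha) ha) (by norm_num) (h3.trans (T_16 (e := e) (z := z)).symm)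
      have h0 := allN_iff.1 noq0 p hp
      simp only [Bool.or_eq_true, Nat.beq_eq, Bool.not_eq_true'] at h0
      rcases h0 with h0 | h0 | h0
      · exact hp0 h0
      · rw [hpp] at h0; exact absurd h0 (by decide)
      · have h6 := allN_iff.1 h0 a ha
        rw [h4] at h6
        exact absurd h6 (by decide)
  intro p' hp' hp'0 hpp' c hc
  obtain ⟨g, hg, hgp⟩ := dt_conj hp hp0 hpp hp' hp'0 hpp'
  obtain ⟨d, hd⟩ := exists_lift h hg
  have h1 : IsL e (d * l * d⁻¹) p' := by
    rw [← hgp]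
    exact L_mul (a_lt hg hp) (a_inv_lt hg) (L_mul hg hp hd hL) (L_inv h hg hd)
  have h2 : d * l * d⁻¹ * (d * l * d⁻¹) = 1 := by
    have : d * l * d⁻¹ * (d * l * d⁻¹) = d * (l * l) * d⁻¹ := by group
    rw [this, hll]; simp
  rcases L_uniq h h1 hc with h3 | h3
  · rw [h3, h2]
  · rw [h3, mul_assoc, ← mul_assoc (d * l * d⁻¹) z, h.qd.zC, mul_assoc, zz' h, h2]

/-- the group of lifts -/
def Lh (h : ACC Q z e) : Subgroup C where
  carrier := {c | ∃ p < 60, IsL e c p}
  mul_mem' := by
    rintro a b ⟨p, hp, h1⟩ ⟨r, hr, h2⟩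
    exact ⟨am p r, a_lt hp hr, L_mul hp hr h1 h2⟩
  one_mem' := ⟨0, by norm_num, L_one⟩
  inv_mem' := by
    rintro a ⟨p, hp, h1⟩
    exact ⟨ai p, a_inv_lt hp, L_inv h hp h1⟩

theorem card_Lh (h : ACC Q z e) : Nat.card (Lh h) = 120 := by
  let f : Lh h →* Equiv.Perm (Fin 5) := (piH h).comp (Lh h).subtype
  have hr : f.range = alternatingGroup (Fin 5) := by
    apply le_antisymm
    · rintro _ ⟨c, rfl⟩
      rw [← range_piH h]; exact ⟨c, rfl⟩
    · intro σ hσ
      obtain ⟨p, hp⟩ := sp_surj hσ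
      obtain ⟨c, hc⟩ := exists_lift h p.isLt
      refine ⟨⟨c, p.val, p.isLt, hc⟩, ?_⟩
      rw [← hp]
      ext i
      change ((piH h c) i).val = _
      rw [pi_of_L h hc]; rfl
  have hk : Nat.card f.ker = 2 := by
    have hz : z ∈ Lh h := ⟨0, by norm_num, by
      have := L_z h (L_one (e := e)); rwa [mul_one] at this⟩
    have hzk : (⟨z, hz⟩ : Lh h) ∈ f.ker := by
      rw [MonoidHom.mem_ker]
      change piH h z = 1
      rw [← MonoidHom.mem_ker, ker_piH h]; exact h.qd.zQ
    rw [Nat.card_eq_two_iff' (1 : f.ker)]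
    refine ⟨⟨⟨z, hz⟩, hzk⟩, fun hh => h.ac.z1 (congrArg (fun x : f.ker => ((x : Lh h) : C)) hh), ?_⟩
    rintro ⟨⟨c, p, hp, hc⟩, hck⟩ hne
    apply Subtype.ext
    apply Subtype.ext
    change c = z
    rw [MonoidHom.mem_ker] at hck
    have h1 : c ∈ Q := by rw [← ker_piH h, MonoidHom.mem_ker]; exact hck
    have h2 := p_of_one h hp hc h1
    rw [h2] at hc
    rcases L_uniq h L_one hc with h3 | h3
    · exfalso; apply hne; apply Subtype.ext; apply Subtype.ext; exact h3
    · rw [h3, mul_one]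
  have h1 := Subgroup.card_eq_card_quotient_mul_card_subgroup f.ker
  have h2 : Nat.card (Lh h ⧸ f.ker) = Nat.card f.range :=
    Nat.card_congr (QuotientGroup.quotientKerEquivRange f).toEquiv
  rw [h2, hr, nat_card_alternatingGroup, Nat.card_fin, hk] at h1
  rw [h1]; rfl

/-- the section -/
theorem exists_sec (h : ACC Q z e) {t : C} (ht : t * t = 1) (htQ : t ∉ Q) :
    ∃ s : ℕ → C, (∀ p < 60, IsL e (s p) p) ∧ (∀ p < 60, ∀ r < 60, s (am p r) = s p * s r) := by
  classical
  have : Fact (Nat.Prime 2) := ⟨Nat.prime_two⟩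
  have hsq := lift_sq h ht htQ
  obtain ⟨a, ha⟩ := exists_lift h (p := 3) (by norm_num)
  obtain ⟨b, hb⟩ := exists_lift h (p := 8) (by norm_num)
  have hab : IsL e (a * b) 11 := by
    have := L_mul (by norm_num) (by norm_num) ha hb
    have e1 : am 3 8 = 11 := by decide +kernel
    rwa [e1] at this
  have haa : a * a = 1 := hsq 3 (by norm_num) (by norm_num) (by decide +kernel) a ha
  have hbb : b * b = 1 := hsq 8 (by norm_num) (by norm_num) (by decide +kernel) b hb
  have habab : a * b * (a * b) = 1 := hsq 11 (by norm_num) (by norm_num) (by decide +kernel) _ hab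
  have hcomm : b * a = a * b := by
    calc b * a = a * (a * b * (a * b)) * b := by
          rw [show a * (a * b * (a * b)) * b = (a * a) * (b * a) * (b * b) by group, haa, hbb]; simp
      _ = a * b := by rw [habab, mul_one]
  have h1Q : ∀ c ∈ Q, ∀ p, p < 60 → IsL e c p → p = 0 := fun c hc p hp hcp => p_of_one h hp hcp hc
  have ha1 : a ≠ 1 := fun hh => by
    have := h1Q a (by rw [hh]; exact one_mem _) 3 (by norm_num) ha; omega
  have hb1 : b ≠ 1 := fun hh => by
    have := h1Q b (by rw [hh]; exact one_mem _) 8 (by norm_num) hb; omega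
  have hza : z ≠ a := fun hh => by
    have := h1Q a (by rw [← hh]; exact h.qd.zQ) 3 (by norm_num) ha; omega
  have hzb : z ≠ b := fun hh => by
    have := h1Q b (by rw [← hh]; exact h.qd.zQ) 8 (by norm_num) hb; omega
  have hzab : z ≠ a * b := fun hh => by
    have := h1Q (a * b) (by rw [← hh]; exact h.qd.zQ) 11 (by norm_num) hab; omega
  have habn : a ≠ b := fun hh => by
    rw [← hh] at hb
    have := L_p h (by norm_num) (by norm_num) ha hb; omega
  -- inside `Lh`
  set L := Lh h with hLdef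
  let a' : L := ⟨a, 3, by norm_num, ha⟩
  let b' : L := ⟨b, 8, by norm_num, hb⟩
  have hzL : z ∈ L := ⟨0, by norm_num, by have := L_z h (L_one (e := e)); rwa [mul_one] at this⟩
  let z' : L := ⟨z, hzL⟩
  have haa' : a' * a' = 1 := Subtype.ext haa
  have hbb' : b' * b' = 1 := Subtype.ext hbb
  have hcomm' : b' * a' = a' * b' := Subtype.ext hcomm
  have hzz' : z' * z' = 1 := Subtype.ext h.ac.zz
  have hzC' : ∀ x : L, x * z' = z' * x := fun x => Subtype.ext (h.qd.zC x)
  have hainv : a'⁻¹ = a' := inv_eq_of_mul_eq_one_left haa'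
  have hbinv : b'⁻¹ = b' := inv_eq_of_mul_eq_one_left hbb'
  have hzinv : z'⁻¹ = z' := inv_eq_of_mul_eq_one_left hzz'
  -- the four-group
  let M : Subgroup L :=
    { carrier := {1, a', b', a' * b'}
      mul_mem' := by
        have t1 : a' * (a' * b') = b' := by rw [← mul_assoc, haa', one_mul]
        have t2 : b' * (a' * b') = a' := by rw [← mul_assoc, hcomm', mul_assoc, hbb', mul_one]
        have t3 : a' * b' * a' = b' := by rw [mul_assoc, hcomm', t1]
        have t4 : a' * b' * b' = a' := by rw [mul_assoc, hbb', mul_one]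
        have t5 : a' * b' * (a' * b') = 1 := Subtype.ext habab
        rintro x y (rfl | rfl | rfl | rfl) (rfl | rfl | rfl | rfl) <;>
          simp [haa', hbb', hcomm', t1, t2, t3, t4, t5]
      one_mem' := Or.inl rfl
      inv_mem' := by
        rintro x (rfl | rfl | rfl | rfl)
        · left; simp
        · right; left; exact hainv
        · right; right; left; exact hbinv
        · right; right; right
          change (a' * b')⁻¹ = a' * b'
          rw [mul_inv_rev, hainv, hbinv, hcomm'] }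
  have hM1 : ∀ x : L, x ∈ M ↔ x = 1 ∨ x = a' ∨ x = b' ∨ x = a' * b' := fun x => Iff.rfl
  have hzM : z' ∉ M := by
    rw [hM1]
    rintro (hh | hh | hh | hh)
    · exact h.ac.z1 (congrArg Subtype.val hh)
    · exact hza (congrArg Subtype.val hh)
    · exact hzb (congrArg Subtype.val hh)
    · exact hzab (congrArg Subtype.val hh)
  let S : Subgroup L :=
    { carrier := {x | x ∈ M ∨ z' * x ∈ M}
      mul_mem' := by
        rintro x y (hx | hx) (hy | hy)
        · left; exact mul_mem hx hy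
        · right
          have : z' * (x * y) = x * (z' * y) := by rw [← mul_assoc, ← hzC', mul_assoc]
          rw [this]; exact mul_mem hx hy
        · right
          rw [← mul_assoc]; exact mul_mem hx hy
        · left
          have : x * y = z' * x * (z' * y) := by
            rw [← hzC' x, mul_assoc, ← mul_assoc z' z', hzz', one_mul]
          rw [this]; exact mul_mem hx hy
      one_mem' := Or.inl M.one_mem
      inv_mem' := by
        rintro x (hx | hx)
        · left; exact inv_mem hx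
        · right
          have : z' * x⁻¹ = (z' * x)⁻¹ := by rw [mul_inv_rev, hzinv, hzC' x⁻¹]
          rw [this]; exact inv_mem hx }
  have hS1 : ∀ x : L, x ∈ S ↔ x ∈ M ∨ z' * x ∈ M := fun x => Iff.rfl
  have hMS : M ≤ S := fun x hx => Or.inl hx
  have hzS : z' ∈ S := Or.inr (by rw [hzz']; exact one_mem _)
  have hrel : M.relIndex S = 2 := by
    rw [Subgroup.relIndex, index_eq_two_iff_exists_notMem_and]
    refine ⟨⟨z', hzS⟩, ?_, ?_⟩
    · rw [mem_subgroupOf]; exact hzM
    · rintro ⟨x, hx⟩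
      rw [mem_subgroupOf, mem_subgroupOf]
      change x * z' ∈ M ∨ x ∈ M
      rw [hzC' x]
      exact ((hS1 x).1 hx).symm
  have hcardM : Nat.card M = 4 := by
    have h1 : Nat.card M = (({1, a', b', a' * b'} : Set L)).ncard := rfl
    rw [h1]
    have n1 : (1 : L) ≠ a' := fun hh => ha1 (congrArg Subtype.val hh).symm
    have n2 : (1 : L) ≠ b' := fun hh => hb1 (congrArg Subtype.val hh).symm
    have n3 : (1 : L) ≠ a' * b' := fun hh => by
      have hh' : (1 : C) = a * b := congrArg Subtype.val hh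
      have := h1Q (a * b) (by rw [← hh']; exact one_mem _) 11 (by norm_num) hab
      omega
    have n4 : a' ≠ b' := fun hh => habn (congrArg Subtype.val hh)
    have n5 : a' ≠ a' * b' := fun hh => n2 (by simpa using hh : b' = 1).symm
    have n6 : b' ≠ a' * b' := fun hh => n1 (by simpa using hh : a' = 1).symm
    rw [Set.ncard_insert_of_notMem (by simp [n1, n2, n3]), Set.ncard_insert_of_notMem (by simp [n4, n5]),
      Set.ncard_pair n6]
  have hcardS : Nat.card S = 8 := by
    have h1 := Subgroup.relIndex_mul_relIndex (⊥ : Subgroup L) M S bot_le hMS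
    rw [relIndex_bot_left, relIndex_bot_left, hrel, hcardM] at h1
    exact h1.symm
  have hcardL : Nat.card L = 120 := card_Lh h
  let SS : Sylow 2 L := Sylow.ofCard S (by
    rw [hcardS, hcardL]
    have : Nat.factorization 120 2 = 3 := by
      rw [show (120 : ℕ) = 2 ^ 3 * 15 from rfl, Nat.factorization_mul (by norm_num) (by norm_num), Nat.factorization_pow]
      simp only [Finsupp.coe_add, Finsupp.coe_smul, Pi.add_apply, Pi.smul_apply, smul_eq_mul]
      rw [Nat.Prime.factorization_self (by norm_num), Nat.factorization_eq_zero_of_not_dvd (by norm_num)]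
    rw [this]; norm_num)
  have hSS : (SS : Subgroup L) = S := rfl
  obtain ⟨H, hHn, hHi, hzH⟩ := exists_compl SS M (by rw [hSS]; exact hrel) z' (by rw [hSS]; exact hzS)
    (by
      intro r hr g _
      obtain ⟨k, rfl⟩ := hr
      rw [pow_mul, pow_two, hzz', one_pow]; simp [M.one_mem])
    (by
      intro g
      rw [hzC' g, mul_inv_cancel_right]; exact hzM)
  -- the section
  have hex : ∀ p, p < 60 → ∃ c : C, IsL e c p ∧ ∃ hc : c ∈ L, (⟨c, hc⟩ : L) ∈ H := by
    intro p hp
    obtain ⟨c, hc⟩ := exists_lift h hp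
    by_cases h1 : (⟨c, p, hp, hc⟩ : L) ∈ H
    · exact ⟨c, hc, ⟨p, hp, hc⟩, h1⟩
    · refine ⟨z * c, L_z h hc, ⟨p, hp, L_z h hc⟩, ?_⟩
      have h2 := Subgroup.mul_mem_iff_of_index_two hHi (a := z') (b := ⟨c, p, hp, hc⟩)
      have h3 : z' * (⟨c, p, hp, hc⟩ : L) ∈ H := h2.2 (by simp [hzH, h1])
      exact h3
  have huniq : ∀ p, p < 60 → ∀ c d : C, IsL e c p → IsL e d p → ∀ (hc : c ∈ L) (hd : d ∈ L), (⟨c, hc⟩ : L) ∈ H →
      (⟨d, hd⟩ : L) ∈ H → d = c := by
    intro p hp c d hcp hdp hc hd h1 h2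
    rcases L_uniq h hcp hdp with h3 | h3
    · exact h3
    · exfalso
      apply hzH
      have h4 : z' = ⟨d, hd⟩ * (⟨c, hc⟩ : L)⁻¹ := by
        apply Subtype.ext
        change z = d * c⁻¹
        rw [h3, mul_inv_cancel_right]
      rw [h4]
      exact mul_mem h2 (inv_mem h1)
  refine ⟨fun p => if hp : p < 60 then Classical.choose (hex p hp) else 1, ?_, ?_⟩
  · intro p hp
    simp only [hp, dif_pos]
    exact (Classical.choose_spec (hex p hp)).1
  · intro p hp r hr
    have hpr := a_lt hp hr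
    simp only [hp, hr, hpr, dif_pos]
    obtain ⟨h1, h1L, h1H⟩ := Classical.choose_spec (hex p hp)
    obtain ⟨h2, h2L, h2H⟩ := Classical.choose_spec (hex r hr)
    obtain ⟨h3, h3L, h3H⟩ := Classical.choose_spec (hex (am p r) hpr)
    exact huniq (am p r) hpr _ _ (L_mul hp hr h1 h2) h3 (mul_mem h1L h2L) h3L (mul_mem h1H h2H) h3H

/-- the isomorphism with the model -/
theorem exists_iso (h : ACC Q z e) {t : C} (ht : t * t = 1) (htQ : t ∉ Q) :
    ∃ ψ : W ≃* C, ψ (wk 16) = z ∧ (∀ i : Fin 5, ψ (wk (EC i)) = e i) ∧ ∀ m : W, ψ m ∈ Q ↔ m.v < 32 := by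
  obtain ⟨s, hs1, hs2⟩ := exists_sec h ht htQ
  have hs0 : s 0 = 1 := by
    have h1 := hs2 0 (by norm_num) 0 (by norm_num)
    have h2 : am 0 0 = 0 := by decide +kernel
    rw [h2] at h1
    exact (left_eq_mul.1 h1)
  let ψ : W →* C :=
    { toFun := fun m => T z e (m.v % 32) * s (m.v / 32)
      map_one' := by
        change T z e (0 % 32) * s (0 / 32) = 1
        rw [Nat.zero_mod, Nat.zero_div, T_zero, hs0, mul_one]
      map_mul' := by
        intro m n
        obtain ⟨a, p, ha, hp, hm⟩ := exists_cd m.h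
        obtain ⟨b, r, hb, hr, hn⟩ := exists_cd n.h
        have e1 : (m * n).v = cd (qm a (ph p b)) (am p r) := by
          rw [mul_v, hm, hn, wm_cd ha hp hb hr]
        have f1 : ∀ x y : ℕ, x < 32 → (cd x y) % 32 = x := fun x y hx => by rw [cd_eq]; omega
        have f2 : ∀ x y : ℕ, x < 32 → (cd x y) / 32 = y := fun x y hx => by rw [cd_eq]; omega
        change T z e ((m * n).v % 32) * s ((m * n).v / 32) = T z e (m.v % 32) * s (m.v / 32) * (T z e (n.v % 32) * s (n.v / 32))
        rw [e1, hm, hn, f1 _ _ (q_lt ha (p_lt hp hb)), f2 _ _ (q_lt ha (p_lt hp hb)), f1 _ _ ha, f2 _ _ ha, f1 _ _ hb, f2 _ _ hb,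
          T_mul h.ac ha (p_lt hp hb), ← T_ph h hp hb (hs1 p hp), hs2 p hp r hr]
        group }
  have hψ : ∀ m : W, ψ m = T z e (m.v % 32) * s (m.v / 32) := fun m => rfl
  have hQ : ∀ m : W, ψ m ∈ Q ↔ m.v < 32 := by
    intro m
    have hp : m.v / 32 < 60 := by have := m.h; omega
    rw [hψ, mul_mem_cancel_left (T_mem h _)]
    constructor
    · intro h1
      have := p_of_one h hp (hs1 _ hp) h1
      omega
    · intro h1
      have : m.v / 32 = 0 := by omega
      rw [this, hs0]; exact one_mem _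
  have hinj : Function.Injective ψ := by
    rw [injective_iff_map_eq_one]
    intro m hm
    have h1 : m.v < 32 := (hQ m).1 (by rw [hm]; exact one_mem _)
    have h2 : m.v / 32 = 0 := by omega
    have h3 : m.v % 32 = m.v := by omega
    rw [hψ, h2, h3, hs0, mul_one] at hm
    exact W.ext' (T_eq_one h.ac h1 hm)
  have hb : Function.Bijective ψ := (Nat.bijective_iff_injective_and_card ψ).2 ⟨hinj, by rw [card_W, h.qd.cardC]⟩
  have hsmall : ∀ n : ℕ, n < 32 → ψ (wk n) = T z e n := by
    intro n hn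
    have h1 : (wk n).v = n := Nat.mod_eq_of_lt (by omega)
    have h2 : n / 32 = 0 := by omega
    have h3 : n % 32 = n := by omega
    rw [hψ, h1, h2, h3, hs0, mul_one]
  refine ⟨MulEquiv.ofBijective ψ hb, ?_, ?_, hQ⟩
  · change ψ (wk 16) = z
    rw [hsmall 16 (by norm_num), T_16]
  · intro i
    change ψ (wk (EC i)) = e i
    rw [hsmall _ (EC_lt i), T_EC h.ac]

end H58.J2C
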