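import Mathlib
import Cfsg.Agent.Lib.H58.J2A
import Cfsg.Agent.Lib.H58.J2Alt

/-! Groups of Hall-Janko type: the element of order three permuting a central line (helper58). -/

set_option autoImplicit false
set_option linter.style.haveILetI false
set_option maxRecDepth 100000
set_option linter.unusedSectionVars false

namespace H58.J2H

open H58.J2A H58.J2Alt Subgroup

/-! model facts -/
theorem W1 : ∀ w : W, w * w = 1 → w ≠ 1 → w.v < 32 → w ≠ wk 16 → ∃ g, g * wk 1 * g⁻¹ = w := by decide +kernel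
theorem W2 : ∀ w : W, w * w = 1 → 32 ≤ w.v → ∃ g, g * wk 96 * g⁻¹ = w := by decide +kernel
theorem W3 : ∀ w : W, w * w = 1 → w ≠ 1 → w.v < 32 → w * wk 96 = wk 96 * w → w = wk 16 ∨ w = wk 1 ∨ w = wk 17 := by
  decide +kernel
theorem W4 : ∀ y : W, y * y * y = 1 → y ≠ 1 → wk 96 * (y * wk 96 * y⁻¹) * (y * (y * wk 96 * y⁻¹) * y⁻¹) = 1 →
    ∃ c, c * wk 96 = wk 96 * c ∧ (c * y * c⁻¹ = wk 128 ∨ c * (y * y) * c⁻¹ = wk 128) := by decide +kernel

variable {G : Type*} [Group G] [Finite G]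

/-- data for the centralizer of an involution in the second class -/
structure KM (t : G) (φ : A4 × A5 →* G) : Prop where
  inj : Function.Injective φ
  v0 : ∃ v : A4, v * v = 1 ∧ v ≠ 1 ∧ φ (v, 1) = t
  cen : ∀ g, g * t = t * g → ∃ (v : A4) (b : A5), v * v = 1 ∧ φ (v, b) = g

structure HJ (ι : W →* G) (z : G) : Prop where
  inj : Function.Injective ι
  cz : ∀ g : G, g * z = z * g → ∃ w, ι w = g
  z16 : ι (wk 16) = z
  cardG : Nat.card G = 604800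
  e0A : IsConj z (ι (wk 1))
  tB : ∀ w : W, w * w = 1 → 32 ≤ w.v → ¬ IsConj z (ι w)
  km : ∀ t : G, t * t = 1 → t ≠ 1 → ¬ IsConj z t → ∃ φ : A4 × A5 →* G, KM t φ

variable {ι : W →* G} {z : G}

theorem zW : ∀ w : W, w * wk 16 = wk 16 * w := by decide +kernel

theorem HJ.zc (h : HJ ι z) (w : W) : ι w * z = z * ι w := by
  rw [← h.z16, ← map_mul, ← map_mul, zW]

theorem HJ.z_ne (h : HJ ι z) : z ≠ 1 := by
  rw [← h.z16]
  intro hh
  have := h.inj (hh.trans (map_one ι).symm)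
  exact absurd this (by decide +kernel)

theorem HJ.zz (h : HJ ι z) : z * z = 1 := by
  rw [← h.z16, ← map_mul]
  have : wk 16 * wk 16 = 1 := by decide +kernel
  rw [this, map_one]

theorem A_sq (h : HJ ι z) {x : G} (hx : IsConj z x) : x * x = 1 ∧ x ≠ 1 := by
  obtain ⟨g, hg⟩ := isConj_iff.1 hx
  constructor
  · rw [← hg]
    have : g * z * g⁻¹ * (g * z * g⁻¹) = g * (z * z) * g⁻¹ := by group
    rw [this, h.zz]; simp
  · intro h1
    apply h.z_ne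
    rw [← hg] at h1
    have := congrArg (fun y => g⁻¹ * y * g) h1
    simpa [mul_assoc] using this

theorem A_C (h : HJ ι z) {w : W} (hA : IsConj z (ι w)) : w * w = 1 ∧ w ≠ 1 ∧ w.v < 32 := by
  obtain ⟨h1, h2⟩ := A_sq h hA
  have h3 : w * w = 1 := h.inj (by rw [map_mul, h1, map_one])
  refine ⟨h3, fun hh => h2 (by rw [hh, map_one]), ?_⟩
  by_contra h4
  exact h.tB w h3 (by omega) hA

theorem conj_map {g w : W} {x : G} (hx : IsConj x (ι w)) : IsConj x (ι (g * w * g⁻¹)) :=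
  hx.trans (isConj_iff.2 ⟨ι g, by simp⟩)

theorem A_of (h : HJ ι z) {w : W} (h1 : w * w = 1) (h2 : w ≠ 1) (h3 : w.v < 32) : IsConj z (ι w) := by
  by_cases h4 : w = wk 16
  · rw [h4, h.z16]
  · obtain ⟨g, rfl⟩ := W1 w h1 h2 h3 h4
    exact conj_map h.e0A

theorem KM.conj {t : G} {φ : A4 × A5 →* G} (h : KM t φ) (g : G) :
    KM (g * t * g⁻¹) ((MulAut.conj g).toMonoidHom.comp φ) where
  inj := (MulAut.conj g).injective.comp h.inj
  v0 := by
    obtain ⟨v, h1, h2, h3⟩ := h.v0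
    exact ⟨v, h1, h2, by rw [← h3]; rfl⟩
  cen := by
    intro x hx
    have h1 : g⁻¹ * x * g * t = t * (g⁻¹ * x * g) := by
      have e1 : g⁻¹ * x * g * t = g⁻¹ * (x * (g * t * g⁻¹)) * g := by group
      rw [e1, hx]; group
    obtain ⟨v, b, h2, h3⟩ := h.cen _ h1
    refine ⟨v, b, h2, ?_⟩
    change g * φ (v, b) * g⁻¹ = x
    rw [h3]; group

theorem phi_conj {φ : A4 × A5 →* G} (a v : A4) (c b : A5) :
    φ (a, c) * φ (v, b) * (φ (a, c))⁻¹ = φ (a * v * a⁻¹, c * b * c⁻¹) := by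
  rw [← map_inv, ← map_mul, ← map_mul]; rfl

theorem KM.nA {t : G} {φ : A4 × A5 →* G} (h : KM t φ) (ht : ¬ IsConj z t) {v : A4} (h1 : v * v = 1) (h2 : v ≠ 1) :
    ¬ IsConj z (φ (v, 1)) := by
  intro h3
  obtain ⟨v0, h4, h5, h6⟩ := h.v0
  obtain ⟨a, ha⟩ := F1 v h1 h2 v0 h4 h5
  apply ht
  refine h3.trans (isConj_iff.2 ⟨φ (a, 1), ?_⟩)
  rw [phi_conj, ha, ← h6]; simp

theorem three : ∀ a b : W, (a = wk 16 ∨ a = wk 1 ∨ a = wk 17) → (b = wk 16 ∨ b = wk 1 ∨ b = wk 17) → a ≠ b →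
    (a * b) * (a * b) = 1 ∧ a * b ≠ 1 ∧ (a * b).v < 32 := by
  rintro a b (rfl | rfl | rfl) (rfl | rfl | rfl) <;> decide +kernel

theorem mem5_0 (h : HJ ι z) {φ : A4 × A5 →* G} (hφ : KM (ι (wk 96)) φ) {x : G} (hx : IsConj z x)
    (hxt : x * ι (wk 96) = ι (wk 96) * x) : ∃ b, φ (1, b) = x := by
  have ht : ¬ IsConj z (ι (wk 96)) := h.tB _ (by decide +kernel) (by decide +kernel)
  obtain ⟨v, b, hv, rfl⟩ := hφ.cen x hxt
  by_cases hv1 : v = 1
  · exact ⟨b, by rw [hv1]⟩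
  exfalso
  have hbb : b * b = 1 := by
    have h1 := (A_sq h hx).1
    rw [← map_mul] at h1
    have h2 := hφ.inj (h1.trans (map_one φ).symm)
    exact congrArg Prod.snd h2
  have hb1 : b ≠ 1 := fun hh => hφ.nA ht hv hv1 (by rw [hh] at hx; exact hx)
  have T1 : ∀ (v' : A4) (b' : A5), v' * v' = 1 → v' ≠ 1 → b' * b' = 1 → b' ≠ 1 → IsConj z (φ (v', b')) := by
    intro v' b' h1 h2 h3 h4
    obtain ⟨a, ha⟩ := F1 v hv hv1 v' h1 h2
    obtain ⟨c, hc⟩ := G1 b hbb hb1 b' h3 h4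
    exact hx.trans (isConj_iff.2 ⟨φ (a, c), by rw [phi_conj, ha, hc]⟩)
  obtain ⟨vz, bz, hvz, hz⟩ := hφ.cen z (h.zc _).symm
  have hbz : bz * bz = 1 := by
    have h1 := h.zz
    rw [← hz, ← map_mul] at h1
    have h2 := hφ.inj (h1.trans (map_one φ).symm)
    exact congrArg Prod.snd h2
  have hbz1 : bz ≠ 1 := by
    intro hh
    rw [hh] at hz
    by_cases h1 : vz = 1
    · rw [h1] at hz
      exact h.z_ne (by rw [← hz]; exact map_one φ)
    · exact hφ.nA ht hvz h1 (by rw [hz])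
  obtain ⟨v2, hv2, hv21, hv2n⟩ := F2 v hv hv1
  have key : ∀ v' : A4, v' * v' = 1 → v' ≠ 1 → ∃ w : W, ι w = φ (v', bz) ∧ (w = wk 16 ∨ w = wk 1 ∨ w = wk 17) := by
    intro v' h1 h2
    have hA := T1 v' bz h1 h2 hbz hbz1
    have hc : φ (v', bz) * z = z * φ (v', bz) := by
      rw [← hz, ← map_mul, ← map_mul]
      congr 1
      exact Prod.ext (F3 v' h1 vz hvz).1 rfl
    obtain ⟨w, hw⟩ := h.cz _ hc
    refine ⟨w, hw, ?_⟩
    rw [← hw] at hA
    obtain ⟨a1, a2, a3⟩ := A_C h hA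
    apply W3 w a1 a2 a3
    apply h.inj
    rw [map_mul, map_mul, hw]
    obtain ⟨v0, c1, c2, c3⟩ := hφ.v0
    rw [← c3, ← map_mul, ← map_mul]
    congr 1
    exact Prod.ext (F3 v' h1 v0 c1).1 (by simp)
  obtain ⟨w1, hw1, hw1'⟩ := key v hv hv1
  obtain ⟨w2, hw2, hw2'⟩ := key v2 hv2 hv21
  have hne : w1 ≠ w2 := by
    intro hh
    rw [hh, hw2] at hw1
    exact hv2n (congrArg Prod.fst (hφ.inj hw1))
  obtain ⟨a1, a2, a3⟩ := three w1 w2 hw1' hw2' hne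
  have hA := A_of h a1 a2 a3
  rw [map_mul, hw1, hw2, ← map_mul] at hA
  have e1 : ((v, bz) * (v2, bz) : A4 × A5) = (v * v2, 1) := Prod.ext rfl hbz
  rw [e1] at hA
  refine hφ.nA ht (F3 v hv v2 hv2).2 ?_ hA
  intro hh
  apply hv2n
  have : v2 = v⁻¹ := by rw [eq_inv_iff_mul_eq_one, ← (F3 v hv v2 hv2).1]; exact hh
  rw [this]
  exact inv_eq_of_mul_eq_one_left hv

theorem mem5 (h : HJ ι z) {w : W} (hw : w * w = 1) (hw32 : 32 ≤ w.v) {φ : A4 × A5 →* G} (hφ : KM (ι w) φ) {x : G}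
    (hx : IsConj z x) (hxt : x * ι w = ι w * x) : ∃ b, φ (1, b) = x := by
  obtain ⟨g, rfl⟩ := W2 w hw hw32
  have h1 := hφ.conj (ι g⁻¹)
  have e1 : ι g⁻¹ * ι (g * wk 96 * g⁻¹) * (ι g⁻¹)⁻¹ = ι (wk 96) := by
    rw [← map_inv, ← map_mul, ← map_mul]; congr 1; group
  rw [e1] at h1
  have e2 : ι g⁻¹ * x * (ι g⁻¹)⁻¹ * ι (wk 96) = ι (wk 96) * (ι g⁻¹ * x * (ι g⁻¹)⁻¹) := by
    rw [← e1]
    calc ι g⁻¹ * x * (ι g⁻¹)⁻¹ * (ι g⁻¹ * ι (g * wk 96 * g⁻¹) * (ι g⁻¹)⁻¹) = ι g⁻¹ * (x * ι (g * wk 96 * g⁻¹)) * (ι g⁻¹)⁻¹ := by group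
      _ = _ := by rw [hxt]; group
  obtain ⟨b, hb⟩ := mem5_0 h h1 (x := ι g⁻¹ * x * (ι g⁻¹)⁻¹) (hx.trans (isConj_iff.2 ⟨_, rfl⟩)) e2
  refine ⟨b, ?_⟩
  change ι g⁻¹ * φ (1, b) * (ι g⁻¹)⁻¹ = _ at hb
  exact mul_left_cancel (mul_right_cancel hb)

theorem exists_rho (h : HJ ι z) : ∃ ρ : G, ρ * ρ * ρ = 1 ∧ ρ * z = ι (wk 1) * ρ ∧ ρ * ι (wk 1) = z * ι (wk 1) * ρ ∧
    ρ * ι (wk 96) = ι (wk 96) * ρ ∧ ρ * ι (wk 128) = ι (wk 128) * ρ := by
  have ht : ¬ IsConj z (ι (wk 96)) := h.tB _ (by decide +kernel) (by decide +kernel)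
  have h96 : wk 96 * wk 96 = 1 := by decide +kernel
  have ht2 : ι (wk 96) * ι (wk 96) = 1 := by
    rw [← map_mul, h96, map_one]
  have ht1 : ι (wk 96) ≠ 1 := fun hh => by
    have := h.inj (hh.trans (map_one ι).symm)
    exact absurd this (by decide +kernel)
  obtain ⟨φ0, hφ0⟩ := h.km _ ht2 ht1 ht
  obtain ⟨v0, hv0, hv01, hv0t⟩ := hφ0.v0
  obtain ⟨y, hy, hy1⟩ := F5
  obtain ⟨bz, hbz⟩ := mem5_0 h hφ0 (x := z) (IsConj.refl z) (h.zc _).symm
  have hyz : φ0 (y, 1) * z = z * φ0 (y, 1) := by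
    rw [← hbz, ← map_mul, ← map_mul]; congr 1
  obtain ⟨yw, hyw⟩ := h.cz _ hyz
  have c1 : yw * yw * yw = 1 := by
    apply h.inj
    rw [map_mul, map_mul, hyw, ← map_mul, ← map_mul, map_one]
    have : ((y, 1) * (y, 1) * (y, 1) : A4 × A5) = 1 := Prod.ext hy (by simp)
    rw [this, map_one]
  have c2 : yw ≠ 1 := by
    intro hh
    rw [hh, map_one] at hyw
    exact hy1 (congrArg Prod.fst (hφ0.inj (hyw.symm.trans (map_one φ0).symm)))
  have c3 : wk 96 * (yw * wk 96 * yw⁻¹) * (yw * (yw * wk 96 * yw⁻¹) * yw⁻¹) = 1 := by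
    apply h.inj
    simp only [map_mul, map_inv]
    rw [hyw, ← hv0t]
    simp only [← map_mul, ← map_inv]
    rw [map_one]
    have : ((v0, 1) * ((y, 1) * (v0, 1) * (y, 1)⁻¹) * ((y, 1) * ((y, 1) * (v0, 1) * (y, 1)⁻¹) * (y, 1)⁻¹) : A4 × A5) = 1 :=
      Prod.ext (F4 v0 y ⟨hv0, hv01, hy, hy1⟩) (by simp)
    rw [this, map_one]
  obtain ⟨c, hc, hcy⟩ := W4 yw c1 c2 c3
  set φ := (MulAut.conj (ι c)).toMonoidHom.comp φ0 with hφdef
  have hφa : ∀ p, φ p = ι c * φ0 p * (ι c)⁻¹ := fun p => rfl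
  have e1 : ι c * ι (wk 96) * (ι c)⁻¹ = ι (wk 96) := by
    rw [← map_mul, hc, map_mul]; group
  have hφ : KM (ι (wk 96)) φ := by
    have := hφ0.conj (ι c)
    rwa [e1] at this
  have hz : φ (1, bz) = z := by
    rw [hφa, hbz, h.zc]; group
  have hE0 : IsConj z (ι (wk 1)) := h.e0A
  obtain ⟨be, hbe⟩ := mem5_0 h hφ (x := ι (wk 1)) hE0 (by
    rw [← map_mul, ← map_mul]; congr 1)
  have b1 : bz * bz = 1 := by
    have h1 := h.zz
    rw [← hz, ← map_mul] at h1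
    exact congrArg Prod.snd (hφ.inj (h1.trans (map_one φ).symm))
  have b2 : bz ≠ 1 := by
    intro hh
    rw [hh] at hz
    exact h.z_ne (by rw [← hz]; exact map_one φ)
  have b3 : be * be = 1 := by
    have h1 := (A_sq h hE0).1
    rw [← hbe, ← map_mul] at h1
    exact congrArg Prod.snd (hφ.inj (h1.trans (map_one φ).symm))
  have b4 : be ≠ 1 := by
    intro hh
    rw [hh] at hbe
    exact (A_sq h hE0).2 (by rw [← hbe]; exact map_one φ)
  have b5 : bz ≠ be := by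
    intro hh
    rw [hh, hbe, ← h.z16] at hz
    have := h.inj hz
    exact absurd this (by decide +kernel)
  have b6 : bz * be = be * bz := by
    have h1 : φ (1, bz) * φ (1, be) = φ (1, be) * φ (1, bz) := by rw [hz, hbe, h.zc]
    rw [← map_mul, ← map_mul] at h1
    exact congrArg Prod.snd (hφ.inj h1)
  obtain ⟨r, r1, r2, r3⟩ := G3 bz b1 b2 be b3 b4 b5 b6
  have hETA : ∃ y' : A4, φ (y', 1) = ι (wk 128) := by
    rcases hcy with hcy | hcy
    · refine ⟨y, ?_⟩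
      rw [hφa, ← hyw, ← hcy]; simp
    · refine ⟨y * y, ?_⟩
      have : ((y * y, 1) : A4 × A5) = (y, 1) * (y, 1) := Prod.ext rfl (by simp)
      rw [hφa, this, map_mul, ← hyw, ← hcy]; simp
  obtain ⟨y', hy'⟩ := hETA
  have hW0 : φ (v0, 1) = ι (wk 96) := by rw [hφa, hv0t, e1]
  refine ⟨φ (1, r), ?_, ?_, ?_, ?_, ?_⟩
  · rw [← map_mul, ← map_mul, ← map_one φ]
    congr 1; exact Prod.ext (by simp) r1
  · rw [← hz, ← hbe, ← map_mul, ← map_mul]
    congr 1; exact Prod.ext (by simp) r2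
  · rw [← hz, ← hbe, ← map_mul, ← map_mul, ← map_mul]
    congr 1; exact Prod.ext (by simp) r3
  · rw [← hW0, ← map_mul, ← map_mul]
    congr 1
  · rw [← hy', ← map_mul, ← map_mul]
    congr 1

end H58.J2H
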