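import Mathlib
import Cfsg.Agent.Lib.H58.J2I

/-! Groups of Hall-Janko type: first neighbourhoods in the near octagon (helper58). -/

set_option autoImplicit false
set_option linter.style.haveILetI false
set_option maxRecDepth 100000
set_option linter.unusedSectionVars false

namespace H58.J2H

open H58.J2A H58.J2Alt Subgroup

variable {G : Type*} [Group G]

/-- conjugation -/
def cg (g x : G) : G := g * x * g⁻¹

theorem cg_mul (g h x : G) : cg (g * h) x = cg g (cg h x) := by unfold cg; group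
theorem cg_one (x : G) : cg 1 x = x := by unfold cg; group
theorem cg_hom (g x y : G) : cg g (x * y) = cg g x * cg g y := by unfold cg; group
theorem cg_inv_cg (g x : G) : cg g⁻¹ (cg g x) = x := by unfold cg; group
theorem cg_cg_inv (g x : G) : cg g (cg g⁻¹ x) = x := by unfold cg; group
theorem cg_inj {g x y : G} (h : cg g x = cg g y) : x = y := by
  have := congrArg (cg g⁻¹) h
  rwa [cg_inv_cg, cg_inv_cg] at this
theorem cg_comm {g x : G} (h : g * x = x * g) : cg g x = x := by unfold cg; rw [h]; group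
theorem comm_of_cg {g x : G} (h : cg g x = x) : g * x = x * g := by
  unfold cg at h; rwa [mul_inv_eq_iff_eq_mul] at h
theorem cg_comm_iff {g x y : G} : x * y = y * x ↔ cg g x * cg g y = cg g y * cg g x := by
  rw [← cg_hom, ← cg_hom]
  exact ⟨fun h => by rw [h], fun h => cg_inj h⟩
theorem A_cg {z x : G} (hx : IsConj z x) (g : G) : IsConj z (cg g x) := hx.trans (isConj_iff.2 ⟨g, rfl⟩)

variable {ι : W →* G} {z ρ : G}

theorem cg_io (w x : W) : cg (ι w) (ι x) = ι (w * x * w⁻¹) := by unfold cg; simp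
theorem cg_ik {r x : ℕ} (hr : r < 1920) (hx : x < 1920) : cg (ι (wk r)) (ι (wk x)) = ι (wk (cw r x)) := by
  rw [cg_io, wk_cw hr hx]
theorem ik_mul {r x : ℕ} (hr : r < 1920) (hx : x < 1920) : ι (wk (wm r x)) = ι (wk r) * ι (wk x) := by
  rw [wk_mul hr hx, map_mul]

theorem R1.cgD (h : R1 ι ρ) {d : ℕ} (hd : d < 1920) (hD : inD d = true) (x : G) :
    cg ρ (cg (ι (wk d)) x) = cg (ι (wk (H58.J2H.th d))) (cg ρ x) := by
  rw [← cg_mul, ← cg_mul, h.th hd hD]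

theorem R1.cgi (h : R1 ι ρ) {d : ℕ} (hd : d < 1920) (hD : inD d = true) : cg ρ (ι (wk d)) = ι (wk (H58.J2H.th d)) := by
  unfold cg
  rw [h.th hd hD]; group

/-- `ρ⁻¹ = η e4 ρ e4` -/
theorem RR.rinv (h : RR ι ρ) : ρ⁻¹ = ι (wk 128) * ι (wk 15) * ρ * ι (wk 15) := by
  have h1 := h.r4
  have e1 : ι (wk 15) * ρ * ι (wk 15) * ι (wk 128) * ρ = 1 := by
    rw [← h1]; simp only [mul_assoc]; rw [h.r1.g3]
  rw [inv_eq_of_mul_eq_one_left (a := ι (wk 15) * ρ * ι (wk 15) * ι (wk 128)) e1]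
  -- move `η` to the left
  have e2 : ι (wk 15) * ι (wk 128) = ι (wk 128) * ι (wk 15) := by rw [← map_mul, ← map_mul]; congr 1
  calc ι (wk 15) * ρ * ι (wk 15) * ι (wk 128) = ι (wk 15) * ρ * (ι (wk 15) * ι (wk 128)) := by simp only [mul_assoc]
    _ = ι (wk 15) * (ρ * ι (wk 128)) * ι (wk 15) := by rw [e2]; simp only [mul_assoc]
    _ = ι (wk 15) * ι (wk 128) * ρ * ι (wk 15) := by rw [h.r1.g3]; simp only [mul_assoc]
    _ = _ := by rw [e2]

theorem RR.rho2 (h : RR ι ρ) (x : G) : cg ρ (cg ρ x) = cg (ι (wk 128)) (cg (ι (wk 15)) (cg ρ (cg (ι (wk 15)) x))) := by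
  rw [← cg_mul, ← cg_mul, ← cg_mul, ← cg_mul, ← h.rinv]
  congr 1
  exact (inv_eq_of_mul_eq_one_left (by rw [h.r1.c3])).symm

theorem RR.rho3 (h : RR ι ρ) (x : G) : cg ρ (cg ρ (cg ρ x)) = x := by
  rw [← cg_mul, ← cg_mul, h.r1.c3, cg_one]

/-- level 2 -/
def A2 (ι : W →* G) (ρ : G) : G := cg ρ (ι (wk 2))
/-- level 3 -/
def A3 (ι : W →* G) (ρ : G) : G := cg ρ (cg (ι (wk 416)) (A2 ι ρ))

/-- rule (2,1) -/
theorem RR.k2a (h : RR ι ρ) : cg ρ (A2 ι ρ) = cg (ι (wk 142)) (A2 ι ρ) := by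
  unfold A2
  rw [h.rho2, cg_ik (by norm_num) (by norm_num)]
  have e1 : cw 15 2 = cw 1 2 := by decide +kernel
  rw [e1, ← cg_ik (by norm_num) (by norm_num), h.r1.cgD (by norm_num) (by decide +kernel), ← cg_mul, ← cg_mul, ← map_mul, ← map_mul]
  congr 2

/-- rule (2,r2) -/
theorem RR.k2b (h : RR ι ρ) : cg ρ (cg (ι (wk 142)) (A2 ι ρ)) = ι (wk 2) := by
  rw [← h.k2a]; unfold A2; exact h.rho3 _

def inH2 (w : ℕ) : Bool := Bool.and (inD w) (Nat.beq (wm (th (th w)) 2) (wm 2 (th (th w))))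

theorem inH2_D {w : ℕ} (h : inH2 w = true) : inD w = true := by
  unfold inH2 at h; rw [Bool.and_eq_true] at h; exact h.1

theorem R1.H2a (h : R1 ι ρ) {w : ℕ} (hw : w < 1920) (hH : inH2 w = true) : cg (ι (wk w)) (A2 ι ρ) = A2 ι ρ := by
  have hD := inH2_D hH
  obtain ⟨h1, h2, h3, h4⟩ := th_lt hw hD
  have h5 := (th_lt h1 h2).1
  unfold inH2 at hH
  rw [Bool.and_eq_true, Nat.beq_eq] at hH
  unfold A2
  have h6 := h.cgD h5 h4 (ι (wk 2))
  rw [h3] at h6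
  rw [← h6]
  congr 1
  rw [cg_ik h5 (by norm_num)]
  have : cw (H58.J2H.th (H58.J2H.th w)) 2 = 2 := by
    apply wk_inj (cw_lt h5 (by norm_num)) (by norm_num)
    rw [wk_cw h5 (by norm_num), mul_inv_eq_iff_eq_mul, ← wk_mul h5 (by norm_num), ← wk_mul (by norm_num) h5, hH.2]
  rw [this]

theorem H2_of {h : R1 ι ρ} (hinj : Function.Injective ι) {w : ℕ} (hw : w < 1920) (hD : inD w = true)
    (hc : cg (ι (wk w)) (A2 ι ρ) = A2 ι ρ) : inH2 w = true := by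
  obtain ⟨h1, h2, h3, h4⟩ := th_lt hw hD
  have h5 := (th_lt h1 h2).1
  unfold inH2
  rw [Bool.and_eq_true, Nat.beq_eq]
  refine ⟨hD, ?_⟩
  unfold A2 at hc
  have h6 := h.cgD h5 h4 (ι (wk 2))
  rw [h3] at h6
  rw [← h6] at hc
  have h7 := cg_inj hc
  have h8 := comm_of_cg h7
  rw [← map_mul, ← map_mul] at h8
  have h9 := hinj h8
  rw [← wk_mul h5 (by norm_num), ← wk_mul (by norm_num) h5] at h9
  exact wk_inj (wm_lt h5 (by norm_num)) (wm_lt (by norm_num) h5) h9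

theorem cw_wm {a b x : ℕ} (ha : a < 1920) (hb : b < 1920) (y : G) (_ : x = wm a b) :
    cg (ι (wk x)) y = cg (ι (wk a)) (cg (ι (wk b)) y) := by
  subst x
  rw [← cg_mul, ← ik_mul ha hb]

/-- equality of points through the stabilizer -/
theorem pt2_eq (h : R1 ι ρ) {a b : ℕ} (ha : a < 1920) (hb : b < 1920) (hH : inH2 (wm (wi b) a) = true) :
    cg (ι (wk a)) (A2 ι ρ) = cg (ι (wk b)) (A2 ι ρ) := by
  have h1 := h.H2a (wm_lt (wi_lt hb) ha) hH
  rw [ik_mul (wi_lt hb) ha, cg_mul, ← wk_inv hb, map_inv] at h1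
  have h2 := congrArg (cg (ι (wk b))) h1
  rwa [cg_cg_inv] at h2

/-- rule (3,1) -/
theorem RR.k3a (h : RR ι ρ) : cg ρ (A3 ι ρ) = cg (ι (wk 66)) (A3 ι ρ) := by
  have e0 : cg (ι (wk 15)) (cg (ι (wk 416)) (A2 ι ρ)) = cg (ι (wk 13)) (cg (ι (wk 416)) (A2 ι ρ)) := by
    rw [← cg_mul, ← cg_mul, ← ik_mul (by norm_num) (by norm_num), ← ik_mul (by norm_num) (by norm_num)]
    exact pt2_eq h.r1 (wm_lt (by norm_num) (by norm_num)) (wm_lt (by norm_num) (by norm_num)) (by decide +kernel)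
  unfold A3
  rw [h.rho2, e0, h.r1.cgD (by norm_num) (by decide +kernel), ← cg_mul, ← cg_mul, ← map_mul, ← map_mul]
  congr 2

/-- rule (3,r3) -/
theorem RR.k3b (h : RR ι ρ) : cg ρ (cg (ι (wk 66)) (A3 ι ρ)) = cg (ι (wk 416)) (A2 ι ρ) := by
  rw [← h.k3a]; unfold A3; exact h.rho3 _

/-! neighbours -/

def L8 : List (ℕ × ℕ × ℕ) := [(2, 0, 0), (18, 17, 1), (4, 122, 278), (20, 107, 279), (8, 205, 141), (24, 220, 140), (15, 310, 346),
  (31, 295, 347)]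

theorem L8_check : ∀ t ∈ L8, t.1 < 1920 ∧ t.2.1 < 1920 ∧ t.2.2 < 1920 ∧ inD t.2.1 = true ∧ cw t.2.1 2 = t.1 ∧ th t.2.1 < 1920 ∧
    inD (th t.2.1) = true ∧
    cw (th t.2.1) 2 = 2 ∧ inD (cw 416 (th t.2.1)) = true ∧ th (cw 416 (th t.2.1)) = t.2.2 ∧ inH2 t.2.2 = true := by decide +kernel

theorem Q10 : ∀ w : W, w * w = 1 → w ≠ 1 → w.v < 32 → w = wk 16 ∨ w = wk 1 ∨ w = wk 17 ∨ ∃ t ∈ L8, w = wk t.1 := by
  decide +kernel

theorem near0 [Finite G] (h : HJ ι z) {y : G} (hy : IsConj z y) (hyz : y * z = z * y) :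
    y = ι (wk 16) ∨ y = ι (wk 1) ∨ y = ι (wk 17) ∨ ∃ t ∈ L8, y = ι (wk t.1) := by
  obtain ⟨w, rfl⟩ := h.cz y hyz
  obtain ⟨h1, h2, h3⟩ := A_C h hy
  rcases Q10 w h1 h2 h3 with h4 | h4 | h4 | ⟨t, ht, h4⟩
  · left; rw [h4]
  · right; left; rw [h4]
  · right; right; left; rw [h4]
  · right; right; right; exact ⟨t, ht, by rw [h4]⟩

theorem near1 [Finite G] (h : HJ ι z) (hr : RR ι ρ) {y : G} (hy : IsConj z y) (hye : y * ι (wk 1) = ι (wk 1) * y) :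
    y = ι (wk 1) ∨ y = ι (wk 17) ∨ y = ι (wk 16) ∨ ∃ t ∈ L8, y = cg ρ (ι (wk t.1)) ∧ y = cg (ι (wk (th t.2.1))) (A2 ι ρ) := by
  have e0 : cg ρ z = ι (wk 1) := by rw [← h.z16]; exact hr.r1.cgi (by norm_num) (by decide +kernel)
  have e1 : cg ρ (ι (wk 1)) = ι (wk 17) := hr.r1.cgi (by norm_num) (by decide +kernel)
  have e2 : cg ρ (ι (wk 17)) = ι (wk 16) := hr.r1.cgi (by norm_num) (by decide +kernel)
  have hy' : cg ρ⁻¹ y * z = z * cg ρ⁻¹ y := by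
    rw [cg_comm_iff (g := ρ), cg_cg_inv, e0]; exact hye
  have hyy : y = cg ρ (cg ρ⁻¹ y) := (cg_cg_inv _ _).symm
  rcases near0 h (A_cg hy ρ⁻¹) hy' with h4 | h4 | h4 | ⟨t, ht, h4⟩
  · left; rw [hyy, h4, h.z16, e0]
  · right; left; rw [hyy, h4, e1]
  · right; right; left; rw [hyy, h4, e2]
  · right; right; right
    refine ⟨t, ht, by rw [hyy, h4], ?_⟩
    obtain ⟨a1, a2, a3, a4, a5, _⟩ := L8_check t ht
    rw [hyy, h4, ← a5, ← cg_ik a2 (by norm_num), hr.r1.cgD a2 a4]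
    rfl

theorem near2 [Finite G] (h : HJ ι z) (hr : RR ι ρ) {y : G} (hy : IsConj z y) (hya : y * A2 ι ρ = A2 ι ρ * y) :
    y = A2 ι ρ ∨ y = cg ρ (ι (wk 18)) ∨ y = ι (wk 1) ∨ ∃ t ∈ L8, y = cg (ι (wk t.2.2)) (A3 ι ρ) := by
  have e0 : cg ρ z = ι (wk 1) := by rw [← h.z16]; exact hr.r1.cgi (by norm_num) (by decide +kernel)
  have e16 : cg (ι (wk 416)) (ι (wk 16)) = ι (wk 16) := by
    rw [cg_ik (by norm_num) (by norm_num)]; congr 1
  have e1 : cg (ι (wk 416)) (ι (wk 1)) = ι (wk 2) := by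
    rw [cg_ik (by norm_num) (by norm_num)]; congr 1
  have e17 : cg (ι (wk 416)) (ι (wk 17)) = ι (wk 18) := by
    rw [cg_ik (by norm_num) (by norm_num)]; congr 1
  set g := ρ * ι (wk 416) with hg
  have hy' : cg g⁻¹ y * ι (wk 1) = ι (wk 1) * cg g⁻¹ y := by
    rw [cg_comm_iff (g := g), cg_cg_inv, hg, cg_mul, e1]; exact hya
  have hyy : y = cg g (cg g⁻¹ y) := (cg_cg_inv _ _).symm
  rcases near1 h hr (A_cg hy g⁻¹) hy' with h4 | h4 | h4 | ⟨t, ht, _, h4⟩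
  · left; rw [hyy, h4, hg, cg_mul, e1]; rfl
  · right; left; rw [hyy, h4, hg, cg_mul, e17]
  · right; right; left; rw [hyy, h4, hg, cg_mul, e16, h.z16, e0]
  · right; right; right
    refine ⟨t, ht, ?_⟩
    obtain ⟨a1, a2, a3, a4, a5, a6, a7, a8, a9, a10, a11⟩ := L8_check t ht
    have l1 : cw 416 (th t.2.1) < 1920 := cw_lt (by norm_num) a6
    rw [hyy, h4, hg, cg_mul, ← cg_mul (ι (wk 416))]
    have e : ι (wk 416) * ι (wk (th t.2.1)) = ι (wk (cw 416 (th t.2.1))) * ι (wk 416) := by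
      rw [wk_cw (by norm_num) a6, ← map_mul, ← map_mul]; congr 1; group
    rw [e, cg_mul, hr.r1.cgD l1 a9, a10]
    rfl

end H58.J2H
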