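import Mathlib
import Cfsg.Agent.Lib.H58.J2K

/-! Groups of Hall-Janko type: the stabilizer at distance three (helper58). -/

set_option autoImplicit false
set_option linter.style.haveILetI false
set_option maxRecDepth 100000
set_option linter.unusedSectionVars false

namespace H58.J2H

open H58.J2A H58.J2Alt Subgroup

variable {G : Type*} [Group G] {ι : W →* G} {z ρ : G}

/-- stabilizer of the point at distance three -/
def XX (ι : W →* G) (ρ : G) : Subgroup W where
  carrier := {w | cg (ι w) (A3 ι ρ) = A3 ι ρ}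
  mul_mem' := by
    intro a b ha hb
    change cg (ι (a * b)) _ = _
    rw [map_mul, cg_mul, (show cg (ι b) (A3 ι ρ) = A3 ι ρ from hb)]; exact ha
  one_mem' := by change cg (ι 1) _ = _; rw [map_one, cg_one]
  inv_mem' := by
    intro a ha
    change cg (ι a⁻¹) _ = _
    have h1 : cg (ι a) (A3 ι ρ) = A3 ι ρ := ha
    rw [map_inv]
    conv_lhs => rw [← h1]
    exact cg_inv_cg _ _

theorem mem_XX {w : W} : w ∈ XX ι ρ ↔ cg (ι w) (A3 ι ρ) = A3 ι ρ := Iff.rfl

theorem ps_check : allN (fun w => Bool.or (Bool.not (inH2 w)) (Bool.or (Bool.not (inH2 (wm (wm (wi 416) (th (th w))) 416)))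
    (Bool.or (Nat.beq w 0) (Bool.or (Nat.beq w 32) (Nat.beq w 64))))) 1920 = true := by decide +kernel

theorem A3_move (hr : RR ι ρ) {w : ℕ} (hw : w < 1920) (hD : inD w = true) :
    cg (ι (wk w)) (A3 ι ρ) = A3 ι ρ ↔ cg (ι (wk (wm (wm (wi 416) (th (th w))) 416))) (A2 ι ρ) = A2 ι ρ := by
  obtain ⟨h1, h2, h3, h4⟩ := th_lt hw hD
  have h5 := (th_lt h1 h2).1
  have h6 := hr.r1.cgD h5 h4 (cg (ι (wk 416)) (A2 ι ρ))
  rw [h3] at h6
  have e1 : cg (ι (wk (wm (wm (wi 416) (th (th w))) 416))) (A2 ι ρ) =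
      cg (ι (wk 416))⁻¹ (cg (ι (wk (th (th w)))) (cg (ι (wk 416)) (A2 ι ρ))) := by
    rw [ik_mul (wm_lt (wi_lt (by norm_num)) h5) (by norm_num), ik_mul (wi_lt (by norm_num)) h5, cg_mul, cg_mul, ← map_inv,
      wk_inv (by norm_num)]
  unfold A3
  rw [← h6, e1]
  constructor
  · intro hc
    rw [cg_inj hc, cg_inv_cg]
  · intro hc
    congr 1
    have := congrArg (cg (ι (wk 416))) hc
    rwa [cg_cg_inv] at this

theorem path_stab [Finite G] (h : HJ ι z) (hr : RR ι ρ) {w : W} (h3 : w ∈ XX ι ρ) (h2 : cg (ι w) (A2 ι ρ) = A2 ι ρ) :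
    w = wk 0 ∨ w = wk 32 ∨ w = wk 64 := by
  have hH := stab2 h hr h2
  have hD := inH2_D hH
  have h3' : cg (ι (wk w.v)) (A3 ι ρ) = A3 ι ρ := by rw [wk_v]; exact h3
  have h4 := stab2 h hr ((A3_move hr w.h hD).1 h3')
  have h0 := allN_iff.1 ps_check w.v w.h
  have l1 := (th_lt (th_lt w.h hD).1 (th_lt w.h hD).2.1).1
  rw [wkv (wm_lt (wm_lt (wi_lt (by norm_num)) l1) (by norm_num))] at h4
  rw [hH, h4] at h0
  simp only [Bool.not_true, Bool.false_or, Bool.or_eq_true, Nat.beq_eq] at h0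
  rcases h0 with h0 | h0 | h0
  · left; rw [← h0, wk_v]
  · right; left; rw [← h0, wk_v]
  · right; right; rw [← h0, wk_v]

theorem XX32 (hr : RR ι ρ) : wk 32 ∈ XX ι ρ := by
  rw [mem_XX, A3_move hr (by norm_num) (by decide +kernel)]
  exact hr.r1.H2a (wm_lt (wm_lt (wi_lt (by norm_num)) (by
    exact (by decide +kernel : th (th 32) < 1920))) (by norm_num)) (by decide +kernel)

theorem A2_A3 (h : HJ ι z) (hr : RR ι ρ) : A2 ι ρ * A3 ι ρ = A3 ι ρ * A2 ι ρ := by
  have e1 : A2 ι ρ = cg (ρ * ι (wk 416)) (ι (wk 1)) := by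
    rw [cg_mul, cg_ik (by norm_num) (by norm_num)]
    have : cw 416 1 = 2 := by decide +kernel
    rw [this]; rfl
  have e2 : A3 ι ρ = cg (ρ * ι (wk 416)) (A2 ι ρ) := by rw [cg_mul]; rfl
  have h1 := (cg_comm_iff (g := ρ * ι (wk 416))).1 (A2_e0 h hr)
  rw [← e1, ← e2] at h1
  exact h1.symm

theorem A3_eq (h : HJ ι z) (hr : RR ι ρ) : A3 ι ρ = cg (ρ * ι (wk 416) * ρ * ι (wk 416) * ρ) z := by
  have e0 : cg ρ z = ι (wk 1) := by
    have := hr.r1.cgi (d := 16) (by norm_num) (by decide +kernel)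
    rw [h.z16] at this
    exact this
  have e1 : cg (ι (wk 416)) (ι (wk 1)) = ι (wk 2) := by
    rw [cg_ik (by norm_num) (by norm_num)]; congr 1
  rw [cg_mul, cg_mul, cg_mul, cg_mul, e0, e1]; rfl

theorem A3_A (h : HJ ι z) (hr : RR ι ρ) : IsConj z (A3 ι ρ) := isConj_iff.2 ⟨_, (A3_eq h hr).symm⟩

def L10 : List ℕ := [1, 17, 2, 18, 4, 20, 8, 24, 15, 31]

theorem L8_L10 : ∀ t ∈ L8, t.1 ∈ L10 := by decide

theorem nbr3 [Finite G] (h : HJ ι z) (hr : RR ι ρ) {y : G} (hy : IsConj z y) (hc : y * A3 ι ρ = A3 ι ρ * y) (hne : y ≠ A3 ι ρ) :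
    ∃ n ∈ L10, cg (ρ * ι (wk 416) * ρ * ι (wk 416) * ρ) (ι (wk n)) = y := by
  set g := ρ * ι (wk 416) * ρ * ι (wk 416) * ρ with hg
  have h1 : cg g⁻¹ y * z = z * cg g⁻¹ y := by
    rw [cg_comm_iff (g := g), cg_cg_inv, hg, ← A3_eq h hr]; exact hc
  have hyy : y = cg g (cg g⁻¹ y) := (cg_cg_inv _ _).symm
  rcases near0 h (A_cg hy g⁻¹) h1 with h4 | h4 | h4 | ⟨t, ht, h4⟩
  · exfalso
    rw [h.z16] at h4
    apply hne
    rw [hyy, h4, hg, ← A3_eq h hr]
  · exact ⟨1, by decide, by rw [← h4]; exact hyy.symm⟩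
  · exact ⟨17, by decide, by rw [← h4]; exact hyy.symm⟩
  · exact ⟨t.1, L8_L10 t ht, by rw [← h4]; exact hyy.symm⟩

theorem card_XX_le [Finite G] (h : HJ ι z) (hr : RR ι ρ) : Nat.card (XX ι ρ) ≤ 30 := by
  classical
  have h1 := orb_stab (ι.comp (XX ι ρ).subtype) (A2 ι ρ)
  have h2 : (Set.range fun k : XX ι ρ => cg ((ι.comp (XX ι ρ).subtype) k) (A2 ι ρ)).ncard ≤ 10 := by
    have hsub : (Set.range fun k : XX ι ρ => cg ((ι.comp (XX ι ρ).subtype) k) (A2 ι ρ)) ⊆
        (((L10.toFinset.image fun n => cg (ρ * ι (wk 416) * ρ * ι (wk 416) * ρ) (ι (wk n))) : Finset G) : Set G) := by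
      rintro _ ⟨⟨k, hk⟩, rfl⟩
      have hk' : cg (ι k) (A3 ι ρ) = A3 ι ρ := hk
      have c1 : cg (ι k) (A2 ι ρ) * A3 ι ρ = A3 ι ρ * cg (ι k) (A2 ι ρ) := by
        have := (cg_comm_iff (g := ι k)).1 (A2_A3 h hr)
        rwa [hk'] at this
      have c2 : cg (ι k) (A2 ι ρ) ≠ A3 ι ρ := by
        intro hh
        apply A3_notS h hr
        rw [← hh]; exact Or.inr ⟨k, rfl⟩
      obtain ⟨n, hn, hn2⟩ := nbr3 h hr (A_cg (A2_A h hr) _) c1 c2
      rw [Finset.coe_image]
      exact ⟨n, by simpa using hn, hn2⟩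
    have h3 := Set.ncard_le_ncard hsub (Set.toFinite _)
    rw [Set.ncard_coe_finset] at h3
    exact h3.trans (Finset.card_image_le.trans (by decide))
  have h3 : Nat.card {k : XX ι ρ // cg ((ι.comp (XX ι ρ).subtype) k) (A2 ι ρ) = A2 ι ρ} ≤ 3 := by
    let F : {k : XX ι ρ // cg ((ι.comp (XX ι ρ).subtype) k) (A2 ι ρ) = A2 ι ρ} → ({wk 0, wk 32, wk 64} : Finset W) :=
      fun k => ⟨k.1.1, by
        rcases path_stab h hr k.1.2 k.2 with h5 | h5 | h5 <;> rw [h5] <;> simp⟩
    have hF : Function.Injective F := by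
      intro a b hab
      have h9 : (F a).1 = (F b).1 := by rw [hab]
      exact Subtype.ext (Subtype.ext h9)
    refine (Nat.card_le_card_of_injective F hF).trans ?_
    rw [Nat.card_eq_fintype_card, Fintype.card_coe]
    exact Finset.card_le_three
  calc Nat.card (XX ι ρ) = _ := h1.symm
    _ ≤ 10 * 3 := Nat.mul_le_mul h2 h3
    _ = 30 := rfl

theorem card_XX_ge [Finite G] (h : HJ ι z) (hr : RR ι ρ) : 7 ≤ Nat.card (XX ι ρ) ∧ Nat.card (XX ι ρ) ∣ 1920 := by
  have h1 := orb_stab ι (A3 ι ρ)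
  have h2 : (Set.range fun k => cg (ι k) (A3 ι ρ)).ncard ≤ 315 := by
    rw [← card_Azero h]
    apply Set.ncard_le_ncard _ (Set.toFinite _)
    rintro _ ⟨k, rfl⟩
    obtain ⟨g, hg⟩ := isConj_iff.1 (A_cg (A3_A h hr) (ι k))
    exact ⟨g, hg⟩
  have h3 : Nat.card {k : W // cg (ι k) (A3 ι ρ) = A3 ι ρ} = Nat.card (XX ι ρ) := rfl
  rw [h3, card_W] at h1
  constructor
  · by_contra h4
    have h5 : Nat.card (XX ι ρ) ≤ 6 := by omega
    have := Nat.mul_le_mul h2 h5
    omega
  · exact Dvd.intro_left _ h1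

theorem ord32 : orderOf (wk 32) = 3 := by
  have : Fact (Nat.Prime 3) := ⟨by norm_num⟩
  apply orderOf_eq_prime
  · decide +kernel
  · decide +kernel

theorem card_XX_four [Finite G] (h : HJ ι z) (hr : RR ι ρ) :
    Nat.card (XX ι ρ) = 12 ∨ Nat.card (XX ι ρ) = 15 ∨ Nat.card (XX ι ρ) = 24 ∨ Nat.card (XX ι ρ) = 30 := by
  have h1 := card_XX_le h hr
  obtain ⟨h2, h3⟩ := card_XX_ge h hr
  have h4 : 3 ∣ Nat.card (XX ι ρ) := by
    have := orderOf_dvd_natCard (⟨wk 32, XX32 hr⟩ : XX ι ρ)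
    rwa [Subgroup.orderOf_mk, ord32] at this
  generalize Nat.card (XX ι ρ) = m at *
  obtain ⟨k, rfl⟩ := h4
  have hk : k ≤ 10 := by omega
  interval_cases k <;> omega

theorem five : ∀ y : W, y ^ 5 = 1 → y ≠ 1 → wk 32 * y ≠ y * wk 32 ∧ wk 32 * y ≠ y ^ 2 * wk 32 ∧ wk 32 * y ≠ y ^ 3 * wk 32 ∧
    wk 32 * y ≠ y ^ 4 * wk 32 := by decide +kernel

theorem card_XX_ne15 [Finite G] (hr : RR ι ρ) : Nat.card (XX ι ρ) ≠ 15 := by
  intro h15
  have : Fact (Nat.Prime 5) := ⟨by norm_num⟩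
  obtain ⟨P⟩ : Nonempty (Sylow 5 (XX ι ρ)) := inferInstance
  have hP : Nat.card P = 5 := by
    rw [Sylow.card_eq_multiplicity, h15]
    have : (15 : ℕ).factorization 5 = 1 := by
      rw [show (15 : ℕ) = 5 * 3 from rfl, Nat.factorization_mul (by norm_num) (by norm_num)]
      simp only [Finsupp.coe_add, Pi.add_apply]
      rw [Nat.Prime.factorization_self (by norm_num), Nat.factorization_eq_zero_of_not_dvd (by norm_num)]
    rw [this]; norm_num
  have hidx : (P : Subgroup (XX ι ρ)).index = 3 := by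
    have := Subgroup.index_mul_card (P : Subgroup (XX ι ρ))
    rw [h15] at this
    have hP' : Nat.card (P : Subgroup (XX ι ρ)) = 5 := hP
    rw [hP'] at this
    omega
  have hn := card_sylow_modEq_one 5 (XX ι ρ)
  have hn2 : Nat.card (Sylow 5 (XX ι ρ)) ∣ 3 := by rw [← hidx]; exact Sylow.card_dvd_index P
  have hn3 : Nat.card (Sylow 5 (XX ι ρ)) = 1 := by
    rcases (Nat.dvd_prime Nat.prime_three).1 hn2 with h1 | h1
    · exact h1
    · rw [h1] at hn; exact absurd hn (by decide)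
  have hnorm : (P : Subgroup (XX ι ρ)).Normal := by
    have : Subsingleton (Sylow 5 (XX ι ρ)) := (Nat.card_eq_one_iff_unique.1 hn3).1
    exact Sylow.normal_of_subsingleton P
  have hcyc : IsCyclic P := isCyclic_of_prime_card hP
  obtain ⟨y, hy⟩ := hcyc.exists_generator
  have hy1 : ((y : XX ι ρ) : W) ≠ 1 := by
    intro hh
    have h1 : y = 1 := Subtype.ext (Subtype.ext hh)
    have h2 : ∀ x : P, x = 1 := fun x => by
      have := hy x
      rw [h1, zpowers_one_eq_bot, mem_bot] at this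
      exact this
    have : Nat.card P = 1 := Nat.card_eq_one_iff_unique.2 ⟨⟨fun a b => by rw [h2 a, h2 b]⟩, ⟨1⟩⟩
    rw [hP] at this; omega
  have hy5 : ((y : XX ι ρ) : W) ^ 5 = 1 := by
    have h1 : y ^ 5 = 1 := by
      have := pow_card_eq_one' (x := y)
      rwa [hP] at this
    have := congrArg (fun x : P => ((x : XX ι ρ) : W)) h1
    simpa using this
  have h2 := hnorm.conj_mem _ y.2 ⟨wk 32, XX32 hr⟩
  have h3 := hy ⟨_, h2⟩
  rw [mem_zpowers_iff] at h3
  obtain ⟨k, hk⟩ := h3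
  have h4 : ((y : XX ι ρ) : W) ^ k = wk 32 * ((y : XX ι ρ) : W) * (wk 32)⁻¹ := by
    have := congrArg (fun x : P => ((x : XX ι ρ) : W)) hk
    simpa using this
  have h5 : ((y : XX ι ρ) : W) ^ (k % 5).toNat = wk 32 * ((y : XX ι ρ) : W) * (wk 32)⁻¹ := by
    rw [← h4, ← zpow_natCast, Int.toNat_of_nonneg (Int.emod_nonneg _ (by norm_num))]
    conv_rhs => rw [← Int.emod_add_mul_ediv k 5]
    rw [zpow_add, zpow_mul]
    have : ((y : XX ι ρ) : W) ^ (5 : ℤ) = 1 := by exact_mod_cast hy5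
    rw [this, one_zpow, mul_one]
  have hlt : (k % 5).toNat < 5 := by omega
  obtain ⟨f1, f2, f3, f4⟩ := five _ hy5 hy1
  rw [eq_mul_inv_iff_mul_eq] at h5
  interval_cases (k % 5).toNat
  · rw [pow_zero, one_mul] at h5
    have : ((y : XX ι ρ) : W) = 1 := mul_left_cancel (a := wk 32) (by rw [mul_one]; exact h5.symm)
    exact hy1 this
  · rw [pow_one] at h5; exact f1 h5.symm
  · exact f2 h5.symm
  · exact f3 h5.symm
  · exact f4 h5.symm

/-- involutions in the stabilizer are in the second class -/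
theorem XX_B [Finite G] (h : HJ ι z) (hr : RR ι ρ) {w : W} (hw : w ∈ XX ι ρ) : ¬ IsConj z (ι w) := by
  intro hA
  apply A3_notS h hr
  obtain ⟨a1, a2, a3⟩ := A_C h hA
  have hc : A3 ι ρ * ι w = ι w * A3 ι ρ := (comm_of_cg (mem_XX.1 hw)).symm
  by_cases hw16 : w = wk 16
  · rw [hw16, h.z16] at hc
    rcases near0 h (A3_A h hr) hc with h4 | h4 | h4 | ⟨t, ht, h4⟩ <;> rw [h4]
    · exact InS_small (by decide +kernel) (by decide +kernel) (by decide +kernel)
    · exact InS_small (by decide +kernel) (by decide +kernel) (by decide +kernel)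
    · exact InS_small (by decide +kernel) (by decide +kernel) (by decide +kernel)
    · have : ∀ t ∈ L8, wk t.1 * wk t.1 = 1 ∧ wk t.1 ≠ 1 ∧ (wk t.1).v < 32 := by decide +kernel
      obtain ⟨b1, b2, b3⟩ := this t ht
      exact InS_small b1 b2 b3
  · obtain ⟨g, rfl⟩ := W1 w a1 a2 a3 hw16
    have h1 : cg (ι g⁻¹) (A3 ι ρ) * ι (wk 1) = ι (wk 1) * cg (ι g⁻¹) (A3 ι ρ) := by
      have h2 := (cg_comm_iff (g := ι g⁻¹)).1 hc
      have e1 : cg (ι g⁻¹) (ι (g * wk 1 * g⁻¹)) = ι (wk 1) := by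
        rw [cg_io]; congr 1; group
      rwa [e1] at h2
    have h2 : InS ι ρ (cg (ι g⁻¹) (A3 ι ρ)) := by
      rcases near1 h hr (A_cg (A3_A h hr) _) h1 with h4 | h4 | h4 | ⟨t, ht, _, h4⟩ <;> rw [h4]
      · exact InS_small (by decide +kernel) (by decide +kernel) (by decide +kernel)
      · exact InS_small (by decide +kernel) (by decide +kernel) (by decide +kernel)
      · exact InS_small (by decide +kernel) (by decide +kernel) (by decide +kernel)
      · exact Or.inr ⟨_, rfl⟩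
    have h3 := InS_io h2 g
    rwa [map_inv, cg_cg_inv] at h3

theorem XX_invol [Finite G] (h : HJ ι z) (hr : RR ι ρ) {w : W} (hw : w ∈ XX ι ρ) (hww : w * w = 1) (hw1 : w ≠ 1) : 32 ≤ w.v := by
  by_contra hlt
  exact XX_B h hr hw (A_of h hww hw1 (by omega))

/-- structure of the stabilizer -/
theorem XX_data [Finite G] (h : HJ ι z) (hr : RR ι ρ) {i : W} (hi : i ∈ XX ι ρ) (hii : i * i = 1) (hi1 : i ≠ 1) :
    ∃ f : A4 →* XX ι ρ, Function.Injective f ∧ (∃ v : A4, v * v = 1 ∧ v ≠ 1 ∧ ((f v : XX ι ρ) : W) = i) ∧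
      ∀ w ∈ XX ι ρ, w * i = i * w → ∃ v : A4, v * v = 1 ∧ ((f v : XX ι ρ) : W) = w := by
  have hB := XX_B h hr hi
  have hi32 := XX_invol h hr hi hii hi1
  have hi2 : ι i * ι i = 1 := by rw [← map_mul, hii, map_one]
  have hi3 : ι i ≠ 1 := fun hh => hi1 (h.inj (hh.trans (map_one ι).symm))
  obtain ⟨φ, hφ⟩ := h.km (ι i) hi2 hi3 hB
  obtain ⟨bz, hbz⟩ := mem5 h hii hi32 hφ (x := z) (IsConj.refl z) (h.zc _).symm
  obtain ⟨bs, hbs⟩ := mem5 h hii hi32 hφ (x := A3 ι ρ) (A3_A h hr) (comm_of_cg (mem_XX.1 hi)).symm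
  have hcz : ∀ v : A4, φ (v, 1) * z = z * φ (v, 1) := by
    intro v
    rw [← hbz, ← map_mul, ← map_mul]; congr 1
  have hcs : ∀ v : A4, φ (v, 1) * A3 ι ρ = A3 ι ρ * φ (v, 1) := by
    intro v
    rw [← hbs, ← map_mul, ← map_mul]; congr 1
  choose k hk using fun v : A4 => h.cz (φ (v, 1)) (hcz v)
  have hkX : ∀ v, k v ∈ XX ι ρ := by
    intro v
    rw [mem_XX, hk]; exact cg_comm (hcs v)
  let f : A4 →* XX ι ρ :=
    { toFun := fun v => ⟨k v, hkX v⟩
      map_one' := by
        apply Subtype.ext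
        apply h.inj
        change ι (k 1) = ι 1
        rw [hk, map_one]; exact map_one φ
      map_mul' := by
        intro a b
        apply Subtype.ext
        apply h.inj
        change ι (k (a * b)) = ι (k a * k b)
        rw [map_mul, hk, hk, hk, ← map_mul]
        congr 1 }
  have hf : ∀ v, ι ((f v : XX ι ρ) : W) = φ (v, 1) := hk
  refine ⟨f, ?_, ?_, ?_⟩
  · intro a b hab
    have h1 : φ (a, 1) = φ (b, 1) := by rw [← hf, ← hf, hab]
    exact congrArg Prod.fst (hφ.inj h1)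
  · obtain ⟨v, h1, h2, h3⟩ := hφ.v0
    exact ⟨v, h1, h2, h.inj ((hf v).trans h3)⟩
  · intro w hw hwi
    obtain ⟨v, b, hv, hvb⟩ := hφ.cen (ι w) (by rw [← map_mul, hwi, map_mul])
    have hbz2 : bz * bz = 1 := by
      have h1 := h.zz
      rw [← hbz, ← map_mul] at h1
      exact congrArg Prod.snd (hφ.inj (h1.trans (map_one φ).symm))
    have hbs2 : bs * bs = 1 := by
      have h1 := (A_sq h (A3_A h hr)).1
      rw [← hbs, ← map_mul] at h1
      exact congrArg Prod.snd (hφ.inj (h1.trans (map_one φ).symm))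
    have hnc : bz * bs ≠ bs * bz := by
      intro hh
      have h1 : A3 ι ρ * z = z * A3 ι ρ := by
        rw [← hbs, ← hbz, ← map_mul, ← map_mul]; congr 1; exact Prod.ext rfl hh.symm
      apply A3_notS h hr
      rcases near0 h (A3_A h hr) h1 with h4 | h4 | h4 | ⟨t, ht, h4⟩ <;> rw [h4]
      · exact InS_small (by decide +kernel) (by decide +kernel) (by decide +kernel)
      · exact InS_small (by decide +kernel) (by decide +kernel) (by decide +kernel)
      · exact InS_small (by decide +kernel) (by decide +kernel) (by decide +kernel)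
      · have : ∀ t ∈ L8, wk t.1 * wk t.1 = 1 ∧ wk t.1 ≠ 1 ∧ (wk t.1).v < 32 := by decide +kernel
        obtain ⟨b1, b2, b3⟩ := this t ht
        exact InS_small b1 b2 b3
    have c1 : b * bz = bz * b := by
      have h1 := h.zc w
      rw [← hbz, ← hvb, ← map_mul, ← map_mul] at h1
      exact congrArg Prod.snd (hφ.inj h1)
    have c2 : b * bs = bs * b := by
      have h1 := comm_of_cg (mem_XX.1 hw)
      rw [← hbs, ← hvb, ← map_mul, ← map_mul] at h1
      exact congrArg Prod.snd (hφ.inj h1)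
    have hb1 := G4 bz hbz2 bs hbs2 hnc b c1 c2
    refine ⟨v, hv, h.inj ?_⟩
    rw [hf, ← hvb, hb1]

theorem card_A4 : Nat.card A4 = 12 := by
  rw [nat_card_alternatingGroup, Nat.card_fin]; rfl

theorem card_XX [Finite G] (h : HJ ι z) (hr : RR ι ρ) : Nat.card (XX ι ρ) = 12 := by
  have hne := card_XX_ne15 hr
  have h4 := card_XX_four h hr
  have : Fact (Nat.Prime 2) := ⟨Nat.prime_two⟩
  have h2 : 2 ∣ Nat.card (XX ι ρ) := by rcases h4 with h4 | h4 | h4 | h4 <;> omega
  obtain ⟨i, hi⟩ := exists_prime_orderOf_dvd_card' (G := XX ι ρ) 2 h2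
  have hi2 : (i : W) * i = 1 := by
    have := pow_orderOf_eq_one i
    rw [hi, pow_two] at this
    exact congrArg Subtype.val this
  have hi1 : (i : W) ≠ 1 := by
    intro hh
    have : i = 1 := Subtype.ext hh
    rw [this, orderOf_one] at hi; omega
  obtain ⟨f, hf, _, _⟩ := XX_data h hr i.2 hi2 hi1
  have h12 : 12 ∣ Nat.card (XX ι ρ) := by
    rw [← card_A4]; exact Subgroup.card_dvd_of_injective f hf
  rcases h4 with h4 | h4 | h4 | h4
  · exact h4
  · omega
  · exfalso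
    obtain ⟨P⟩ : Nonempty (Sylow 2 (XX ι ρ)) := inferInstance
    have hP : Nat.card P = 8 := by
      rw [Sylow.card_eq_multiplicity, h4]
      have : (24 : ℕ).factorization 2 = 3 := by
        rw [show (24 : ℕ) = 2 ^ 3 * 3 from rfl, Nat.factorization_mul (by norm_num) (by norm_num), Nat.factorization_pow]
        simp only [Finsupp.coe_add, Finsupp.coe_smul, Pi.add_apply, Pi.smul_apply, smul_eq_mul]
        rw [Nat.Prime.factorization_self (by norm_num), Nat.factorization_eq_zero_of_not_dvd (by norm_num)]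
      rw [this]; norm_num
    have hPnt : Nontrivial P := by
      rw [← Finite.one_lt_card_iff_nontrivial, hP]; norm_num
    have hcn : Nontrivial (center P) := P.isPGroup'.center_nontrivial
    have hc2 : 2 ∣ Nat.card (center P) := by
      have h1 : IsPGroup 2 (center P) := P.isPGroup'.to_subgroup _
      obtain ⟨n, hn⟩ := IsPGroup.iff_card.1 h1
      rw [hn]
      rcases n with _ | n
      · rw [pow_zero] at hn
        have := Finite.one_lt_card_iff_nontrivial.2 hcn
        omega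
      · exact dvd_pow_self 2 (Nat.succ_ne_zero n)
    obtain ⟨j, hj⟩ := exists_prime_orderOf_dvd_card' (G := center P) 2 hc2
    have hj2 : (((j : P) : XX ι ρ) : W) * (((j : P) : XX ι ρ) : W) = 1 := by
      have := pow_orderOf_eq_one j
      rw [hj, pow_two] at this
      exact congrArg (fun x : center P => (((x : P) : XX ι ρ) : W)) this
    have hj1 : (((j : P) : XX ι ρ) : W) ≠ 1 := by
      intro hh
      have : j = 1 := Subtype.ext (Subtype.ext (Subtype.ext hh))
      rw [this, orderOf_one] at hj; omega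
    obtain ⟨f', hf', _, hcen⟩ := XX_data h hr ((j : P) : XX ι ρ).2 hj2 hj1
    -- P has at most 4 elements
    have hle : Nat.card P ≤ 4 := by
      classical
      have hex : ∀ p : P, ∃ v : A4, v * v = 1 ∧ ((f' v : XX ι ρ) : W) = ((p : XX ι ρ) : W) := by
        intro p
        apply hcen _ (p : XX ι ρ).2
        have := (mem_center_iff.1 j.2 p)
        exact congrArg (fun x : P => ((x : XX ι ρ) : W)) this
      choose k hk1 hk2 using hex
      let F : P → {v // v ∈ (Finset.univ : Finset A4).filter (fun v => v * v = 1)} := fun p =>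
        ⟨k p, Finset.mem_filter.2 ⟨Finset.mem_univ _, hk1 p⟩⟩
      have hF : Function.Injective F := by
        intro a b hab
        have h1 : k a = k b := congrArg Subtype.val hab
        have h2 := hk2 a
        rw [h1, hk2 b] at h2
        exact (Subtype.ext (Subtype.ext h2)).symm
      refine (Nat.card_le_card_of_injective F hF).trans ?_
      rw [Nat.card_eq_fintype_card, Fintype.card_coe]
      exact F7.le
    omega
  · omega

theorem cands : ∀ w : W, w * w = 1 → 32 ≤ w.v → w * (wk 32 * w * (wk 32)⁻¹) * (wk 32 * (wk 32 * w * (wk 32)⁻¹) * (wk 32)⁻¹) = 1 →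
    w * wk 1 = wk 1 * w ∨ w = wk 869 ∨ wk 32 * w * (wk 32)⁻¹ = wk 869 ∨ (wk 32)⁻¹ * w * wk 32 = wk 869 ∨
    w = wk 864 ∨ wk 32 * w * (wk 32)⁻¹ = wk 864 ∨ (wk 32)⁻¹ * w * wk 32 = wk 864 := by decide +kernel

/-- geodesics -/
theorem geod [Finite G] (h : HJ ι z) (hr : RR ι ρ) {g y : G} (hg : IsConj z g) (hgz : g * z = z * g) (hgne : g ≠ z)
    (hy : IsConj z y) (hgy : y * g = g * y) (hys : y * A3 ι ρ = A3 ι ρ * y) :
    ∃ w ∈ XX ι ρ, cg (ι w) (ι (wk 1)) = g := by
  have hns := A3_notS h hr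
  obtain ⟨w0, rfl⟩ := h.cz g hgz
  obtain ⟨a1, a2, a3⟩ := A_C h hg
  have hw16 : w0 ≠ wk 16 := fun hh => hgne (by rw [hh, h.z16])
  obtain ⟨c1, rfl⟩ := W1 w0 a1 a2 a3 hw16
  have hyC : ∀ w : W, y = ι w → False := by
    intro w hw
    rw [hw] at hys hy
    exact XX_B h hr (mem_XX.2 (cg_comm hys)) hy
  have h1 : cg (ι c1⁻¹) y * ι (wk 1) = ι (wk 1) * cg (ι c1⁻¹) y := by
    have h2 := (cg_comm_iff (g := ι c1⁻¹)).1 hgy
    have e1 : cg (ι c1⁻¹) (ι (c1 * wk 1 * c1⁻¹)) = ι (wk 1) := by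
      rw [cg_io]; congr 1; group
    rwa [e1] at h2
  have hback : ∀ w : W, cg (ι c1⁻¹) y = ι w → False := by
    intro w hw
    apply hyC (c1 * w * c1⁻¹)
    rw [← cg_io, ← hw, map_inv, cg_cg_inv]
  rcases near1 h hr (A_cg hy _) h1 with h4 | h4 | h4 | ⟨t, ht, _, h4⟩
  · exact (hback _ h4).elim
  · exact (hback _ h4).elim
  · exact (hback _ h4).elim
  obtain ⟨b1, b2, b3, b4, b5, b6, b7, b8, b9, b10, b11⟩ := L8_check t ht
  set d := th t.2.1 with hd
  have hy2 : y = cg (ι (c1 * wk d)) (A2 ι ρ) := by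
    rw [map_mul, cg_mul, ← h4, map_inv, cg_cg_inv]
  have h5 : cg (ι (c1 * wk d))⁻¹ (A3 ι ρ) * A2 ι ρ = A2 ι ρ * cg (ι (c1 * wk d))⁻¹ (A3 ι ρ) := by
    rw [cg_comm_iff (g := ι (c1 * wk d)), cg_cg_inv, ← hy2]; exact hys.symm
  have hS : ¬ InS ι ρ (cg (ι (c1 * wk d))⁻¹ (A3 ι ρ)) := by
    intro hh
    apply hns
    have := InS_io hh (c1 * wk d)
    rwa [cg_cg_inv] at this
  rcases near2 h hr (A_cg (A3_A h hr) _) h5 with h6 | h6 | h6 | ⟨t', ht', h6⟩
  · exfalso; apply hS; rw [h6]; exact Or.inr ⟨1, by rw [map_one, cg_one]⟩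
  · exfalso; apply hS; rw [h6]
    obtain ⟨e1, e2, e3, e4, e5, _⟩ := L8_check (18, 17, 1) (by decide)
    have : cg ρ (ι (wk 18)) = cg (ι (wk (th 17))) (A2 ι ρ) := by
      have e5' : cw 17 2 = 18 := e5
      rw [← e5', ← cg_ik e2 (by norm_num), hr.r1.cgD e2 e4]; rfl
    rw [this]; exact Or.inr ⟨_, rfl⟩
  · exfalso; apply hS; rw [h6]; exact InS_small (by decide +kernel) (by decide +kernel) (by decide +kernel)
  · obtain ⟨e1, e2, e3, e4, e5, e6, e7, e8, e9, e10, e11⟩ := L8_check t' ht'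
    refine ⟨c1 * wk d * wk t'.2.2, ?_, ?_⟩
    · rw [mem_XX, map_mul, cg_mul, ← h6, cg_cg_inv]
    · have f1 : ∀ n : ℕ, n < 1920 → inD n = true → cg (ι (wk n)) (ι (wk 1)) = ι (wk 1) := by
        intro n hn hD
        apply cg_comm
        unfold inD at hD
        rw [Nat.beq_eq] at hD
        rw [← ik_mul hn (by norm_num), ← ik_mul (by norm_num) hn, hD]
      rw [map_mul, map_mul, cg_mul, cg_mul, f1 _ e3 (inH2_D e11), f1 _ b6 b7, cg_io]

def L12 : List ℕ := [0, 32, 64, 864, 896, 928, 1248, 1280, 1312, 1632, 1664, 1696]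

theorem no864 [Finite G] (h : HJ ι z) (hr : RR ι ρ) : wk 864 ∉ XX ι ρ := by
  classical
  intro hb
  have hb' : cg (ι (wk 864)) (A3 ι ρ) = A3 ι ρ := hb
  have h32 := XX32 (ι := ι) hr
  -- the twelve elements
  have hX : ∀ w ∈ XX ι ρ, w.v ∈ L12 := by
    have hsub : (L12.toFinset.image wk) ⊆ Finset.univ.filter (fun w => w ∈ XX ι ρ) := by
      intro w hw
      rw [Finset.mem_image] at hw
      obtain ⟨n, hn, rfl⟩ := hw
      rw [List.mem_toFinset] at hn
      rw [Finset.mem_filter]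
      refine ⟨Finset.mem_univ _, ?_⟩
      have h1312 : wk 1312 ∈ XX ι ρ := by
        have e : wk 1312 = wk 32 * wk 864 * (wk 32)⁻¹ ∨ wk 1312 = (wk 32)⁻¹ * wk 864 * wk 32 := by decide +kernel
        rcases e with e | e <;> rw [e]
        · exact mul_mem (mul_mem h32 hb) (inv_mem h32)
        · exact mul_mem (mul_mem (inv_mem h32) hb) h32
      have hall : ∀ n ∈ L12, ∃ a ∈ ([1, wk 864, wk 1312, wk 864 * wk 1312] : List W), ∃ b ∈ ([1, wk 32, wk 32 * wk 32] : List W),
          wk n = a * b := by decide +kernel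
      obtain ⟨a, ha, b, hb2, hab⟩ := hall n hn
      rw [hab]
      apply mul_mem
      · simp only [List.mem_cons, List.not_mem_nil, or_false] at ha
        rcases ha with rfl | rfl | rfl | rfl
        · exact one_mem _
        · exact hb
        · exact h1312
        · exact mul_mem hb h1312
      · simp only [List.mem_cons, List.not_mem_nil, or_false] at hb2
        rcases hb2 with rfl | rfl | rfl
        · exact one_mem _
        · exact h32
        · exact mul_mem h32 h32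
    have hcard : (Finset.univ.filter (fun w => w ∈ XX ι ρ)).card = 12 := by
      rw [← Fintype.card_subtype, ← Nat.card_eq_fintype_card]
      exact card_XX h hr
    have hcard2 : (L12.toFinset.image wk).card = 12 := by decide +kernel
    have heq := Finset.eq_of_subset_of_card_le hsub (by rw [hcard, hcard2])
    intro w hw
    have hw2 : w ∈ L12.toFinset.image wk := by rw [heq, Finset.mem_filter]; exact ⟨Finset.mem_univ _, hw⟩
    rw [Finset.mem_image] at hw2
    obtain ⟨n, hn, rfl⟩ := hw2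
    rw [List.mem_toFinset] at hn
    have hlt : ∀ n ∈ L12, n < 1920 := by decide
    rw [wkv (hlt n hn)]; exact hn
  set k := ρ * ι (wk 255) with hk
  have e0 : cg ρ z = ι (wk 1) := by
    have := hr.r1.cgi (d := 16) (by norm_num) (by decide +kernel)
    rw [h.z16] at this
    exact this
  have k1 : cg k (A3 ι ρ) = cg (ι (wk 864)) (A2 ι ρ) := by
    have e1 : ι (wk 255) = ι (wk (th (th 122))) * ι (wk 66) := by
      rw [← map_mul]; congr 1
    have e2 : cg ρ (cg (ι (wk (th (th 122)))) (cg (ι (wk 66)) (A3 ι ρ))) = cg (ι (wk 122)) (cg ρ (cg (ι (wk 66)) (A3 ι ρ))) := by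
      have := hr.r1.cgD (d := th (th 122)) (by decide +kernel) (by decide +kernel) (cg (ι (wk 66)) (A3 ι ρ))
      have e3 : th (th (th 122)) = 122 := by decide +kernel
      rwa [e3] at this
    rw [hk, e1, cg_mul, cg_mul, e2, hr.k3b, ← cg_mul, ← ik_mul (by norm_num) (by norm_num)]
    exact pt2_eq hr.r1 (wm_lt (by norm_num) (by norm_num)) (by norm_num) (by decide +kernel)
  have k2 : cg k (ι (wk 31)) = A2 ι ρ := by
    have e1 : cw 255 31 = 2 := by decide +kernel
    rw [hk, cg_mul, cg_ik (by norm_num) (by norm_num), e1]; rfl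
  have hgA : IsConj z (ι (wk 31)) := A_of h (by decide +kernel) (by decide +kernel) (by decide +kernel)
  obtain ⟨w, hw, hw2⟩ := geod h hr (g := ι (wk 31)) (y := cg k⁻¹ (A3 ι ρ)) hgA (h.zc _)
    (by
      intro hh
      rw [← h.z16] at hh
      exact absurd (h.inj hh) (by decide +kernel))
    (A_cg (A3_A h hr) _)
    (by
      rw [cg_comm_iff (g := k), cg_cg_inv, k2]; exact (A2_A3 h hr).symm)
    (by
      rw [cg_comm_iff (g := k), cg_cg_inv, k1]
      have := (cg_comm_iff (g := ι (wk 864))).1 (A2_A3 h hr)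
      rw [hb'] at this
      exact this.symm)
  have h12 := hX w hw
  rw [cg_io] at hw2
  have hw3 := h.inj hw2
  have hfin : ∀ n ∈ L12, wk n * wk 1 * (wk n)⁻¹ ≠ wk 31 := by decide +kernel
  apply hfin w.v h12
  rw [wk_v]; exact hw3

/-- the last relation -/
theorem rel869 [Finite G] (h : HJ ι z) (hr : RR ι ρ) : wk 869 ∈ XX ι ρ := by
  have hcard := card_XX h hr
  have : Fact (Nat.Prime 2) := ⟨Nat.prime_two⟩
  obtain ⟨i, hi⟩ := exists_prime_orderOf_dvd_card' (G := XX ι ρ) 2 (by rw [hcard]; norm_num)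
  have hi2 : (i : W) * i = 1 := by
    have := pow_orderOf_eq_one i
    rw [hi, pow_two] at this
    exact congrArg Subtype.val this
  have hi1 : (i : W) ≠ 1 := by
    intro hh
    have : i = 1 := Subtype.ext hh
    rw [this, orderOf_one] at hi; omega
  obtain ⟨f, hf, ⟨v, hv1, hv2, hv3⟩, _⟩ := XX_data h hr i.2 hi2 hi1
  have hb := (Nat.bijective_iff_injective_and_card f).2 ⟨hf, by rw [card_A4, hcard]⟩
  have h32 := XX32 (ι := ι) hr
  obtain ⟨y, hy⟩ := hb.2 ⟨wk 32, h32⟩
  have hy3 : y * y * y = 1 := by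
    apply hf
    rw [map_mul, map_mul, hy, map_one]
    apply Subtype.ext
    change wk 32 * wk 32 * wk 32 = 1
    decide +kernel
  have hy1 : y ≠ 1 := by
    intro hh
    rw [hh, map_one] at hy
    have := congrArg Subtype.val hy
    change (1 : W) = wk 32 at this
    exact absurd this (by decide +kernel)
  have hrel := F4 v y ⟨hv1, hv2, hy3, hy1⟩
  have hrel2 : (i : W) * (wk 32 * i * (wk 32)⁻¹) * (wk 32 * (wk 32 * i * (wk 32)⁻¹) * (wk 32)⁻¹) = 1 := by
    have h1 := congrArg (fun x : A4 => ((f x : XX ι ρ) : W)) hrel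
    simp only [map_mul, map_inv, map_one, hy] at h1
    simp only [Subgroup.coe_mul, Subgroup.coe_inv, Subgroup.coe_one, hv3] at h1
    exact h1
  have hi32 := XX_invol h hr i.2 hi2 hi1
  rcases cands i hi2 hi32 hrel2 with hc | hc | hc | hc | hc | hc | hc
  · exfalso
    -- i commutes with e0 and with A3, hence with A2
    have h1 : cg (ι (i : W)) (A3 ι ρ) = A3 ι ρ := i.2
    have h2 : cg (ι (i : W)) (ι (wk 1)) = ι (wk 1) := cg_comm (by rw [← map_mul, ← map_mul, hc])
    have h3 : (ι (wk 1) * A3 ι ρ) * (ι (wk 1) * A3 ι ρ) = A2 ι ρ := by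
      have e0 : cg ρ (ι (wk 16)) = ι (wk 1) := hr.r1.cgi (d := 16) (by norm_num) (by decide +kernel)
      have e16 : cg (ι (wk 416)) (ι (wk 16)) = ι (wk 16) := by
        rw [cg_ik (by norm_num) (by norm_num)]; congr 1
      have e17 : cg ρ (ι (wk 17)) = ι (wk 16) := hr.r1.cgi (d := 17) (by norm_num) (by decide +kernel)
      have f1 : (ι (wk 16) * A2 ι ρ) * (ι (wk 16) * A2 ι ρ) = ι (wk 1) := by
        have : ι (wk 16) = cg ρ (ι (wk 17)) := e17.symm
        rw [this]; unfold A2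
        rw [← cg_hom, ← cg_hom, ← map_mul, ← map_mul]
        have e : wk 17 * wk 2 * (wk 17 * wk 2) = wk 16 := by decide +kernel
        rw [e, e0]
      have f2 : ι (wk 1) = cg ρ (cg (ι (wk 416)) (ι (wk 16))) := by rw [e16, e0]
      unfold A3
      rw [f2, ← cg_hom, ← cg_hom, ← cg_hom, ← cg_hom, f1, cg_ik (by norm_num) (by norm_num)]
      have : cw 416 1 = 2 := by decide +kernel
      rw [this]; rfl
    have h4 : cg (ι (i : W)) (A2 ι ρ) = A2 ι ρ := by
      rw [← h3, cg_hom, cg_hom, h1, h2]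
    rcases path_stab h hr i.2 h4 with h5 | h5 | h5 <;> rw [h5] at hi2 hi1
    · exact hi1 (by decide +kernel)
    · exact absurd hi2 (by decide +kernel)
    · exact absurd hi2 (by decide +kernel)
  · rw [← hc]; exact i.2
  · rw [← hc]; exact mul_mem (mul_mem h32 i.2) (inv_mem h32)
  · rw [← hc]; exact mul_mem (mul_mem (inv_mem h32) i.2) h32
  · exact (no864 h hr (by rw [← hc]; exact i.2)).elim
  · exact (no864 h hr (by rw [← hc]; exact mul_mem (mul_mem h32 i.2) (inv_mem h32))).elim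
  · exact (no864 h hr (by rw [← hc]; exact mul_mem (mul_mem (inv_mem h32) i.2) h32)).elim

end H58.J2H
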