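import Mathlib
import Cfsg.Agent.Lib.H58.J2G
import Cfsg.Agent.Lib.H58.J2N
import Cfsg.Agent.Lib.H91.LargeExtra
import Cfsg.Agent.Lib.H26.Components
import Cfsg.Agent.Lib.H1.Cores
import Cfsg.Agent.S0824

/-! Groups of Hall-Janko type: from the hypotheses to the identification (helper58). -/

set_option autoImplicit false
set_option linter.style.haveILetI false
set_option maxRecDepth 100000
set_option linter.unusedSectionVars false

namespace H58.J2O

open H58.J2A H58.J2B H58.J2C H58.J2H Subgroup Cfsg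

theorem QD_of {C : Type*} [Group C] [Finite C] (Q : Subgroup C) (hN : Q.Normal) (hQ : IsExtraspecial 2 Q) (hcard : Nat.card Q = 32)
    (hcc : centralizer (Q : Set C) ≤ Q) (h60 : Nat.card (C ⧸ Q) = 60) (z : C) (z1 : z ≠ 1) (zC : ∀ c : C, c * z = z * c) :
    QD Q z := by
  obtain ⟨z0, hz0, hz01, hz02, _, _, hzq, hcen, hcom, hsq⟩ := H91.LargeExtra.exists_z hQ
  have hzQ : z ∈ Q := by
    apply hcc
    rw [mem_centralizer_iff]
    intro q _
    exact zC q
  have hz : z = z0 := by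
    rcases hcen z hzQ (fun q _ => zC q) with h | h
    · exact absurd h z1
    · exact h
  subst hz
  refine ⟨fun c x hx => hN.conj_mem x hx c, hzQ, z1, hz02, zC, ?_, hsq, ?_, hcard, ?_⟩
  · intro x hx y hy
    rcases hcom x hx y hy with h | h
    · left
      rw [mul_inv_eq_one, mul_inv_eq_iff_eq_mul] at h
      exact h
    · right
      rw [mul_inv_eq_iff_eq_mul, mul_inv_eq_iff_eq_mul] at h
      rw [h, mul_assoc]
  · intro c hc
    have hcQ : c ∈ Q := hcc (by
      rw [mem_centralizer_iff]; intro q hq; exact hc q hq)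
    exact hcen c hcQ hc
  · have := Subgroup.card_eq_card_quotient_mul_card_subgroup Q
    rw [h60, hcard] at this
    rw [this]

/-- commutator subgroups of isomorphic groups -/
theorem comm_iso {A B : Type*} [Group A] [Group B] (e : A ≃* B) : Nonempty (commutator A ≃* commutator B) := by
  have h : (commutator A).map (e : A →* B) = commutator B := by
    rw [commutator_def, commutator_def, Subgroup.map_commutator]
    rw [← MonoidHom.range_eq_map, MonoidHom.range_eq_top.2 e.surjective]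
  exact ⟨(e.subgroupMap (commutator A)).trans (MulEquiv.subgroupCongr h)⟩

theorem omega_iso : Nonempty (Omega (ZMod 2) (quadFormMinus 1 (ZMod 2) 1 1) ≃* alternatingGroup (Fin 5)) := by
  obtain ⟨e⟩ := Cfsg.Agent.S0824.result (F := ZMod 2) (by rw [ZMod.card])
  obtain ⟨f⟩ := comm_iso e
  have h : commutator (Equiv.Perm (Fin 5)) = alternatingGroup (Fin 5) :=
    alternatingGroup.commutator_perm_eq (by simp)
  exact ⟨f.trans (MulEquiv.subgroupCongr h)⟩

theorem card_A5 : Nat.card (alternatingGroup (Fin 5)) = 60 := by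
  rw [nat_card_alternatingGroup, Nat.card_fin]; rfl

theorem card_omega : Nat.card (Omega (ZMod 2) (quadFormMinus 1 (ZMod 2) 1 1)) = 60 := by
  obtain ⟨e⟩ := omega_iso
  rw [Nat.card_congr e.toEquiv, card_A5]

section
variable {C : Type*} [Group C] [Finite C] {Q : Subgroup C} {z : C} {e : Fin 5 → C}

/-- the noncentral involutions of `Q` are conjugate -/
theorem e_conj (h : ACC Q z e) (i j : Fin 5) : (∃ c, c * e i * c⁻¹ = e j) ∧ ∃ c, c * e i * c⁻¹ = z * e j := by
  -- sign change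
  have flip : ∀ j : Fin 5, ∃ q, q * e j * q⁻¹ = z * e j := by
    intro j
    obtain ⟨k, hk⟩ : ∃ k : Fin 5, k ≠ j := ⟨j + 1, by revert j; decide⟩
    refine ⟨e k, ?_⟩
    rw [h.ac.ac k j hk]; group
  have h0 : ∃ p : Fin 60, pf p.val i = j := by
    revert i j; decide +kernel
  obtain ⟨p, hp⟩ := h0
  obtain ⟨c, hc⟩ := exists_lift h p.isLt
  have h1 : c * e i * c⁻¹ = e j := by rw [hc i, hp]
  obtain ⟨q, hq⟩ := flip j
  refine ⟨⟨c, h1⟩, ⟨q * c, ?_⟩⟩
  have : q * c * e i * (q * c)⁻¹ = q * (c * e i * c⁻¹) * q⁻¹ := by group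
  rw [this, h1, hq]

theorem Q_invol_conj (h : ACC Q z e) {x y : C} (hx : x ∈ Q) (hxx : x * x = 1) (hx1 : x ≠ 1) (hxz : x ≠ z)
    (hy : y ∈ Q) (hyy : y * y = 1) (hy1 : y ≠ 1) (hyz : y ≠ z) : ∃ c, c * x * c⁻¹ = y := by
  obtain ⟨i, hi⟩ := invol h hx hxx hx1 hxz
  obtain ⟨j, hj⟩ := invol h hy hyy hy1 hyz
  have h1 : ∃ c, c * e i * c⁻¹ = y := by
    rcases hj with hj | hj <;> rw [hj]
    · exact (e_conj h i j).1
    · exact (e_conj h i j).2
  obtain ⟨c, hc⟩ := h1
  rcases hi with hi | hi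
  · exact ⟨c, by rw [hi]; exact hc⟩
  · obtain ⟨d, hd⟩ := (e_conj h i i).2
    refine ⟨c * d⁻¹, ?_⟩
    have h2 : d⁻¹ * (z * e i) * d = e i := by rw [← hd]; group
    rw [hi]
    have : c * d⁻¹ * (z * e i) * (c * d⁻¹)⁻¹ = c * (d⁻¹ * (z * e i) * d) * c⁻¹ := by group
    rw [this, h2, hc]
end

/-- the data for an involution `t` from the structure of `N_G(O_2(C_G(t)))` -/
theorem KM_of {G : Type*} [Group G] [Finite G] {t : G} (ht : t * t = 1) (ht1 : t ≠ 1)
    (e : ↥(normalizer (((pCore 2 ↥(centralizer ({t} : Set G))).map (centralizer ({t} : Set G)).subtype : Subgroup G) : Set G)) ≃*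
      alternatingGroup (Fin 4) × alternatingGroup (Fin 5)) :
    ∃ φ : alternatingGroup (Fin 4) × alternatingGroup (Fin 5) →* G, KM t φ := by
  have : Fact (Nat.Prime 2) := ⟨Nat.prime_two⟩
  set C := centralizer ({t} : Set G) with hC
  set P : Subgroup G := (pCore 2 C).map C.subtype with hP
  set N := normalizer (P : Set G) with hN
  have htC : t ∈ C := by rw [hC, mem_centralizer_singleton_iff]
  have hcn : (pCore 2 C).Normal := H1.Cores.pCore_normal 2
  have hC_N : C ≤ N := by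
    intro g hg
    rw [hN, mem_normalizer_iff]
    intro x
    constructor
    · rintro ⟨y, hy, rfl⟩
      exact ⟨⟨g, hg⟩ * y * ⟨g, hg⟩⁻¹, hcn.conj_mem y hy _, rfl⟩
    · rintro ⟨y, hy, hyx⟩
      refine ⟨⟨g, hg⟩⁻¹ * y * ⟨g, hg⟩, ?_, ?_⟩
      · have := hcn.conj_mem y hy (⟨g, hg⟩⁻¹)
        rwa [inv_inv] at this
      · change g⁻¹ * (y : G) * g = x
        have : (y : G) = g * x * g⁻¹ := hyx
        rw [this]; group
  have htP : t ∈ P := by
    refine ⟨⟨t, htC⟩, ?_, rfl⟩
    have h1 : zpowers (⟨t, htC⟩ : C) ≤ pCore 2 C := by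
      apply le_sSup
      constructor
      · constructor
        intro n hn g
        have h2 : (⟨t, htC⟩ : C) ∈ center C := by
          rw [mem_center_iff]
          intro g
          apply Subtype.ext
          exact mem_centralizer_singleton_iff.1 g.2
        have h3 : n ∈ center C := (zpowers_le.2 h2) hn
        rw [mem_center_iff] at h3
        rw [h3 g, mul_inv_cancel_right]; exact hn
      · intro x
        obtain ⟨x, hx⟩ := x
        refine ⟨1, ?_⟩
        rw [mem_zpowers_iff] at hx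
        obtain ⟨k, rfl⟩ := hx
        apply Subtype.ext
        change ((⟨t, htC⟩ : C) ^ k) ^ (2 ^ 1) = 1
        rw [pow_one, ← zpow_natCast, ← zpow_mul, mul_comm, zpow_mul]
        have : (⟨t, htC⟩ : C) ^ ((2 : ℕ) : ℤ) = 1 := by
          rw [zpow_natCast, pow_two]; exact Subtype.ext ht
        rw [this, one_zpow]
    exact h1 (mem_zpowers _)
  have htN : t ∈ N := hC_N htC
  -- the second coordinate of `t`
  let π : N →* alternatingGroup (Fin 5) := (MonoidHom.snd _ _).comp e.toMonoidHom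
  have hπ : Function.Surjective π := by
    intro b
    obtain ⟨n, hn⟩ := e.surjective (1, b)
    exact ⟨n, by change (e n).2 = b; rw [hn]⟩
  have hPN : P ≤ N := le_normalizer
  have hPP : IsPGroup 2 P := by
    have h1 : IsPGroup 2 (pCore 2 C) := H91.LargeExtra.isPGroup_pCore
    exact h1.map _
  let R : Subgroup (alternatingGroup (Fin 5)) := (P.subgroupOf N).map π
  have hRn : R.Normal := by
    have : (P.subgroupOf N).Normal := by rw [hN]; exact Subgroup.normal_in_normalizer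
    exact this.map π hπ
  have hR2 : IsPGroup 2 R := by
    have h1 : IsPGroup 2 (P.subgroupOf N) := hPP.comap_subtype
    exact h1.map π
  have hsimple : IsSimpleGroup (alternatingGroup (Fin 5)) := inferInstance
  have hRbot : R = ⊥ := by
    rcases hRn.eq_bot_or_eq_top with h1 | h1
    · exact h1
    · exfalso
      obtain ⟨n, hn⟩ := IsPGroup.iff_card.1 hR2
      rw [h1, Subgroup.card_top, card_A5] at hn
      have : (3 : ℕ) ∣ 2 ^ n := by rw [← hn]; norm_num
      have := Nat.Prime.dvd_of_dvd_pow Nat.prime_three this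
      omega
  have ht2 : (e ⟨t, htN⟩).2 = 1 := by
    have h1 : π ⟨t, htN⟩ ∈ R := ⟨⟨t, htN⟩, by rw [SetLike.mem_coe, mem_subgroupOf]; exact htP, rfl⟩
    rw [hRbot, mem_bot] at h1
    exact h1
  set v0 := (e ⟨t, htN⟩).1 with hv0
  have het : e ⟨t, htN⟩ = (v0, 1) := Prod.ext rfl ht2
  have hv00 : v0 * v0 = 1 := by
    have h1 : e ⟨t, htN⟩ * e ⟨t, htN⟩ = 1 := by
      rw [← map_mul, ← map_one e]; congr 1; exact Subtype.ext ht
    exact congrArg Prod.fst h1
  have hv01 : v0 ≠ 1 := by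
    intro h1
    rw [h1] at het
    have : (⟨t, htN⟩ : N) = 1 := e.injective (by rw [het, map_one]; rfl)
    exact ht1 (congrArg Subtype.val this)
  refine ⟨N.subtype.comp e.symm.toMonoidHom, ?_, ?_, ?_⟩
  · exact Subtype.val_injective.comp e.symm.injective
  · refine ⟨v0, hv00, hv01, ?_⟩
    change ((e.symm (v0, 1) : N) : G) = t
    rw [← het, e.symm_apply_apply]
  · intro g hg
    have hgC : g ∈ C := by rw [hC, mem_centralizer_singleton_iff]; exact hg
    have hgN : g ∈ N := hC_N hgC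
    refine ⟨(e ⟨g, hgN⟩).1, (e ⟨g, hgN⟩).2, ?_, ?_⟩
    · apply H58.J2Alt.F6 v0 hv00 hv01
      have h1 : e ⟨g, hgN⟩ * e ⟨t, htN⟩ = e ⟨t, htN⟩ * e ⟨g, hgN⟩ := by
        rw [← map_mul, ← map_mul]; congr 1; exact Subtype.ext hg
      rw [het] at h1
      exact congrArg Prod.fst h1
    · change ((e.symm ((e ⟨g, hgN⟩).1, (e ⟨g, hgN⟩).2) : N) : G) = g
      rw [Prod.mk.eta, e.symm_apply_apply]

theorem invol_ord {G : Type*} [Group G] {x : G} (h : orderOf x = 2) : x * x = 1 ∧ x ≠ 1 := by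
  constructor
  · rw [← pow_two, ← h]; exact pow_orderOf_eq_one x
  · intro h1; rw [h1, orderOf_one] at h; omega

theorem ord_invol {G : Type*} [Group G] {x : G} (h : x * x = 1) (h1 : x ≠ 1) : orderOf x = 2 := by
  have : Fact (Nat.Prime 2) := ⟨Nat.prime_two⟩
  exact orderOf_eq_prime (by rw [pow_two]; exact h) h1

/-- every involution is conjugate into a subgroup of odd index -/
theorem conj_into {G : Type*} [Group G] [Finite G] {C : Subgroup G} (hodd : Odd C.index) {x : G} (hx : orderOf x = 2) :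
    ∃ g : G, g * x * g⁻¹ ∈ C := by
  have : Fact (Nat.Prime 2) := ⟨Nat.prime_two⟩
  obtain ⟨S⟩ : Nonempty (Sylow 2 C) := inferInstance
  have h1 : IsPGroup 2 (zpowers x) := by
    rw [IsPGroup.iff_card]
    exact ⟨1, by rw [Nat.card_zpowers, hx]; norm_num⟩
  obtain ⟨T, hT⟩ := h1.exists_le_sylow
  -- the Sylow subgroup of `C` is Sylow in `G`
  have h2 : ∃ S' : Sylow 2 G, (S' : Subgroup G) ≤ C := by
    have hS : IsPGroup 2 ((S : Subgroup C).map C.subtype) := S.isPGroup'.map _
    have hidx : ¬ 2 ∣ ((S : Subgroup C).map C.subtype).index := by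
      rw [Subgroup.index_map_subtype]
      intro hd
      rcases (Nat.Prime.dvd_mul Nat.prime_two).1 hd with h3 | h3
      · exact S.not_dvd_index h3
      · exact (Nat.not_even_iff_odd.2 hodd) (even_iff_two_dvd.2 h3)
    exact ⟨hS.toSylow hidx, by
      rw [IsPGroup.toSylow_coe]
      exact map_subtype_le _⟩
  obtain ⟨S', hS'⟩ := h2
  obtain ⟨g, hg⟩ := MulAction.exists_smul_eq G T S'
  refine ⟨g, hS' ?_⟩
  rw [← hg]
  have hxT : x ∈ (T : Subgroup G) := hT (mem_zpowers x)
  rw [Sylow.coe_subgroup_smul, Subgroup.mem_pointwise_smul_iff_inv_smul_mem]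
  change (MulAut.conj g)⁻¹ • (g * x * g⁻¹) ∈ _
  have : (MulAut.conj g)⁻¹ • (g * x * g⁻¹) = x := by
    rw [← map_inv]
    change MulAut.conj g⁻¹ (g * x * g⁻¹) = x
    rw [MulAut.conj_apply]; group
  rw [this]; exact hxT

/-- the identification from the order and the structure of the other centralizers -/
theorem main' {G : Type*} [Group G] [Finite G] (z : G) (hz : orderOf z = 2) (C : Subgroup G) (hC : ∀ g, g ∈ C ↔ g * z = z * g)
    (Q : Subgroup C) (hN : Q.Normal) (hcc : centralizer (Q : Set C) ≤ Q)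
    (hQ : IsExtraspecial 2 Q) (hcard : Nat.card Q = 32) (h60 : Nat.card (C ⧸ Q) = 60)
    (hnwc : ∃ g : G, (∃ hq : g * z * g⁻¹ ∈ C, (⟨g * z * g⁻¹, hq⟩ : C) ∈ Q) ∧ g * z * g⁻¹ ≠ z)
    (hcl : ∃ x y : G, orderOf x = 2 ∧ orderOf y = 2 ∧ ¬ IsConj x y)
    (hord : Nat.card G = 604800)
    (hcen : ∀ t : G, orderOf t = 2 → ¬ IsConj t z →
      Nonempty (↥(normalizer (((pCore 2 ↥(centralizer ({t} : Set G))).map (centralizer ({t} : Set G)).subtype : Subgroup G) : Set G)) ≃*
        alternatingGroup (Fin 4) × alternatingGroup (Fin 5))) : Nonempty (G ≃* Cfsg.Spor.J2) := by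
  have hzC : z ∈ C := by rw [hC]
  obtain ⟨hzz, hz1⟩ := invol_ord hz
  have hqd : QD Q (⟨z, hzC⟩ : C) := QD_of Q hN hQ hcard hcc h60 ⟨z, hzC⟩ (fun hh => hz1 (congrArg Subtype.val hh)) (fun c => by
    apply Subtype.ext
    exact (hC c).1 c.2)
  obtain ⟨e, hac, heQ⟩ := exists_AC hqd
  have h : ACC Q (⟨z, hzC⟩ : C) e := ⟨hqd, hac, heQ⟩
  -- `e i` is conjugate to `z`
  have hQA : ∀ x : C, x ∈ Q → x * x = 1 → x ≠ 1 → IsConj z (x : G) := by
    intro x hx hxx hx1
    by_cases hxz : x = ⟨z, hzC⟩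
    · rw [hxz]
    obtain ⟨g, ⟨hq, hgQ⟩, hgz⟩ := hnwc
    have hgA : IsConj z (g * z * g⁻¹) := isConj_iff.2 ⟨g, rfl⟩
    have hgg : g * z * g⁻¹ * (g * z * g⁻¹) = 1 := by
      have : g * z * g⁻¹ * (g * z * g⁻¹) = g * (z * z) * g⁻¹ := by group
      rw [this, hzz]; simp
    obtain ⟨c, hc⟩ := Q_invol_conj h hgQ (Subtype.ext hgg)
      (by
        intro hh
        have h1 : g * z * g⁻¹ = 1 := congrArg Subtype.val hh
        apply hz1
        have := congrArg (fun y => g⁻¹ * y * g) h1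
        simpa [mul_assoc] using this)
      (fun hh => hgz (congrArg Subtype.val hh)) hx hxx hx1 hxz
    refine hgA.trans (isConj_iff.2 ⟨(c : G), ?_⟩)
    exact congrArg Subtype.val hc
  -- an involution of the second class outside `Q`
  have hcardC : Nat.card C = 1920 := hqd.cardC
  have hidx : Odd C.index := by
    have h1 := Subgroup.index_mul_card C
    rw [hcardC, hord] at h1
    have : C.index = 315 := by omega
    rw [this]; decide
  obtain ⟨t, htC, htt, ht1, htz⟩ : ∃ t : G, ∃ htC : t ∈ C, t * t = 1 ∧ t ≠ 1 ∧ ¬ IsConj z t := by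
    obtain ⟨x, y, hx, hy, hxy⟩ := hcl
    have : ∃ w : G, orderOf w = 2 ∧ ¬ IsConj z w := by
      by_cases h1 : IsConj z x
      · exact ⟨y, hy, fun h2 => hxy (h1.symm.trans h2)⟩
      · exact ⟨x, hx, h1⟩
    obtain ⟨w, hw, hwz⟩ := this
    obtain ⟨g, hg⟩ := conj_into hidx hw
    have hgo : orderOf (g * w * g⁻¹) = 2 := by
      have : g * w * g⁻¹ = MulAut.conj g w := rfl
      rw [this, MulEquiv.orderOf_eq, hw]
    obtain ⟨a1, a2⟩ := invol_ord hgo
    exact ⟨g * w * g⁻¹, hg, a1, a2, fun h1 => hwz (h1.trans (isConj_iff.2 ⟨g⁻¹, by group⟩))⟩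
  have htQ : (⟨t, htC⟩ : C) ∉ Q := by
    intro hh
    exact htz (hQA ⟨t, htC⟩ hh (Subtype.ext htt) (fun h1 => ht1 (congrArg Subtype.val h1)))
  obtain ⟨ψ, hψ16, hψe, hψQ⟩ := exists_iso h (t := ⟨t, htC⟩) (Subtype.ext htt) htQ
  have hHJ : HJ (C.subtype.comp ψ.toMonoidHom) z := by
    refine ⟨?_, ?_, ?_, hord, ?_, ?_, ?_⟩
    · exact Subtype.val_injective.comp ψ.injective
    · intro g hg
      have hgC : g ∈ C := (hC g).2 hg
      obtain ⟨w, hw⟩ := ψ.surjective ⟨g, hgC⟩
      exact ⟨w, congrArg Subtype.val hw⟩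
    · change ((ψ (wk 16) : C) : G) = z
      rw [hψ16]
    · change IsConj z ((ψ (wk 1) : C) : G)
      have h1 : ψ (wk 1) = e 0 := hψe 0
      rw [h1]
      exact hQA _ (heQ 0) (hac.sq 0) (e_ne h 0).1
    · intro w hw hw32 hcj
      -- `w` is conjugate to the element `t`
      obtain ⟨u, hu⟩ := ψ.surjective ⟨t, htC⟩
      have hu32 : 32 ≤ u.v := by
        by_contra hlt
        apply htQ
        rw [← hu]
        exact (hψQ u).2 (by omega)
      have huu : u * u = 1 := ψ.injective (by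
        rw [map_mul, hu, map_one]; exact Subtype.ext htt)
      obtain ⟨a, ha⟩ := W2 w hw hw32
      obtain ⟨b, hb⟩ := W2 u huu hu32
      apply htz
      refine hcj.trans (isConj_iff.2 ⟨((ψ (b * a⁻¹) : C) : G), ?_⟩)
      change ((ψ (b * a⁻¹) : C) : G) * ((ψ w : C) : G) * ((ψ (b * a⁻¹) : C) : G)⁻¹ = t
      have h1 : ψ (b * a⁻¹) * ψ w * (ψ (b * a⁻¹))⁻¹ = ⟨t, htC⟩ := by
        rw [← map_inv, ← map_mul, ← map_mul, ← hu]
        congr 1
        rw [← ha, ← hb]; group
      exact congrArg Subtype.val h1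
    · intro s hs hs1 hsz
      obtain ⟨f⟩ := hcen s (ord_invol hs hs1) (fun hh => hsz hh.symm)
      exact KM_of hs hs1 f
  exact main hHJ

end H58.J2O
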