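import Mathlib
import Cfsg.Agent.Lib.H58.J2O
import Cfsg.Agent.Lib.H5.ZStar

/-! `z` is not weakly closed in `Q`: from simplicity (helper58). -/

set_option autoImplicit false
set_option linter.style.haveILetI false
set_option maxRecDepth 100000
set_option linter.unusedSectionVars false

namespace H58.J2P

open H58.J2A H58.J2B H58.J2C H58.J2H H58.J2O Subgroup Cfsg

theorem dih_pow {G : Type*} [Group G] {z u : G} (hzz : z * z = 1) (hu : z * u * z = u⁻¹) (j : ℕ) : z * u ^ j * z = (u ^ j)⁻¹ := by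
  induction j with
  | zero => simp [hzz]
  | succ n ih =>
    have h1 : z * u ^ (n + 1) * z = z * u ^ n * (z * z) * u * z := by rw [hzz]; group
    have h2 : z * u ^ n * (z * z) * u * z = (z * u ^ n * z) * (z * u * z) := by group
    rw [h1, h2, ih, hu, ← mul_inv_rev, ← pow_succ']

theorem isoInv_of_comm {G : Type*} [Group G] [Finite G] {z : G} (hz : orderOf z = 2)
    (h : ∀ g : G, (g * z * g⁻¹) * z = z * (g * z * g⁻¹) → g * z * g⁻¹ = z) : H5.ZStar1.IsoInv z := by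
  obtain ⟨hzz, hz1⟩ := invol_ord hz
  refine ⟨hz, fun g => ?_⟩
  set y := g * z * g⁻¹ with hy
  have hyy : y * y = 1 := by
    have : y * y = g * (z * z) * g⁻¹ := by rw [hy]; group
    rw [this, hzz]; simp
  set u := z * y with hu
  have hzi : z⁻¹ = z := inv_eq_of_mul_eq_one_right hzz
  have hyi : y⁻¹ = y := inv_eq_of_mul_eq_one_right hyy
  have hzu : z * u * z = u⁻¹ := by
    rw [hu, mul_inv_rev, hzi, hyi, ← mul_assoc, hzz, one_mul]
  clear_value u y
  by_contra hodd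
  rw [Nat.not_odd_iff_even] at hodd
  obtain ⟨k, hk⟩ := hodd
  have hpos : 0 < orderOf u := orderOf_pos u
  have hk0 : 0 < k := by omega
  have hw1 : u ^ k ≠ 1 := fun hh => by
    have := orderOf_dvd_of_pow_eq_one hh
    have := Nat.le_of_dvd hk0 this
    omega
  have hww : u ^ k * u ^ k = 1 := by rw [← pow_add, ← hk]; exact pow_orderOf_eq_one u
  have hwi : (u ^ k)⁻¹ = u ^ k := inv_eq_of_mul_eq_one_right hww
  have hzw : z * u ^ k * z = u ^ k := by rw [dih_pow hzz hzu k, hwi]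
  have hcomm : z * u ^ k = u ^ k * z := by
    have h1 : z * u ^ k = z * u ^ k * (z * z) := by rw [hzz, mul_one]
    rw [h1, ← mul_assoc, hzw]
  -- `u ^ k * z` is a conjugate of `z`
  have hcj : ∃ x : G, x * z * x⁻¹ = u ^ k * z := by
    have key : ∀ (a : G), (z * u * z = u⁻¹) → ∀ j : ℕ, u ^ j * z * (u ^ j)⁻¹ = u ^ (2 * j) * z := by
      intro _ _ j
      rw [← dih_pow hzz hzu j]
      have : u ^ j * z * (z * u ^ j * z) = u ^ j * (z * z) * u ^ j * z := by group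
      rw [this, hzz, mul_one, two_mul, pow_add]
    rcases Nat.even_or_odd' k with ⟨j, hj | hj⟩
    · exact ⟨u ^ j, by rw [key 1 hzu j, hj]⟩
    · refine ⟨u ^ j * (z * g), ?_⟩
      have h1 : u ^ j * (z * g) * z * (u ^ j * (z * g))⁻¹ = u ^ j * (z * (g * z * g⁻¹) * z⁻¹) * (u ^ j)⁻¹ := by group
      rw [h1, ← hy, hzi, ← hu]
      have h2 : u ^ j * (u * z) * (u ^ j)⁻¹ = u * (u ^ j * z * (u ^ j)⁻¹) := by
        rw [← mul_assoc, ← mul_assoc, ← mul_assoc, ← pow_succ, pow_succ']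
      rw [h2, key 1 hzu j, hj, ← mul_assoc, ← pow_succ']
  obtain ⟨x, hx⟩ := hcj
  have h1 := h x (by rw [hx, mul_assoc, hzz, mul_one, ← mul_assoc, hcomm, mul_assoc, hzz, mul_one])
  rw [hx] at h1
  exact hw1 (mul_eq_right.1 h1)

theorem exists_comm_conj {G : Type*} [Group G] [Finite G] [IsSimpleGroup G] {z : G} (hz : orderOf z = 2)
    (hc : ∃ g : G, g * z ≠ z * g) : ∃ g : G, (g * z * g⁻¹) * z = z * (g * z * g⁻¹) ∧ g * z * g⁻¹ ≠ z := by
  by_contra hno
  push Not at hno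
  have hiso := isoInv_of_comm hz hno
  have h1 := fun g => H5.ZStar.zstar hiso g
  have hzn := H5.ZStar1.notMem_pPrimeCore hz
  have hbot : pPrimeCore 2 G = ⊥ := by
    rcases (H1.Cores.pPrimeCore_normal (G := G) 2).eq_bot_or_eq_top with h | h
    · exact h
    · rw [h] at hzn; exact absurd (Subgroup.mem_top z) hzn
  obtain ⟨g, hg⟩ := hc
  have h2 := h1 g
  rw [hbot, Subgroup.mem_bot] at h2
  obtain ⟨hzz, hz1⟩ := invol_ord hz
  have h3 : g * z * g⁻¹ = z := by
    have := congrArg (fun x => z * x) h2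
    simpa [← mul_assoc, hzz] using this
  apply hg
  have := congrArg (fun x => x * g) h3
  simpa [mul_assoc] using this

theorem W5 : wk 1 * wk 1 = 1 ∧ wk 1 ≠ 1 ∧ wk 1 ≠ wk 16 ∧ wk 1 * wk 96 = wk 96 * wk 1 ∧ wk 16 * wk 1 = wk 17 ∧ wk 1 * wk 17 = wk 16 ∧
    wk 17 * wk 1 = wk 16 := by decide +kernel

theorem nwc_of {G : Type*} [Group G] [Finite G] (z : G) (hz : orderOf z = 2) (C : Subgroup G) (hC : ∀ g, g ∈ C ↔ g * z = z * g)
    (Q : Subgroup C) (hN : Q.Normal) (hcc : centralizer (Q : Set C) ≤ Q)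
    (hQ : IsExtraspecial 2 Q) (hcard : Nat.card Q = 32) (h60 : Nat.card (C ⧸ Q) = 60)
    (hex : ∃ g : G, (g * z * g⁻¹) * z = z * (g * z * g⁻¹) ∧ g * z * g⁻¹ ≠ z) :
    ∃ g : G, (∃ hq : g * z * g⁻¹ ∈ C, (⟨g * z * g⁻¹, hq⟩ : C) ∈ Q) ∧ g * z * g⁻¹ ≠ z := by
  by_contra hno
  have hno' : ∀ g : G, ∀ hq : g * z * g⁻¹ ∈ C, (⟨g * z * g⁻¹, hq⟩ : C) ∈ Q → g * z * g⁻¹ = z := by
    intro g hq h1
    by_contra h2
    exact hno ⟨g, ⟨hq, h1⟩, h2⟩
  have hzC : z ∈ C := by rw [hC]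
  obtain ⟨hzz, hz1⟩ := invol_ord hz
  have hqd : QD Q (⟨z, hzC⟩ : C) := QD_of Q hN hQ hcard hcc h60 ⟨z, hzC⟩ (fun hh => hz1 (congrArg Subtype.val hh)) (fun c => by
    apply Subtype.ext
    exact (hC c).1 c.2)
  obtain ⟨e, hac, heQ⟩ := exists_AC hqd
  have h : ACC Q (⟨z, hzC⟩ : C) e := ⟨hqd, hac, heQ⟩
  obtain ⟨g, hg1, hg2⟩ := hex
  have hcs : ∀ x : G, x * z * x⁻¹ * (x * z * x⁻¹) = 1 := by
    intro x
    have : x * z * x⁻¹ * (x * z * x⁻¹) = x * (z * z) * x⁻¹ := by group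
    rw [this, hzz]; simp
  have hc1 : ∀ x : G, x * z * x⁻¹ ≠ 1 := by
    intro x hh
    apply hz1
    have := congrArg (fun y => x⁻¹ * y * x) hh
    simpa [mul_assoc] using this
  have hgC : g * z * g⁻¹ ∈ C := (hC _).2 hg1
  have hgQ : (⟨g * z * g⁻¹, hgC⟩ : C) ∉ Q := fun hh => hg2 (hno' g hgC hh)
  obtain ⟨ψ, hψ16, hψe, hψQ⟩ := exists_iso h (t := ⟨g * z * g⁻¹, hgC⟩) (Subtype.ext (hcs g)) hgQ
  set ι : W →* G := C.subtype.comp ψ.toMonoidHom with hι
  have hinj : Function.Injective ι := Subtype.val_injective.comp ψ.injective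
  have hsurj : ∀ x : G, x * z = z * x → ∃ w, ι w = x := by
    intro x hx
    obtain ⟨w, hw⟩ := ψ.surjective ⟨x, (hC x).2 hx⟩
    exact ⟨w, congrArg Subtype.val hw⟩
  have h16 : ι (wk 16) = z := by
    change ((ψ (wk 16) : C) : G) = z
    rw [hψ16]
  have hιC : ∀ w, ι w * z = z * ι w := by
    intro w
    exact (hC _).1 (ψ w).2
  -- conjugates of `z` in `Q` are `z`
  have hcjQ : ∀ w : W, w.v < 32 → IsConj z (ι w) → w = wk 16 := by
    intro w hw hcj
    obtain ⟨x, hx⟩ := isConj_iff.1 hcj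
    have h1 : x * z * x⁻¹ ∈ C := by rw [hx]; exact (ψ w).2
    have h2 := hno' x h1 (by
      have : (⟨x * z * x⁻¹, h1⟩ : C) = ψ w := Subtype.ext hx
      rw [this]
      exact (hψQ w).2 hw)
    rw [hx] at h2
    exact hinj (h2.trans h16.symm)
  -- outside involutions are conjugate to `z`
  obtain ⟨w', hw'⟩ := hsurj _ hg1
  have hww' : w' * w' = 1 := hinj (by rw [map_mul, hw', map_one]; exact hcs g)
  have hw32 : 32 ≤ w'.v := by
    by_contra hlt
    have := hcjQ w' (by omega) (by rw [hw']; exact isConj_iff.2 ⟨g, rfl⟩)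
    rw [this, h16] at hw'
    exact hg2 hw'.symm
  have hout : ∀ w : W, w * w = 1 → 32 ≤ w.v → IsConj z (ι w) := by
    intro w h1 h2
    obtain ⟨a, ha⟩ := W2 w h1 h2
    obtain ⟨b, hb⟩ := W2 w' hww' hw32
    have h3 : IsConj z (ι w') := by rw [hw']; exact isConj_iff.2 ⟨g, rfl⟩
    refine h3.trans (isConj_iff.2 ⟨ι (a * b⁻¹), ?_⟩)
    rw [← map_inv, ← map_mul, ← map_mul, ← ha, ← hb]
    congr 1
    group
  -- the other element
  have hy1 : g⁻¹ * z * g * z = z * (g⁻¹ * z * g) := by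
    have := congrArg (fun x => g⁻¹ * x * g) hg1
    simp only [mul_assoc, inv_mul_cancel_left, inv_mul_cancel, mul_one] at this ⊢
    exact this.symm
  obtain ⟨wy, hwy⟩ := hsurj _ hy1
  have hyc : g⁻¹ * z * g = g⁻¹ * z * (g⁻¹)⁻¹ := by rw [inv_inv]
  have hwyy : wy * wy = 1 := hinj (by rw [map_mul, hwy, map_one, hyc]; exact hcs _)
  have hwy32 : 32 ≤ wy.v := by
    by_contra hlt
    have := hcjQ wy (by omega) (by rw [hwy]; exact isConj_iff.2 ⟨g⁻¹, by rw [inv_inv]⟩)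
    rw [this, h16] at hwy
    apply hg2
    have := congrArg (fun x => g * x * g⁻¹) hwy
    simpa [mul_assoc] using this
  obtain ⟨c, hc⟩ := W2 wy hwyy hwy32
  obtain ⟨d, hd⟩ := W2 w' hww' hw32
  -- not conjugate
  have hn1 : ∀ c : W, ¬ IsConj z (ι (c * wk 1 * c⁻¹)) := by
    intro c hcj
    have h1 : IsConj z (ι (wk 1)) := hcj.trans (isConj_iff.2 ⟨ι c⁻¹, by rw [← map_inv, ← map_mul, ← map_mul]; congr 1; group⟩)
    exact W5.2.2.1 (hcjQ (wk 1) (by decide) h1)
  have hn17 : ∀ c : W, ¬ IsConj z (ι (c * wk 17 * c⁻¹)) := by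
    intro c hcj
    have h1 : IsConj z (ι (wk 17)) := hcj.trans (isConj_iff.2 ⟨ι c⁻¹, by rw [← map_inv, ← map_mul, ← map_mul]; congr 1; group⟩)
    have := hcjQ (wk 17) (by decide) h1
    revert this
    decide +kernel
  -- image under conjugation by `g`
  have main : ∀ b : W, b * b = 1 → b ≠ 1 → b * wy = wy * b → ¬ IsConj z (ι b) →
      g * ι b * g⁻¹ = ι (d * wk 1 * d⁻¹) ∨ g * ι b * g⁻¹ = ι (d * wk 17 * d⁻¹) := by
    intro b hbb hb1 hby hbz
    have e1 : g * ι b * g⁻¹ * z = z * (g * ι b * g⁻¹) := by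
      have h1 : ι b * (g⁻¹ * z * g) = (g⁻¹ * z * g) * ι b := by rw [← hwy, ← map_mul, ← map_mul, hby]
      have := congrArg (fun x => g * x * g⁻¹) h1
      simpa [mul_assoc] using this
    have e2 : g * ι b * g⁻¹ * (g * z * g⁻¹) = g * z * g⁻¹ * (g * ι b * g⁻¹) := by
      have h1 := hιC b
      have := congrArg (fun x => g * x * g⁻¹) h1
      simpa [mul_assoc] using this
    obtain ⟨x, hx⟩ := hsurj _ e1
    have e3 : x * w' = w' * x := hinj (by rw [map_mul, map_mul, hx, hw']; exact e2)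
    have e4 : x * x = 1 := hinj (by
      rw [map_mul, hx, map_one]
      have : g * ι b * g⁻¹ * (g * ι b * g⁻¹) = g * (ι b * ι b) * g⁻¹ := by group
      rw [this, ← map_mul, hbb, map_one]; simp)
    have e5 : x ≠ 1 := by
      rintro rfl
      rw [map_one] at hx
      apply hb1
      apply hinj
      rw [map_one]
      have := congrArg (fun x => g⁻¹ * x * g) hx
      simpa [mul_assoc] using this.symm
    have e6 : ¬ IsConj z (ι x) := by
      intro hh
      apply hbz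
      rw [hx] at hh
      exact hh.trans (isConj_iff.2 ⟨g⁻¹, by group⟩)
    have e7 : x.v < 32 := by
      by_contra hlt
      exact e6 (hout x e4 (by omega))
    have e8 : (d⁻¹ * x * d) = wk 16 ∨ (d⁻¹ * x * d) = wk 1 ∨ (d⁻¹ * x * d) = wk 17 := by
      refine W3 _ ?_ ?_ ?_ ?_
      · have : d⁻¹ * x * d * (d⁻¹ * x * d) = d⁻¹ * (x * x) * d := by group
        rw [this, e4]; simp
      · intro hh
        apply e5
        have := congrArg (fun y => d * y * d⁻¹) hh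
        simpa [mul_assoc] using this
      · have : ψ (d⁻¹ * x * d) ∈ Q := by
          rw [map_mul, map_mul, map_inv]
          have := hN.conj_mem _ ((hψQ x).2 e7) (ψ d)⁻¹
          simpa using this
        exact (hψQ _).1 this
      · rw [← hd] at e3
        have := congrArg (fun y => d⁻¹ * y * d) e3
        simpa [mul_assoc] using this
    rcases e8 with e8 | e8 | e8
    · exfalso
      apply e6
      have : x = d * wk 16 * d⁻¹ := by rw [← e8]; group
      rw [this, zW d, mul_assoc, mul_inv_cancel, mul_one, h16]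
    · left
      rw [← hx, ← e8]; congr 1; group
    · right
      rw [← hx, ← e8]; congr 1; group
  have hc96 : ∀ b : W, b * wk 96 = wk 96 * b → (c * b * c⁻¹) * wy = wy * (c * b * c⁻¹) := by
    intro b hb
    rw [← hc]
    have h1 : c * b * c⁻¹ * (c * wk 96 * c⁻¹) = c * (b * wk 96) * c⁻¹ := by group
    have h2 : c * wk 96 * c⁻¹ * (c * b * c⁻¹) = c * (wk 96 * b) * c⁻¹ := by group
    rw [h1, h2, hb]
  have hsq : ∀ b : W, b * b = 1 → (c * b * c⁻¹) * (c * b * c⁻¹) = 1 := by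
    intro b hb
    have : (c * b * c⁻¹) * (c * b * c⁻¹) = c * (b * b) * c⁻¹ := by group
    rw [this, hb]; simp
  have hne : ∀ b : W, b ≠ 1 → c * b * c⁻¹ ≠ 1 := by
    intro b hb hh
    apply hb
    have := congrArg (fun y => c⁻¹ * y * c) hh
    simpa [mul_assoc] using this
  obtain ⟨w51, w52, w53, w54, w55, w56, w57⟩ := W5
  have w17 : wk 17 * wk 17 = 1 ∧ wk 17 ≠ 1 ∧ wk 17 * wk 96 = wk 96 * wk 17 := by decide +kernel
  have m1 := main (c * wk 1 * c⁻¹) (hsq _ w51) (hne _ w52) (hc96 _ w54) (hn1 c)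
  have m2 := main (c * wk 17 * c⁻¹) (hsq _ w17.1) (hne _ w17.2.1) (hc96 _ w17.2.2) (hn17 c)
  -- product of the two is `z`
  have hp : ι (c * wk 1 * c⁻¹) * ι (c * wk 17 * c⁻¹) = z := by
    rw [← map_mul]
    have : c * wk 1 * c⁻¹ * (c * wk 17 * c⁻¹) = c * (wk 1 * wk 17) * c⁻¹ := by group
    rw [this, w56, zW c, mul_assoc, mul_inv_cancel, mul_one, h16]
  have hg3 : g * z * g⁻¹ = (g * ι (c * wk 1 * c⁻¹) * g⁻¹) * (g * ι (c * wk 17 * c⁻¹) * g⁻¹) := by
    rw [← hp]; group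
  have hdd : ∀ a b : W, (a = wk 1 ∨ a = wk 17) → (b = wk 1 ∨ b = wk 17) → ι (d * a * d⁻¹) * ι (d * b * d⁻¹) = 1 ∨
      ι (d * a * d⁻¹) * ι (d * b * d⁻¹) = z := by
    intro a b ha hb
    have h0 : ι (d * a * d⁻¹) * ι (d * b * d⁻¹) = ι (d * (a * b) * d⁻¹) := by
      rw [← map_mul]; congr 1; group
    rw [h0]
    have h1 : a * b = 1 ∨ a * b = wk 16 := by
      rcases ha with rfl | rfl <;> rcases hb with rfl | rfl <;> decide +kernel
    rcases h1 with h1 | h1 <;> rw [h1]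
    · left; simp
    · right; rw [zW d, mul_assoc, mul_inv_cancel, mul_one, h16]
  have hfin : g * z * g⁻¹ = 1 ∨ g * z * g⁻¹ = z := by
    rw [hg3]
    rcases m1 with m1 | m1 <;> rcases m2 with m2 | m2 <;> rw [m1, m2] <;> apply hdd <;> simp
  rcases hfin with hf | hf
  · exact hc1 g hf
  · exact hg2 hf

end H58.J2P
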