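import Mathlib
import Cfsg.Agent.Lib.H58.J2P
import Cfsg.Agent.Lib.H26.GenFitting

/-! Reduction of the `simple, two classes` form to the large-extraspecial form (helper58). -/

set_option autoImplicit false
set_option linter.style.haveILetI false
set_option linter.unusedSectionVars false

namespace H58.J2Q

open Subgroup Cfsg

theorem pCore_le_of_A5 {K : Type*} [Group K] [Finite K] (Q : Subgroup K) [hN : Q.Normal] (e : K ⧸ Q ≃* alternatingGroup (Fin 5)) :
    pCore 2 K ≤ Q := by
  have hp : Fact (Nat.Prime 2) := ⟨Nat.prime_two⟩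
  have h1 : IsPGroup 2 (pCore 2 K) := H1.Cores.isPGroup_pCore 2
  have hn : (pCore 2 K).Normal := H1.Cores.pCore_normal 2
  set f : K →* alternatingGroup (Fin 5) := e.toMonoidHom.comp (QuotientGroup.mk' Q) with hf
  have hfs : Function.Surjective f := e.surjective.comp (QuotientGroup.mk'_surjective Q)
  have h2 : ((pCore 2 K).map f).Normal := hn.map f hfs
  have h3 : IsPGroup 2 ((pCore 2 K).map f) := h1.map f
  have h4 : (pCore 2 K).map f = ⊥ := by
    rcases h2.eq_bot_or_eq_top with h | h
    · exact h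
    · exfalso
      rw [h] at h3
      obtain ⟨n, hn⟩ := IsPGroup.iff_card.1 h3
      have h5 : Nat.card (⊤ : Subgroup (alternatingGroup (Fin 5))) = 60 := by
        rw [Nat.card_congr Subgroup.topEquiv.toEquiv]
        exact H58.J2O.card_A5
      rw [h5] at hn
      have h6 : 3 ∣ 2 ^ n := ⟨20, by rw [← hn]⟩
      have h7 := (Nat.Prime.dvd_of_dvd_pow Nat.prime_three h6)
      norm_num at h7
  intro x hx
  have h5 : f x = 1 := by
    have : f x ∈ (pCore 2 K).map f := ⟨x, hx, rfl⟩
    rw [h4] at this
    exact this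
  have h6 : (QuotientGroup.mk' Q) x = 1 := e.injective (by rw [map_one]; exact h5)
  exact (QuotientGroup.eq_one_iff x).1 h6

/-- The generalized Fitting subgroup from a normal self-centralizing 2-subgroup equal to the 2-core. -/
theorem gFitting_eq_of {K : Type*} [Group K] [Finite K] {Q : Subgroup K} (hQ : Q.Normal) (h2 : IsPGroup 2 Q)
    (hC : Subgroup.centralizer (Q : Set K) ≤ Q) (hmax : pCore 2 K ≤ Q) : generalizedFittingSubgroup K = Q := by
  have hfact : Fact (Nat.Prime 2) := ⟨Nat.prime_two⟩
  have h1 : Q ≤ pCore 2 K := le_sSup ⟨hQ, h2⟩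
  have h3 : pCore 2 K = Q := le_antisymm hmax h1
  rw [← h3]
  rw [H26.GenFitting.gFitting_eq_pCore_iff, h3]
  exact hC

/-- the reduction -/
theorem reduce {G : Type*} [Group G] [Finite G] [IsSimpleGroup G] (t : G) (ht : orderOf t = 2)
    (Q : Subgroup (Subgroup.centralizer ({t} : Set G))) [hN : Q.Normal] (hQ : Cfsg.IsExtraspecial 2 Q) (hcard : Nat.card Q = 32)
    (h2c : Subgroup.centralizer (Q : Set (Subgroup.centralizer ({t} : Set G))) ≤ Q)
    (e : (Subgroup.centralizer ({t} : Set G)) ⧸ Q ≃* alternatingGroup (Fin 5)) :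
    Cfsg.generalizedFittingSubgroup (Subgroup.centralizer ({t} : Set G)) = Q ∧
    Nonempty ((Subgroup.centralizer ({t} : Set G)) ⧸ Q ≃* Cfsg.Omega (ZMod 2) (Cfsg.quadFormMinus 1 (ZMod 2) 1 1)) ∧
    ∃ g : G, (∃ hq : g * t * g⁻¹ ∈ Subgroup.centralizer ({t} : Set G), (⟨g * t * g⁻¹, hq⟩ : Subgroup.centralizer ({t} : Set G)) ∈ Q) ∧
      g * t * g⁻¹ ≠ t := by
  have hp : Fact (Nat.Prime 2) := ⟨Nat.prime_two⟩
  have h2 : IsPGroup 2 Q := IsPGroup.of_card (n := 5) (by rw [hcard]; norm_num)
  refine ⟨gFitting_eq_of hN h2 h2c (pCore_le_of_A5 Q e), ?_, ?_⟩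
  · obtain ⟨f⟩ := H58.J2O.omega_iso
    exact ⟨e.trans f.symm⟩
  · have h60 : Nat.card ((Subgroup.centralizer ({t} : Set G)) ⧸ Q) = 60 := by
      rw [Nat.card_congr e.toEquiv, H58.J2O.card_A5]
    have hc : ∃ g : G, g * t ≠ t * g := by
      by_contra hno
      push Not at hno
      have hn : (Subgroup.zpowers t).Normal := by
        refine ⟨fun x hx g => ?_⟩
        have : g * x * g⁻¹ = x := by
          obtain ⟨k, rfl⟩ := Subgroup.mem_zpowers_iff.1 hx
          have hcm : Commute g (t ^ k) := (show Commute g t from hno g).zpow_right k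
          rw [hcm.eq]; group
        rw [this]; exact hx
      rcases hn.eq_bot_or_eq_top with h | h
      · rw [Subgroup.zpowers_eq_bot] at h
        rw [h, orderOf_one] at ht
        norm_num at ht
      · have h1 : Nat.card G = 2 := by
          rw [← Nat.card_congr (Subgroup.topEquiv (G := G)).toEquiv, ← h, Nat.card_zpowers, ht]
        have h3 : Nat.card Q ≤ Nat.card G := by
          refine Nat.card_le_card_of_injective (fun q : Q => (q : G)) ?_
          intro a b hab
          exact Subtype.ext (Subtype.ext hab)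
        omega
    exact H58.J2P.nwc_of t ht (Subgroup.centralizer ({t} : Set G)) (fun g => Subgroup.mem_centralizer_singleton_iff) Q hN h2c hQ hcard h60
      (H58.J2P.exists_comm_conj ht hc)

end H58.J2Q
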