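import Mathlib
import Cfsg.Agent.Lib.H58.J2O

/-! The centralizer splits (groups of type J3), helper58. -/

set_option autoImplicit false
set_option linter.style.haveILetI false
set_option maxRecDepth 100000
set_option linter.unusedSectionVars false

namespace H58.J3A

open H58.J2A H58.J2B H58.J2C Subgroup

def PP (i : ℕ) : ℕ := cond (Nat.beq i 0) 0 (cond (Nat.beq i 1) 3 (cond (Nat.beq i 2) 8 11))
def kp (i j : ℕ) : ℕ := cond (Nat.beq i j) (cond (Nat.beq i 0) 0 16)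
  (cond (Bool.or (Nat.beq i 0) (Nat.beq j 0)) 0 (cond (Nat.beq ((i + 1) % 4) j) 0 (cond (Nat.beq j ((i + 2) % 4)) (cond (Nat.beq i 1) 16 0) 16)))
def xr (i j : ℕ) : ℕ := Nat.xor i j
def n1 (q i r j : ℕ) : ℕ := qm (qm q (ph (PP i) r)) (kp i j)

theorem kp_tab : ∀ i < 4, ∀ j < 4, kp i j = [0,0,0,0, 0,16,0,16, 0,16,16,0, 0,0,16,16].getD (4 * i + j) 0 := by decide +kernel

theorem chk1 : allN (fun q => allN (fun r => allN (fun i => allN (fun j =>
    Bool.or (Bool.not (Bool.and (Nat.beq (n1 q i q i) 1) (Bool.and (Nat.beq (n1 r j r j) 1) (Nat.beq (n1 q i r j) (qm 16 (n1 r j q i))))))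
      false) 4) 4) 32) 32 = true := by decide +kernel

theorem chk2 : allN (fun p => Bool.or (Bool.not (Nat.beq (am p p) 0)) (Bool.or (Bool.not (Nat.beq (pf p 0).val 0))
    (Bool.or (Nat.beq p 0) (Bool.or (Nat.beq p 3) (Bool.or (Nat.beq p 8) (Nat.beq p 11)))))) 60 = true := by decide +kernel

theorem kp_lt (i j : ℕ) : kp i j < 32 := by
  unfold kp
  rcases Nat.beq i j <;> rcases Nat.beq i 0 <;> rcases Nat.beq j 0 <;> rcases Nat.beq ((i + 1) % 4) j <;>
    rcases Nat.beq j ((i + 2) % 4) <;> rcases Nat.beq i 1 <;> decide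

theorem PP_lt {i : ℕ} : PP i < 60 := by
  unfold PP
  rcases Nat.beq i 0 <;> rcases Nat.beq i 1 <;> rcases Nat.beq i 2 <;> decide

section
variable {C : Type*} [Group C] [Finite C]
variable {Q : Subgroup C} {z : C} {e : Fin 5 → C}

def cc (a b : C) (i : ℕ) : C := cond (Nat.beq i 0) 1 (cond (Nat.beq i 1) a (cond (Nat.beq i 2) b (a * b)))

structure NS (Q : Subgroup C) (z : C) (e : Fin 5 → C) (a b : C) : Prop where
  acc : ACC Q z e
  la : IsL e a 3
  lb : IsL e b 8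
  aa : a * a = z
  bb : b * b = z
  ab : a * b * (a * b) = z

theorem NS.ba {a b : C} (h : NS Q z e a b) : b * a = z * (a * b) := by
  have h1 := h.ab
  have hz := h.acc.qd.zC
  have h2 : a * (a * b * (a * b)) * b = z * (b * a) * z := by
    rw [show a * (a * b * (a * b)) * b = (a * a) * (b * a) * (b * b) by group, h.aa, h.bb]
  rw [h1] at h2
  have h3 : z * (b * a) * z = b * a := by
    rw [mul_assoc, hz (b * a), ← mul_assoc, h.acc.ac.zz, one_mul]
  rw [h3, hz a, mul_assoc] at h2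
  exact h2.symm

theorem NS.cmul {a b : C} (h : NS Q z e a b) {i j : ℕ} (hi : i < 4) (hj : j < 4) :
    cc a b i * cc a b j = T z e (kp i j) * cc a b (xr i j) := by
  have hz := h.acc.qd.zC
  have zz := h.acc.ac.zz
  have e0 : T z e 0 = 1 := T_zero
  have e16 : T z e 16 = z := T_16
  have k00 : kp 0 0 = 0 := by decide +kernel
  have k01 : kp 0 1 = 0 := by decide +kernel
  have k02 : kp 0 2 = 0 := by decide +kernel
  have k03 : kp 0 3 = 0 := by decide +kernel
  have k10 : kp 1 0 = 0 := by decide +kernel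
  have k11 : kp 1 1 = 16 := by decide +kernel
  have k12 : kp 1 2 = 0 := by decide +kernel
  have k13 : kp 1 3 = 16 := by decide +kernel
  have k20 : kp 2 0 = 0 := by decide +kernel
  have k21 : kp 2 1 = 16 := by decide +kernel
  have k22 : kp 2 2 = 16 := by decide +kernel
  have k23 : kp 2 3 = 0 := by decide +kernel
  have k30 : kp 3 0 = 0 := by decide +kernel
  have k31 : kp 3 1 = 0 := by decide +kernel
  have k32 : kp 3 2 = 16 := by decide +kernel
  have k33 : kp 3 3 = 16 := by decide +kernel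
  have c0 : cc a b 0 = 1 := rfl
  have c1 : cc a b 1 = a := rfl
  have c2 : cc a b 2 = b := rfl
  have c3 : cc a b 3 = a * b := rfl
  have m13 : a * (a * b) = z * b := by rw [← mul_assoc, h.aa]
  have m21 : b * a = z * (a * b) := h.ba
  have m23 : b * (a * b) = a := by
    rw [← mul_assoc, h.ba, mul_assoc, mul_assoc, h.bb, ← hz, mul_assoc, zz, mul_one]
  have m31 : a * b * a = b := by
    rw [mul_assoc, h.ba, ← mul_assoc, hz, mul_assoc, ← mul_assoc a a b, h.aa, ← mul_assoc, zz, one_mul]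
  have m32 : a * b * b = z * a := by rw [mul_assoc, h.bb, hz]
  interval_cases i <;> interval_cases j
  · rw [k00, e0]; rfl
  · rw [k01, e0]; rfl
  · rw [k02, e0]; rfl
  · rw [k03, e0]; rfl
  · rw [k10, e0, c0, mul_one, one_mul]; rfl
  · rw [k11, e16, c1, h.aa]; exact (mul_one z).symm
  · rw [k12, e0, c1, c2, one_mul]; rfl
  · rw [k13, e16, c1, c3]; exact m13
  · rw [k20, e0, c0, mul_one, one_mul]; rfl
  · rw [k21, e16, c1, c2]; exact m21
  · rw [k22, e16, c2, h.bb]; exact (mul_one z).symm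
  · rw [k23, e0, c2, c3, one_mul]; exact m23
  · rw [k30, e0, c0, mul_one, one_mul]; rfl
  · rw [k31, e0, c1, c3, one_mul]; exact m31
  · rw [k32, e16, c2, c3]; exact m32
  · rw [k33, e16, c3, h.ab]; exact (mul_one z).symm

theorem NS.cL {a b : C} (h : NS Q z e a b) {i : ℕ} (hi : i < 4) : IsL e (cc a b i) (PP i) := by
  interval_cases i
  · exact L_one
  · exact h.la
  · exact h.lb
  · have := L_mul (by norm_num) (by norm_num) h.la h.lb
    have e1 : am 3 8 = 11 := by decide +kernel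
    rw [e1] at this
    exact this

def EE (z : C) (e : Fin 5 → C) (a b : C) (q i : ℕ) : C := T z e q * cc a b i

theorem NS.emul {a b : C} (h : NS Q z e a b) {q r i j : ℕ} (hq : q < 32) (hr : r < 32) (hi : i < 4) (hj : j < 4) :
    EE z e a b q i * EE z e a b r j = EE z e a b (n1 q i r j) (xr i j) := by
  unfold EE n1
  have h1 : cc a b i * T z e r * (cc a b i)⁻¹ = T z e (ph (PP i) r) := T_ph h.acc PP_lt hr (h.cL hi)
  rw [T_mul h.acc.ac (q_lt hq (p_lt PP_lt hr)) (kp_lt i j), T_mul h.acc.ac hq (p_lt PP_lt hr), ← h1]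
  rw [mul_assoc _ (T z e (kp i j)), ← h.cmul hi hj]
  group

theorem NS.rep {a b : C} (h : NS Q z e a b) {X : C} (hXX : X * X ∈ Q) (hX0 : X * e 0 = e 0 * X) :
    ∃ q < 32, ∃ i < 4, X = EE z e a b q i := by
  obtain ⟨p, hp, q, hq, hL⟩ := exists_L h.acc X
  have hq1 : piH h.acc q = 1 := by rw [← MonoidHom.mem_ker, ker_piH h.acc]; exact hq
  have h1 : (pf p 0).val = 0 := by
    have h2 : piH h.acc (X * q) 0 = pf p 0 := pi_of_L h.acc hL 0
    rw [map_mul, hq1, mul_one] at h2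
    have h3 : piH h.acc X 0 = 0 := by
      rw [piH_apply]
      exact pi_eq h.acc (Or.inl (by rw [hX0]; group))
    rw [← h2, h3]; rfl
  have hXQ : X * q * (X * q) ∈ Q := by
    rw [← ker_piH h.acc, MonoidHom.mem_ker, map_mul, map_mul, hq1, mul_one, ← map_mul]
    rw [← MonoidHom.mem_ker, ker_piH h.acc]; exact hXX
  have hpp : am p p = 0 := p_of_one h.acc (a_lt hp hp) (L_mul hp hp hL hL) hXQ
  have h4 := allN_iff.1 chk2 p hp
  simp only [Bool.or_eq_true, Nat.beq_eq, Bool.not_eq_true'] at h4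
  have h5 : ∃ i < 4, p = PP i := by
    rcases h4 with h4 | h4 | h4 | h4 | h4 | h4
    · rw [hpp] at h4; exact absurd h4 (by decide)
    · rw [h1] at h4; exact absurd h4 (by decide)
    · exact ⟨0, by norm_num, h4⟩
    · exact ⟨1, by norm_num, h4⟩
    · exact ⟨2, by norm_num, h4⟩
    · exact ⟨3, by norm_num, h4⟩
  obtain ⟨i, hi, rfl⟩ := h5
  obtain ⟨r, hr, hrq⟩ := exists_T h.acc (inv_mem hq)
  have hX : X = X * q * T z e r := by rw [hrq]; group
  have h6 : cc a b i * T z e r * (cc a b i)⁻¹ = T z e (ph (PP i) r) := T_ph h.acc PP_lt hr (h.cL hi)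
  have h7 : cc a b i * T z e r = T z e (ph (PP i) r) * cc a b i := by rw [← h6]; group
  rcases L_uniq h.acc (h.cL hi) hL with h8 | h8
  · refine ⟨ph (PP i) r, p_lt PP_lt hr, i, hi, ?_⟩
    rw [hX, h8, h7]; rfl
  · refine ⟨qm 16 (ph (PP i) r), q_lt (by norm_num) (p_lt PP_lt hr), i, hi, ?_⟩
    rw [hX, h8, mul_assoc, h7, ← mul_assoc]
    unfold EE
    rw [T_mul h.acc.ac (by norm_num) (p_lt PP_lt hr), T_16]

theorem n1_lt {q i r j : ℕ} (hq : q < 32) (hr : r < 32) : n1 q i r j < 32 := q_lt (q_lt hq (p_lt PP_lt hr)) (kp_lt i j)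

theorem NS.contra {a b : C} (h : NS Q z e a b) {X Y : C} (hX : X * X = e 0) (hY : Y * Y = e 0) (hXY : X * Y = z * (Y * X)) : False := by
  have hX0 : X * e 0 = e 0 * X := by rw [← hX, mul_assoc]
  have hY0 : Y * e 0 = e 0 * Y := by rw [← hY, mul_assoc]
  have he0 : e 0 ∈ Q := h.acc.eQ 0
  obtain ⟨q, hq, i, hi, rfl⟩ := h.rep (by rw [hX]; exact he0) hX0
  obtain ⟨r, hr, j, hj, rfl⟩ := h.rep (by rw [hY]; exact he0) hY0
  have x1 : xr i i = 0 := Nat.xor_self i
  have x2 : xr j j = 0 := Nat.xor_self j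
  have x3 : xr i j = xr j i := Nat.xor_comm i j
  have c0 : cc a b 0 = 1 := rfl
  rw [h.emul hq hq hi hi, x1] at hX
  rw [h.emul hr hr hj hj, x2] at hY
  rw [h.emul hq hr hi hj, h.emul hr hq hj hi, x3] at hXY
  unfold EE at hX hY hXY
  rw [c0, mul_one, ← T_1 (z := z) (e := e)] at hX hY
  rw [← mul_assoc] at hXY
  have hXY' := mul_right_cancel hXY
  have t16 : z = T z e 16 := T_16.symm
  have hXY2 : T z e (n1 q i r j) = T z e (qm 16 (n1 r j q i)) := by
    rw [T_mul h.acc.ac (by norm_num) (n1_lt hr hq), T_16]; exact hXY'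
  have k1 := T_inj h.acc.ac (n1_lt hq hq) (by norm_num) hX
  have k2 := T_inj h.acc.ac (n1_lt hr hr) (by norm_num) hY
  have k3 := T_inj h.acc.ac (n1_lt hq hr) (q_lt (by norm_num) (n1_lt hr hq)) hXY2
  have h0 := allN_iff.1 (allN_iff.1 (allN_iff.1 (allN_iff.1 chk1 q hq) r hr) i hi) j hj
  rw [k1, k2, k3] at h0
  simp at h0
end

theorem two_q : qm 12 12 = 16 ∧ qm 12 1 = qm 1 12 ∧ n1 0 1 12 0 = qm 17 (n1 12 0 0 1) ∧ qm 2 1 = qm 17 2 := by decide +kernel

theorem exists_outer {G : Type*} [Group G] [Finite G] {z : G} {C : Subgroup G} (hC : ∀ g, g ∈ C ↔ g * z = z * g)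
    {Q : Subgroup C} (hzC : z ∈ C) {e : Fin 5 → C} (h : ACC Q ⟨z, hzC⟩ e) (hcj : IsConj z (e 0 : G)) :
    ∃ t : C, t * t = 1 ∧ t ∉ Q := by
  by_contra hcon
  have hno : ∀ t : C, t * t = 1 → t ∈ Q := by
    intro t ht
    by_contra hq
    exact hcon ⟨t, ht, hq⟩
  set Z : C := ⟨z, hzC⟩ with hZ
  have hlift : ∀ p, p < 60 → p ≠ 0 → am p p = 0 → ∀ c : C, IsL e c p → c * c = Z := by
    intro p hp hp0 hpp c hc
    have h1 := L_mul hp hp hc hc
    rw [hpp] at h1
    rcases L_uniq h L_one h1 with h2 | h2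
    · exact absurd (p_of_one h hp hc (hno c h2)) hp0
    · rw [h2, mul_one]
  obtain ⟨a, ha⟩ := exists_lift h (p := 3) (by norm_num)
  obtain ⟨b, hb⟩ := exists_lift h (p := 8) (by norm_num)
  have hab : IsL e (a * b) 11 := by
    have := L_mul (by norm_num) (by norm_num) ha hb
    have e1 : am 3 8 = 11 := by decide +kernel
    rwa [e1] at this
  have hns : NS Q Z e a b := ⟨h, ha, hb, hlift 3 (by norm_num) (by norm_num) (by decide +kernel) a ha,
    hlift 8 (by norm_num) (by norm_num) (by decide +kernel) b hb, hlift 11 (by norm_num) (by norm_num) (by decide +kernel) _ hab⟩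
  obtain ⟨g, hg⟩ := isConj_iff.1 hcj
  have he0 : e 0 * e 0 = 1 := h.ac.sq 0
  have hzz : z * z = 1 := congrArg Subtype.val h.ac.zz
  have h0C : (e 0 : G) * z = z * (e 0 : G) := (hC _).1 (e 0).2
  -- the element swapping
  have hy1 : g⁻¹ * z * g ∈ C := by
    rw [hC]
    have := congrArg (fun x => g⁻¹ * x * g) h0C
    simp only [← hg] at this
    have e1 : g⁻¹ * (g * z * g⁻¹ * z) * g = z * (g⁻¹ * z * g) := by group
    have e2 : g⁻¹ * (z * (g * z * g⁻¹)) * g = g⁻¹ * z * g * z := by group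
    rw [e1, e2] at this
    exact this.symm
  have hyy : (⟨_, hy1⟩ : C) * ⟨_, hy1⟩ = 1 := by
    apply Subtype.ext
    change g⁻¹ * z * g * (g⁻¹ * z * g) = 1
    rw [show g⁻¹ * z * g * (g⁻¹ * z * g) = g⁻¹ * (z * z) * g by group, hzz]; simp
  have hyn1 : (⟨_, hy1⟩ : C) ≠ 1 := by
    intro hh
    have h1 : g⁻¹ * z * g = 1 := congrArg Subtype.val hh
    have h2 : z = 1 := by
      have := congrArg (fun x => g * x * g⁻¹) h1
      simpa [mul_assoc] using this
    exact h.ac.z1 (Subtype.ext h2)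
  have hynz : (⟨_, hy1⟩ : C) ≠ Z := by
    intro hh
    have h1 : g⁻¹ * z * g = z := congrArg Subtype.val hh
    have h2 : (e 0 : G) = z := by
      rw [← hg]
      have := congrArg (fun x => g * x * g⁻¹) h1
      have e1 : g * (g⁻¹ * z * g) * g⁻¹ = z := by group
      simp only [e1] at this
      exact this.symm
    exact (e_ne h 0).2 (Subtype.ext h2)
  obtain ⟨c, hc⟩ := H58.J2O.Q_invol_conj h (hno _ hyy) hyy hyn1 hynz (h.eQ 0) he0 (e_ne h 0).1 (e_ne h 0).2
  have hc' : (c : G) * (g⁻¹ * z * g) * (c : G)⁻¹ = (e 0 : G) := congrArg Subtype.val hc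
  have hcz : (c : G) * z = z * c := (hC _).1 c.2
  set s : G := g * (c : G)⁻¹ with hs
  have s1 : s * z * s⁻¹ = (e 0 : G) := by
    rw [hs, ← hg]
    have : (c : G)⁻¹ * z * (c : G) = z := by rw [mul_assoc, ← hcz]; group
    calc g * (c : G)⁻¹ * z * (g * (c : G)⁻¹)⁻¹ = g * ((c : G)⁻¹ * z * (c : G)) * g⁻¹ := by group
      _ = _ := by rw [this]
  have s2 : s * (e 0 : G) * s⁻¹ = z := by
    rw [hs, ← hc']; group
  -- the three-cycle
  have he1 : (e 1 : G) * (e 0 : G) * (e 1 : G)⁻¹ = z * (e 0 : G) := by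
    have h1 : T Z e (qm 2 1) = T Z e (qm 17 2) := by rw [two_q.2.2.2]
    rw [T_mul h.ac (by norm_num) (by norm_num), T_mul h.ac (by norm_num) (by norm_num)] at h1
    have h17 : T Z e 17 = Z * e 0 := by
      have : (17 : ℕ) = qm 16 1 := by decide +kernel
      rw [this, T_mul h.ac (by norm_num) (by norm_num), T_16, T_1]
    rw [h17, T_1, T_2] at h1
    have h2 : (e 1 : G) * (e 0 : G) = z * (e 0 : G) * (e 1 : G) := congrArg Subtype.val h1
    rw [h2]; group
  have he1z : (e 1 : G) * z * (e 1 : G)⁻¹ = z := by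
    have : (e 1 : G) * z = z * e 1 := (hC _).1 (e 1).2
    rw [this]; group
  set ρ : G := s * (e 1 : G) with hρ
  have r1 : ρ * z * ρ⁻¹ = (e 0 : G) := by
    rw [hρ, ← s1]
    calc s * (e 1 : G) * z * (s * (e 1 : G))⁻¹ = s * ((e 1 : G) * z * (e 1 : G)⁻¹) * s⁻¹ := by group
      _ = _ := by rw [he1z]
  have r2 : ρ * (z * (e 0 : G)) * ρ⁻¹ = z := by
    have h1 : ρ * (z * (e 0 : G)) * ρ⁻¹ = s * ((e 1 : G) * z * (e 1 : G)⁻¹) * ((e 1 : G) * (e 0 : G) * (e 1 : G)⁻¹) * s⁻¹ := by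
      rw [hρ]; group
    rw [h1, he1z, he1, ← mul_assoc, mul_assoc s z z, hzz, mul_one, s2]
  -- the elements
  set q0 : C := T Z e 12 with hq0
  have q1 : q0 * q0 = Z := by
    rw [hq0, ← T_mul h.ac (by norm_num) (by norm_num), two_q.1, T_16]
  have q2 : a * q0 = T Z e 17 * (q0 * a) := by
    have h1 := hns.emul (q := 0) (r := 12) (i := 1) (j := 0) (by norm_num) (by norm_num) (by norm_num) (by norm_num)
    have h2 := hns.emul (q := 12) (r := 0) (i := 0) (j := 1) (by norm_num) (by norm_num) (by norm_num) (by norm_num)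
    have x1 : xr 1 0 = 1 := by decide
    have x2 : xr 0 1 = 1 := by decide
    rw [x1] at h1
    rw [x2] at h2
    unfold EE at h1 h2
    have c0 : cc a b 0 = 1 := rfl
    have c1 : cc a b 1 = a := rfl
    rw [c0, c1, T_zero, one_mul, mul_one, two_q.2.2.1, T_mul h.ac (by norm_num) (n1_lt (by norm_num) (by norm_num)), mul_assoc] at h1
    rw [c0, c1, T_zero, one_mul, mul_one] at h2
    rw [← hq0] at h1 h2
    rw [← h2] at h1
    exact h1
  have h17 : T Z e 17 = Z * e 0 := by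
    have : (17 : ℕ) = qm 16 1 := by decide +kernel
    rw [this, T_mul h.ac (by norm_num) (by norm_num), T_16, T_1]
  rw [h17] at q2
  have comm_of : ∀ x : C, x * e 0 = e 0 * x → ρ * (x : G) * ρ⁻¹ ∈ C := by
    intro x hx
    rw [hC]
    have hx' : (x : G) * (z * (e 0 : G)) = z * (e 0 : G) * x := by
      have h1 : (x : G) * z = z * x := (hC _).1 x.2
      have h2 : (x : G) * (e 0 : G) = (e 0 : G) * x := congrArg Subtype.val hx
      rw [← mul_assoc, h1, mul_assoc, h2, ← mul_assoc]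
    calc ρ * (x : G) * ρ⁻¹ * z = ρ * (x : G) * ρ⁻¹ * (ρ * (z * (e 0 : G)) * ρ⁻¹) := by rw [r2]
      _ = ρ * ((x : G) * (z * (e 0 : G))) * ρ⁻¹ := by group
      _ = ρ * (z * (e 0 : G)) * ρ⁻¹ * (ρ * (x : G) * ρ⁻¹) := by rw [hx']; group
      _ = z * (ρ * (x : G) * ρ⁻¹) := by rw [r2]
  have ha0 : a * e 0 = e 0 * a := by
    have h1 := ha 0
    have h2 : pf 3 0 = 0 := by decide +kernel
    rw [h2] at h1
    calc a * e 0 = a * e 0 * a⁻¹ * a := by group
      _ = _ := by rw [h1]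
  have hq00 : q0 * e 0 = e 0 * q0 := by
    have h1 : T Z e (qm 12 1) = T Z e (qm 1 12) := by rw [two_q.2.1]
    rw [T_mul h.ac (by norm_num) (by norm_num), T_mul h.ac (by norm_num) (by norm_num), T_1] at h1
    exact h1
  refine hns.contra (X := ⟨_, comm_of a ha0⟩) (Y := ⟨_, comm_of q0 hq00⟩) ?_ ?_ ?_
  · apply Subtype.ext
    change ρ * (a : G) * ρ⁻¹ * (ρ * (a : G) * ρ⁻¹) = (e 0 : G)
    have h1 : (a : G) * (a : G) = z := congrArg Subtype.val hns.aa
    rw [show ρ * (a : G) * ρ⁻¹ * (ρ * (a : G) * ρ⁻¹) = ρ * ((a : G) * (a : G)) * ρ⁻¹ by group, h1, r1]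
  · apply Subtype.ext
    change ρ * (q0 : G) * ρ⁻¹ * (ρ * (q0 : G) * ρ⁻¹) = (e 0 : G)
    have h1 : (q0 : G) * (q0 : G) = z := congrArg Subtype.val q1
    rw [show ρ * (q0 : G) * ρ⁻¹ * (ρ * (q0 : G) * ρ⁻¹) = ρ * ((q0 : G) * (q0 : G)) * ρ⁻¹ by group, h1, r1]
  · apply Subtype.ext
    change ρ * (a : G) * ρ⁻¹ * (ρ * (q0 : G) * ρ⁻¹) = z * (ρ * (q0 : G) * ρ⁻¹ * (ρ * (a : G) * ρ⁻¹))
    have h1 : (a : G) * (q0 : G) = z * (e 0 : G) * ((q0 : G) * (a : G)) := congrArg Subtype.val q2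
    calc ρ * (a : G) * ρ⁻¹ * (ρ * (q0 : G) * ρ⁻¹) = ρ * ((a : G) * (q0 : G)) * ρ⁻¹ := by group
      _ = ρ * (z * (e 0 : G)) * ρ⁻¹ * (ρ * (q0 : G) * ρ⁻¹ * (ρ * (a : G) * ρ⁻¹)) := by rw [h1]; group
      _ = _ := by rw [r2]

end H58.J3A
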