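import Mathlib
import Cfsg.Agent.Lib.H58.J3A
import Cfsg.Agent.Lib.H58.J2Q

/-! The amalgam in groups with an involution centralizer of type 2^{1+4}_-:A5 (helper58). -/

set_option autoImplicit false
set_option linter.style.haveILetI false
set_option maxRecDepth 100000
set_option linter.unusedSectionVars false

namespace H58.J3B

open H58.J2A H58.J2B H58.J2C Subgroup

variable {G : Type*} [Group G] {ι : W →* G} {z ρ : G}

structure HT (ι : W →* G) (z : G) : Prop where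
  inj : Function.Injective ι
  z16 : ι (wk 16) = z
  cz : ∀ g : G, g * z = z * g → ∃ w, ι w = g
  e0A : IsConj z (ι (wk 1))

structure RJ (ι : W →* G) (ρ : G) : Prop where
  r3 : ρ * ρ * ρ = 1
  rz : ρ * ι (wk 16) = ι (wk 1) * ρ
  re : ρ * ι (wk 1) = ι (wk 17) * ρ
  rd : ρ * ι (wk 32) = ι (wk 32) * ρ
  rb : ρ * ι (wk 96) = ι (wk 256) * ρ
  rq : ρ * ι (wk 6) = ι (wk 125) * ρ
  r1 : ι (wk 2) * ρ * (ι (wk 2) * ρ) = 1

theorem W1 : ∀ w : W, w * w = 1 → w ≠ 1 → w.v < 32 → w ≠ wk 16 → ∃ g, g * wk 1 * g⁻¹ = w := H58.J2H.W1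
theorem W2 : ∀ w : W, w * w = 1 → 32 ≤ w.v → ∃ g, g * wk 96 * g⁻¹ = w := H58.J2H.W2
theorem zW : ∀ w : W, w * wk 16 = wk 16 * w := H58.J2H.zW
theorem K0 : ∀ x : W, x * x * x = 1 → x * wk 96 = wk 96 * x → x = 1 := by decide +kernel
theorem K1 : ∀ x : W, x * wk 1 = wk 1 * x → x * x * x = 1 → x ≠ 1 →
    ∃ c : W, c * wk 1 = wk 1 * c ∧ (c * x * c⁻¹ = wk 32 ∨ c * x * c⁻¹ = wk 64) := by decide +kernel
theorem K2 : ∀ u : W, u * wk 1 = wk 1 * u → u * u = 1 → (wk 32 * u) * (wk 32 * u) * (wk 32 * u) = 1 →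
    ∀ v : W, v * wk 1 = wk 1 * v → v * v = 1 → (wk 32 * v) * (wk 32 * v) * (wk 32 * v) = 1 →
    u * v * (u * v) = wk 1 → (wk 32 * u * v) * (wk 32 * u * v) * (wk 32 * u * v) = wk 17 →
    (u = wk 96 ∧ v = wk 266) ∨ (u = wk 256 ∧ v = wk 381) ∨ (u = wk 352 ∧ v = wk 102) := by decide +kernel
theorem K3 : ∀ x : W, x * wk 1 = wk 1 * x → x * wk 32 = wk 32 * x → x * wk 96 = wk 96 * x → x * wk 102 = wk 102 * x →
    x = 1 ∨ x = wk 1 ∨ x = wk 16 ∨ x = wk 17 := by decide +kernel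

theorem RM {a a' b b' : G} (h1 : ρ * a = a' * ρ) (h2 : ρ * b = b' * ρ) : ρ * (a * b) = a' * b' * ρ := by
  rw [← mul_assoc, h1, mul_assoc, h2, ← mul_assoc]

theorem RW {a a' b b' : W} (h1 : ρ * ι a = ι a' * ρ) (h2 : ρ * ι b = ι b' * ρ) : ρ * ι (a * b) = ι (a' * b') * ρ := by
  rw [map_mul, map_mul]; exact RM h1 h2

theorem RC {σ : G} {a b c : W} (h1 : ρ * ι a = ι b * ρ) (h2 : σ * ι b = ι c * σ) : σ * ρ * ι a = ι c * (σ * ρ) := by
  rw [mul_assoc, h1, ← mul_assoc, h2, mul_assoc]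

theorem RL (g : W) {a b : W} (h1 : ρ * ι a = ι b * ρ) : ι g * ρ * ι a = ι (g * b * g⁻¹) * (ι g * ρ) := by
  rw [mul_assoc, h1, map_mul, map_mul, map_inv]; group

theorem Ru (hinj : Function.Injective ι) {a b c : W} (h1 : ρ * ι a = ι b * ρ) (h2 : ρ * ι a = ι c * ρ) : b = c := by
  rw [h1] at h2
  exact hinj (mul_right_cancel h2)

theorem comm_cg {a a' b b' : G} (h1 : ρ * a = a' * ρ) (h2 : ρ * b = b' * ρ) (h : a * b = b * a) : a' * b' = b' * a' := by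
  have e1 := RM h1 h2
  have e2 := RM h2 h1
  rw [h, e2] at e1
  exact (mul_right_cancel e1).symm

structure Act (ι : W →* G) (ρ : G) : Prop where
  rz : ρ * ι (wk 16) = ι (wk 1) * ρ
  re : ρ * ι (wk 1) = ι (wk 17) * ρ

theorem w17 : wk 17 = wk 16 * wk 1 ∧ wk 1 * wk 17 = wk 16 ∧ wk 17 * wk 1 = wk 16 ∧ wk 2 * wk 1 = wk 17 * wk 2 ∧ wk 2 * wk 17 = wk 1 * wk 2 := by
  decide +kernel

theorem Act.r17 (h : Act ι ρ) : ρ * ι (wk 17) = ι (wk 16) * ρ := by
  have := RW h.rz h.re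
  rwa [← w17.1, w17.2.1] at this

theorem c17 {w : W} (hw : w * wk 1 = wk 1 * w) : w * wk 17 = wk 17 * w := by
  rw [w17.1, ← mul_assoc, zW, mul_assoc, hw, mul_assoc]

theorem Act.conjD (h : HT ι z) (hA : Act ι ρ) {w : W} (hw : w * wk 1 = wk 1 * w) :
    ∃ w' : W, w' * wk 1 = wk 1 * w' ∧ ρ * ι w = ι w' * ρ := by
  have h1 : ρ * ι w = (ρ * ι w * ρ⁻¹) * ρ := by group
  have h2 : (ρ * ι w * ρ⁻¹) * ι (wk 16) = ι (wk 16) * (ρ * ι w * ρ⁻¹) :=
    comm_cg h1 hA.r17 (by rw [← map_mul, c17 hw, map_mul])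
  have h3 : (ρ * ι w * ρ⁻¹) * ι (wk 1) = ι (wk 1) * (ρ * ι w * ρ⁻¹) :=
    comm_cg h1 hA.rz (by rw [← map_mul, zW, map_mul])
  rw [h.z16] at h2
  obtain ⟨w', hw'⟩ := h.cz _ h2
  refine ⟨w', h.inj ?_, ?_⟩
  · rw [map_mul, map_mul, hw']; exact h3
  · rw [hw']; exact h1

theorem Act.left (hA : Act ι ρ) {c : W} (hc : c * wk 1 = wk 1 * c) : Act ι (ι c * ρ) := by
  constructor
  · have := RL c hA.rz
    rwa [show c * wk 1 * c⁻¹ = wk 1 by rw [hc]; group] at this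
  · have := RL c hA.re
    rwa [show c * wk 17 * c⁻¹ = wk 17 by rw [c17 hc]; group] at this

theorem Act.four (hA : Act ι ρ) : Act ι (ρ * (ρ * (ρ * ρ))) :=
  ⟨RC (RC (RC hA.rz hA.re) hA.r17) hA.rz, RC (RC (RC hA.re hA.r17) hA.rz) hA.re⟩

structure PJ (ι : W →* G) (ρ : G) : Prop where
  act : Act ι ρ
  rd : ρ * ι (wk 32) = ι (wk 32) * ρ
  rb : ρ * ι (wk 96) = ι (wk 256) * ρ
  rc : ρ * ι (wk 102) = ι (wk 381) * ρ

theorem cz' (h : HT ι z) {x : G} (h1 : x * ι (wk 16) = ι (wk 16) * x) (h2 : x * ι (wk 1) = ι (wk 1) * x)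
    (h3 : x * ι (wk 32) = ι (wk 32) * x) (h4 : x * ι (wk 96) = ι (wk 96) * x) (h5 : x * ι (wk 102) = ι (wk 102) * x) :
    x = 1 ∨ x = ι (wk 1) ∨ x = ι (wk 16) ∨ x = ι (wk 17) := by
  rw [h.z16] at h1
  obtain ⟨y, rfl⟩ := h.cz x h1
  have k : ∀ w : W, ι y * ι w = ι w * ι y → y * w = w * y := by
    intro w hw
    apply h.inj
    rw [map_mul, map_mul, hw]
  rcases K3 y (k _ h2) (k _ h3) (k _ h4) (k _ h5) with h6 | h6 | h6 | h6
  · left; rw [h6, map_one]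
  · right; left; rw [h6]
  · right; right; left; rw [h6]
  · right; right; right; rw [h6]

theorem tab : wk 32 * wk 96 * wk 64 = wk 256 ∧ wk 32 * wk 256 * wk 64 = wk 352 ∧ wk 32 * wk 352 * wk 64 = wk 96 ∧
    wk 32 * wk 102 * wk 64 = wk 266 ∧ wk 32 * wk 381 * wk 64 = wk 102 ∧ wk 32 * wk 266 * wk 64 = wk 381 ∧
    wk 64 * wk 352 * wk 32 = wk 256 ∧ wk 64 * wk 102 * wk 32 = wk 381 ∧ wk 64 * wk 381 * wk 32 = wk 266 ∧
    (wk 32)⁻¹ = wk 64 ∧ (wk 64)⁻¹ = wk 32 ∧ wk 32 * wk 32 = wk 64 := by decide +kernel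

theorem PJ.r64 (p : PJ ι ρ) : ρ * ι (wk 64) = ι (wk 64) * ρ := by
  have := RW p.rd p.rd
  rwa [tab.2.2.2.2.2.2.2.2.2.2.2] at this

theorem PJ.r256 (p : PJ ι ρ) : ρ * ι (wk 256) = ι (wk 352) * ρ := by
  have := RW (RW p.rd p.rb) p.r64
  rwa [tab.1, tab.2.1] at this
theorem PJ.r352 (p : PJ ι ρ) : ρ * ι (wk 352) = ι (wk 96) * ρ := by
  have := RW (RW p.rd p.r256) p.r64
  rwa [tab.2.1, tab.2.2.1] at this
theorem PJ.r266 (p : PJ ι ρ) : ρ * ι (wk 266) = ι (wk 102) * ρ := by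
  have := RW (RW p.rd p.rc) p.r64
  rwa [tab.2.2.2.1, tab.2.2.2.2.1] at this
theorem PJ.r381 (p : PJ ι ρ) : ρ * ι (wk 381) = ι (wk 266) * ρ := by
  have := RW (RW p.r64 p.rc) p.rd
  rwa [tab.2.2.2.2.2.2.2.1, tab.2.2.2.2.2.2.2.2.1] at this

theorem ne1 (h : HT ι z) {a b : ℕ} (hab : wk a ≠ wk b) : ι (wk a) ≠ ι (wk b) := fun hh => hab (h.inj hh)

theorem PJ.r3 (h : HT ι z) (p : PJ ι ρ) : ρ * (ρ * ρ) = 1 := by
  have h0 := cz' h (x := ρ * (ρ * ρ)) (RC (RC p.act.rz p.act.re) p.act.r17) (RC (RC p.act.re p.act.r17) p.act.rz)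
    (RC (RC p.rd p.rd) p.rd) (RC (RC p.rb p.r256) p.r352) (RC (RC p.rc p.r381) p.r266)
  have hc : ρ * (ρ * (ρ * ρ)) = ρ * (ρ * ρ) * ρ := by group
  rcases h0 with h0 | h0 | h0 | h0
  · exact h0
  · exfalso
    rw [h0, p.act.re] at hc
    exact ne1 h (show wk 17 ≠ wk 1 by decide +kernel) (mul_right_cancel hc)
  · exfalso
    rw [h0, p.act.rz] at hc
    exact ne1 h (show wk 1 ≠ wk 16 by decide +kernel) (mul_right_cancel hc)
  · exfalso
    rw [h0, p.act.r17] at hc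
    exact ne1 h (show wk 16 ≠ wk 17 by decide +kernel) (mul_right_cancel hc)

theorem tab2 : wk 2 * wk 1 * (wk 2)⁻¹ = wk 17 ∧ wk 2 * wk 17 * (wk 2)⁻¹ = wk 1 ∧ wk 2 * wk 16 * (wk 2)⁻¹ = wk 16 ∧
    wk 2 * wk 32 * (wk 2)⁻¹ = wk 32 ∧ wk 2 * wk 256 * (wk 2)⁻¹ = wk 266 ∧ wk 2 * wk 102 * (wk 2)⁻¹ = wk 96 ∧
    wk 2 * wk 381 * (wk 2)⁻¹ = wk 352 ∧ wk 2 * wk 96 * (wk 2)⁻¹ = wk 102 := by decide +kernel

theorem PJ.k16 (p : PJ ι ρ) : ι (wk 2) * ρ * ι (wk 16) = ι (wk 17) * (ι (wk 2) * ρ) := by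
  have := RL (wk 2) p.act.rz
  rwa [tab2.1] at this
theorem PJ.k17 (p : PJ ι ρ) : ι (wk 2) * ρ * ι (wk 17) = ι (wk 16) * (ι (wk 2) * ρ) := by
  have := RL (wk 2) p.act.r17
  rwa [tab2.2.2.1] at this

theorem PJ.y (h : HT ι z) (p : PJ ι ρ) : ι (wk 2) * ρ * (ι (wk 2) * ρ) = 1 ∨ ι (wk 2) * ρ * (ι (wk 2) * ρ) = ι (wk 1) := by
  have k16 := p.k16
  have k17 := p.k17
  have k1 : ι (wk 2) * ρ * ι (wk 1) = ι (wk 1) * (ι (wk 2) * ρ) := by
    have := RL (wk 2) p.act.re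
    rwa [tab2.2.1] at this
  have k32 : ι (wk 2) * ρ * ι (wk 32) = ι (wk 32) * (ι (wk 2) * ρ) := by
    have := RL (wk 2) p.rd
    rwa [tab2.2.2.2.1] at this
  have k96 : ι (wk 2) * ρ * ι (wk 96) = ι (wk 266) * (ι (wk 2) * ρ) := by
    have := RL (wk 2) p.rb
    rwa [tab2.2.2.2.2.1] at this
  have k266 : ι (wk 2) * ρ * ι (wk 266) = ι (wk 96) * (ι (wk 2) * ρ) := by
    have := RL (wk 2) p.r266
    rwa [tab2.2.2.2.2.2.1] at this
  have k102 : ι (wk 2) * ρ * ι (wk 102) = ι (wk 352) * (ι (wk 2) * ρ) := by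
    have := RL (wk 2) p.rc
    rwa [tab2.2.2.2.2.2.2.1] at this
  have k352 : ι (wk 2) * ρ * ι (wk 352) = ι (wk 102) * (ι (wk 2) * ρ) := by
    have := RL (wk 2) p.r352
    rwa [tab2.2.2.2.2.2.2.2] at this
  have h0 := cz' h (RC k16 k17) (RC k1 k1) (RC k32 k32) (RC k96 k266) (RC k102 k352)
  have hc : ι (wk 2) * ρ * (ι (wk 2) * ρ * (ι (wk 2) * ρ)) = ι (wk 2) * ρ * (ι (wk 2) * ρ) * (ι (wk 2) * ρ) := by group
  rcases h0 with h0 | h0 | h0 | h0
  · left; exact h0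
  · right; exact h0
  · exfalso
    rw [h0, k16] at hc
    exact ne1 h (show wk 17 ≠ wk 16 by decide +kernel) (mul_right_cancel hc)
  · exfalso
    rw [h0, k17] at hc
    exact ne1 h (show wk 16 ≠ wk 17 by decide +kernel) (mul_right_cancel hc)

theorem PJ.twist (p : PJ ι ρ) : PJ ι (ι (wk 16) * ρ) := by
  have k : ∀ w : W, wk 16 * w * (wk 16)⁻¹ = w := fun w => by rw [← zW]; group
  refine ⟨p.act.left (zW _).symm, ?_, ?_, ?_⟩
  · have := RL (wk 16) p.rd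
    rwa [k] at this
  · have := RL (wk 16) p.rb
    rwa [k] at this
  · have := RL (wk 16) p.rc
    rwa [k] at this

theorem PJ.toRJ (h : HT ι z) (p : PJ ι ρ) (h1 : ι (wk 2) * ρ * (ι (wk 2) * ρ) = 1) : RJ ι ρ := by
  refine ⟨by rw [mul_assoc]; exact p.r3 h, p.act.rz, p.act.re, p.rd, p.rb, ?_, h1⟩
  have := RW p.rc p.rb
  rwa [show wk 102 * wk 96 = wk 6 by decide +kernel, show wk 381 * wk 256 = wk 125 by decide +kernel] at this

theorem PJ.exists_RJ (h : HT ι z) (p : PJ ι ρ) : ∃ ρ : G, RJ ι ρ := by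
  rcases p.y h with h1 | h1
  · exact ⟨ρ, p.toRJ h h1⟩
  · refine ⟨_, p.twist.toRJ h ?_⟩
    have e1 : ι (wk 2) * (ι (wk 16) * ρ) = ι (wk 16) * (ι (wk 2) * ρ) := by
      rw [← mul_assoc, ← map_mul, zW, map_mul, mul_assoc]
    rw [e1]
    calc ι (wk 16) * (ι (wk 2) * ρ) * (ι (wk 16) * (ι (wk 2) * ρ)) = ι (wk 16) * ((ι (wk 2) * ρ) * ι (wk 16)) * (ι (wk 2) * ρ) := by group
      _ = ι (wk 16) * ι (wk 17) * (ι (wk 2) * ρ * (ι (wk 2) * ρ)) := by rw [p.k16]; group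
      _ = 1 := by
        rw [h1, ← map_mul, ← map_mul, show wk 16 * wk 17 * wk 1 = 1 by decide +kernel, map_one]

theorem exists_swap (h : HT ι z) : ∃ s : G, s * ι (wk 16) = ι (wk 1) * s ∧ s * ι (wk 1) = ι (wk 16) * s := by
  obtain ⟨g, hg⟩ := isConj_iff.1 h.e0A
  have zz : z * z = 1 := by rw [← h.z16, ← map_mul, show wk 16 * wk 16 = 1 by decide +kernel, map_one]
  have hgz : g * z = ι (wk 1) * g := by rw [← hg]; group
  have h1z : ι (wk 1) * z = z * ι (wk 1) := by rw [← h.z16, ← map_mul, zW, map_mul]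
  -- y = g⁻¹ z g
  have hy1 : g⁻¹ * z * g * z = z * (g⁻¹ * z * g) := by
    calc g⁻¹ * z * g * z = g⁻¹ * (z * (g * z)) := by group
      _ = g⁻¹ * (ι (wk 1) * z) * g := by rw [hgz, ← mul_assoc z, ← h1z]; group
      _ = g⁻¹ * (ι (wk 1) * g) * (g⁻¹ * z * g) := by group
      _ = _ := by rw [← hgz]; group
  obtain ⟨w, hw⟩ := h.cz _ hy1
  have hww : w * w = 1 := by
    apply h.inj
    rw [map_mul, hw, map_one, show g⁻¹ * z * g * (g⁻¹ * z * g) = g⁻¹ * (z * z) * g by group, zz]; simp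
  have hgw : g * ι w = z * g := by rw [hw]; group
  have hw1 : w ≠ 1 := by
    intro hh
    rw [hh, map_one, mul_one] at hgw
    have : z = 1 := (right_eq_mul.1 hgw)
    rw [← h.z16] at this
    exact absurd (h.inj (this.trans (map_one ι).symm)) (by decide +kernel)
  have hw16 : w ≠ wk 16 := by
    intro hh
    rw [hh, h.z16, hgz] at hgw
    have := mul_right_cancel hgw
    rw [← h.z16] at this
    exact absurd (h.inj this) (by decide +kernel)
  by_cases hlt : w.v < 32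
  · obtain ⟨c, hc⟩ := W1 w hww hw1 hlt hw16
    refine ⟨g * ι c, ?_, ?_⟩
    · calc g * ι c * ι (wk 16) = g * (ι (c * wk 16)) := by rw [map_mul]; group
        _ = g * z * ι c := by rw [zW, map_mul, h.z16]; group
        _ = _ := by rw [hgz]; group
    · calc g * ι c * ι (wk 1) = g * ι (c * wk 1 * c⁻¹) * ι c := by rw [map_mul, map_mul, map_inv]; group
        _ = z * g * ι c := by rw [hc, hgw]
        _ = _ := by rw [h.z16]; group
  · exfalso
    obtain ⟨c, hc⟩ := W2 w hww (by omega)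
    -- the element of order three
    have h32 : ι (wk 32) * ι (wk 1) = ι (wk 1) * ι (wk 32) := by rw [← map_mul, ← map_mul]; congr 1
    have h32z : ι (wk 32) * z = z * ι (wk 32) := by rw [← h.z16, ← map_mul, zW, map_mul]
    have g1 : g⁻¹ * ι (wk 1) = z * g⁻¹ := by
      calc g⁻¹ * ι (wk 1) = g⁻¹ * (ι (wk 1) * g) * g⁻¹ := by group
        _ = _ := by rw [← hgz]; group
    have gz' : g⁻¹ * z = ι w * g⁻¹ := by rw [hw]; group
    have gx : g⁻¹ * ι (wk 32) = (g⁻¹ * ι (wk 32) * g) * g⁻¹ := by group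
    obtain ⟨x, hx⟩ := h.cz _ (comm_cg gx g1 h32)
    have hxw : ι x * ι w = ι w * ι x := by rw [hx]; exact comm_cg gx gz' h32z
    have hxw' : x * w = w * x := h.inj (by rw [map_mul, map_mul, hxw])
    have hx3 : x * x * x = 1 := by
      apply h.inj
      rw [map_mul, map_mul, hx, map_one]
      calc g⁻¹ * ι (wk 32) * g * (g⁻¹ * ι (wk 32) * g) * (g⁻¹ * ι (wk 32) * g) = g⁻¹ * ι (wk 32 * wk 32 * wk 32) * g := by
            rw [map_mul, map_mul]; group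
        _ = 1 := by rw [show wk 32 * wk 32 * wk 32 = 1 by decide +kernel, map_one]; group
    have h1 := K0 (c⁻¹ * x * c) (by
      rw [show c⁻¹ * x * c * (c⁻¹ * x * c) * (c⁻¹ * x * c) = c⁻¹ * (x * x * x) * c by group, hx3]; group) (by
      have e1 : wk 96 = c⁻¹ * w * c := by rw [← hc]; group
      rw [e1, show c⁻¹ * x * c * (c⁻¹ * w * c) = c⁻¹ * (x * w) * c by group, hxw']; group)
    have hx1 : x = 1 := by
      have := congrArg (fun y => c * y * c⁻¹) h1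
      simpa [mul_assoc] using this
    rw [hx1, map_one] at hx
    have h2 : ι (wk 32) = 1 := by
      have := congrArg (fun y => g * y * g⁻¹) hx
      have e1 : g * (g⁻¹ * ι (wk 32) * g) * g⁻¹ = ι (wk 32) := by group
      simp only [e1] at this
      rw [← this]; group
    exact absurd (h.inj (h2.trans (map_one ι).symm)) (by decide +kernel)

theorem exists_PJ (h : HT ι z) : ∃ ρ : G, PJ ι ρ := by
  obtain ⟨s, s1, s2⟩ := exists_swap h
  have s17 : s * ι (wk 17) = ι (wk 17) * s := by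
    have := RW s1 s2
    rwa [← w17.1, show wk 1 * wk 16 = wk 17 by decide +kernel] at this
  -- three-cycle
  have a0 : Act ι (s * ι (wk 2)) := by
    have e2 : ∀ a b : W, wk 2 * a * (wk 2)⁻¹ = b → ι (wk 2) * ι a = ι b * ι (wk 2) := by
      intro a b hab
      rw [← hab, map_mul, map_mul, map_inv]; group
    exact ⟨RC (e2 _ _ tab2.2.2.1) s1, RC (e2 _ _ tab2.1) s17⟩
  obtain ⟨x, hx1, hx2⟩ := a0.conjD h (w := wk 32) (by decide +kernel)
  have hx3 : x * x * x = 1 := by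
    have := RW (RW hx2 hx2) hx2
    rw [show wk 32 * wk 32 * wk 32 = 1 by decide +kernel] at this
    exact Ru h.inj this (by rw [map_one, mul_one, one_mul])
  have hxn : x ≠ 1 := by
    intro hh
    rw [hh, map_one, one_mul] at hx2
    have := mul_eq_left.1 hx2
    exact absurd (h.inj (this.trans (map_one ι).symm)) (by decide +kernel)
  obtain ⟨c, hc1, hc2⟩ := K1 x hx1 hx3 hxn
  have a1 := a0.left hc1
  have hd := RL c hx2
  set ρ1 : G := ι c * (s * ι (wk 2)) with hρ1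
  have hex : ∃ ρ2 : G, Act ι ρ2 ∧ ρ2 * ι (wk 32) = ι (wk 32) * ρ2 := by
    rcases hc2 with hc2 | hc2
    · rw [hc2] at hd
      exact ⟨ρ1, a1, hd⟩
    · rw [hc2] at hd
      have hd2 : ρ1 * ι (wk 64) = ι (wk 32) * ρ1 := by
        have := RW hd hd
        rwa [show wk 32 * wk 32 = wk 64 by decide +kernel, show wk 64 * wk 64 = wk 32 by decide +kernel] at this
      exact ⟨_, a1.four, RC (RC (RC hd hd2) hd) hd2⟩
  obtain ⟨ρ2, a2, rd⟩ := hex
  obtain ⟨u, hu1, hu2⟩ := a2.conjD h (w := wk 96) (by decide +kernel)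
  obtain ⟨v, hv1, hv2⟩ := a2.conjD h (w := wk 102) (by decide +kernel)
  have rone : ρ2 * ι 1 = ι 1 * ρ2 := by rw [map_one, mul_one, one_mul]
  have q1 : u * u = 1 := by
    have := RW hu2 hu2
    rw [show wk 96 * wk 96 = 1 by decide +kernel] at this
    exact Ru h.inj this rone
  have q2 : v * v = 1 := by
    have := RW hv2 hv2
    rw [show wk 102 * wk 102 = 1 by decide +kernel] at this
    exact Ru h.inj this rone
  have q3 : (wk 32 * u) * (wk 32 * u) * (wk 32 * u) = 1 := by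
    have t := RW rd hu2
    have := RW (RW t t) t
    rw [show (wk 32 * wk 96) * (wk 32 * wk 96) * (wk 32 * wk 96) = 1 by decide +kernel] at this
    exact Ru h.inj this rone
  have q4 : (wk 32 * v) * (wk 32 * v) * (wk 32 * v) = 1 := by
    have t := RW rd hv2
    have := RW (RW t t) t
    rw [show (wk 32 * wk 102) * (wk 32 * wk 102) * (wk 32 * wk 102) = 1 by decide +kernel] at this
    exact Ru h.inj this rone
  have q5 : u * v * (u * v) = wk 1 := by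
    have t := RW hu2 hv2
    have := RW t t
    rw [show wk 96 * wk 102 * (wk 96 * wk 102) = wk 16 by decide +kernel] at this
    exact Ru h.inj this a2.rz
  have q6 : (wk 32 * u * v) * (wk 32 * u * v) * (wk 32 * u * v) = wk 17 := by
    have t := RW (RW rd hu2) hv2
    have := RW (RW t t) t
    rw [show (wk 32 * wk 96 * wk 102) * (wk 32 * wk 96 * wk 102) * (wk 32 * wk 96 * wk 102) = wk 1 by decide +kernel] at this
    exact Ru h.inj this a2.re
  rcases K2 u hu1 q1 q3 v hv1 q2 q4 q5 q6 with ⟨e1, e2⟩ | ⟨e1, e2⟩ | ⟨e1, e2⟩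
  · rw [e1] at hu2; rw [e2] at hv2
    refine ⟨ι (wk 32) * ρ2, a2.left (by decide +kernel), ?_, ?_, ?_⟩
    · have := RL (wk 32) rd
      rwa [show wk 32 * wk 32 * (wk 32)⁻¹ = wk 32 by decide +kernel] at this
    · have := RL (wk 32) hu2
      rwa [show wk 32 * wk 96 * (wk 32)⁻¹ = wk 256 by decide +kernel] at this
    · have := RL (wk 32) hv2
      rwa [show wk 32 * wk 266 * (wk 32)⁻¹ = wk 381 by decide +kernel] at this
  · rw [e1] at hu2; rw [e2] at hv2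
    exact ⟨ρ2, a2, rd, hu2, hv2⟩
  · rw [e1] at hu2; rw [e2] at hv2
    refine ⟨ι (wk 64) * ρ2, a2.left (by decide +kernel), ?_, ?_, ?_⟩
    · have := RL (wk 64) rd
      rwa [show wk 64 * wk 32 * (wk 64)⁻¹ = wk 32 by decide +kernel] at this
    · have := RL (wk 64) hu2
      rwa [show wk 64 * wk 352 * (wk 64)⁻¹ = wk 256 by decide +kernel] at this
    · have := RL (wk 64) hv2
      rwa [show wk 64 * wk 102 * (wk 64)⁻¹ = wk 381 by decide +kernel] at this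

theorem exists_RJ (h : HT ι z) : ∃ ρ : G, RJ ι ρ := by
  obtain ⟨ρ, p⟩ := exists_PJ h
  exact p.exists_RJ h

theorem exists_HT [Finite G] [IsSimpleGroup G] (t : G) (ht : orderOf t = 2)
    (Q : Subgroup (Subgroup.centralizer ({t} : Set G))) [hN : Q.Normal] (hQ : Cfsg.IsExtraspecial 2 Q) (hcard : Nat.card Q = 32)
    (h2c : Subgroup.centralizer (Q : Set (Subgroup.centralizer ({t} : Set G))) ≤ Q)
    (e : (Subgroup.centralizer ({t} : Set G)) ⧸ Q ≃* alternatingGroup (Fin 5)) : ∃ ι : W →* G, HT ι t := by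
  obtain ⟨_, _, g, ⟨hq, hgQ⟩, hgt⟩ := H58.J2Q.reduce t ht Q hQ hcard h2c e
  have hC : ∀ g, g ∈ Subgroup.centralizer ({t} : Set G) ↔ g * t = t * g := fun g => Subgroup.mem_centralizer_singleton_iff
  have hzC : t ∈ Subgroup.centralizer ({t} : Set G) := by rw [hC]
  obtain ⟨htt, ht1⟩ := H58.J2O.invol_ord ht
  have h60 : Nat.card (Subgroup.centralizer ({t} : Set G) ⧸ Q) = 60 := by
    rw [Nat.card_congr e.toEquiv, H58.J2O.card_A5]
  have hqd : QD Q (⟨t, hzC⟩ : Subgroup.centralizer ({t} : Set G)) := H58.J2O.QD_of Q hN hQ hcard h2c h60 ⟨t, hzC⟩ (fun hh => ht1 (congrArg Subtype.val hh)) (fun c => by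
    apply Subtype.ext
    exact (hC c).1 c.2)
  obtain ⟨e', hac, heQ⟩ := exists_AC hqd
  have h : ACC Q (⟨t, hzC⟩ : Subgroup.centralizer ({t} : Set G)) e' := ⟨hqd, hac, heQ⟩
  have hx2 : (⟨_, hq⟩ : Subgroup.centralizer ({t} : Set G)) * ⟨_, hq⟩ = 1 := by
    apply Subtype.ext
    change g * t * g⁻¹ * (g * t * g⁻¹) = 1
    rw [show g * t * g⁻¹ * (g * t * g⁻¹) = g * (t * t) * g⁻¹ by group, htt]; simp
  have hx1 : (⟨_, hq⟩ : Subgroup.centralizer ({t} : Set G)) ≠ 1 := by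
    intro hh
    have h1 : g * t * g⁻¹ = 1 := congrArg Subtype.val hh
    apply ht1
    have := congrArg (fun y => g⁻¹ * y * g) h1
    simpa [mul_assoc] using this
  obtain ⟨c, hc⟩ := H58.J2O.Q_invol_conj h hgQ hx2 hx1 (fun hh => hgt (congrArg Subtype.val hh)) (h.eQ 0) (h.ac.sq 0) (e_ne h 0).1 (e_ne h 0).2
  have hcj : IsConj t (e' 0 : G) := by
    refine (isConj_iff.2 ⟨g, rfl⟩ : IsConj t (g * t * g⁻¹)).trans (isConj_iff.2 ⟨(c : G), ?_⟩)
    exact congrArg Subtype.val hc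
  obtain ⟨x, hxx, hxQ⟩ := H58.J3A.exists_outer hC hzC h hcj
  obtain ⟨ψ, hψ16, hψe, hψQ⟩ := exists_iso h hxx hxQ
  refine ⟨(Subgroup.centralizer ({t} : Set G)).subtype.comp ψ.toMonoidHom, Subtype.val_injective.comp ψ.injective, ?_, ?_, ?_⟩
  · change ((ψ (wk 16) : Subgroup.centralizer ({t} : Set G)) : G) = t
    rw [hψ16]
  · intro x hx
    obtain ⟨w, hw⟩ := ψ.surjective ⟨x, (hC x).2 hx⟩
    exact ⟨w, congrArg Subtype.val hw⟩
  · have := hψe 0
    rw [show EC ((0 : Fin 5) : ℕ) = 1 from rfl] at this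
    change IsConj t ((ψ (wk 1) : Subgroup.centralizer ({t} : Set G)) : G)
    rw [this]; exact hcj

end H58.J3B
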