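import Mathlib
import Cfsg.Agent.Lib.H58.J3C

/-! Finite checks in `A_6` and `SL_3(2)`, abstract form (helper58). -/

set_option autoImplicit false
set_option linter.style.haveILetI false
set_option maxRecDepth 100000
set_option linter.unusedSectionVars false
set_option linter.unusedVariables false

namespace H58.J3C

variable {H : Type*} [Group H]

structure Cd (H : Type*) [Group H] where
  act : H → ℕ → ℕ
  lt : ∀ g i, i < 8 → act g i < 8
  mul : ∀ g h i, i < 8 → act (g * h) i = act g (act h i)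
  one : ∀ i, i < 8 → act 1 i = i
  inj : ∀ g h, (∀ i < 8, act g i = act h i) → g = h

def Cd.code (c : Cd H) (g : H) : ℕ := mk8 (c.act g 0) (c.act g 1) (c.act g 2) (c.act g 3) (c.act g 4) (c.act g 5) (c.act g 6) (c.act g 7)

theorem dg_mk {a : ℕ → ℕ} (ha : ∀ i < 8, a i < 8) {i : ℕ} (hi : i < 8) : dg8 (mk8 (a 0) (a 1) (a 2) (a 3) (a 4) (a 5) (a 6) (a 7)) i = a i := by
  have h0 := ha 0 (by norm_num)
  have h1 := ha 1 (by norm_num)
  have h2 := ha 2 (by norm_num)
  have h3 := ha 3 (by norm_num)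
  have h4 := ha 4 (by norm_num)
  have h5 := ha 5 (by norm_num)
  have h6 := ha 6 (by norm_num)
  have h7 := ha 7 (by norm_num)
  have e1 : ∀ x, dg8 x i = x / 2 ^ (3 * i) % 8 := fun x => by
    change (x >>> (3 * i)) % 8 = _
    rw [Nat.shiftRight_eq_div_pow]
  have e2 : mk8 (a 0) (a 1) (a 2) (a 3) (a 4) (a 5) (a 6) (a 7) =
      a 0 + (8 * a 1 + (64 * a 2 + (512 * a 3 + (4096 * a 4 + (32768 * a 5 + (262144 * a 6 + 2097152 * a 7)))))) := rfl
  rw [e1, e2]
  interval_cases i <;> norm_num <;> omega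

theorem Cd.dg (c : Cd H) (g : H) {i : ℕ} (hi : i < 8) : dg8 (c.code g) i = c.act g i :=
  dg_mk (a := c.act g) (fun i hi => c.lt g i hi) hi

theorem Cd.pm (c : Cd H) (g h : H) : pm8 (c.code g) (c.code h) = c.code (g * h) := by
  have e : ∀ i < 8, dg8 (c.code g) (dg8 (c.code h) i) = c.act (g * h) i := fun i hi => by
    rw [c.dg h hi, c.dg g (c.lt h i hi), c.mul g h i hi]
  unfold pm8
  rw [e 0 (by norm_num), e 1 (by norm_num), e 2 (by norm_num), e 3 (by norm_num), e 4 (by norm_num), e 5 (by norm_num),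
    e 6 (by norm_num), e 7 (by norm_num)]
  rfl

theorem Cd.code_one (c : Cd H) : c.code 1 = one8 := by
  unfold Cd.code
  rw [c.one 0 (by norm_num), c.one 1 (by norm_num), c.one 2 (by norm_num), c.one 3 (by norm_num), c.one 4 (by norm_num),
    c.one 5 (by norm_num), c.one 6 (by norm_num), c.one 7 (by norm_num)]
  decide +kernel

theorem Cd.code_inj (c : Cd H) {g h : H} (hgh : c.code g = c.code h) : g = h :=
  c.inj g h (fun i hi => by rw [← c.dg g hi, ← c.dg h hi, hgh])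

theorem Cd.main (c : Cd H) {C : ℕ → ℕ → Bool} {Z R : List ℕ} (hZ : ∀ g : H, g * g = 1 → g ≠ 1 → c.code g ∈ Z)
    (hR : ∀ g : H, g * g * g = 1 → g ≠ 1 → c.code g ∈ R) (hch : CH C Z R = true) {z a b r r' : H}
    (hz : z * z = 1) (hz1 : z ≠ 1) (hr : r * r * r = 1) (hr' : r' * r' * r' = 1) (ha : r * z = a * r) (hb : r' * z = b * r')
    (ha2 : r * a = z * a * r) (hb2 : r' * b = z * b * r') (hab : a * b * (a * b) = z) (hbr : b * r * (b * r) = 1)
    (har : a * r' * (a * r') = 1) : C (c.code r) (c.code r') = true := by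
  have hr1 : r ≠ 1 := by
    rintro rfl
    rw [one_mul, mul_one] at ha2
    exact hz1 (right_eq_mul.1 ha2)
  have hr1' : r' ≠ 1 := by
    rintro rfl
    rw [one_mul, mul_one] at hb2
    exact hz1 (right_eq_mul.1 hb2)
  have av1 : ∀ {x s : H}, s * s * s = 1 → s * z = x * s → av (c.code z) (c.code s) = c.code x := by
    intro x s hs hx
    unfold av
    rw [c.pm, c.pm, c.pm, ← mul_assoc, hx, mul_assoc, ← mul_assoc s s s, hs, mul_one]
  have hz' := hZ z hz hz1
  have hr'' := hR r hr hr1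
  have hr3 := hR r' hr' hr1'
  have h1 := List.all_eq_true.1 hch _ hz'
  have h2 := List.all_eq_true.1 h1 _ hr''
  have t1 : T1 (c.code z) (c.code r) = true := by
    unfold T1
    rw [av1 hr ha, c.pm, c.pm, c.pm, ha2, Nat.beq_eq]
  have t1' : T1 (c.code z) (c.code r') = true := by
    unfold T1
    rw [av1 hr' hb, c.pm, c.pm, c.pm, hb2, Nat.beq_eq]
  rw [t1, Bool.not_true, Bool.false_or] at h2
  have h3 := List.all_eq_true.1 h2 _ hr3
  have t2 : Nat.beq (sq (pm8 (av (c.code z) (c.code r)) (c.code r'))) one8 = true := by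
    unfold sq
    rw [av1 hr ha, c.pm, c.pm, har, c.code_one, Nat.beq_eq]
  have t3 : T3 (av (c.code z) (c.code r)) (av (c.code z) (c.code r')) (c.code r) (c.code r') (c.code z) = true := by
    unfold T3 sq
    rw [av1 hr ha, av1 hr' hb, c.pm, c.pm, c.pm, c.pm, hab, hbr, c.code_one, Bool.and_eq_true, Nat.beq_eq, Nat.beq_eq]
    exact ⟨rfl, rfl⟩
  rw [t2, t1', t3] at h3
  simpa using h3

theorem Cd.c6 (c : Cd H) {r r' : H} (hr' : r' * r' * r' = 1) (h : C6 (c.code r) (c.code r') = true) :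
    (r * r') ^ 5 = 1 ∧ (r * r'⁻¹) ^ 4 = 1 := by
  unfold C6 sq at h
  simp only [c.pm, ← c.code_one, Bool.and_eq_true, Nat.beq_eq] at h
  have h1 := c.code_inj h.1
  have h2 := c.code_inj h.2
  have e : r'⁻¹ = r' * r' := inv_eq_of_mul_eq_one_left hr'
  refine ⟨?_, ?_⟩
  · rw [← h1]; simp only [pow_succ, pow_zero, one_mul, mul_assoc]
  · rw [e, ← h2]; simp only [pow_succ, pow_zero, one_mul, mul_assoc]

theorem Cd.c7 (c : Cd H) {r r' : H} (h : C7 (c.code r) (c.code r') = true) :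
    (r * r') ^ 4 = 1 ∨ (r * r') ^ 3 = 1 := by
  unfold C7 sq at h
  simp only [c.pm, ← c.code_one, Bool.or_eq_true, Nat.beq_eq] at h
  rcases h with h | h
  · left
    rw [← c.code_inj h]; simp only [pow_succ, pow_zero, one_mul, mul_assoc]
  · right
    rw [← c.code_inj h]; simp only [pow_succ, pow_zero, one_mul, mul_assoc]

/-- `A_6` -/
def act6 (p : Equiv.Perm (Fin 6)) (i : ℕ) : ℕ := if h : i < 6 then (p ⟨i, h⟩).val else i

def cd6 : Cd (alternatingGroup (Fin 6)) where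
  act := fun g i => act6 g.1 i
  lt := fun g i hi => by
    unfold act6
    split
    · exact lt_of_lt_of_le (Fin.isLt _) (by norm_num)
    · exact hi
  mul := fun g h i _ => by
    unfold act6
    by_cases hi : i < 6
    · rw [dif_pos hi, dif_pos hi, dif_pos (Fin.isLt _)]; rfl
    · rw [dif_neg hi, dif_neg hi, dif_neg hi]
  one := fun i _ => by
    unfold act6
    by_cases hi : i < 6
    · rw [dif_pos hi]; rfl
    · rw [dif_neg hi]
  inj := fun g h hgh => by
    apply Subtype.ext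
    ext i
    have := hgh i.val (by omega)
    unfold act6 at this
    rw [dif_pos i.isLt, dif_pos i.isLt] at this
    exact this

def cdp6 (p : Equiv.Perm (Fin 6)) : ℕ := mk8 (act6 p 0) (act6 p 1) (act6 p 2) (act6 p 3) (act6 p 4) (act6 p 5) (act6 p 6) (act6 p 7)

theorem mem6 : ∀ p : Equiv.Perm (Fin 6), Equiv.Perm.sign p = 1 → (p * p = 1 → p ≠ 1 → cdp6 p ∈ Z6) ∧
    (p * p * p = 1 → p ≠ 1 → cdp6 p ∈ R6) := by decide +kernel

def enc (x : Fin 3 → ZMod 2) : ℕ := (x 0).val + 2 * (x 1).val + 4 * (x 2).val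
def dec (v : ℕ) : Fin 3 → ZMod 2 := ![((v % 2 : ℕ) : ZMod 2), ((v / 2 % 2 : ℕ) : ZMod 2), ((v / 4 % 2 : ℕ) : ZMod 2)]
theorem dec_enc : ∀ x : Fin 3 → ZMod 2, dec (enc x) = x := by decide +kernel
theorem enc_dec : ∀ v : Fin 8, enc (dec v.val) = v.val := by decide +kernel
theorem enc_lt : ∀ x : Fin 3 → ZMod 2, enc x < 8 := by decide +kernel

def cd7 : Cd (Matrix.SpecialLinearGroup (Fin 3) (ZMod 2)) where
  act := fun g i => enc (g.1.mulVec (dec i))
  lt := fun g i _ => enc_lt _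
  mul := fun g h i _ => by
    rw [dec_enc, Matrix.mulVec_mulVec]; rfl
  one := fun i hi => by
    have : ((1 : Matrix.SpecialLinearGroup (Fin 3) (ZMod 2)).1).mulVec (dec i) = dec i := Matrix.one_mulVec _
    rw [this]
    exact enc_dec ⟨i, hi⟩
  inj := fun g h hgh => by
    apply Subtype.ext
    apply Matrix.ext_of_mulVec_single
    intro j
    have h1 := hgh (enc (Pi.single j 1)) (enc_lt _)
    rw [dec_enc] at h1
    have h2 := congrArg dec h1
    rwa [dec_enc, dec_enc] at h2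

def cdm7 (M : Matrix (Fin 3) (Fin 3) (ZMod 2)) : ℕ := mk8 (enc (M.mulVec (dec 0))) (enc (M.mulVec (dec 1))) (enc (M.mulVec (dec 2)))
  (enc (M.mulVec (dec 3))) (enc (M.mulVec (dec 4))) (enc (M.mulVec (dec 5))) (enc (M.mulVec (dec 6))) (enc (M.mulVec (dec 7)))

theorem mem7 : ∀ a b c d e f g h i : ZMod 2, (!![a, b, c; d, e, f; g, h, i] * !![a, b, c; d, e, f; g, h, i] = 1 → !![a, b, c; d, e, f; g, h, i] ≠ 1 →
      cdm7 !![a, b, c; d, e, f; g, h, i] ∈ Z7) ∧
    (!![a, b, c; d, e, f; g, h, i] * !![a, b, c; d, e, f; g, h, i] * !![a, b, c; d, e, f; g, h, i] = 1 → !![a, b, c; d, e, f; g, h, i] ≠ 1 →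
      cdm7 !![a, b, c; d, e, f; g, h, i] ∈ R7) := by decide +kernel

theorem res6 {z a b r r' : alternatingGroup (Fin 6)}
    (hz : z * z = 1) (hz1 : z ≠ 1) (hr : r * r * r = 1) (hr' : r' * r' * r' = 1) (ha : r * z = a * r) (hb : r' * z = b * r')
    (ha2 : r * a = z * a * r) (hb2 : r' * b = z * b * r') (hab : a * b * (a * b) = z) (hbr : b * r * (b * r) = 1)
    (har : a * r' * (a * r') = 1) : (r * r') ^ 5 = 1 ∧ (r * r'⁻¹) ^ 4 = 1 := by
  refine cd6.c6 hr' (cd6.main ?_ ?_ ch6 hz hz1 hr hr' ha hb ha2 hb2 hab hbr har)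
  · intro g h1 h2
    exact (mem6 g.1 (Equiv.Perm.mem_alternatingGroup.1 g.2)).1 (congrArg Subtype.val h1) (fun hh => h2 (Subtype.ext hh))
  · intro g h1 h2
    exact (mem6 g.1 (Equiv.Perm.mem_alternatingGroup.1 g.2)).2 (congrArg Subtype.val h1) (fun hh => h2 (Subtype.ext hh))

theorem res7 {z a b r r' : Matrix.SpecialLinearGroup (Fin 3) (ZMod 2)}
    (hz : z * z = 1) (hz1 : z ≠ 1) (hr : r * r * r = 1) (hr' : r' * r' * r' = 1) (ha : r * z = a * r) (hb : r' * z = b * r')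
    (ha2 : r * a = z * a * r) (hb2 : r' * b = z * b * r') (hab : a * b * (a * b) = z) (hbr : b * r * (b * r) = 1)
    (har : a * r' * (a * r') = 1) : (r * r') ^ 4 = 1 ∨ (r * r') ^ 3 = 1 := by
  have key : ∀ g : Matrix.SpecialLinearGroup (Fin 3) (ZMod 2), (g * g = 1 → g ≠ 1 → cd7.code g ∈ Z7) ∧ (g * g * g = 1 → g ≠ 1 → cd7.code g ∈ R7) := by
    intro g
    have h0 := mem7 (g.1 0 0) (g.1 0 1) (g.1 0 2) (g.1 1 0) (g.1 1 1) (g.1 1 2) (g.1 2 0) (g.1 2 1) (g.1 2 2)
    rw [← Matrix.eta_fin_three g.1] at h0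
    refine ⟨fun h1 h2 => h0.1 (congrArg Subtype.val h1) (fun hh => h2 (Subtype.ext hh)),
      fun h1 h2 => h0.2 (congrArg Subtype.val h1) (fun hh => h2 (Subtype.ext hh))⟩
  exact cd7.c7 (cd7.main (fun g => (key g).1) (fun g => (key g).2) ch7 hz hz1 hr hr' ha hb ha2 hb2 hab hbr har)

theorem sgn4 {n : ℕ} (hn : ∀ x : Equiv.Perm (Fin n), Equiv.Perm.sign x = 1 → x * x * (x * x) = 1 → x * x = 1) {z a b r r' : Equiv.Perm (Fin n)}
    (hz : z * z = 1) (hz1 : z ≠ 1) (ha : r * z = a * r) (hb : r' * z = b * r') (hab : a * b * (a * b) = z) : False := by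
  have hsz : Equiv.Perm.sign z = 1 := by
    rw [← hab, map_mul]; exact Int.units_mul_self _
  have e1 : ∀ x s : Equiv.Perm (Fin n), s * z = x * s → Equiv.Perm.sign x = 1 := by
    intro x s hx
    have := congrArg Equiv.Perm.sign hx
    rw [map_mul, map_mul, hsz, mul_one] at this
    exact (right_eq_mul.1 this)
  apply hz1
  rw [← hab]
  apply hn
  · rw [map_mul, e1 a r ha, e1 b r' hb, mul_one]
  · rw [hab, hz]

theorem s4 : ∀ x : Equiv.Perm (Fin 4), Equiv.Perm.sign x = 1 → x * x * (x * x) = 1 → x * x = 1 := by decide +kernel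
theorem s5 : ∀ x : Equiv.Perm (Fin 5), Equiv.Perm.sign x = 1 → x * x * (x * x) = 1 → x * x = 1 := by decide +kernel

end H58.J3C
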