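import Mathlib
import Cfsg.Agent.Lib.H58.J3B
import Cfsg.Agent.Lib.H69.FrobCount

/-! Counting 2-elements (helper58). -/

set_option autoImplicit false
set_option linter.style.haveILetI false
set_option maxRecDepth 100000
set_option linter.unusedSectionVars false

namespace H58.J3B

open H58.J2A H58.J2B H58.J2C Subgroup

variable {G : Type*} [Group G] {ι : W →* G} {z ρ : G}

def FP (u x : G) : Prop := x = u ∨ x * x = u ∨ x * x * (x * x) = u

def sqW (w : W) : W := w * w

theorem W128 : ∀ w : W, sqW (sqW (sqW (sqW (sqW (sqW (sqW w)))))) = 1 → sqW (sqW (sqW w)) = 1 := by decide +kernel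

theorem W261 : (Finset.univ.filter fun w : W => w = wk 16 ∨ w * w = wk 16 ∨ w * w * (w * w) = wk 16).card = 261 := by
  have h1 : cntW (fun w => decide (w = wk 16 ∨ w * w = wk 16 ∨ w * w * (w * w) = wk 16)) = 261 := by decide +kernel
  rw [cntW_eq] at h1
  rw [← h1]
  congr 1

theorem FP.comm {u x : G} (h : FP u x) : x * u = u * x := by
  rcases h with h | h | h
  · rw [← h]
  · rw [← h]; group
  · rw [← h]; group

theorem FP.uniq {u v x : G} (hu : u * u = 1) (hu1 : u ≠ 1) (hv : v * v = 1) (hv1 : v ≠ 1) (h : FP u x) (h' : FP v x) : u = v := by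
  rcases h with h | h | h <;> rcases h' with h' | h' | h'
  · rw [← h, ← h']
  · exfalso; apply hv1; rw [← h', h, hu]
  · exfalso; apply hv1; rw [← h', h, hu, one_mul]
  · exfalso; apply hu1; rw [← h, h', hv]
  · rw [← h, ← h']
  · exfalso; apply hv1; rw [← h', h, hu]
  · exfalso; apply hu1; rw [← h, h', hv, one_mul]
  · exfalso; apply hu1; rw [← h, h', hv]
  · rw [← h, ← h']

theorem FP.conj {u x : G} (g : G) (h : FP u x) : FP (g * u * g⁻¹) (g * x * g⁻¹) := by
  rcases h with h | h | h
  · left; rw [h]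
  · right; left; rw [← h]; group
  · right; right; rw [← h]; group

theorem FP.pow {u x : G} (hu : u * u = 1) (h : FP u x) : x ^ 128 = 1 := by
  rcases h with h | h | h
  · rw [h, show (128 : ℕ) = 2 * 64 from rfl, pow_mul, pow_two, hu, one_pow]
  · rw [show (128 : ℕ) = 2 * (2 * 32) from rfl, pow_mul, pow_two, h, pow_mul, pow_two, hu, one_pow]
  · rw [show (128 : ℕ) = 2 * (2 * (2 * 16)) from rfl, pow_mul, pow_two, pow_mul, pow_two, h, pow_mul, pow_two, hu, one_pow]

theorem FP.ne {u x : G} (hu1 : u ≠ 1) (h : FP u x) : x ≠ 1 := by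
  rintro rfl
  rcases h with h | h | h
  · exact hu1 h.symm
  · exact hu1 (by rw [← h, one_mul])
  · exact hu1 (by rw [← h, one_mul, one_mul])

theorem HT.zz (h : HT ι z) : z * z = 1 := by rw [← h.z16, ← map_mul, show wk 16 * wk 16 = 1 by decide +kernel, map_one]
theorem HT.z1 (h : HT ι z) : z ≠ 1 := by
  rw [← h.z16]
  intro hh
  exact absurd (h.inj (hh.trans (map_one ι).symm)) (by decide +kernel)
theorem HT.oz (h : HT ι z) : orderOf z = 2 := orderOf_eq_prime (by rw [pow_two]; exact h.zz) h.z1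

theorem HT.zc (h : HT ι z) (w : W) : ι w * z = z * ι w := by rw [← h.z16, ← map_mul, zW, map_mul]

theorem exists_FP [Finite G] (h : HT ι z) (hone : ∀ x y : G, orderOf x = 2 → orderOf y = 2 → IsConj x y)
    {y : G} (hy : y ^ 128 = 1) (hy1 : y ≠ 1) : ∃ g : G, FP (g * z * g⁻¹) y := by
  have h1 : orderOf y ∣ 2 ^ 7 := by
    rw [orderOf_dvd_iff_pow_eq_one]; exact hy
  obtain ⟨k, hk, hk2⟩ := (Nat.dvd_prime_pow Nat.prime_two).1 h1
  have hk0 : k ≠ 0 := by
    rintro rfl
    rw [pow_zero, orderOf_eq_one_iff] at hk2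
    exact hy1 hk2
  obtain ⟨j, rfl⟩ := Nat.exists_eq_succ_of_ne_zero hk0
  set u : G := y ^ (2 ^ j) with hu
  have hu2 : orderOf u = 2 := by
    rw [hu, orderOf_pow, hk2]
    rw [Nat.gcd_eq_right (pow_dvd_pow 2 (Nat.le_succ j)), pow_succ, Nat.mul_div_cancel_left _ (by positivity)]
  obtain ⟨g, hg⟩ := isConj_iff.1 (hone z u h.oz hu2)
  refine ⟨g, ?_⟩
  rw [hg]
  have hc : y * u = u * y := by rw [hu, ← pow_succ, ← pow_succ']
  have hc2 : (g⁻¹ * y * g) * z = z * (g⁻¹ * y * g) := by
    have e1 : z = g⁻¹ * u * g := by rw [← hg]; group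
    rw [e1]
    calc g⁻¹ * y * g * (g⁻¹ * u * g) = g⁻¹ * (y * u) * g := by group
      _ = _ := by rw [hc]; group
  obtain ⟨w, hw⟩ := h.cz _ hc2
  have hp : ∀ n : ℕ, (g⁻¹ * y * g) ^ n = g⁻¹ * y ^ n * g := by
    intro n
    have := conj_pow (a := g⁻¹) (b := y) (i := n)
    rwa [inv_inv] at this
  have hw7 : sqW (sqW (sqW (sqW (sqW (sqW (sqW w)))))) = 1 := by
    have e2 : sqW (sqW (sqW (sqW (sqW (sqW (sqW w)))))) = w ^ 128 := by
      unfold sqW
      rw [← pow_two w, ← pow_two (w ^ 2), ← pow_two ((w ^ 2) ^ 2), ← pow_two (((w ^ 2) ^ 2) ^ 2), ← pow_two ((((w ^ 2) ^ 2) ^ 2) ^ 2),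
        ← pow_two (((((w ^ 2) ^ 2) ^ 2) ^ 2) ^ 2), ← pow_two ((((((w ^ 2) ^ 2) ^ 2) ^ 2) ^ 2) ^ 2)]
      simp only [← pow_mul]
    rw [e2]
    apply h.inj
    rw [map_pow, hw, map_one, hp, hy]; group
  have hw8 := W128 w hw7
  have hy8 : y ^ 8 = 1 := by
    have e2 : w ^ 8 = 1 := by
      rw [← hw8]
      unfold sqW
      rw [← pow_two w, ← pow_two (w ^ 2), ← pow_two ((w ^ 2) ^ 2)]
      simp only [← pow_mul]
    have e3 : (g⁻¹ * y * g) ^ 8 = 1 := by rw [← hw, ← map_pow, e2, map_one]
    rw [hp] at e3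
    have := congrArg (fun x => g * x * g⁻¹) e3
    simpa [mul_assoc] using this
  have h5 : 2 ^ (j + 1) ∣ 2 ^ 3 := by
    rw [← Nat.succ_eq_add_one, ← hk2]
    rw [orderOf_dvd_iff_pow_eq_one]; exact hy8
  have h6 : j + 1 ≤ 3 := (Nat.pow_dvd_pow_iff_le_right (by norm_num)).1 h5
  have hj : j = 0 ∨ j = 1 ∨ j = 2 := by omega
  rcases hj with rfl | rfl | rfl
  · left; rw [hu]; simp
  · right; left; rw [hu]; simp [pow_two]
  · right; right; rw [hu]
    rw [show (2 : ℕ) ^ 2 = 2 * 2 from rfl, pow_mul, pow_two, pow_two]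

theorem card_FP [Finite G] (h : HT ι z) : Nat.card {x : G // FP z x} = 261 := by
  have e : {w : W // w = wk 16 ∨ w * w = wk 16 ∨ w * w * (w * w) = wk 16} ≃ {x : G // FP z x} :=
    Equiv.ofBijective (fun w => ⟨ι w.1, by
      rcases w.2 with h1 | h1 | h1
      · left; rw [h1, h.z16]
      · right; left; rw [← map_mul, h1, h.z16]
      · right; right; rw [← map_mul, ← map_mul, h1, h.z16]⟩) (by
      constructor
      · intro a b hab
        exact Subtype.ext (h.inj (congrArg Subtype.val hab))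
      · rintro ⟨x, hx⟩
        obtain ⟨w, rfl⟩ := h.cz x hx.comm
        refine ⟨⟨w, ?_⟩, rfl⟩
        rcases hx with h1 | h1 | h1
        · left; exact h.inj (by rw [h1, h.z16])
        · right; left; exact h.inj (by rw [map_mul, h1, h.z16])
        · right; right; exact h.inj (by rw [map_mul, map_mul, h1, h.z16]))
  rw [← Nat.card_congr e, Nat.card_eq_fintype_card, Fintype.card_subtype, W261]

theorem card_cent [Finite G] (h : HT ι z) : Nat.card {c : G // c * z = z * c} = 1920 := by
  have e : W ≃ {c : G // c * z = z * c} := Equiv.ofBijective (fun w => ⟨ι w, h.zc w⟩) (by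
    constructor
    · intro a b hab
      exact h.inj (congrArg Subtype.val hab)
    · rintro ⟨x, hx⟩
      obtain ⟨w, rfl⟩ := h.cz x hx
      exact ⟨w, rfl⟩)
  rw [← Nat.card_congr e, card_W]

theorem card_range (h : HT ι z) : Nat.card ι.range = 1920 := by
  rw [← card_W]
  exact (Nat.card_congr (MonoidHom.ofInjective h.inj).toEquiv).symm

theorem frob [Finite G] (h : HT ι z) (hone : ∀ x y : G, orderOf x = 2 → orderOf y = 2 → IsConj x y) :
    128 ∣ 1 + 261 * (ι.range).index := by
  classical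
  have hG : Nat.card G = 1920 * (ι.range).index := by
    rw [← card_range h, Subgroup.card_mul_index]
  set S := {y : G // y ^ 128 = 1 ∧ y ≠ 1} with hS
  let _ : Fintype G := Fintype.ofFinite G
  let _ : Fintype S := Fintype.ofFinite S
  -- double counting
  have hcz : ∀ g : G, g * z * g⁻¹ * (g * z * g⁻¹) = 1 := fun g => by
    rw [show g * z * g⁻¹ * (g * z * g⁻¹) = g * (z * z) * g⁻¹ by group, h.zz]; group
  have hcz1 : ∀ g : G, g * z * g⁻¹ ≠ 1 := fun g hh => h.z1 (by
    have := congrArg (fun x => g⁻¹ * x * g) hh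
    simpa [mul_assoc] using this)
  have c1 : Nat.card {p : G × S // FP (p.1 * z * p.1⁻¹) p.2.1} = Nat.card G * 261 := by
    rw [Nat.card_congr (Equiv.subtypeProdEquivSigmaSubtype (fun (g : G) (y : S) => FP (g * z * g⁻¹) y.1)), Nat.card_sigma]
    have : ∀ g : G, Nat.card {y : S // FP (g * z * g⁻¹) y.1} = 261 := by
      intro g
      rw [← card_FP h]
      refine (Nat.card_congr (Equiv.ofBijective (fun x : {x : G // FP z x} =>
        (⟨⟨g * x.1 * g⁻¹, (x.2.conj g).pow (hcz g), (x.2.conj g).ne (hcz1 g)⟩, x.2.conj g⟩ : {y : S // FP (g * z * g⁻¹) y.1})) ?_)).symm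
      constructor
      · intro a b hab
        have h1 : g * a.1 * g⁻¹ = g * b.1 * g⁻¹ := congrArg (fun y => y.1.1) hab
        exact Subtype.ext (mul_left_cancel (mul_right_cancel h1))
      · rintro ⟨⟨y, hy⟩, hy2⟩
        refine ⟨⟨g⁻¹ * y * g, ?_⟩, ?_⟩
        · have := hy2.conj g⁻¹
          rw [inv_inv, show g⁻¹ * (g * z * g⁻¹) * g = z by group] at this
          exact this
        · apply Subtype.ext; apply Subtype.ext
          change g * (g⁻¹ * y * g) * g⁻¹ = y
          group
    rw [Finset.sum_congr rfl (fun g _ => this g), Finset.sum_const, Finset.card_univ, smul_eq_mul, Nat.card_eq_fintype_card]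
  have c2 : Nat.card {p : G × S // FP (p.1 * z * p.1⁻¹) p.2.1} = Nat.card S * 1920 := by
    have e1 : {p : G × S // FP (p.1 * z * p.1⁻¹) p.2.1} ≃ {p : S × G // FP (p.2 * z * p.2⁻¹) p.1.1} :=
      { toFun := fun p => ⟨(p.1.2, p.1.1), p.2⟩
        invFun := fun p => ⟨(p.1.2, p.1.1), p.2⟩
        left_inv := fun p => rfl
        right_inv := fun p => rfl }
    rw [Nat.card_congr e1, Nat.card_congr (Equiv.subtypeProdEquivSigmaSubtype (fun (y : S) (g : G) => FP (g * z * g⁻¹) y.1)), Nat.card_sigma]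
    have : ∀ y : S, Nat.card {g : G // FP (g * z * g⁻¹) y.1} = 1920 := by
      rintro ⟨y, hy, hy1⟩
      rw [← card_cent h]
      obtain ⟨g0, hg0⟩ := exists_FP h hone hy hy1
      refine (Nat.card_congr (Equiv.ofBijective (fun c : {c : G // c * z = z * c} =>
        (⟨g0 * c.1, by
          have : g0 * c.1 * z * (g0 * c.1)⁻¹ = g0 * z * g0⁻¹ := by
            rw [mul_assoc g0, c.2]; group
          rw [this]; exact hg0⟩ : {g : G // FP (g * z * g⁻¹) y})) ?_)).symm
      constructor
      · intro a b hab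
        have h1 : g0 * a.1 = g0 * b.1 := congrArg Subtype.val hab
        exact Subtype.ext (mul_left_cancel h1)
      · rintro ⟨g, hg⟩
        have h1 := FP.uniq (hcz g) (hcz1 g) (hcz g0) (hcz1 g0) hg hg0
        refine ⟨⟨g0⁻¹ * g, ?_⟩, ?_⟩
        · calc g0⁻¹ * g * z = g0⁻¹ * (g * z * g⁻¹) * g := by group
            _ = _ := by rw [h1]; group
        · apply Subtype.ext
          change g0 * (g0⁻¹ * g) = g
          group
    rw [Finset.sum_congr rfl (fun y _ => this y), Finset.sum_const, Finset.card_univ, smul_eq_mul, Nat.card_eq_fintype_card]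
  rw [c1, hG] at c2
  have c3 : Nat.card S = 261 * (ι.range).index := by
    have : 1920 * (261 * (ι.range).index) = 1920 * Nat.card S := by
      calc 1920 * (261 * (ι.range).index) = 1920 * (ι.range).index * 261 := by ring
        _ = Nat.card S * 1920 := c2
        _ = _ := by ring
    exact (Nat.eq_of_mul_eq_mul_left (by norm_num) this).symm
  have h128 : 128 ∣ Nat.card G := by rw [hG]; exact ⟨15 * (ι.range).index, by ring⟩
  have h3 := H69.FrobCount.frobenius_dvd (G := G) 128 h128
  have h4 : Nat.card {g : G // g ^ 128 = 1} = 1 + Nat.card S := by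
    have e : {g : G // g ^ 128 = 1} ≃ Option S :=
      { toFun := fun g => if hg : g.1 = 1 then none else some ⟨g.1, g.2, hg⟩
        invFun := fun o => match o with
          | none => ⟨1, one_pow _⟩
          | some y => ⟨y.1, y.2.1⟩
        left_inv := by
          rintro ⟨g, hg⟩
          by_cases h1 : g = 1
          · simp [h1]
          · simp [h1]
        right_inv := by
          rintro (_ | ⟨y, hy1, hy2⟩)
          · simp
          · simp [hy2] }
    rw [Nat.card_congr e, Finite.card_option, add_comm]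
  rw [h4, c3] at h3
  exact h3

end H58.J3B
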