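import Mathlib
import Cfsg.Agent.Lib.H58.J3G
import Cfsg.Agent.Lib.H56.Heis
import Cfsg.Agent.S1721
import Cfsg.Agent.S5382

/-! The generated subgroup has one class of involutions (helper58). -/

set_option autoImplicit false
set_option linter.style.haveILetI false
set_option maxRecDepth 100000
set_option linter.unusedSectionVars false

namespace H58.J3B

open H58.J2A H58.J2B H58.J2C Subgroup Cfsg

/-- the hypothesis on an involution centralizer -/
def HYP {G : Type*} [Group G] (z : G) : Prop :=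
  ∃ (Q : Subgroup (Subgroup.centralizer ({z} : Set G))) (_ : Q.Normal), IsExtraspecial 2 Q ∧ Nat.card Q = 32 ∧
    Subgroup.centralizer (Q : Set (Subgroup.centralizer ({z} : Set G))) ≤ Q ∧
    Nonempty ((Subgroup.centralizer ({z} : Set G)) ⧸ Q ≃* alternatingGroup (Fin 5))

theorem HYP.trans {G G1 : Type*} [Group G] [Group G1] [Finite G] [Finite G1] {z : G} {z1 : G1}
    (φ : Subgroup.centralizer ({z1} : Set G1) ≃* Subgroup.centralizer ({z} : Set G)) (h : HYP z) : HYP z1 := by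
  obtain ⟨Q, hN, hQ, hc, hcc, ⟨e⟩⟩ := h
  have hN' : (Q.map φ.symm.toMonoidHom).Normal := hN.map _ φ.symm.surjective
  refine ⟨Q.map φ.symm.toMonoidHom, hN', ?_, ?_, ?_, ?_⟩
  · exact H56.Heis.isExtraspecial_congr (φ.symm.subgroupMap Q) hQ
  · rw [← hc]
    exact (Nat.card_congr (φ.symm.subgroupMap Q).toEquiv).symm
  · intro x hx
    refine ⟨φ x, ?_, φ.symm_apply_apply x⟩
    apply hcc
    rw [Subgroup.mem_centralizer_iff]
    intro q hq
    have h1 := (Subgroup.mem_centralizer_iff.1 hx) (φ.symm q) ⟨q, hq, rfl⟩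
    have h2 := congrArg φ h1
    rw [map_mul, map_mul, φ.apply_symm_apply] at h2
    exact h2
  · exact ⟨(QuotientGroup.congr Q (Q.map φ.symm.toMonoidHom) φ.symm rfl).symm.trans e⟩

theorem K5a : ∀ f : W, f ^ 5 = 1 → f * wk 1 = wk 1 * f → f = 1 := by decide +kernel
theorem K5b : ∀ f : W, f ^ 5 = 1 → f * wk 96 = wk 96 * f → f = 1 := by decide +kernel

theorem K5 {f x : W} (hf : f ^ 5 = 1) (hf1 : f ≠ 1) (hx : x * x = 1) (hc : x * f = f * x) : x = 1 ∨ x = wk 16 := by
  by_contra hcon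
  push Not at hcon
  have key : ∀ y : W, (∀ f : W, f ^ 5 = 1 → f * y = y * f → f = 1) → (∃ g, g * y * g⁻¹ = x) → False := by
    rintro y hy ⟨g, hg⟩
    have h1 := hy (g⁻¹ * f * g) (by
      have := conj_pow (a := g⁻¹) (b := f) (i := 5)
      rw [inv_inv] at this
      rw [this, hf]; group) (by
      have e1 : y = g⁻¹ * x * g := by rw [← hg]; group
      rw [e1, show g⁻¹ * f * g * (g⁻¹ * x * g) = g⁻¹ * (f * x) * g by group, ← hc]; group)
    apply hf1
    have := congrArg (fun y => g * y * g⁻¹) h1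
    simpa [mul_assoc] using this
  by_cases hlt : x.v < 32
  · exact key _ K5a (W1 x hx hcon.1 hlt hcon.2)
  · exact key _ K5b (W2 x hx (by omega))

def v1 : Multiplicative (ZMod 2) × Multiplicative (ZMod 2) := (Multiplicative.ofAdd 1, 1)
def v2 : Multiplicative (ZMod 2) × Multiplicative (ZMod 2) := (1, Multiplicative.ofAdd 1)
theorem v12 : v1 * v1 = 1 ∧ v2 * v2 = 1 ∧ v1 ≠ 1 ∧ v2 ≠ 1 ∧ v1 ≠ v2 := by decide
def c5 : alternatingGroup (Fin 5) := ⟨c[0, 1, 2, 3, 4], by rw [Equiv.Perm.mem_alternatingGroup]; decide +kernel⟩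
theorem c5_5 : c5 ^ 5 = 1 := by decide +kernel
theorem c5_1 : c5 ≠ 1 := by decide +kernel

variable {G : Type*} [Group G] {ι : W →* G} {z ρ : G}

set_option maxHeartbeats 400000 in
theorem one_class [Finite G] (h : HT ι z) (hY : HYP z) (hone : ∀ x y : G, orderOf x = 2 → orderOf y = 2 → IsConj x y)
    (G1 : Subgroup G) (hι : ∀ w, ι w ∈ G1) (hρ : ∃ g ∈ G1, g * z = ι (wk 1) * g) :
    ∀ x y : G1, orderOf x = 2 → orderOf y = 2 → IsConj x y := by
  by_contra hcon
  push Not at hcon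
  have hcl : ∃ x y : G1, orderOf x = 2 ∧ orderOf y = 2 ∧ ¬ IsConj x y := hcon
  have hzG : z ∈ G1 := by rw [← h.z16]; exact hι _
  have hz2 : orderOf (⟨z, hzG⟩ : G1) = 2 := by
    rw [← h.oz, ← Subgroup.orderOf_coe]
  -- the isomorphism of centralizers
  let φ : Subgroup.centralizer ({(⟨z, hzG⟩ : G1)} : Set G1) ≃* Subgroup.centralizer ({z} : Set G) :=
    { toFun := fun x => ⟨((x : G1) : G), by
        have := (Subgroup.mem_centralizer_singleton_iff).1 x.2
        rw [Subgroup.mem_centralizer_singleton_iff]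
        exact congrArg Subtype.val this⟩
      invFun := fun x => ⟨⟨(x : G), by
          obtain ⟨w, hw⟩ := h.cz (x : G) ((Subgroup.mem_centralizer_singleton_iff).1 x.2)
          rw [← hw]; exact hι w⟩, by
        rw [Subgroup.mem_centralizer_singleton_iff]
        apply Subtype.ext
        exact (Subgroup.mem_centralizer_singleton_iff).1 x.2⟩
      left_inv := fun x => rfl
      right_inv := fun x => rfl
      map_mul' := fun x y => rfl }
  obtain ⟨Q, hN, hQ, hc, hcc, ⟨e⟩⟩ := hY.trans φ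
  have hp : Fact (Nat.Prime 2) := ⟨Nat.prime_two⟩
  have h2 : IsPGroup 2 Q := IsPGroup.of_card (n := 5) (by rw [hc]; norm_num)
  have hF := H58.J2Q.gFitting_eq_of hN h2 hcc (H58.J2Q.pCore_le_of_A5 Q e)
  obtain ⟨f⟩ := H58.J2O.omega_iso
  have h60 : Nat.card ((Subgroup.centralizer ({(⟨z, hzG⟩ : G1)} : Set G1)) ⧸ Q) = 60 := by
    rw [Nat.card_congr e.toEquiv, H58.J2O.card_A5]
  obtain ⟨g, hgG, hg⟩ := hρ
  have hex : ∃ g : G1, (g * ⟨z, hzG⟩ * g⁻¹) * ⟨z, hzG⟩ = ⟨z, hzG⟩ * (g * ⟨z, hzG⟩ * g⁻¹) ∧ g * ⟨z, hzG⟩ * g⁻¹ ≠ ⟨z, hzG⟩ := by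
    refine ⟨⟨g, hgG⟩, ?_, ?_⟩
    · apply Subtype.ext
      change g * z * g⁻¹ * z = z * (g * z * g⁻¹)
      rw [hg, mul_assoc (ι (wk 1)), mul_inv_cancel, mul_one, h.zc]
    · intro hh
      have h1 : g * z * g⁻¹ = z := congrArg Subtype.val hh
      rw [hg, mul_assoc, mul_inv_cancel, mul_one, ← h.z16] at h1
      exact absurd (h.inj h1) (by decide +kernel)
  have hnwc := H58.J2P.nwc_of (⟨z, hzG⟩ : G1) hz2 (Subgroup.centralizer ({(⟨z, hzG⟩ : G1)} : Set G1))
    (fun g => Subgroup.mem_centralizer_singleton_iff) Q hN hcc hQ hc h60 hex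
  -- an involution not conjugate to `z`
  have ht : ∃ t : G1, orderOf t = 2 ∧ ¬ IsConj t ⟨z, hzG⟩ := by
    obtain ⟨x, y, hx, hy, hxy⟩ := hcl
    by_cases h1 : IsConj x ⟨z, hzG⟩
    · exact ⟨y, hy, fun h2 => hxy (h1.trans h2.symm)⟩
    · exact ⟨x, hx, h1⟩
  obtain ⟨t, ht2, htz⟩ := ht
  obtain ⟨⟨E⟩, _⟩ := Cfsg.Agent.S5382.result (⟨z, hzG⟩ : G1) hz2 Q hF hQ (by rw [hc]; norm_num) (e.trans f.symm) hnwc hcl t ht2 htz
  -- transport to the model
  obtain ⟨s, hs⟩ := isConj_iff.1 (hone z (t : G) h.oz (by rw [← ht2, Subgroup.orderOf_coe]))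
  have hk : ∀ p : (Multiplicative (ZMod 2) × Multiplicative (ZMod 2)) × alternatingGroup (Fin 5),
      ∃ w : W, ι w = s⁻¹ * (((E.symm p : Subgroup.centralizer ({t} : Set G1)) : G1) : G) * s := by
    intro p
    apply h.cz
    have h1 : (((E.symm p : Subgroup.centralizer ({t} : Set G1)) : G1) : G) * (t : G) = (t : G) * (((E.symm p : Subgroup.centralizer ({t} : Set G1)) : G1) : G) :=
      congrArg Subtype.val ((Subgroup.mem_centralizer_singleton_iff).1 (E.symm p).2)
    rw [← hs] at h1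
    calc s⁻¹ * (((E.symm p : Subgroup.centralizer ({t} : Set G1)) : G1) : G) * s * z
        = s⁻¹ * ((((E.symm p : Subgroup.centralizer ({t} : Set G1)) : G1) : G) * (s * z * s⁻¹)) * s := by group
      _ = _ := by rw [h1]; group
  choose κ hκ using hk
  have hmul : ∀ p q, κ (p * q) = κ p * κ q := by
    intro p q
    apply h.inj
    rw [map_mul, hκ, hκ, hκ, map_mul]
    change s⁻¹ * ((((E.symm p : Subgroup.centralizer ({t} : Set G1)) : G1) : G) * (((E.symm q : Subgroup.centralizer ({t} : Set G1)) : G1) : G)) * s = _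
    group
  have hinj : Function.Injective κ := by
    intro p q hpq
    have h1 := hκ p
    rw [hpq, hκ q] at h1
    have h2 := mul_left_cancel (mul_right_cancel h1)
    apply E.symm.injective
    apply Subtype.ext; apply Subtype.ext
    exact h2.symm
  let κh : (Multiplicative (ZMod 2) × Multiplicative (ZMod 2)) × alternatingGroup (Fin 5) →* W := MonoidHom.mk' κ hmul
  have e5 : ((1, c5) : (Multiplicative (ZMod 2) × Multiplicative (ZMod 2)) × alternatingGroup (Fin 5)) ^ 5 = 1 :=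
    Prod.ext (one_pow _) c5_5
  have hf5 : (κh (1, c5)) ^ 5 = 1 := by
    rw [← map_pow, e5, map_one]
  have hf1 : κh (1, c5) ≠ 1 := by
    intro hh
    have := hinj (hh.trans (map_one κh).symm)
    exact c5_1 (congrArg Prod.snd this)
  have key : ∀ v : Multiplicative (ZMod 2) × Multiplicative (ZMod 2), v * v = 1 → v ≠ 1 → κh (v, 1) = wk 16 := by
    intro v hv hv1
    have q1 : ((v, 1) : (Multiplicative (ZMod 2) × Multiplicative (ZMod 2)) × alternatingGroup (Fin 5)) * (v, 1) = 1 :=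
      Prod.ext hv (one_mul _)
    have q2 : ((v, 1) : (Multiplicative (ZMod 2) × Multiplicative (ZMod 2)) × alternatingGroup (Fin 5)) * (1, c5) = (1, c5) * (v, 1) :=
      Prod.ext ((mul_one v).trans (one_mul v).symm) ((one_mul c5).trans (mul_one c5).symm)
    have q3 : κh (v, 1) * κh (v, 1) = 1 := by rw [← map_mul, q1, map_one]
    have q4 : κh (v, 1) * κh (1, c5) = κh (1, c5) * κh (v, 1) := by rw [← map_mul, ← map_mul, q2]
    rcases K5 hf5 hf1 q3 q4 with h1 | h1
    · exfalso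
      have := hinj (h1.trans (map_one κh).symm)
      exact hv1 (congrArg Prod.fst this)
    · exact h1
  have h3 := (key v1 v12.1 v12.2.2.1).trans (key v2 v12.2.1 v12.2.2.2.1).symm
  exact v12.2.2.2.2 (congrArg Prod.fst (hinj h3))

end H58.J3B
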