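import Cfsg.Agent.Lib.H58.TrS2
import Cfsg.Agent.Lib.H58.J3J0S0
import Cfsg.Agent.Lib.H58.J3J0S1
import Cfsg.Agent.Lib.H58.J3J0S2
import Cfsg.Agent.Lib.H58.J3J0S3
import Cfsg.Agent.Lib.H58.J3J0S4
import Cfsg.Agent.Lib.H58.J3J0S5
import Cfsg.Agent.Lib.H58.J3J0S6
import Cfsg.Agent.Lib.H58.J3J0SE

/-! Coset enumeration certificate (generated with helper34's tools, helper58). -/

set_option autoImplicit false
set_option maxRecDepth 100000
set_option linter.unusedVariables false

noncomputable section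

namespace H58.J3J0

open H34.TC H58.TrS

theorem hslot : ∀ g, g < 7 → Rng (fun i e => ∃ J, chkSlot (tabF tabs) E D (wAF io WA g) subs 204789 g i e J = true) (tabF tabs g) 0 204800 := by
  intro g hg
  interval_cases g
  · exact r0
  · exact r1
  · exact r2
  · exact r3
  · exact r4
  · exact r5
  · exact r6

theorem cN2 : CN 204789 E 78489 := by
  have h := cn2 cN
  exact h

theorem upper {G : Type*} [Group G] (ℓ : Nat → G) (hι : ∀ g, ℓ (io g) = (ℓ g)⁻¹) (hbase : ∀ r ∈ base, (r.map ℓ).prod = 1)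
    (hgen : Subgroup.closure {x | ∃ g < 7, x = ℓ g} = ⊤) (H : Subgroup G) (hsub : ∀ w ∈ hw, wp ℓ w ∈ H) :
    H.FiniteIndex ∧ H.index ≤ 78489 := by
  refine H58.TrS.upper3 ℓ H 7 204789 204800 78489 tabs E D base io WA HA WE HE subs subE (by norm_num) (by norm_num) (by norm_num) rfl hι hbase hgen ?_ ?_ ?_ ?_ hslot rE cN2
  · intro s hs
    apply hsub
    have : ∀ s ∈ subs, s.1 ++ s.2.1 :: s.2.2 ∈ hw := by decide +kernel
    exact this s hs
  · intro s hs
    apply hsub
    have : ∀ s ∈ subE, s.1 ++ s.2 ∈ hw := by decide +kernel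
    exact this s hs
  · decide +kernel
  · decide +kernel

end H58.J3J0
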