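import Mathlib
import Cfsg.Agent.Lib.H58.J3H

/-! The group `A_5` acts faithfully, no hypothesis on classes (helper58). -/

set_option autoImplicit false
set_option linter.style.haveILetI false
set_option maxRecDepth 100000
set_option linter.unusedSectionVars false

namespace H58.J3M

open Subgroup Cfsg

theorem a5cen : ∀ x : alternatingGroup (Fin 5), (∀ y, x * y = y * x) → x = 1 := by decide +kernel

theorem sq4 : ∀ x : alternatingGroup (Fin 5), x ^ 4 = 1 → x * x = 1 := by decide +kernel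

theorem a5_ab {P : Subgroup (alternatingGroup (Fin 5))} (hP : IsPGroup 2 P) : ∀ x ∈ P, ∀ y ∈ P, x * y = y * x := by
  have h4 : ∀ x ∈ P, x * x = 1 := by
    intro x hx
    obtain ⟨k, hk⟩ := hP ⟨x, hx⟩
    have hk' : x ^ (2 ^ k) = 1 := congrArg Subtype.val hk
    have h1 : orderOf x ∣ 2 ^ k := orderOf_dvd_of_pow_eq_one hk'
    have h2 : orderOf x ∣ 4 * 15 := by
      have := orderOf_dvd_natCard x
      rwa [H58.J2O.card_A5] at this
    have h3 : Nat.Coprime (orderOf x) 15 := Nat.Coprime.coprime_dvd_left h1 (Nat.Coprime.pow_left k (by norm_num))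
    have h4 : orderOf x ∣ 4 := h3.dvd_of_dvd_mul_right h2
    exact sq4 x (orderOf_dvd_iff_pow_eq_one.1 h4)
  intro x hx y hy
  have h1 := h4 x hx
  have h2 := h4 y hy
  have h3 := h4 _ (mul_mem hx hy)
  calc x * y = x * (x * y * (x * y)) * y := by rw [h3, mul_one]
    _ = (x * x) * y * x * (y * y) := by group
    _ = y * x := by rw [h1, h2]; group

theorem half {C : Type*} [Group C] [Finite C] {Q : Subgroup C} {T : C} (hTT : T * T = 1)
    (hTC : ∀ x ∈ Q, x * T = T * x) (hcom : ∀ x ∈ Q, ∀ y ∈ Q, x * y = y * x ∨ x * y = T * (y * x))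
    (A : Subgroup C) (hA : A ≤ Q) {a : C} (ha : a ∈ Q) :
    Nat.card A ≤ 2 * Nat.card (A ⊓ Subgroup.centralizer ({a} : Set C) : Subgroup C) := by
  classical
  by_cases hall : ∀ x ∈ A, x * a = a * x
  · have : A ⊓ Subgroup.centralizer ({a} : Set C) = A := by
      apply inf_eq_left.2
      intro x hx
      exact Subgroup.mem_centralizer_singleton_iff.2 (hall x hx)
    rw [this]; omega
  · push Not at hall
    obtain ⟨x0, hx0, hx0a⟩ := hall
    have key : ∀ x ∈ A, x * a ≠ a * x → x * x0⁻¹ * a = a * (x * x0⁻¹) := by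
      intro x hx hxa
      have h1 : x * a = T * (a * x) := by
        rcases hcom x (hA hx) a ha with h | h
        · exact absurd h hxa
        · exact h
      have h2 : x0 * a = T * (a * x0) := by
        rcases hcom x0 (hA hx0) a ha with h | h
        · exact absurd h hx0a
        · exact h
      have h3 : a * x0⁻¹ = x0⁻¹ * T * a := by
        calc a * x0⁻¹ = x0⁻¹ * (x0 * a) * x0⁻¹ := by group
          _ = x0⁻¹ * T * a := by rw [h2]; group
      have h4 : x0⁻¹ * T = T * x0⁻¹ := hTC _ (inv_mem (hA hx0))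
      have h5 : x0⁻¹ * a = T * (a * x0⁻¹) := by
        rw [h3, h4, ← mul_assoc, ← mul_assoc, hTT, one_mul]
      calc x * x0⁻¹ * a = x * (x0⁻¹ * a) := by group
        _ = (x * T) * a * x0⁻¹ := by rw [h5]; group
        _ = T * (x * a) * x0⁻¹ := by rw [hTC x (hA hx)]; group
        _ = (T * T) * a * x * x0⁻¹ := by rw [h1]; group
        _ = a * (x * x0⁻¹) := by rw [hTT]; group
    let φ : A → (A ⊓ Subgroup.centralizer ({a} : Set C) : Subgroup C) × Bool := fun x =>
      if h : (x : C) * a = a * x then (⟨x, x.2, Subgroup.mem_centralizer_singleton_iff.2 h⟩, true)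
      else (⟨x * x0⁻¹, A.mul_mem x.2 (A.inv_mem hx0), Subgroup.mem_centralizer_singleton_iff.2 (key x x.2 h)⟩, false)
    have hφ : Function.Injective φ := by
      intro x y hxy
      simp only [φ] at hxy
      split_ifs at hxy with h1 h2 h2
      · have := congrArg (fun p => ((p.1 : (A ⊓ Subgroup.centralizer ({a} : Set C) : Subgroup C)) : C)) hxy
        exact Subtype.ext this
      · exact absurd (congrArg Prod.snd hxy) (by simp)
      · exact absurd (congrArg Prod.snd hxy) (by simp)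
      · have := congrArg (fun p => ((p.1 : (A ⊓ Subgroup.centralizer ({a} : Set C) : Subgroup C)) : C)) hxy
        exact Subtype.ext (mul_right_cancel this)
    have h1 := Nat.card_le_card_of_injective φ hφ
    rw [Nat.card_prod] at h1
    have h2 : Nat.card Bool = 2 := by simp
    rw [h2] at h1
    omega

theorem pair {C : Type*} [Group C] [Finite C] {Q : Subgroup C} {T : C} (hTT : T * T = 1)
    (hTC : ∀ x ∈ Q, x * T = T * x) (hcom : ∀ x ∈ Q, ∀ y ∈ Q, x * y = y * x ∨ x * y = T * (y * x))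
    (hcen : ∀ x ∈ Q, (∀ q ∈ Q, q * x = x * q) → x = 1 ∨ x = T) (hcard : Nat.card Q = 32) {q : C} (hq : q ∈ Q) :
    ∃ x ∈ Q, ∃ y ∈ Q, x * q = q * x ∧ y * q = q * y ∧ x * y ≠ y * x := by
  classical
  by_contra hcon
  have hab : ∀ x ∈ Q, ∀ y ∈ Q, x * q = q * x → y * q = q * y → x * y = y * x := by
    intro x hx y hy h1 h2
    by_contra h3
    exact hcon ⟨x, hx, y, hy, h1, h2, h3⟩
  obtain ⟨x0, hx0, hx0a⟩ : ∃ x0 ∈ Q, (∀ y ∈ Q, y * q ≠ q * y → x0 * q ≠ q * x0) := by
    by_cases hall : ∀ x ∈ Q, x * q = q * x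
    · exact ⟨1, one_mem _, fun y hy h => absurd (hall y hy) h⟩
    · push Not at hall
      obtain ⟨x0, hx0, hx0a⟩ := hall
      exact ⟨x0, hx0, fun _ _ _ => hx0a⟩
  have h1 := half hTT hTC hcom Q le_rfl hq
  have h2 := half hTT hTC hcom (Q ⊓ Subgroup.centralizer ({q} : Set C)) inf_le_left hx0
  set B : Subgroup C := Q ⊓ Subgroup.centralizer ({q} : Set C) ⊓ Subgroup.centralizer ({x0} : Set C) with hB
  have hB2 : (B : Set C) ⊆ {1, T} := by
    rintro b ⟨⟨hb1, hb2⟩, hb3⟩
    have hb2' : b * q = q * b := Subgroup.mem_centralizer_singleton_iff.1 hb2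
    have hb3' : b * x0 = x0 * b := Subgroup.mem_centralizer_singleton_iff.1 hb3
    have := hcen b hb1 (fun y hy => by
      by_cases hyq : y * q = q * y
      · exact hab y hy b hb1 hyq hb2'
      · have hx0q := hx0a y hy hyq
        have h3 : y * q = T * (q * y) := by
          rcases hcom y hy q hq with h | h
          · exact absurd h hyq
          · exact h
        have h4 : x0 * q = T * (q * x0) := by
          rcases hcom x0 hx0 q hq with h | h
          · exact absurd h hx0q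
          · exact h
        have h5 : (y * x0) * q = q * (y * x0) := by
          calc y * x0 * q = y * (x0 * q) := by group
            _ = (y * T) * q * x0 := by rw [h4]; group
            _ = T * (y * q) * x0 := by rw [hTC y hy]; group
            _ = (T * T) * q * y * x0 := by rw [h3]; group
            _ = q * (y * x0) := by rw [hTT]; group
        have h6 := hab (y * x0) (mul_mem hy hx0) b hb1 h5 hb2'
        have h7 : y * b * x0 = b * y * x0 := by
          calc y * b * x0 = y * (b * x0) := by group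
            _ = (y * x0) * b := by rw [hb3']; group
            _ = b * y * x0 := by rw [h6]; group
        exact mul_right_cancel h7)
    simpa using this
  have h3 : Nat.card B ≤ 2 := by
    have h4 := Set.ncard_le_ncard hB2 (Set.toFinite _)
    have h5 : ({1, T} : Set C).ncard ≤ 2 := by
      have := Set.ncard_insert_le (1 : C) {T}
      rw [Set.ncard_singleton] at this
      omega
    have h6 : (B : Set C).ncard = Nat.card B := rfl
    omega
  omega

theorem faithful2 {G : Type*} [Group G] [Finite G] [IsSimpleGroup G] {t : G} (ht : orderOf t = 2)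
    (Q : Subgroup (Subgroup.centralizer ({t} : Set G))) [hN : Q.Normal] (hQ : IsExtraspecial 2 Q) (hcard : Nat.card Q = 32)
    (e : (Subgroup.centralizer ({t} : Set G)) ⧸ Q ≃* alternatingGroup (Fin 5)) :
    Subgroup.centralizer (Q : Set (Subgroup.centralizer ({t} : Set G))) ≤ Q := by
  classical
  have hp : Fact (Nat.Prime 2) := ⟨Nat.prime_two⟩
  by_contra hK
  obtain ⟨htt, ht1⟩ := H58.J2O.invol_ord ht
  have mC : ∀ g, g ∈ Subgroup.centralizer ({t} : Set G) ↔ g * t = t * g := fun g => Subgroup.mem_centralizer_singleton_iff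
  -- the projection
  obtain ⟨f, hfs, hfk⟩ : ∃ f : Subgroup.centralizer ({t} : Set G) →* alternatingGroup (Fin 5), Function.Surjective f ∧ ∀ x, f x = 1 ↔ x ∈ Q := by
    refine ⟨e.toMonoidHom.comp (QuotientGroup.mk' Q), e.surjective.comp (QuotientGroup.mk'_surjective Q), ?_⟩
    intro x
    change e (QuotientGroup.mk x) = 1 ↔ _
    rw [EmbeddingLike.map_eq_one_iff, QuotientGroup.eq_one_iff]
  set T : Subgroup.centralizer ({t} : Set G) := ⟨t, (mC t).2 rfl⟩ with hT
  have TC : ∀ x : Subgroup.centralizer ({t} : Set G), x * T = T * x := fun x => Subtype.ext ((mC _).1 x.2)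
  have TT : T * T = 1 := Subtype.ext htt
  have T1 : T ≠ 1 := fun hh => ht1 (congrArg Subtype.val hh)
  have hTQ : T ∈ Q := by
    rw [← hfk]
    apply a5cen
    intro y
    obtain ⟨x, rfl⟩ := hfs y
    rw [← map_mul, ← map_mul, TC]
  obtain ⟨z0, hz0, hz01, hz02, _, _, hzq, hcen, hcom, hsq⟩ := H91.LargeExtra.exists_z hQ
  have hz : T = z0 := by
    rcases hcen T hTQ (fun q _ => TC q) with h | h
    · exact absurd h T1
    · exact h
  subst hz
  have hcom' : ∀ x ∈ Q, ∀ y ∈ Q, x * y = y * x ∨ x * y = T * (y * x) := by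
    intro x hx y hy
    rcases hcom x hx y hy with h | h
    · left
      rw [mul_inv_eq_one, mul_inv_eq_iff_eq_mul] at h
      exact h
    · right
      rw [mul_inv_eq_iff_eq_mul, mul_inv_eq_iff_eq_mul] at h
      rw [h, mul_assoc]
  set K := Subgroup.centralizer (Q : Set (Subgroup.centralizer ({t} : Set G))) with hKdef
  have mK : ∀ x, x ∈ K ↔ ∀ q ∈ Q, q * x = x * q := fun x => Subgroup.mem_centralizer_iff
  have hKn : K.Normal := by
    refine ⟨fun n hn g => ?_⟩
    rw [mK] at hn ⊢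
    intro q hq
    have h1 := hn (g⁻¹ * q * g) (by have := hN.conj_mem q hq g⁻¹; rwa [inv_inv] at this)
    calc q * (g * n * g⁻¹) = g * ((g⁻¹ * q * g) * n) * g⁻¹ := by group
      _ = _ := by rw [h1]; group
  have hTK : T ∈ K := by rw [mK]; exact fun q _ => TC q
  have hKQ : ∀ x, x ∈ K → x ∈ Q → x = 1 ∨ x = T := by
    intro x hx hxQ
    exact hcen x hxQ (fun q hq => (mK x).1 hx q hq)
  have simp5 : IsSimpleGroup (alternatingGroup (Fin 5)) := alternatingGroup.isSimpleGroup_five
  have hmapK : K.map f = ⊤ := by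
    rcases (hKn.map f hfs).eq_bot_or_eq_top with h | h
    · exfalso
      apply hK
      intro x hx
      rw [← hfk]
      have : f x ∈ K.map f := ⟨x, hx, rfl⟩
      rw [h] at this
      exact this
    · exact h
  have hKs : ∀ x, ∃ k ∈ K, ∃ q ∈ Q, x = k * q := by
    intro x
    have : f x ∈ K.map f := by rw [hmapK]; exact mem_top _
    obtain ⟨k, hk, hkx⟩ := this
    refine ⟨k, hk, k⁻¹ * x, ?_, by group⟩
    rw [← hfk, map_mul, map_inv, hkx, inv_mul_cancel]
  -- commutators lie in `K`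
  have hcomK : ∀ x y : Subgroup.centralizer ({t} : Set G), x * y * x⁻¹ * y⁻¹ ∈ K := by
    intro x y
    obtain ⟨k, hk, q, hq, rfl⟩ := hKs x
    obtain ⟨k', hk', q', hq', rfl⟩ := hKs y
    have h1 : q * k' = k' * q := (mK k').1 hk' q hq
    have h2 : (q * q' * q⁻¹) * k⁻¹ = k⁻¹ * (q * q' * q⁻¹) := (mK k⁻¹).1 (inv_mem hk) _ (mul_mem (mul_mem hq hq') (inv_mem hq))
    have h3 : (q * q' * q⁻¹ * q'⁻¹) * k'⁻¹ = k'⁻¹ * (q * q' * q⁻¹ * q'⁻¹) :=
      (mK k'⁻¹).1 (inv_mem hk') _ (mul_mem (mul_mem (mul_mem hq hq') (inv_mem hq)) (inv_mem hq'))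
    have h4 : k * q * (k' * q') * (k * q)⁻¹ * (k' * q')⁻¹ = k * k' * k⁻¹ * k'⁻¹ * (q * q' * q⁻¹ * q'⁻¹) := by
      calc k * q * (k' * q') * (k * q)⁻¹ * (k' * q')⁻¹ = k * (q * k') * q' * q⁻¹ * k⁻¹ * q'⁻¹ * k'⁻¹ := by group
        _ = k * k' * ((q * q' * q⁻¹) * k⁻¹) * q'⁻¹ * k'⁻¹ := by rw [h1]; group
        _ = k * k' * k⁻¹ * ((q * q' * q⁻¹ * q'⁻¹) * k'⁻¹) := by rw [h2]; group
        _ = _ := by rw [h3]; group
    rw [h4]
    have h5 : q * q' * q⁻¹ * q'⁻¹ ∈ K := by
      rcases hcom q hq q' hq' with h | h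
      · rw [h]; exact one_mem _
      · rw [h]; exact hTK
    exact mul_mem (mul_mem (mul_mem (mul_mem hk hk') (inv_mem hk)) (inv_mem hk')) h5
  -- 2-subgroups of `C`
  have h2s : ∀ P : Subgroup (Subgroup.centralizer ({t} : Set G)), IsPGroup 2 P → ∀ x ∈ P, ∀ y ∈ P,
      x * y * x⁻¹ * y⁻¹ = 1 ∨ x * y * x⁻¹ * y⁻¹ = T := by
    intro P hP x hx y hy
    apply hKQ _ (hcomK x y)
    have h1 := a5_ab (hP.map f) (f x) ⟨x, hx, rfl⟩ (f y) ⟨y, hy, rfl⟩
    rw [← hfk, map_mul, map_mul, map_mul, map_inv, map_inv, h1]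
    group
  have hc : ∃ g : G, g * t ≠ t * g := by
    by_contra hno
    push Not at hno
    have hn : (Subgroup.zpowers t).Normal := by
      refine ⟨fun x hx g => ?_⟩
      have : g * x * g⁻¹ = x := by
        obtain ⟨k, rfl⟩ := Subgroup.mem_zpowers_iff.1 hx
        have hcm : Commute g (t ^ k) := (show Commute g t from hno g).zpow_right k
        rw [hcm.eq]; group
      rw [this]; exact hx
    rcases hn.eq_bot_or_eq_top with h | h
    · rw [Subgroup.zpowers_eq_bot] at h
      rw [h, orderOf_one] at ht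
      norm_num at ht
    · have h1 : Nat.card G = 2 := by
        rw [← Nat.card_congr (Subgroup.topEquiv (G := G)).toEquiv, ← h, Nat.card_zpowers, ht]
      have h3 : Nat.card Q ≤ Nat.card G := by
        refine Nat.card_le_card_of_injective (fun q : Q => (q : G)) ?_
        intro a b hab
        exact Subtype.ext (Subtype.ext hab)
      omega
  obtain ⟨g, hg1, hg2⟩ := H58.J2P.exists_comm_conj ht hc
  obtain ⟨k, hk, q, hq, hs⟩ := hKs ⟨g * t * g⁻¹, (mC _).2 hg1⟩
  obtain ⟨x, hx, y, hy, hxq, hyq, hxy⟩ := pair TT (fun x _ => TC x) hcom' hcen hcard hq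
  have hcs : ∀ a ∈ Q, a * q = q * a → (a : G) * (g * t * g⁻¹) = (g * t * g⁻¹) * (a : G) := by
    intro a ha haq
    have h1 : a * (k * q) = (k * q) * a := by
      calc a * (k * q) = (a * k) * q := by group
        _ = k * (a * q) := by rw [(mK k).1 hk a ha]; group
        _ = k * q * a := by rw [haq]; group
    rw [← hs] at h1
    exact congrArg Subtype.val h1
  have hin : ∀ a ∈ Q, a * q = q * a → g⁻¹ * (a : G) * g ∈ Subgroup.centralizer ({t} : Set G) := by
    intro a ha haq
    rw [mC]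
    calc g⁻¹ * (a : G) * g * t = g⁻¹ * ((a : G) * (g * t * g⁻¹)) * g := by group
      _ = g⁻¹ * ((g * t * g⁻¹) * (a : G)) * g := by rw [hcs a ha haq]
      _ = t * (g⁻¹ * (a : G) * g) := by group
  have hQ2 : IsPGroup 2 Q := IsPGroup.of_card (n := 5) (by rw [hcard]; norm_num)
  have hP2 := ((hQ2.map (Subgroup.centralizer ({t} : Set G)).subtype).map (MulAut.conj g⁻¹).toMonoidHom).comap_of_injective
    (Subgroup.centralizer ({t} : Set G)).subtype (Subgroup.subtype_injective _)
  have hmem : ∀ a (ha : a ∈ Q) (haq : a * q = q * a), (⟨g⁻¹ * (a : G) * g, hin a ha haq⟩ : Subgroup.centralizer ({t} : Set G)) ∈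
      ((Q.map (Subgroup.centralizer ({t} : Set G)).subtype).map (MulAut.conj g⁻¹).toMonoidHom).comap (Subgroup.centralizer ({t} : Set G)).subtype := by
    intro a ha haq
    refine ⟨(a : G), ⟨a, ha, rfl⟩, ?_⟩
    change g⁻¹ * (a : G) * (g⁻¹)⁻¹ = g⁻¹ * (a : G) * g
    rw [inv_inv]
  have hfin := h2s _ hP2 _ (hmem x hx hxq) _ (hmem y hy hyq)
  have hxyT : x * y * x⁻¹ * y⁻¹ = T := by
    rcases hcom x hx y hy with h | h
    · rw [mul_inv_eq_one, mul_inv_eq_iff_eq_mul] at h
      exact absurd h hxy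
    · exact h
  have hxyt : (x : G) * (y : G) * (x : G)⁻¹ * (y : G)⁻¹ = t := congrArg Subtype.val hxyT
  have hcalc : g⁻¹ * (x : G) * g * (g⁻¹ * (y : G) * g) * (g⁻¹ * (x : G) * g)⁻¹ * (g⁻¹ * (y : G) * g)⁻¹ = g⁻¹ * t * g := by
    calc _ = g⁻¹ * ((x : G) * (y : G) * (x : G)⁻¹ * (y : G)⁻¹) * g := by group
      _ = _ := by rw [hxyt]
  rcases hfin with h | h
  · have h1 : g⁻¹ * (x : G) * g * (g⁻¹ * (y : G) * g) * (g⁻¹ * (x : G) * g)⁻¹ * (g⁻¹ * (y : G) * g)⁻¹ = 1 := congrArg Subtype.val h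
    rw [hcalc] at h1
    apply ht1
    calc t = g * (g⁻¹ * t * g) * g⁻¹ := by group
      _ = 1 := by rw [h1]; group
  · have h1 : g⁻¹ * (x : G) * g * (g⁻¹ * (y : G) * g) * (g⁻¹ * (x : G) * g)⁻¹ * (g⁻¹ * (y : G) * g)⁻¹ = t := congrArg Subtype.val h
    rw [hcalc] at h1
    apply hg2
    calc g * t * g⁻¹ = g * (g⁻¹ * t * g) * g⁻¹ := by rw [h1]
      _ = t := by group

end H58.J3M
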