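import Mathlib
import Cfsg.Agent.Lib.H58.J3G
import Cfsg.Agent.Lib.H58.J1C
import Cfsg.Agent.Lib.H58.Rel

/-! Counting elements of a group of type `J_3` (helper58). -/

set_option autoImplicit false
set_option linter.style.haveILetI false
set_option maxRecDepth 100000
set_option linter.unusedSectionVars false

namespace H58.J3Q

open H58.J2A H58.J3B Subgroup

def p15 (w : W) : W := w * w * w * (w * w * w) * (w * w * w * (w * w * w)) * (w * w * w)

theorem p15_eq (w : W) : p15 w = w ^ 15 := by
  unfold p15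
  simp only [pow_succ, pow_zero, one_mul, mul_assoc]

theorem W885 : (Finset.univ.filter fun w : W => p15 w = wk 16 ∨ p15 w * p15 w = wk 16 ∨ p15 w * p15 w * (p15 w * p15 w) = wk 16).card = 885 := by
  have h1 : cntW (fun w => decide (p15 w = wk 16 ∨ p15 w * p15 w = wk 16 ∨ p15 w * p15 w * (p15 w * p15 w) = wk 16)) = 885 := by decide +kernel
  rw [cntW_eq] at h1
  have h2 : (Finset.univ.filter fun w : W => p15 w = wk 16 ∨ p15 w * p15 w = wk 16 ∨ p15 w * p15 w * (p15 w * p15 w) = wk 16) =
      Finset.univ.filter (fun w : W => decide (p15 w = wk 16 ∨ p15 w * p15 w = wk 16 ∨ p15 w * p15 w * (p15 w * p15 w) = wk 16) = true) := by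
    apply Finset.filter_congr
    intro w _
    exact (decide_eq_true_iff).symm
  rw [h2]
  exact h1

theorem f5' : wk 512 * wk 512 * wk 512 * wk 512 * wk 512 = 1 := by decide +kernel
theorem f5 : (wk 512) ^ 5 = 1 := by
  rw [pow_succ, pow_succ, pow_succ, pow_two]; exact f5'
theorem fne : wk 512 ≠ 1 := by decide +kernel
theorem fc : ∀ w : W, w * wk 512 = wk 512 * w → sqW (sqW (sqW (sqW (sqW (sqW (sqW w)))))) = 1 → w = 1 ∨ w = wk 16 := by decide +kernel
theorem fn2 : ∀ w : W, w * wk 512 ≠ wk 512 * wk 512 * w := by decide +kernel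
theorem fn3 : ∀ w : W, w * wk 512 ≠ wk 512 * wk 512 * wk 512 * w := by decide +kernel
theorem fz : wk 16 * wk 512 = wk 512 * wk 16 := by decide +kernel

/-- counting conjugates of a set -/
theorem conj_count {G : Type*} [Group G] [Finite G] (N : Subgroup G) (Y0 Z : Set G)
    (h : ∀ y ∈ Y0, ∀ g : G, g * y * g⁻¹ ∈ Y0 → g ∈ N) (hZ : ∀ y ∈ Y0, ∀ g : G, g * y * g⁻¹ ∈ Z) :
    Nat.card G * Y0.ncard ≤ Nat.card N * Z.ncard := by
  classical
  -- injection  G × Y0 → N × Z, after choosing for each element of `Z` a representative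
  have hinj : ∃ F : G × Y0 → N × Z, Function.Injective F := by
    choose! γ hγ using (fun (z : Z) (hz : ∃ g : G, g⁻¹ * (z : G) * g ∈ Y0) => hz)
    have hmem : ∀ p : G × Y0, ∃ g : G, g⁻¹ * (p.1 * (p.2 : G) * p.1⁻¹) * g ∈ Y0 := fun p => ⟨p.1, by
      have : p.1⁻¹ * (p.1 * (p.2 : G) * p.1⁻¹) * p.1 = p.2 := by group
      rw [this]; exact p.2.2⟩
    let zz : G × Y0 → Z := fun p => ⟨p.1 * (p.2 : G) * p.1⁻¹, hZ _ p.2.2 _⟩
    refine ⟨fun p => (⟨(γ (zz p))⁻¹ * p.1, h _ p.2.2 _ ?_⟩, zz p), ?_⟩
    · have h1 := hγ (zz p) (hmem p)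
      have h2 : (γ (zz p))⁻¹ * p.1 * (p.2 : G) * ((γ (zz p))⁻¹ * p.1)⁻¹ = (γ (zz p))⁻¹ * ((zz p : Z) : G) * γ (zz p) := by
        change (γ (zz p))⁻¹ * p.1 * (p.2 : G) * ((γ (zz p))⁻¹ * p.1)⁻¹ = (γ (zz p))⁻¹ * (p.1 * (p.2 : G) * p.1⁻¹) * γ (zz p)
        group
      rw [h2]; exact h1
    · intro p q hpq
      have h1 : zz p = zz q := congrArg Prod.snd hpq
      have h2 : (γ (zz p))⁻¹ * p.1 = (γ (zz q))⁻¹ * q.1 := congrArg (fun x => ((x.1 : N) : G)) hpq
      rw [h1] at h2
      have h3 : p.1 = q.1 := mul_left_cancel h2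
      have h4 : p.1 * (p.2 : G) * p.1⁻¹ = q.1 * (q.2 : G) * q.1⁻¹ := congrArg Subtype.val h1
      rw [h3] at h4
      have h5 : (p.2 : G) = q.2 := mul_left_cancel (mul_right_cancel h4)
      exact Prod.ext h3 (Subtype.ext h5)
  obtain ⟨F, hF⟩ := hinj
  have h1 := Nat.card_le_card_of_injective F hF
  rwa [Nat.card_prod, Nat.card_prod, Nat.card_coe_set_eq, Nat.card_coe_set_eq] at h1

/-- elements of order divisible by `p` in a subgroup with a central subgroup of order `p` -/
theorem count_p {G : Type*} [Group G] [Finite G] {p : ℕ} (hp : p.Prime) {u : G} (hu : orderOf u = p) (O : Subgroup G)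
    (huO : u ∈ O) (hO : ∀ y ∈ O, y * u = u * y) :
    (p - 1) * Nat.card O ≤ p * ({y | y ∈ O ∧ p ∣ orderOf y} : Set G).ncard := by
  classical
  have h1 : p * ({y | y ∈ O ∧ ¬ p ∣ orderOf y} : Set G).ncard ≤ Nat.card O := by
    let F : Fin p × {y | y ∈ O ∧ ¬ p ∣ orderOf y} → O := fun q => ⟨u ^ (q.1 : ℕ) * (q.2 : G), mul_mem (pow_mem huO _) q.2.2.1⟩
    have hF : Function.Injective F := by
      rintro ⟨i, k, hk, hkp⟩ ⟨j, l, hl, hlp⟩ hij
      have e1 : u ^ (i : ℕ) * k = u ^ (j : ℕ) * l := congrArg Subtype.val hij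
      have ck : Commute k u := hO k hk
      have cl : Commute l u := hO l hl
      have h2 : u ^ ((i : ℕ) * (orderOf k * orderOf l)) = u ^ ((j : ℕ) * (orderOf k * orderOf l)) := by
        have e2 := congrArg (fun x => x ^ (orderOf k * orderOf l)) e1
        beta_reduce at e2
        rw [(ck.symm.pow_left _).mul_pow, (cl.symm.pow_left _).mul_pow, ← pow_mul, ← pow_mul] at e2
        have e3 : k ^ (orderOf k * orderOf l) = 1 := by rw [pow_mul, pow_orderOf_eq_one, one_pow]
        have e4 : l ^ (orderOf k * orderOf l) = 1 := by rw [mul_comm, pow_mul, pow_orderOf_eq_one, one_pow]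
        rwa [e3, e4, mul_one, mul_one] at e2
      have h3 := pow_eq_pow_iff_modEq.1 h2
      rw [hu] at h3
      have h4 : Nat.Coprime p (orderOf k * orderOf l) := by
        apply Nat.Coprime.mul_right
        · exact (Nat.Prime.coprime_iff_not_dvd hp).2 hkp
        · exact (Nat.Prime.coprime_iff_not_dvd hp).2 hlp
      have h5 := Nat.ModEq.cancel_right_of_coprime h4 h3
      have h6 : (i : ℕ) = j := Nat.ModEq.eq_of_lt_of_lt h5 i.2 j.2
      have h7 : i = j := Fin.ext h6
      subst h7
      have h8 : k = l := mul_left_cancel e1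
      subst h8
      rfl
    have h2 := Nat.card_le_card_of_injective F hF
    rwa [Nat.card_prod, Nat.card_fin, Nat.card_coe_set_eq] at h2
  have h2 : ({y | y ∈ O ∧ p ∣ orderOf y} : Set G).ncard + ({y | y ∈ O ∧ ¬ p ∣ orderOf y} : Set G).ncard = Nat.card O := by
    rw [← Set.ncard_union_eq]
    · have : ({y | y ∈ O ∧ p ∣ orderOf y} : Set G) ∪ {y | y ∈ O ∧ ¬ p ∣ orderOf y} = (O : Set G) := by
        ext y
        simp only [Set.mem_union, Set.mem_ofPred_eq, SetLike.mem_coe]
        tauto
      rw [this, ← Nat.card_coe_set_eq]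
      rfl
    · rw [Set.disjoint_left]
      rintro y ⟨_, h3⟩ ⟨_, h4⟩
      exact h4 h3
  obtain ⟨q, rfl⟩ : ∃ q, p = q + 1 := ⟨p - 1, by have := hp.pos; omega⟩
  simp only [Nat.add_sub_cancel]
  nlinarith [h1, h2]

/-- in a group whose order is not divisible by `p²`, commuting elements of order `p` generate the same subgroup -/
theorem mem_of_comm {G : Type*} [Group G] [Finite G] {p : ℕ} (hp : p.Prime) (hG : ¬ p ^ 2 ∣ Nat.card G) {u v : G} (hu : orderOf u = p)
    (hv : orderOf v = p) (huv : v * u = u * v) : v ∈ zpowers u := by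
  haveI : Fact p.Prime := ⟨hp⟩
  by_contra hcon
  apply hG
  have h1 : IsPGroup p (zpowers u) := IsPGroup.of_card (n := 1) (by rw [Nat.card_zpowers, hu, pow_one])
  have h2 : IsPGroup p (zpowers v) := IsPGroup.of_card (n := 1) (by rw [Nat.card_zpowers, hv, pow_one])
  have h3 : zpowers v ≤ normalizer ((zpowers u : Subgroup G) : Set G) := by
    rw [zpowers_le, H58.Rel.mem_normalizer_iff_conj]
    apply Subgroup.eq_of_le_of_card_ge
    · rintro _ ⟨x, hx, rfl⟩
      obtain ⟨i, rfl⟩ := mem_zpowers_iff.1 hx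
      have : Commute v (u ^ i) := (show Commute v u from huv).zpow_right i
      change v * u ^ i * v⁻¹ ∈ zpowers u
      rw [this.eq, mul_inv_cancel_right]
      exact zpow_mem (mem_zpowers u) i
    · rw [H58.Rel.card_map_conj]
  have h4 : IsPGroup p (zpowers v ⊔ zpowers u : Subgroup G) := h2.to_sup_of_normal_right' h1 h3
  obtain ⟨k, hk⟩ := (IsPGroup.iff_card).1 h4
  have h5 : p ∣ p ^ k := by
    rw [← hk, ← hu, ← Nat.card_zpowers]
    exact card_dvd_of_le le_sup_right
  have h6 : 2 ≤ k := by
    by_contra h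
    have h7 : k = 0 ∨ k = 1 := by omega
    rcases h7 with h7 | h7
    · rw [h7, pow_zero] at h5
      exact hp.one_lt.ne' (Nat.dvd_one.1 h5)
    · rw [h7, pow_one] at hk
      have h8 : zpowers u = zpowers v ⊔ zpowers u := by
        apply Subgroup.eq_of_le_of_card_ge le_sup_right
        rw [hk, Nat.card_zpowers, hu]
      apply hcon
      rw [h8]
      exact (le_sup_left : zpowers v ≤ _) (mem_zpowers v)
  exact (pow_dvd_pow p h6).trans (by rw [← hk]; exact card_subgroup_dvd_card _)

/-- counting the odd-order elements of order divisible by `p` -/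
theorem count_Yp {G : Type*} [Group G] [Finite G] {p : ℕ} (hp : p.Prime) (hG : ¬ p ^ 2 ∣ Nat.card G) {u : G} (hu : orderOf u = p)
    (O : Subgroup G) (huO : u ∈ O) (hO : ∀ y ∈ O, y * u = u * y) (hodd : Odd (Nat.card O)) :
    (p - 1) * Nat.card O * Nat.card G ≤
      p * Nat.card (normalizer ((zpowers u : Subgroup G) : Set G)) * ({g | Odd (orderOf g) ∧ p ∣ orderOf g} : Set G).ncard := by
  have h1 := count_p hp hu O huO hO
  have h2 := conj_count (normalizer ((zpowers u : Subgroup G) : Set G)) {y | y ∈ O ∧ p ∣ orderOf y}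
    {g | Odd (orderOf g) ∧ p ∣ orderOf g} (by
      rintro y ⟨hy, hpy⟩ g ⟨hgy, _⟩
      obtain ⟨m, hm⟩ := hpy
      have hm0 : m ≠ 0 := by
        rintro rfl
        rw [mul_zero] at hm
        exact (orderOf_pos y).ne' hm
      have hv : orderOf (y ^ m) = p := by
        rw [orderOf_pow, hm, Nat.gcd_eq_right (dvd_mul_left m p), Nat.mul_div_cancel _ (Nat.pos_of_ne_zero hm0)]
      have hvc : y ^ m * u = u * y ^ m := ((show Commute y u from hO y hy).pow_left m).eq
      have hvu := mem_of_comm hp hG hu hv hvc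
      have hgv : orderOf (g * y ^ m * g⁻¹) = p := by
        rw [← hv]
        exact (orderOf_injective (MulAut.conj g).toMonoidHom (MulAut.conj g).injective (y ^ m))
      have hgm : g * y ^ m * g⁻¹ = (g * y * g⁻¹) ^ m := by rw [conj_pow]
      have hgvc : g * y ^ m * g⁻¹ * u = u * (g * y ^ m * g⁻¹) := by
        rw [hgm]
        exact ((show Commute (g * y * g⁻¹) u from hO _ hgy).pow_left m).eq
      have hgvu := mem_of_comm hp hG hu hgv hgvc
      have hz1 : zpowers (y ^ m) = zpowers u := by
        apply Subgroup.eq_of_le_of_card_ge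
        · rw [zpowers_le]; exact hvu
        · rw [Nat.card_zpowers, Nat.card_zpowers, hu, hv]
      rw [H58.Rel.mem_normalizer_iff_conj]
      apply Subgroup.eq_of_le_of_card_ge
      · rintro _ ⟨x, hx, rfl⟩
        change x ∈ zpowers u at hx
        rw [← hz1] at hx
        obtain ⟨i, rfl⟩ := mem_zpowers_iff.1 hx
        change g * (y ^ m) ^ i * g⁻¹ ∈ zpowers u
        rw [← conj_zpow]
        exact zpow_mem hgvu i
      · rw [H58.Rel.card_map_conj]) (by
      rintro y ⟨hy, hpy⟩ g
      have ho : orderOf (g * y * g⁻¹) = orderOf y := orderOf_injective (MulAut.conj g).toMonoidHom (MulAut.conj g).injective y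
      refine ⟨?_, by rw [ho]; exact hpy⟩
      rw [ho]
      exact Odd.of_dvd_nat hodd (Subgroup.orderOf_dvd_natCard O hy))
  calc (p - 1) * Nat.card O * Nat.card G ≤ (p * ({y | y ∈ O ∧ p ∣ orderOf y} : Set G).ncard) * Nat.card G := Nat.mul_le_mul_right _ h1
    _ = p * (Nat.card G * ({y | y ∈ O ∧ p ∣ orderOf y} : Set G).ncard) := by ring
    _ ≤ p * (Nat.card (normalizer ((zpowers u : Subgroup G) : Set G)) * ({g | Odd (orderOf g) ∧ p ∣ orderOf g} : Set G).ncard) :=
        Nat.mul_le_mul_left _ h2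
    _ = _ := by ring

variable {G : Type*} [Group G] {ι : W →* G} {z : G}

/-- even-order elements -/
theorem count_even [Finite G] (h : HT ι z) : 885 * Nat.card G ≤ 1920 * ({g | Even (orderOf g)} : Set G).ncard := by
  classical
  have hc : Nat.card (centralizer ({z} : Set G)) = 1920 := by
    rw [← card_cent h]
    exact Nat.card_congr (Equiv.subtypeEquivRight fun x => by rw [mem_centralizer_singleton_iff])
  have h1 := conj_count (centralizer ({z} : Set G)) {y | FP z (y ^ 15)} {g | Even (orderOf g)} (by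
    intro y hy g hgy
    have h2 : FP (g * z * g⁻¹) ((g * y * g⁻¹) ^ 15) := by
      rw [conj_pow]; exact FP.conj g hy
    have h3 : g * z * g⁻¹ * (g * z * g⁻¹) = 1 := by
      calc g * z * g⁻¹ * (g * z * g⁻¹) = g * (z * z) * g⁻¹ := by group
        _ = 1 := by rw [h.zz]; group
    have h4 : g * z * g⁻¹ ≠ 1 := by
      intro h5
      apply h.z1
      have : g * z * g⁻¹ = g * 1 * g⁻¹ := by rw [h5]; group
      exact mul_left_cancel (mul_right_cancel this)
    have h5 := FP.uniq h3 h4 h.zz h.z1 h2 hgy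
    rw [mem_centralizer_singleton_iff]
    exact mul_inv_eq_iff_eq_mul.1 h5) (by
    intro y hy g
    have ho : orderOf (g * y * g⁻¹) = orderOf y := orderOf_injective (MulAut.conj g).toMonoidHom (MulAut.conj g).injective y
    change Even (orderOf (g * y * g⁻¹))
    rw [ho, even_iff_two_dvd, ← h.oz]
    have hz : z ∈ zpowers y := by
      rcases hy with h2 | h2 | h2
      · rw [← h2]; exact pow_mem (mem_zpowers y) _
      · rw [← h2]; exact mul_mem (pow_mem (mem_zpowers y) _) (pow_mem (mem_zpowers y) _)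
      · rw [← h2]
        exact mul_mem (mul_mem (pow_mem (mem_zpowers y) _) (pow_mem (mem_zpowers y) _))
          (mul_mem (pow_mem (mem_zpowers y) _) (pow_mem (mem_zpowers y) _))
    rw [← Nat.card_zpowers y]
    exact Subgroup.orderOf_dvd_natCard _ hz)
  have h2 : ({y | FP z (y ^ 15)} : Set G).ncard = 885 := by
    rw [← Nat.card_coe_set_eq]
    have e : {w : W // p15 w = wk 16 ∨ p15 w * p15 w = wk 16 ∨ p15 w * p15 w * (p15 w * p15 w) = wk 16} ≃ {y : G // FP z (y ^ 15)} :=
      Equiv.ofBijective (fun w => ⟨ι w.1, by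
        rw [← map_pow, ← p15_eq]
        rcases w.2 with h1 | h1 | h1
        · left; rw [h1, h.z16]
        · right; left; rw [← map_mul, h1, h.z16]
        · right; right; rw [← map_mul, ← map_mul, h1, h.z16]⟩) (by
        constructor
        · intro a b hab
          exact Subtype.ext (h.inj (congrArg Subtype.val hab))
        · rintro ⟨x, hx⟩
          have hxz : x * z = z * x := by
            have hz : z ∈ zpowers x := by
              rcases hx with h2 | h2 | h2
              · rw [← h2]; exact pow_mem (mem_zpowers x) _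
              · rw [← h2]; exact mul_mem (pow_mem (mem_zpowers x) _) (pow_mem (mem_zpowers x) _)
              · rw [← h2]
                exact mul_mem (mul_mem (pow_mem (mem_zpowers x) _) (pow_mem (mem_zpowers x) _))
                  (mul_mem (pow_mem (mem_zpowers x) _) (pow_mem (mem_zpowers x) _))
            obtain ⟨i, hi⟩ := mem_zpowers_iff.1 hz
            rw [← hi]
            exact ((Commute.refl x).zpow_right i).eq
          obtain ⟨w, rfl⟩ := h.cz x hxz
          refine ⟨⟨w, ?_⟩, rfl⟩
          rw [p15_eq]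
          rcases hx with h1 | h1 | h1
          · left; exact h.inj (by rw [map_pow, h1, h.z16])
          · right; left; exact h.inj (by rw [map_mul, map_pow, h1, h.z16])
          · right; right; exact h.inj (by rw [map_mul, map_mul, map_pow, h1, h.z16]))
    have h3 : Nat.card {y : G // FP z (y ^ 15)} = 885 := by
      rw [← Nat.card_congr e, Nat.card_eq_fintype_card, Fintype.card_subtype, W885]
    exact h3
  rw [hc, h2] at h1
  linarith

end H58.J3Q
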