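import Mathlib
import Cfsg.Agent.Lib.H58.J3Q
import Cfsg.Agent.Lib.H58.WCc
import Cfsg.Agent.Lib.H15.J3Top

/-! Sylow 17- and 19-normalisers in groups of type `J_3` (helper58). -/

set_option autoImplicit false
set_option linter.style.haveILetI false
set_option linter.unusedSectionVars false

namespace H58.J3R

open H58.J2A H58.J3B H58.J3Q Subgroup

variable {G : Type*} [Group G] {ι : W →* G} {z : G} [Finite G]

theorem two_elt (h : HT ι z) {y : G} {k : ℕ} (hz : y * z = z * y) (hu : y * ι (wk 512) = ι (wk 512) * y) (hk : y ^ (2 ^ k) = 1) :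
    y = 1 ∨ y = z := by
  obtain ⟨w, rfl⟩ := h.cz y hz
  have h1 : w * wk 512 = wk 512 * w := h.inj (by rw [map_mul, map_mul]; exact hu)
  have h2 : orderOf w ∣ 2 ^ k := by
    rw [orderOf_dvd_iff_pow_eq_one]
    apply h.inj
    rw [map_pow, hk, map_one]
  have h3 : orderOf w ∣ 1920 := by
    rw [← card_W]; exact orderOf_dvd_natCard w
  have h4 : orderOf w ∣ 128 := by
    have h5 : Nat.Coprime (orderOf w) 15 := by
      apply Nat.Coprime.coprime_dvd_left h2
      apply Nat.Coprime.pow_left
      norm_num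
    apply h5.dvd_of_dvd_mul_right
    exact h3
  have h5 : w ^ 128 = 1 := orderOf_dvd_iff_pow_eq_one.1 h4
  have h6 : sqW (sqW (sqW (sqW (sqW (sqW (sqW w)))))) = 1 := by
    have e2 : sqW (sqW (sqW (sqW (sqW (sqW (sqW w)))))) = w ^ 128 := by
      unfold sqW
      rw [← pow_two w, ← pow_two (w ^ 2), ← pow_two ((w ^ 2) ^ 2), ← pow_two (((w ^ 2) ^ 2) ^ 2), ← pow_two ((((w ^ 2) ^ 2) ^ 2) ^ 2),
        ← pow_two (((((w ^ 2) ^ 2) ^ 2) ^ 2) ^ 2), ← pow_two ((((((w ^ 2) ^ 2) ^ 2) ^ 2) ^ 2) ^ 2)]
      simp only [← pow_mul]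
    rw [e2, h5]
  rcases fc w h1 h6 with h7 | h7
  · left; rw [h7, map_one]
  · right; rw [h7, h.z16]

theorem u5 (h : HT ι z) : orderOf (ι (wk 512)) = 5 := by
  haveI : Fact (Nat.Prime 5) := ⟨by norm_num⟩
  refine orderOf_eq_prime ?_ ?_
  · rw [← map_pow, f5, map_one]
  · intro h1
    exact fne (h.inj (by rw [h1, map_one]))

theorem zu (h : HT ι z) : z * ι (wk 512) = ι (wk 512) * z := by
  rw [← h.z16, ← map_mul, fz, map_mul]

/-- the odd-order subgroup of index two in the centraliser of an element of order five -/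
theorem cent5 (h : HT ι z) : ∃ O : Subgroup G, O ≤ centralizer ({ι (wk 512)} : Set G) ∧ ι (wk 512) ∈ O ∧ Odd (Nat.card O) ∧
    Nat.card (centralizer ({ι (wk 512)} : Set G)) = 2 * Nat.card O := by
  classical
  haveI : Fact (Nat.Prime 2) := ⟨Nat.prime_two⟩
  set u := ι (wk 512) with hu
  let C := centralizer ({u} : Set G)
  have hzC : z ∈ C := mem_centralizer_singleton_iff.2 (zu h)
  let z' : C := ⟨z, hzC⟩
  have hz' : orderOf z' = 2 := by rw [Subgroup.orderOf_mk]; exact h.oz
  have hp : IsPGroup 2 (zpowers z') := IsPGroup.of_card (n := 1) (by rw [Nat.card_zpowers, hz', pow_one])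
  obtain ⟨P, hP⟩ := hp.exists_le_sylow
  have hPz : (P : Subgroup C) = zpowers z' := by
    by_contra hne
    have h1 : (zpowers z').subgroupOf (P : Subgroup C) < ⊤ := by
      rw [lt_top_iff_ne_top]
      intro h2
      exact hne (le_antisymm (subgroupOf_eq_top.1 h2) hP)
    have hnil : Group.IsNilpotent (P : Subgroup C) := P.isPGroup'.isNilpotent
    have h2 := (Group.normalizerCondition_of_isNilpotent (G := (P : Subgroup C))) _ h1
    obtain ⟨y, hy1, hy2⟩ := SetLike.exists_of_lt h2
    have h3 := (mem_normalizer_iff.1 hy1 ⟨z', hP (mem_zpowers z')⟩).1 (mem_subgroupOf.2 (mem_zpowers z'))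
    rw [mem_subgroupOf] at h3
    change ((y : C) * z' * (y : C)⁻¹) ∈ zpowers z' at h3
    have h4 : (y : C) * z' * (y : C)⁻¹ = z' := by
      obtain ⟨i, hi⟩ := mem_zpowers_iff.1 h3
      have hzz : z' * z' = 1 := by rw [← pow_two, ← hz', pow_orderOf_eq_one]
      rcases Int.even_or_odd' i with ⟨q, hq | hq⟩
      · exfalso
        rw [hq, zpow_mul, zpow_two, hzz, one_zpow] at hi
        have h5 : z' = 1 := by
          have : (y : C) * z' * (y : C)⁻¹ = (y : C) * 1 * (y : C)⁻¹ := by rw [← hi]; group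
          exact mul_left_cancel (mul_right_cancel this)
        rw [h5, orderOf_one] at hz'
        norm_num at hz'
      · rw [hq, zpow_add, zpow_mul, zpow_two, hzz, one_zpow, one_mul, zpow_one] at hi
        exact hi.symm
    have h5 : (y : C) * z' = z' * y := mul_inv_eq_iff_eq_mul.1 h4
    obtain ⟨k, hk⟩ := (IsPGroup.iff_orderOf.1 P.isPGroup') y
    have hyk : ((y : C) : G) ^ (2 ^ k) = 1 := by
      have h6 : y ^ (2 ^ k) = 1 := by rw [← hk, pow_orderOf_eq_one]
      have := congrArg (fun x : (P : Subgroup C) => ((x : C) : G)) h6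
      simpa using this
    have h6 := two_elt h (y := ((y : C) : G)) (congrArg Subtype.val h5) (mem_centralizer_singleton_iff.1 (y : C).2) hyk
    apply hy2
    rw [mem_subgroupOf]
    rcases h6 with h7 | h7
    · have : (y : C) = 1 := Subtype.ext h7
      rw [this]; exact one_mem _
    · have : (y : C) = z' := Subtype.ext h7
      rw [this]; exact mem_zpowers _
  have hPc : Nat.card P = 2 := by
    rw [hPz, Nat.card_zpowers, hz']
  haveI : IsCyclic P := by
    haveI : IsCyclic (zpowers z') := inferInstance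
    change IsCyclic (P : Subgroup C)
    rw [hPz]; infer_instance
  have hmf : (Nat.card C).minFac = 2 := by
    rw [Nat.minFac_eq_two_iff, ← hz']
    exact orderOf_dvd_natCard z'
  have hNC := IsCyclic.normalizer_le_centralizer hmf (P := P) inferInstance
  let φ := MonoidHom.transferSylow P hNC
  have hcomp := MonoidHom.ker_transferSylow_isComplement' P hNC
  have hodd := MonoidHom.not_dvd_card_ker_transferSylow P hNC
  have hcard := hcomp.card_mul_card
  refine ⟨φ.ker.map C.subtype, map_subtype_le _, ?_, ?_, ?_⟩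
  · refine ⟨⟨u, mem_centralizer_singleton_iff.2 rfl⟩, ?_, rfl⟩
    rw [SetLike.mem_coe, MonoidHom.mem_ker]
    set u' : C := ⟨u, mem_centralizer_singleton_iff.2 rfl⟩ with hu'
    have h1 : φ u' ^ 5 = 1 := by
      rw [← map_pow]
      have : u' ^ 5 = 1 := Subtype.ext (by
        change u ^ 5 = 1
        rw [← u5 h, pow_orderOf_eq_one])
      rw [this, map_one]
    have h2 : φ u' ^ 2 = 1 := by
      have h3 := pow_card_eq_one' (x := φ u')
      rwa [hPc] at h3
    calc φ u' = φ u' ^ 5 * ((φ u' ^ 2) ^ 2)⁻¹ := by group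
      _ = 1 := by rw [h1, h2]; group
  · rw [Subgroup.card_map_of_injective (Subgroup.subtype_injective _), ← Nat.not_even_iff_odd, even_iff_two_dvd]
    exact hodd
  · rw [Subgroup.card_map_of_injective (Subgroup.subtype_injective _)]
    have h1 : Nat.card φ.ker * Nat.card P = Nat.card C := hcard
    rw [hPc] at h1
    change Nat.card C = _
    rw [← h1]; ring

/-- the normaliser of an element of order five -/
theorem norm5 (h : HT ι z) : Nat.card (normalizer ((zpowers (ι (wk 512)) : Subgroup G) : Set G)) ≤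
    2 * Nat.card (centralizer ({ι (wk 512)} : Set G)) := by
  classical
  haveI : Fact (Nat.Prime 2) := ⟨Nat.prime_two⟩
  obtain ⟨O, hOC, huO, hOodd, hO2⟩ := cent5 h
  have hu5 := u5 h
  have hzu := zu h
  set u := ι (wk 512) with hu
  set N := normalizer ((zpowers u : Subgroup G) : Set G) with hN
  have hCN : centralizer ({u} : Set G) ≤ N := by
    intro x hx
    rw [mem_centralizer_singleton_iff] at hx
    rw [hN, H58.Rel.mem_normalizer_iff_conj]
    apply Subgroup.eq_of_le_of_card_ge
    · rintro _ ⟨y, hy, rfl⟩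
      obtain ⟨i, rfl⟩ := mem_zpowers_iff.1 hy
      change x * u ^ i * x⁻¹ ∈ zpowers u
      have : Commute x (u ^ i) := (show Commute x u from hx).zpow_right i
      rw [this.eq, mul_inv_cancel_right]
      exact zpow_mem (mem_zpowers u) i
    · rw [H58.Rel.card_map_conj]
  have hrel := H58.WC.relIndex_orbit N u {y | ∃ n ∈ N, n * u * n⁻¹ = y} (fun y => Iff.rfl)
  have hsub : ({y | ∃ n ∈ N, n * u * n⁻¹ = y} : Set G) ⊆ {u, u⁻¹} := by
    rintro _ ⟨n, hn, rfl⟩
    have hnu : n * u * n⁻¹ ∈ zpowers u := (mem_normalizer_iff.1 hn u).1 (mem_zpowers u)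
    have hnu' : n⁻¹ * u * n ∈ zpowers u := by
      have := (mem_normalizer_iff.1 (inv_mem hn) u).1 (mem_zpowers u)
      rwa [inv_inv] at this
    obtain ⟨i, hi⟩ := mem_zpowers_iff.1 hnu'
    have hz1 : (n * z * n⁻¹) * u = u * (n * z * n⁻¹) := by
      have h1 : Commute z (u ^ i) := (show Commute z u from hzu).zpow_right i
      calc (n * z * n⁻¹) * u = n * (z * (n⁻¹ * u * n)) * n⁻¹ := by group
        _ = n * (z * u ^ i) * n⁻¹ := by rw [hi]
        _ = n * (u ^ i * z) * n⁻¹ := by rw [h1.eq]
        _ = n * ((n⁻¹ * u * n) * z) * n⁻¹ := by rw [hi]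
        _ = _ := by group
    have hzz1 : (n * z * n⁻¹) ≠ 1 := by
      intro h5
      apply h.z1
      have : n * z * n⁻¹ = n * 1 * n⁻¹ := by rw [h5]; group
      exact mul_left_cancel (mul_right_cancel this)
    have hp1 : IsPGroup 2 (zpowers (n * z * n⁻¹)) := by
      refine IsPGroup.of_card (n := 1) ?_
      rw [Nat.card_zpowers, pow_one]
      refine orderOf_eq_prime ?_ hzz1
      rw [conj_pow, pow_two, h.zz]; group
    have hp2 : IsPGroup 2 (zpowers z) := IsPGroup.of_card (n := 1) (by rw [Nat.card_zpowers, h.oz, pow_one])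
    have hzC : zpowers z ≤ centralizer ({u} : Set G) := by
      rw [zpowers_le]; exact mem_centralizer_singleton_iff.2 hzu
    have hidx : ¬ 2 ∣ (zpowers z).relIndex (centralizer ({u} : Set G)) := by
      have h1 : Nat.card (zpowers z) * (zpowers z).relIndex (centralizer ({u} : Set G)) = Nat.card (centralizer ({u} : Set G)) := by
        have := ((zpowers z).subgroupOf (centralizer ({u} : Set G))).card_mul_index
        rwa [Nat.card_congr (Subgroup.subgroupOfEquivOfLe hzC).toEquiv] at this
      rw [Nat.card_zpowers, h.oz, hO2] at h1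
      have h2 : (zpowers z).relIndex (centralizer ({u} : Set G)) = Nat.card O := by omega
      rw [h2]
      intro h3
      exact (Nat.not_even_iff_odd.2 hOodd) (even_iff_two_dvd.2 h3)
    obtain ⟨c, hc, hcz⟩ := H58.Rel.exists_conj_mem_sylowOf (H := centralizer ({u} : Set G)) (P := zpowers (n * z * n⁻¹)) (Q := zpowers z)
      (by rw [zpowers_le]; exact mem_centralizer_singleton_iff.2 hz1) hp1 hp2 hidx
    have hcu : c * u = u * c := mem_centralizer_singleton_iff.1 hc
    have h6 := hcz _ (mem_zpowers _)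
    have h7 : c * (n * z * n⁻¹) * c⁻¹ = z := by
      obtain ⟨i, hi⟩ := mem_zpowers_iff.1 h6
      rcases Int.even_or_odd' i with ⟨q, hq | hq⟩
      · exfalso
        rw [hq, zpow_mul, zpow_two, h.zz, one_zpow] at hi
        apply hzz1
        have : c * (n * z * n⁻¹) * c⁻¹ = c * 1 * c⁻¹ := by rw [← hi]; group
        exact mul_left_cancel (mul_right_cancel this)
      · rw [hq, zpow_add, zpow_mul, zpow_two, h.zz, one_zpow, one_mul, zpow_one] at hi
        exact hi.symm
    obtain ⟨w, hw⟩ := h.cz (c * n) (by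
      have : c * n * z * (c * n)⁻¹ = z := by
        calc c * n * z * (c * n)⁻¹ = c * (n * z * n⁻¹) * c⁻¹ := by group
          _ = z := h7
      exact mul_inv_eq_iff_eq_mul.1 this)
    -- n u n⁻¹ = u ^ m
    obtain ⟨m, hm5, hm⟩ : ∃ m < 5, u ^ m = n * u * n⁻¹ := by
      obtain ⟨m, hm, hm'⟩ := (mem_zpowers_iff_mem_range_orderOf.1 hnu) |> fun h => by
        rw [Finset.mem_image] at h
        exact h
      rw [hu5, Finset.mem_range] at hm
      exact ⟨m, hm, hm'⟩
    have h8 : (c * n) * u = u ^ m * (c * n) := by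
      have h9 : Commute c (u ^ m) := (show Commute c u from hcu).pow_right m
      calc (c * n) * u = c * (n * u * n⁻¹) * n := by group
        _ = c * u ^ m * n := by rw [hm]
        _ = u ^ m * c * n := by rw [h9.eq]
        _ = _ := by group
    rw [← hw, hu, ← map_pow, ← map_mul, ← map_mul] at h8
    have h9 := h.inj h8
    have hm4 : m = 0 ∨ m = 1 ∨ m = 2 ∨ m = 3 ∨ m = 4 := by omega
    rcases hm4 with rfl | rfl | rfl | rfl | rfl
    · exfalso
      rw [pow_zero, one_mul] at h9
      exact fne (mul_left_cancel (a := w) (by rw [h9, mul_one]))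
    · left; rw [← hm, pow_one]
    · exfalso
      rw [pow_two] at h9
      exact fn2 w h9
    · exfalso
      rw [pow_succ, pow_two] at h9
      exact fn3 w h9
    · right
      rw [Set.mem_singleton_iff, ← hm]
      have : u ^ 5 = 1 := by rw [← hu5, pow_orderOf_eq_one]
      rw [eq_inv_iff_mul_eq_one, ← pow_succ]
      exact this
  have h2 : ({y | ∃ n ∈ N, n * u * n⁻¹ = y} : Set G).ncard ≤ 2 :=
    (Set.ncard_le_ncard hsub (Set.toFinite _)).trans ((Set.ncard_insert_le _ _).trans (by rw [Set.ncard_singleton]))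
  have h3 : Nat.card (centralizer ({u} : Set G)) * (centralizer ({u} : Set G)).relIndex N = Nat.card N := by
    have := ((centralizer ({u} : Set G)).subgroupOf N).card_mul_index
    rwa [Nat.card_congr (Subgroup.subgroupOfEquivOfLe hCN).toEquiv] at this
  rw [hrel] at h3
  rw [← h3, mul_comm]
  exact Nat.mul_le_mul_right _ h2

theorem hcen (h : HT ι z) (hone : ∀ x y : G, orderOf x = 2 → orderOf y = 2 → IsConj x y) (v : G) (hv : orderOf v = 2) :
    Nat.card (centralizer ({v} : Set G)) = 1920 := by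
  obtain ⟨g, hg⟩ := isConj_iff.1 (hone z v h.oz hv)
  have h1 : centralizer ({v} : Set G) = (centralizer ({z} : Set G)).map (MulAut.conj g).toMonoidHom := by
    ext x
    rw [H58.Rel.mem_map_conj_iff, mem_centralizer_singleton_iff, mem_centralizer_singleton_iff, ← hg]
    constructor
    · intro h2
      calc g⁻¹ * x * g * z = g⁻¹ * (x * (g * z * g⁻¹)) * g := by group
        _ = g⁻¹ * (g * z * g⁻¹ * x) * g := by rw [h2]
        _ = _ := by group
    · intro h2
      calc x * (g * z * g⁻¹) = g * ((g⁻¹ * x * g) * z) * g⁻¹ := by group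
        _ = g * (z * (g⁻¹ * x * g)) * g⁻¹ := by rw [h2]
        _ = _ := by group
  rw [h1, H58.Rel.card_map_conj, ← card_cent h]
  exact Nat.card_congr (Equiv.subtypeEquivRight fun x => by rw [mem_centralizer_singleton_iff])

/-- no elements of order 16 -/
theorem no16 (h : HT ι z) (hone : ∀ x y : G, orderOf x = 2 → orderOf y = 2 → IsConj x y) (y : G) : orderOf y ≠ 16 := by
  intro hy
  have h1 : y ^ 128 = 1 := by
    rw [← orderOf_dvd_iff_pow_eq_one, hy]; norm_num
  have h2 : y ≠ 1 := by
    rintro rfl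
    rw [orderOf_one] at hy
    norm_num at hy
  obtain ⟨g, hg⟩ := exists_FP h hone h1 h2
  have h3 : g * z * g⁻¹ * (g * z * g⁻¹) = 1 := by
    calc g * z * g⁻¹ * (g * z * g⁻¹) = g * (z * z) * g⁻¹ := by group
      _ = 1 := by rw [h.zz]; group
  have h4 : y ^ 8 = 1 := by
    rcases hg with h5 | h5 | h5
    · rw [h5]
      rw [show (8:ℕ) = 2 * 4 by norm_num, pow_mul, pow_two, h3, one_pow]
    · have e8 : y ^ 8 = (y * y) * (y * y) * ((y * y) * (y * y)) := by
        simp only [← pow_two, ← pow_mul]
        norm_num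
      rw [e8, h5, h3, one_mul]
    · have e8 : y ^ 8 = (y * y) * (y * y) * ((y * y) * (y * y)) := by
        simp only [← pow_two, ← pow_mul]
        norm_num
      rw [e8, h5, h3]
  have h5 := orderOf_dvd_of_pow_eq_one h4
  rw [hy] at h5
  norm_num at h5

end H58.J3R
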