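import Mathlib
import Cfsg.Agent.Lib.H58.J3R

/-! Sylow 17- and 19-normalisers in groups of type `J_3`: numerology and counting (helper58). -/

set_option autoImplicit false
set_option linter.style.haveILetI false
set_option linter.unusedSectionVars false

namespace H58.J3S

open Subgroup H58.J1 H15.J3Top H58.J2A H58.J3B H58.J3Q H58.J3R

section gen
variable {Y : Type*} [Group Y] [Finite Y] {p : ℕ} {a : Y}

theorem cent_zp (a : Y) : centralizer ((zpowers a : Subgroup Y) : Set Y) = centralizer ({a} : Set Y) := by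
  rw [zpowers_eq_closure, centralizer_closure]

theorem cent_le (a : Y) : centralizer ({a} : Set Y) ≤ normalizer ((zpowers a : Subgroup Y) : Set Y) := by
  intro x hx
  rw [mem_centralizer_singleton_iff] at hx
  apply mem_normalizer_zpowers
  rw [hx, mul_inv_cancel_right]
  exact mem_zpowers a

/-- Burnside's transfer theorem in simple groups -/
theorem burn [IsSimpleGroup Y] (hp : p.Prime) (h : ¬ p ^ 2 ∣ Nat.card Y) (ha : orderOf a = p) (hYp : Nat.card Y ≠ p)
    (hNC : Nat.card (centralizer ({a} : Set Y)) = Nat.card (normalizer ((zpowers a : Subgroup Y) : Set Y))) : False := by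
  classical
  haveI : Fact p.Prime := ⟨hp⟩
  have hf : (Nat.card Y).factorization p = 1 :=
    factorization_of hp Nat.card_pos.ne' (by rw [pow_one, ← ha]; exact orderOf_dvd_natCard a) h
  let A : Sylow p Y := Sylow.ofCard (zpowers a) (by rw [Nat.card_zpowers, ha, hf, pow_one])
  have heq : centralizer ({a} : Set Y) = normalizer ((zpowers a : Subgroup Y) : Set Y) :=
    Subgroup.eq_of_le_of_card_ge (cent_le a) hNC.ge
  have hNC' : normalizer ((A : Subgroup Y) : Set Y) ≤ centralizer ((A : Subgroup Y) : Set Y) := by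
    change normalizer ((zpowers a : Subgroup Y) : Set Y) ≤ centralizer ((zpowers a : Subgroup Y) : Set Y)
    rw [cent_zp, heq]
  have hcomp := MonoidHom.ker_transferSylow_isComplement' A hNC'
  have hA : Nat.card A = p := by
    change Nat.card (zpowers a) = p
    rw [Nat.card_zpowers, ha]
  have hcard := hcomp.card_mul_card
  rcases (inferInstance : (MonoidHom.transferSylow A hNC').ker.Normal).eq_bot_or_eq_top with h1 | h1
  · rw [h1, Subgroup.card_bot, one_mul] at hcard
    exact hYp (hcard.symm.trans hA)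
  · rw [h1, Subgroup.card_top] at hcard
    have h2 : Nat.card Y * p = Nat.card Y * 1 := by
      rw [mul_one]
      exact (congrArg (fun q => Nat.card Y * q) hA.symm).trans hcard
    have h3 := Nat.eq_of_mul_eq_mul_left Nat.card_pos h2
    exact hp.one_lt.ne' h3

theorem cyc_quot {N M : Type*} [Group N] [Group M] (φ : N →* M) [IsCyclic M] (K : Subgroup N) [hK : K.Normal] (hker : φ.ker = K) :
    IsCyclic (N ⧸ K) := by
  subst hker
  exact isCyclic_of_injective (QuotientGroup.kerLift φ) (QuotientGroup.kerLift_injective φ)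

theorem mulAut_cyc {P : Type*} [Group P] [Finite P] (hp : p.Prime) (hP : Nat.card P = p) :
    IsCyclic (MulAut P) ∧ Nat.card (MulAut P) = p - 1 := by
  haveI : Fact p.Prime := ⟨hp⟩
  haveI : IsCyclic P := isCyclic_of_prime_card hP
  have e := IsCyclic.mulAutMulEquiv P
  rw [hP] at e
  haveI := ZMod.isCyclic_units_prime hp
  exact ⟨isCyclic_of_injective e.toMonoidHom e.injective, by rw [Nat.card_congr e.toEquiv, Nat.card_eq_fintype_card, ZMod.card_units]⟩

theorem card_ker_norm (a : Y) : Nat.card ((zpowers a).normalizerMonoidHom).ker = Nat.card (centralizer ({a} : Set Y)) := by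
  rw [normalizerMonoidHom_ker, cent_zp]
  exact Nat.card_congr (Subgroup.subgroupOfEquivOfLe (cent_le a)).toEquiv

theorem full (hp : p.Prime) (ha : orderOf a = p)
    (hf : (p - 1) * Nat.card (centralizer ({a} : Set Y)) = Nat.card (normalizer ((zpowers a : Subgroup Y) : Set Y))) :
    ∃ y : Y, orderOf y = p - 1 := by
  classical
  obtain ⟨hcyc, hcard⟩ := mulAut_cyc (P := zpowers a) hp (by rw [Nat.card_zpowers, ha])
  let φ := (zpowers a).normalizerMonoidHom
  haveI : Finite (MulAut (zpowers a)) := Nat.finite_of_card_ne_zero (by rw [hcard]; have := hp.one_lt; omega)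
  have h1 : Nat.card φ.ker * φ.ker.index = Nat.card (normalizer ((zpowers a : Subgroup Y) : Set Y)) := φ.ker.card_mul_index
  rw [card_ker_norm, ← hf, mul_comm (p - 1)] at h1
  have h2 : φ.ker.index = p - 1 := Nat.eq_of_mul_eq_mul_left Nat.card_pos h1
  rw [Subgroup.index_ker] at h2
  have h3 : φ.range = ⊤ := by
    apply Subgroup.eq_top_of_card_eq
    rw [h2, hcard]
  obtain ⟨g, hg⟩ := hcyc.exists_generator
  have hg' : orderOf g = p - 1 := by
    rw [← hcard]
    exact orderOf_eq_card_of_forall_mem_zpowers hg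
  have hgr : g ∈ φ.range := by rw [h3]; exact mem_top g
  obtain ⟨n, hn⟩ := hgr
  obtain ⟨m, hm⟩ : p - 1 ∣ orderOf (n : Y) := by
    rw [← hg', ← hn, Subgroup.orderOf_coe]
    exact orderOf_map_dvd φ n
  have hm0 : m ≠ 0 := by
    rintro rfl
    rw [mul_zero] at hm
    exact (orderOf_pos (n : Y)).ne' hm
  refine ⟨(n : Y) ^ m, ?_⟩
  rw [orderOf_pow, hm, Nat.gcd_eq_right (dvd_mul_left m _), Nat.mul_div_cancel _ (Nat.pos_of_ne_zero hm0)]

/-- the quotient of the normaliser by a self-centralising subgroup of prime order -/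
theorem fin (hp : p.Prime) (P : Subgroup Y) (hP : Nat.card P = p) (hC : centralizer (P : Set Y) = P) (f : ℕ)
    (hN : Nat.card (normalizer (P : Set Y)) = f * p) :
    ∃ _h : (P.subgroupOf (normalizer (P : Set Y))).Normal, IsCyclic (↥(normalizer (P : Set Y)) ⧸ P.subgroupOf (normalizer (P : Set Y))) ∧
      Nat.card (↥(normalizer (P : Set Y)) ⧸ P.subgroupOf (normalizer (P : Set Y))) = f := by
  have hnor : (P.subgroupOf (normalizer (P : Set Y))).Normal := inferInstance
  refine ⟨hnor, ?_, ?_⟩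
  · obtain ⟨hcyc, -⟩ := mulAut_cyc (P := P) hp hP
    refine cyc_quot P.normalizerMonoidHom _ ?_
    rw [normalizerMonoidHom_ker, hC]
  · have h1 := (P.subgroupOf (normalizer (P : Set Y))).card_mul_index
    rw [Nat.card_congr (Subgroup.subgroupOfEquivOfLe (le_normalizer (H := P))).toEquiv, hP, hN, mul_comm f] at h1
    exact Nat.eq_of_mul_eq_mul_left hp.pos h1

theorem card_syl [Fact p.Prime] (h1 : p ∣ Nat.card Y) (h : ¬ p ^ 2 ∣ Nat.card Y) (X : Sylow p Y) :
    Nat.card (X : Subgroup Y) = p := by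
  have h2 : (Nat.card Y).factorization p = 1 :=
    factorization_of Fact.out Nat.card_pos.ne' (by rw [pow_one]; exact h1) h
  rw [X.card_eq_multiplicity, h2, pow_one]

theorem exists_zp (hp : p.Prime) (P : Subgroup Y) (hP : Nat.card P = p) : ∃ x : Y, orderOf x = p ∧ P = zpowers x := by
  haveI : Fact p.Prime := ⟨hp⟩
  obtain ⟨x, hx⟩ := exists_prime_orderOf_dvd_card' (G := P) p (by rw [hP])
  have hx' : orderOf (x : Y) = p := by rw [Subgroup.orderOf_coe]; exact hx
  refine ⟨x, hx', ?_⟩
  symm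
  apply Subgroup.eq_of_le_of_card_ge
  · rw [zpowers_le]; exact x.2
  · rw [Nat.card_zpowers, hx', hP]

theorem concl (hp : p.Prime) (P : Subgroup Y) (ha : orderOf a = p) (hP : P = zpowers a)
    (hC : Nat.card (centralizer ({a} : Set Y)) = p) (f : ℕ)
    (hN : Nat.card (normalizer ((zpowers a : Subgroup Y) : Set Y)) = f * p) :
    centralizer (P : Set Y) = P ∧
    ∃ _h : (P.subgroupOf (normalizer (P : Set Y))).Normal, IsCyclic (↥(normalizer (P : Set Y)) ⧸ P.subgroupOf (normalizer (P : Set Y))) ∧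
      Nat.card (↥(normalizer (P : Set Y)) ⧸ P.subgroupOf (normalizer (P : Set Y))) = f := by
  subst hP
  have h1 : centralizer ((zpowers a : Subgroup Y) : Set Y) = zpowers a := by
    symm
    apply Subgroup.eq_of_le_of_card_ge
    · rw [zpowers_le, cent_zp]
      exact mem_centralizer_singleton_iff.2 rfl
    · rw [cent_zp, hC, Nat.card_zpowers, ha]
  exact ⟨h1, fin hp _ (by rw [Nat.card_zpowers, ha]) h1 f hN⟩

end gen

variable {G : Type*} [Group G] [Finite G]

theorem c17 [IsSimpleGroup G] (hG : Nat.card G = 50232960)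
    (hcen : ∀ v : G, orderOf v = 2 → Nat.card (centralizer ({v} : Set G)) = 1920) (h16 : ∀ y : G, orderOf y ≠ 16) {y : G}
    (hy : orderOf y = 17) :
    Nat.card (centralizer ({y} : Set G)) = 17 ∧ Nat.card (normalizer ((zpowers y : Subgroup G) : Set G)) = 8 * 17 := by
  haveI : Fact (Nat.Prime 19) := ⟨by norm_num⟩
  obtain ⟨n, f, h1, h2, h3, h4, -⟩ := nc (by norm_num : Nat.Prime 17) (by rw [hG]; norm_num) hy
  have h17 : 17 ∣ Nat.card (centralizer ({y} : Set G)) := by
    rw [← hy]; exact Subgroup.orderOf_dvd_natCard _ (mem_centralizer_singleton_iff.2 rfl)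
  obtain ⟨c, hc⟩ := h17
  have h19 : ¬ 19 ∣ Nat.card (centralizer ({y} : Set G)) := by
    intro h
    obtain ⟨x, hx⟩ := exists_prime_orderOf_dvd_card' 19 h
    exact no_comm hG hcen (x := (x : G)) (y := y) (by rw [Subgroup.orderOf_coe]; exact hx) hy (mem_centralizer_singleton_iff.1 x.2)
  have hodd := odd_cent hcen hy (by norm_num)
  have hne1 : f ≠ 1 := by
    rintro rfl
    rw [one_mul] at h3
    exact burn (by norm_num) (by rw [hG]; norm_num) hy (by rw [hG]; norm_num) h3
  rw [hc] at h1 h3 hodd h19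
  rw [hG] at h1
  have h5 : n * (f * c) = 2954880 := by
    have : 17 * (n * (f * c)) = 17 * 2954880 := by
      rw [show 17 * (n * (f * c)) = n * (f * (17 * c)) by ring, ← h1]
    omega
  have hc2 : ¬ 2 ∣ c := fun h => hodd (h.mul_left 17)
  have hc19 : c ∣ 155520 := by
    have h6 : Nat.Coprime c 19 := ((Nat.Prime.coprime_iff_not_dvd (by norm_num)).2 (fun h => h19 (h.mul_left 17))).symm
    apply h6.dvd_of_dvd_mul_left (m := 19)
    exact ⟨n * f, by rw [show c * (n * f) = n * (f * c) by ring, h5]⟩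
  have hcd := odd_div hc19 hc2
  have hf : f ∈ Nat.divisors 16 := Nat.mem_divisors.2 ⟨by simpa using h4, by norm_num⟩
  have h6 : Nat.divisors 16 = {1, 2, 4, 8, 16} := by decide +kernel
  rw [h6] at hf
  have h7 : (f = 8 ∧ c = 1) ∨ (f = 16 ∧ c = 9) := by
    simp only [Finset.mem_insert, Finset.mem_singleton] at hf hcd
    rcases hf with rfl | rfl | rfl | rfl | rfl <;>
      rcases hcd with rfl | rfl | rfl | rfl | rfl | rfl | rfl | rfl | rfl | rfl | rfl | rfl <;> omega
  rcases h7 with ⟨rfl, rfl⟩ | ⟨rfl, rfl⟩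
  · exact ⟨by rw [hc], by rw [← h3]⟩
  · exfalso
    obtain ⟨y', hy'⟩ := full (by norm_num : Nat.Prime 17) hy (by rw [hc]; exact h3)
    exact h16 y' hy'

theorem c19 [IsSimpleGroup G] (hG : Nat.card G = 50232960)
    (hcen : ∀ v : G, orderOf v = 2 → Nat.card (centralizer ({v} : Set G)) = 1920) {x : G}
    (hx : orderOf x = 19) :
    (Nat.card (centralizer ({x} : Set G)) = 19 ∧ Nat.card (normalizer ((zpowers x : Subgroup G) : Set G)) = 9 * 19) ∨
    (Nat.card (centralizer ({x} : Set G)) = 57 ∧ Nat.card (normalizer ((zpowers x : Subgroup G) : Set G)) = 171) := by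
  haveI : Fact (Nat.Prime 17) := ⟨by norm_num⟩
  obtain ⟨n, f, h1, h2, h3, h4, -⟩ := nc (by norm_num : Nat.Prime 19) (by rw [hG]; norm_num) hx
  have h19 : 19 ∣ Nat.card (centralizer ({x} : Set G)) := by
    rw [← hx]; exact Subgroup.orderOf_dvd_natCard _ (mem_centralizer_singleton_iff.2 rfl)
  obtain ⟨c, hc⟩ := h19
  have h17 : ¬ 17 ∣ Nat.card (centralizer ({x} : Set G)) := by
    intro h
    obtain ⟨y, hy⟩ := exists_prime_orderOf_dvd_card' 17 h
    exact no_comm hG hcen (x := x) (y := (y : G)) hx (by rw [Subgroup.orderOf_coe]; exact hy) (mem_centralizer_singleton_iff.1 y.2).symm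
  have hodd := odd_cent hcen hx (by norm_num)
  have hne1 : f ≠ 1 := by
    rintro rfl
    rw [one_mul] at h3
    exact burn (by norm_num) (by rw [hG]; norm_num) hx (by rw [hG]; norm_num) h3
  rw [hc] at h1 h3 hodd h17
  rw [hG] at h1
  have h5 : n * (f * c) = 2643840 := by
    have : 19 * (n * (f * c)) = 19 * 2643840 := by
      rw [show 19 * (n * (f * c)) = n * (f * (19 * c)) by ring, ← h1]
    omega
  have hc2 : ¬ 2 ∣ c := fun h => hodd (h.mul_left 19)
  have hc17 : c ∣ 155520 := by
    have h6 : Nat.Coprime c 17 := ((Nat.Prime.coprime_iff_not_dvd (by norm_num)).2 (fun h => h17 (h.mul_left 19))).symm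
    apply h6.dvd_of_dvd_mul_left (m := 17)
    exact ⟨n * f, by rw [show c * (n * f) = n * (f * c) by ring, h5]⟩
  have hcd := odd_div hc17 hc2
  have hf : f ∈ Nat.divisors 18 := Nat.mem_divisors.2 ⟨by simpa using h4, by norm_num⟩
  have h6 : Nat.divisors 18 = {1, 2, 3, 6, 9, 18} := by decide +kernel
  rw [h6] at hf
  have h7 : (f = 9 ∧ c = 1) ∨ (f = 3 ∧ c = 3) := by
    simp only [Finset.mem_insert, Finset.mem_singleton] at hf hcd
    rcases hf with rfl | rfl | rfl | rfl | rfl | rfl <;>
      rcases hcd with rfl | rfl | rfl | rfl | rfl | rfl | rfl | rfl | rfl | rfl | rfl | rfl <;> omega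
  rcases h7 with ⟨rfl, rfl⟩ | ⟨rfl, rfl⟩
  · left; exact ⟨by rw [hc], by rw [← h3]⟩
  · right; exact ⟨by rw [hc], by rw [← h3]⟩

/-- an element whose order is divisible by `p` lies in the centraliser of an element of order `p` -/
theorem dvd_cent_of {p : ℕ} (g : G) (hp : p ∣ orderOf g) : ∃ a : G, orderOf a = p ∧ g ∈ centralizer ({a} : Set G) := by
  obtain ⟨m, hm⟩ := hp
  have hm0 : m ≠ 0 := by
    rintro rfl
    rw [mul_zero] at hm
    exact (orderOf_pos g).ne' hm
  refine ⟨g ^ m, ?_, ?_⟩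
  · rw [orderOf_pow, hm, Nat.gcd_eq_right (dvd_mul_left m p), Nat.mul_div_cancel _ (Nat.pos_of_ne_zero hm0)]
  · rw [mem_centralizer_singleton_iff]
    exact ((Commute.refl g).pow_right m).eq

theorem no33 [IsSimpleGroup G] {ι : W →* G} {z : G} (h : HT ι z) (hone : ∀ x y : G, orderOf x = 2 → orderOf y = 2 → IsConj x y)
    (hG : Nat.card G = 50232960) {x : G} (hx : orderOf x = 19)
    (h1 : Nat.card (centralizer ({x} : Set G)) = 57) (h2 : Nat.card (normalizer ((zpowers x : Subgroup G) : Set G)) = 171) : False := by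
  classical
  haveI : Fact (Nat.Prime 17) := ⟨by norm_num⟩
  have hcen := hcen h hone
  have h16 := no16 h hone
  have h17 : 17 ∣ Nat.card G := by rw [hG]; norm_num
  obtain ⟨y, hy⟩ := exists_prime_orderOf_dvd_card' 17 h17
  obtain ⟨hy1, hy2⟩ := c17 hG hcen h16 hy
  obtain ⟨O, hOC, huO, hOodd, hO2⟩ := cent5 h
  -- counts
  have n19 := count_Yp (by norm_num : Nat.Prime 19) (by rw [hG]; norm_num) hx (centralizer ({x} : Set G))
    (mem_centralizer_singleton_iff.2 rfl) (fun y hy => mem_centralizer_singleton_iff.1 hy) (by rw [h1]; decide)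
  have n17 := count_Yp (by norm_num : Nat.Prime 17) (by rw [hG]; norm_num) hy (centralizer ({y} : Set G))
    (mem_centralizer_singleton_iff.2 rfl) (fun y hy => mem_centralizer_singleton_iff.1 hy) (by rw [hy1]; decide)
  have n5 := count_Yp (by norm_num : Nat.Prime 5) (by rw [hG]; norm_num) (u5 h) O huO
    (fun y hy => mem_centralizer_singleton_iff.1 (hOC hy)) hOodd
  have n2 := count_even h
  have hN5 := norm5 h
  rw [hO2] at hN5
  rw [h1, h2, hG] at n19
  rw [hy1, hy2, hG] at n17
  rw [hG] at n5 n2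
  set Y2 : Set G := {g | Even (orderOf g)} with hY2
  set Y5 : Set G := {g | Odd (orderOf g) ∧ 5 ∣ orderOf g} with hY5
  set Y17 : Set G := {g | Odd (orderOf g) ∧ 17 ∣ orderOf g} with hY17
  set Y19 : Set G := {g | Odd (orderOf g) ∧ 19 ∣ orderOf g} with hY19
  have hOpos : 0 < Nat.card O := Nat.card_pos
  have n5' : 50232960 ≤ 5 * Y5.ncard := by
    have e1 : (5 - 1) * Nat.card O * 50232960 ≤ 5 * (2 * (2 * Nat.card O)) * Y5.ncard :=
      n5.trans (Nat.mul_le_mul_right _ (Nat.mul_le_mul_left _ hN5))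
    have e2 : (4 * Nat.card O) * 50232960 ≤ (4 * Nat.card O) * (5 * Y5.ncard) := by
      calc (4 * Nat.card O) * 50232960 = (5 - 1) * Nat.card O * 50232960 := by norm_num
        _ ≤ _ := e1
        _ = _ := by ring
    exact Nat.le_of_mul_le_mul_left e2 (by omega)
  have d1 : Disjoint Y2 Y5 := by
    rw [Set.disjoint_left]
    rintro g hg1 ⟨hg2, _⟩
    exact (Nat.not_even_iff_odd.2 hg2) hg1
  have d2 : Disjoint (Y2 ∪ Y5) Y17 := by
    rw [Set.disjoint_left]
    rintro g (hg1 | ⟨_, hg5⟩) ⟨hg2, hg17⟩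
    · exact (Nat.not_even_iff_odd.2 hg2) hg1
    · obtain ⟨b, hb, hgb⟩ := dvd_cent_of g hg17
      have e1 := Subgroup.orderOf_dvd_natCard _ hgb
      rw [(c17 hG hcen h16 hb).1] at e1
      have := hg5.trans e1
      revert this; norm_num
  have d3 : Disjoint ((Y2 ∪ Y5) ∪ Y17) Y19 := by
    rw [Set.disjoint_left]
    rintro g ((hg1 | ⟨_, hg5⟩) | ⟨_, hg17⟩) ⟨hg2, hg19⟩
    · exact (Nat.not_even_iff_odd.2 hg2) hg1
    · obtain ⟨b, hb, hgb⟩ := dvd_cent_of g hg19
      have e1 := Subgroup.orderOf_dvd_natCard _ hgb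
      have e2 := hg5.trans e1
      rcases c19 hG hcen hb with ⟨e3, _⟩ | ⟨e3, _⟩ <;> rw [e3] at e2 <;> revert e2 <;> norm_num
    · obtain ⟨b, hb, hgb⟩ := dvd_cent_of g hg17
      have e1 := Subgroup.orderOf_dvd_natCard _ hgb
      rw [(c17 hG hcen h16 hb).1] at e1
      have := hg19.trans e1
      revert this; norm_num
  have s : (((Y2 ∪ Y5) ∪ Y17) ∪ Y19).ncard ≤ 50232960 := by
    rw [← hG]
    exact Set.ncard_le_card _
  rw [Set.ncard_union_eq d3, Set.ncard_union_eq d2, Set.ncard_union_eq d1] at s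
  norm_num at n17 n19 n2
  omega

end H58.J3S
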