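import Mathlib
import Cfsg.Prelude.Def_TwoFusion
import Cfsg.Agent.Lib.H58.DCover
import Cfsg.Agent.Lib.H58.PSL2V4

/-!
Simple groups with abelian Sylow 2-subgroups and an involution centralizer `⟨t⟩ × E`,
`PSL₂(q) ⊴ E ≤ Aut(PSL₂(q))`: Sylow 2-subgroups are elementary of order 8 (modulo `Z*`).
-/

set_option autoImplicit false

namespace H58.PSLCent

open Subgroup Cfsg
open H58.ZUse

variable {G : Type*} [Group G] [Finite G]

theorem card_sylow (hab : ∀ S : Sylow 2 G, IsMulCommutative ↥(S : Subgroup G))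
    (t : G) (ht : orderOf t = 2)
    (E : Subgroup G) (hE : Cfsg.IsInternalDirectProduct (Subgroup.zpowers t) E (Subgroup.centralizer ({t} : Set G)))
    {F : Type*} [Field F] [Fintype F] (hFo : Odd (Fintype.card F)) (hF3 : 3 < Fintype.card F)
    (N : Subgroup ↥E) [hN : N.Normal] (f : ↥N ≃* Matrix.ProjectiveSpecialLinearGroup (Fin 2) F)
    (hNc : Subgroup.centralizer (N : Set ↥E) = ⊥)
    (hZ : ∀ K : Subgroup (MulAut ↥N), ZStarFor ↥K) :
    ∀ S : Sylow 2 G, Nat.card ↥(S : Subgroup G) = 8 := by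
  have hp : Fact (Nat.Prime 2) := ⟨Nat.prime_two⟩
  have h2F : (2 : F) ≠ 0 := H58.SL2Prod.two_ne_zero_of_odd hFo
  have hsimp : IsSimpleGroup (Matrix.ProjectiveSpecialLinearGroup (Fin 2) F) :=
    Matrix.ProjectiveSpecialLinearGroup.rank_two_simple (by
      rw [Nat.card_eq_fintype_card]; omega)
  have hNsimple : IsSimpleGroup ↥N := f.isSimpleGroup
  obtain ⟨hE1, hE2, hE3, hE4, hE5⟩ := hE
  -- a Sylow subgroup containing `t`
  have htp : IsPGroup 2 (zpowers t) := IsPGroup.of_card (n := 1) (by rw [Nat.card_zpowers, ht, pow_one])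
  obtain ⟨S, hS⟩ := htp.exists_le_sylow
  have htS : t ∈ (S : Subgroup G) := hS (mem_zpowers t)
  suffices h8 : Nat.card ↥(S : Subgroup G) = 8 by
    intro S'
    rw [← h8]
    show Nat.card S' = Nat.card S
    rw [S'.card_eq_multiplicity, S.card_eq_multiplicity]
  have hSc : ∀ a ∈ (S : Subgroup G), ∀ b ∈ (S : Subgroup G), a * b = b * a := fun a ha b hb =>
    congrArg Subtype.val ((hab S).is_comm.comm (⟨a, ha⟩ : (S : Subgroup G)) ⟨b, hb⟩)
  set C := centralizer ({t} : Set G) with hC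
  have hSC : (S : Subgroup G) ≤ C := by
    intro s hs
    rw [hC, mem_centralizer_singleton_iff]
    exact hSc s hs t htS
  have htt : t * t = 1 := by rw [← pow_two, ← ht, pow_orderOf_eq_one]
  have htE : t ∉ E := by
    intro h
    have h1 : t ∈ zpowers t ⊓ E := ⟨mem_zpowers t, h⟩
    rw [hE4, Subgroup.mem_bot] at h1
    rw [h1, orderOf_one] at ht
    omega
  -- elements of `C`
  have hCdec : ∀ c ∈ C, c ∈ E ∨ c * t ∈ E := by
    intro c hc
    rw [← hE5] at hc
    obtain ⟨a, ha, e, he, rfl⟩ := (H58.SL2Prod.mem_sup_iff hE3).1 hc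
    rcases (H58.SL2Prod.mem_zpowers_two ht).1 ha with rfl | rfl
    · left; rwa [one_mul]
    · right
      have h1 := hE3 a ha e he
      rw [h1, mul_assoc, htt, mul_one]; exact he
  -- conjugation by elements of `C` preserves `N`
  have hNconj : ∀ c ∈ C, ∀ n : N, ∃ n' : N, c * ((n : E) : G) * c⁻¹ = ((n' : E) : G) := by
    intro c hc n
    rcases hCdec c hc with h | h
    · refine ⟨⟨⟨c, h⟩ * (n : E) * (⟨c, h⟩ : E)⁻¹, hN.conj_mem _ n.2 _⟩, rfl⟩
    · refine ⟨⟨⟨c * t, h⟩ * (n : E) * (⟨c * t, h⟩ : E)⁻¹, hN.conj_mem _ n.2 _⟩, ?_⟩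
      show c * ((n : E) : G) * c⁻¹ = (c * t) * ((n : E) : G) * (c * t)⁻¹
      have h1 := hE3 t (mem_zpowers t) ((n : E) : G) (n : E).2
      calc c * ((n : E) : G) * c⁻¹ = c * (((n : E) : G) * t) * t⁻¹ * c⁻¹ := by group
        _ = c * (t * ((n : E) : G)) * t⁻¹ * c⁻¹ := by rw [h1]
        _ = (c * t) * ((n : E) : G) * (c * t)⁻¹ := by group
  -- the trace of `S` on `N`
  let j : N →* G := E.subtype.comp N.subtype
  have hj : Function.Injective j := E.subtype_injective.comp N.subtype_injective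
  set V : Subgroup N := (S : Subgroup G).comap j with hV
  have hV2 : IsPGroup 2 V := S.isPGroup'.comap_of_injective j hj
  obtain ⟨Q, hQ⟩ := hV2.exists_le_sylow
  have hVQ : V = (Q : Subgroup N) := by
    apply Subgroup.eq_of_le_of_card_ge hQ
    -- conjugate `Q` into `S`
    have hQC : (Q : Subgroup N).map j ≤ C := by
      rintro _ ⟨q, -, rfl⟩
      exact hE2 (q : E).2
    have hSi : ¬ 2 ∣ (S : Subgroup G).relIndex C := by
      intro h
      have h1 : (S : Subgroup G).relIndex C ∣ (S : Subgroup G).index := Subgroup.relIndex_dvd_index_of_le hSC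
      exact S.not_dvd_index (h.trans h1)
    obtain ⟨h, hh, hhQ⟩ := H58.Rel.exists_conj_mem_sylowOf hQC (Q.isPGroup'.map j) S.isPGroup' hSi
    choose φ hφ using hNconj h hh
    have hmem : ∀ q : (Q : Subgroup N), φ q ∈ V := by
      intro q
      rw [hV, Subgroup.mem_comap]
      show ((φ q : E) : G) ∈ (S : Subgroup G)
      rw [← hφ]
      exact hhQ _ ⟨q, q.2, rfl⟩
    apply Nat.card_le_card_of_injective (fun q : (Q : Subgroup N) => (⟨φ q, hmem q⟩ : V))
    intro a b hab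
    have h1 : φ a = φ b := congrArg Subtype.val hab
    have h3 : h * ((((a : N) : E) : G)) * h⁻¹ = h * ((((b : N) : E) : G)) * h⁻¹ := by
      rw [hφ, hφ, h1]
    have h4 := mul_left_cancel (mul_right_cancel h3)
    exact Subtype.ext (hj h4)
  have hVcomm : IsMulCommutative ↥(Q : Subgroup N) := by
    refine ⟨⟨?_⟩⟩
    rintro ⟨a, ha⟩ ⟨b, hb⟩
    apply Subtype.ext
    apply hj
    rw [← hVQ] at ha hb
    exact hSc (j a) ha (j b) hb
  -- the Sylow subgroup of `PSL₂`
  let R : Sylow 2 (Matrix.ProjectiveSpecialLinearGroup (Fin 2) F) := Q.mapSurjective (f := f.toMonoidHom) f.surjective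
  have hRmem : ∀ x, x ∈ (R : Subgroup (Matrix.ProjectiveSpecialLinearGroup (Fin 2) F)) ↔
      ∃ q ∈ (Q : Subgroup N), f q = x := fun x => Iff.rfl
  have hRc : IsMulCommutative (R : Subgroup (Matrix.ProjectiveSpecialLinearGroup (Fin 2) F)) := by
    refine ⟨⟨?_⟩⟩
    rintro ⟨x, a, ha, rfl⟩ ⟨y, b, hb, rfl⟩
    apply Subtype.ext
    show f a * f b = f b * f a
    rw [← map_mul, ← map_mul]
    congr 1
    exact congrArg Subtype.val (hVcomm.is_comm.comm (⟨a, ha⟩ : (Q : Subgroup N)) ⟨b, hb⟩)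
  obtain ⟨hR4, -⟩ := H58.PSL2V4.sylow_two h2F R hRc
  have hV4 : Nat.card V = 4 := by
    rw [← hR4, hVQ]
    exact (Subgroup.card_map_of_injective (f := f.toMonoidHom) f.injective).symm
  have hNeven : 2 ∣ Nat.card N := by
    have h1 : Nat.card V ∣ Nat.card N := Subgroup.card_subgroup_dvd_card V
    rw [hV4] at h1
    exact (by norm_num : 2 ∣ 4).trans h1
  have hNna : ¬ IsMulCommutative ↥N := by
    intro h
    have h1 : (N : Set E) ⊆ centralizer (N : Set E) := by
      intro n hn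
      rw [SetLike.mem_coe, mem_centralizer_iff]
      intro m hm
      exact congrArg Subtype.val (h.is_comm.comm (⟨m, hm⟩ : N) ⟨n, hn⟩)
    rw [hNc] at h1
    have h3 : N ≤ ⊥ := h1
    rw [le_bot_iff] at h3
    have h4 : Nat.card N = 1 := by rw [h3, Subgroup.card_bot]
    rw [h4] at hNeven
    omega
  -- `S ∩ E ≤ N`
  have hSE : ∀ e ∈ (S : Subgroup G), ∀ he : e ∈ E, (⟨e, he⟩ : E) ∈ N := by
    intro e heS he
    obtain ⟨k, hk⟩ := S.isPGroup' ⟨e, heS⟩
    have hk' : e ^ 2 ^ k = 1 := congrArg Subtype.val hk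
    have hα := H58.AbSyl.inner_of_fix hZ hNna hNeven Q hVcomm k (MulAut.conjNormal (⟨e, he⟩ : E)) (by
      rw [← map_pow]
      have h1 : (⟨e, he⟩ : E) ^ 2 ^ k = 1 := Subtype.ext hk'
      rw [h1, map_one]) (by
      intro s hs
      rw [← hVQ] at hs
      apply Subtype.ext
      apply Subtype.ext
      rw [MulAut.conjNormal_apply]
      show e * ((s : E) : G) * e⁻¹ = ((s : E) : G)
      have h1 : ((s : E) : G) ∈ (S : Subgroup G) := hs
      rw [hSc e heS _ h1, mul_inv_cancel_right])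
    obtain ⟨n0, hn0⟩ := hα
    have h1 : (n0 : E)⁻¹ * ⟨e, he⟩ ∈ centralizer (N : Set E) := by
      rw [mem_centralizer_iff]
      intro m hm
      have h3 := congrArg (fun ψ : MulAut N => ((ψ ⟨m, hm⟩ : N) : E)) hn0
      have h4 : (n0 : E) * m * (n0 : E)⁻¹ = ⟨e, he⟩ * m * (⟨e, he⟩ : E)⁻¹ := by
        have h5 : ((MulAut.conjNormal (⟨e, he⟩ : E) (⟨m, hm⟩ : N) : N) : E) = ⟨e, he⟩ * m * (⟨e, he⟩ : E)⁻¹ :=
          MulAut.conjNormal_apply _ _
        rw [← h5]
        exact h3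
      calc m * ((n0 : E)⁻¹ * ⟨e, he⟩) = (n0 : E)⁻¹ * ((n0 : E) * m * (n0 : E)⁻¹) * ⟨e, he⟩ := by group
        _ = (n0 : E)⁻¹ * (⟨e, he⟩ * m * (⟨e, he⟩ : E)⁻¹) * ⟨e, he⟩ := by rw [h4]
        _ = (n0 : E)⁻¹ * ⟨e, he⟩ * m := by group
    rw [hNc, Subgroup.mem_bot, inv_mul_eq_one] at h1
    rw [← h1]; exact n0.2
  -- orders
  have h1 : ((S : Subgroup G) ⊓ E).relIndex (S : Subgroup G) = 2 := by
    rw [Subgroup.relIndex_eq_two_iff_exists_notMem_and]
    refine ⟨t, htS, fun h => htE h.2, fun b hb => ?_⟩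
    rcases hCdec b (hSC hb) with h | h
    · right; exact ⟨hb, h⟩
    · left; exact ⟨mul_mem hb htS, h⟩
  have h2 : V.map j = (S : Subgroup G) ⊓ E := by
    apply le_antisymm
    · rintro _ ⟨v, hv, rfl⟩
      exact ⟨hv, (v : E).2⟩
    · rintro e ⟨heS, heE⟩
      exact ⟨⟨⟨e, heE⟩, hSE e heS heE⟩, heS, rfl⟩
  have h3 : Nat.card ((S : Subgroup G) ⊓ E : Subgroup G) = 4 := by
    rw [← h2, Subgroup.card_map_of_injective hj, hV4]
  have h4 := Subgroup.card_mul_index (((S : Subgroup G) ⊓ E).subgroupOf (S : Subgroup G))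
  rw [Nat.card_congr (Subgroup.subgroupOfEquivOfLe inf_le_left).toEquiv, h3] at h4
  have h5 : (((S : Subgroup G) ⊓ E).subgroupOf (S : Subgroup G)).index = 2 := h1
  rw [h5] at h4
  exact h4.symm

end H58.PSLCent
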