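import Mathlib

/-! A conjugation invariant set of elements of prime order satisfying the one-or-all property on commuting
pairs contains an element commuting with the whole set. -/

set_option autoImplicit false

namespace H58.PolarClass

variable {G : Type*} [Group G]

theorem commute_of_zpow {p : ℕ} (hp : p.Prime) {x w : G} (hx : x ^ p = 1) {k : ℤ} (hk : x ^ k ≠ 1)
    (h : Commute w (x ^ k)) : Commute w x := by
  have h1 : ¬ (p : ℤ) ∣ k := by
    rintro ⟨m, rfl⟩
    apply hk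
    rw [zpow_mul, zpow_natCast, hx, one_zpow]
  have h2 : IsCoprime (p : ℤ) k := (Nat.prime_iff_prime_int.1 hp).coprime_iff_not_dvd.2 h1
  obtain ⟨a, b, hab⟩ := h2
  have h3 : x = (x ^ k) ^ b := by
    have h4 : x ^ (a * (p : ℤ) + b * k) = (x ^ k) ^ b := by
      rw [zpow_add, mul_comm a, mul_comm b, zpow_mul, zpow_mul, zpow_natCast, hx, one_zpow, one_mul]
    rwa [hab, zpow_one] at h4
  rw [h3]
  exact h.zpow_right b

/-- The hypotheses on the set `E`. -/
structure Hyp (p : ℕ) (E : Set G) : Prop where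
  prime : p.Prime
  ne_one : ∀ x ∈ E, x ≠ 1
  pow_p : ∀ x ∈ E, x ^ p = 1
  conj : ∀ x ∈ E, ∀ g : G, g * x * g⁻¹ ∈ E
  line : ∀ x ∈ E, ∀ y ∈ E, Commute x y → ∀ i j : ℤ, x ^ i * y ^ j ≠ 1 → x ^ i * y ^ j ∈ E
  oneAll : ∀ x ∈ E, ∀ y ∈ E, Commute x y → y ∉ Subgroup.zpowers x → ∀ w ∈ E,
    ∃ i j : ℤ, x ^ i * y ^ j ≠ 1 ∧ Commute w (x ^ i * y ^ j)
  exists_line : ∃ x ∈ E, ∃ y ∈ E, Commute x y ∧ y ∉ Subgroup.zpowers x

variable {p : ℕ} {E : Set G}

theorem commute_of_mem_zpowers {x v z : G} (hv : v ∈ Subgroup.zpowers x) (h : Commute z x) : Commute z v := by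
  obtain ⟨k, rfl⟩ := Subgroup.mem_zpowers_iff.1 hv
  exact h.zpow_right k

theorem zpow_mem (H : Hyp p E) {x : G} (hx : x ∈ E) {k : ℤ} (hk : x ^ k ≠ 1) : x ^ k ∈ E := by
  have := H.line x hx x hx (Commute.refl x) k 0 (by simpa using hk)
  simpa using this

/-- each point lies on a line -/
theorem exists_partner (H : Hyp p E) {x : G} (hx : x ∈ E) :
    ∃ y ∈ E, Commute x y ∧ y ∉ Subgroup.zpowers x := by
  obtain ⟨x0, hx0, y0, hy0, hc, hne⟩ := H.exists_line
  obtain ⟨i, j, hij, hcx⟩ := H.oneAll x0 hx0 y0 hy0 hc hne x hx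
  have huE := H.line x0 hx0 y0 hy0 hc i j hij
  by_cases hu : x0 ^ i * y0 ^ j ∈ Subgroup.zpowers x
  · -- then x commutes with x0 and y0
    obtain ⟨k, hk⟩ := Subgroup.mem_zpowers_iff.1 hu
    have h0 : Commute x0 (x ^ k) := by
      rw [hk]; exact ((Commute.refl x0).zpow_right i).mul_right (hc.zpow_right j)
    have h1 : Commute y0 (x ^ k) := by
      rw [hk]; exact (hc.symm.zpow_right i).mul_right ((Commute.refl y0).zpow_right j)
    have hk1 : x ^ k ≠ 1 := by rw [hk]; exact hij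
    have h0' := commute_of_zpow H.prime (H.pow_p x hx) hk1 h0
    have h1' := commute_of_zpow H.prime (H.pow_p x hx) hk1 h1
    by_cases hx0x : x0 ∈ Subgroup.zpowers x
    · refine ⟨y0, hy0, h1'.symm, fun h => hne ?_⟩
      -- y0 ∈ zpowers x = zpowers x0
      obtain ⟨a, ha⟩ := Subgroup.mem_zpowers_iff.1 hx0x
      have hcop : IsCoprime (p : ℤ) a := by
        apply (Nat.prime_iff_prime_int.1 H.prime).coprime_iff_not_dvd.2
        rintro ⟨m, rfl⟩
        rw [zpow_mul, zpow_natCast, H.pow_p x hx, one_zpow] at ha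
        exact H.ne_one x0 hx0 ha.symm
      obtain ⟨s, t, hst⟩ := hcop
      have h4 : x = x0 ^ t := by
        have h5 : x ^ (s * (p : ℤ) + t * a) = (x ^ a) ^ t := by
          rw [zpow_add, mul_comm s, mul_comm t, zpow_mul, zpow_mul, zpow_natCast, H.pow_p x hx, one_zpow, one_mul]
        rw [hst, zpow_one, ha] at h5
        exact h5
      have h6 : x ∈ Subgroup.zpowers x0 := Subgroup.mem_zpowers_iff.2 ⟨t, h4.symm⟩
      exact (Subgroup.zpowers_le.2 h6) h
    · exact ⟨x0, hx0, h0'.symm, hx0x⟩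
  · exact ⟨_, huE, hcx, hu⟩

/-- main step for a non-special pair -/
theorem step (H : Hyp p E) {x z u v : G} (hx : x ∈ E) (hz : z ∈ E) (hu : u ∈ E) (hv : v ∈ E)
    (hxz : Commute x z) (huxz : Commute u (x * z)) (hux : ¬ Commute u x) (hns : ¬ Commute u (x⁻¹ * u * x))
    (hxv : Commute x v) : Commute z v := by
  by_cases hvx : v ∈ Subgroup.zpowers x
  · exact commute_of_mem_zpowers hvx hxz.symm
  obtain ⟨i, j, hij, hut⟩ := H.oneAll x hx v hv hxv hvx u hu
  have htE := H.line x hx v hv hxv i j hij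
  obtain ⟨t, ht⟩ : ∃ t, t = x ^ i * v ^ j := ⟨_, rfl⟩
  rw [← ht] at hij hut htE
  have hvj : v ^ j ≠ 1 := by
    intro h
    rw [h, mul_one] at ht
    rw [ht] at hij hut
    exact hux (commute_of_zpow H.prime (H.pow_p x hx) hij hut)
  have hxt : Commute x t := by
    rw [ht]; exact ((Commute.refl x).zpow_right i).mul_right (hxv.zpow_right j)
  suffices hzt : Commute z t by
    have h1 : v ^ j = (x ^ i)⁻¹ * t := by rw [ht]; group
    have h2 : Commute z (v ^ j) := by
      rw [h1]; exact ((hxz.symm.zpow_right i).inv_right).mul_right hzt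
    exact commute_of_zpow H.prime (H.pow_p v hv) hvj h2
  have hut' : u ∉ Subgroup.zpowers t := fun h => hux (commute_of_mem_zpowers h hxt).symm
  obtain ⟨i', j', hs1, hzs⟩ := H.oneAll t htE u hu hut.symm hut' z hz
  -- x⁻¹ u x = z u z⁻¹
  have hu1 : x⁻¹ * u * x = z * u * z⁻¹ := by
    have h1 : u * (x * z) = (x * z) * u := huxz
    calc x⁻¹ * u * x = x⁻¹ * (u * (x * z)) * z⁻¹ := by group
      _ = x⁻¹ * ((x * z) * u) * z⁻¹ := by rw [h1]
      _ = z * u * z⁻¹ := by group
  by_cases huj : u ^ j' = 1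
  · rw [huj, mul_one] at hs1 hzs
    exact commute_of_zpow H.prime (H.pow_p t htE) hs1 hzs
  · exfalso
    apply hns
    -- s = t^i' u^j' commutes with u1, t commutes with u1
    have hsu : Commute (t ^ i' * u ^ j') u := ((hut.symm).zpow_left i').mul_left ((Commute.refl u).zpow_left j')
    have hs1' : Commute (t ^ i' * u ^ j') (x⁻¹ * u * x) := by
      rw [hu1]
      exact (hzs.symm.mul_right hsu).mul_right hzs.symm.inv_right
    have ht1 : Commute t (x⁻¹ * u * x) := (hxt.symm.inv_right.mul_right hut.symm).mul_right hxt.symm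
    have h2 : u ^ j' = (t ^ i')⁻¹ * (t ^ i' * u ^ j') := by group
    have h3 : Commute (u ^ j') (x⁻¹ * u * x) := by
      rw [h2]; exact ((ht1.zpow_left i').inv_left).mul_left hs1'
    exact (commute_of_zpow H.prime (H.pow_p u hu) huj h3.symm).symm

/-- If some noncommuting pair is not special, there is a central point. -/
theorem exists_central_of_nonspecial (H : Hyp p E) {x w : G} (hx : x ∈ E) (hw : w ∈ E) (hwx : ¬ Commute w x)
    (hns : ¬ Commute w (x⁻¹ * w * x)) : ∃ v ∈ E, ∀ u ∈ E, Commute v u := by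
  obtain ⟨y, hy, hxy, hyx⟩ := exists_partner H hx
  obtain ⟨i, j, hij, hwl⟩ := H.oneAll x hx y hy hxy hyx w hw
  have hlE := H.line x hx y hy hxy i j hij
  obtain ⟨l, hl⟩ : ∃ l, l = x ^ i * y ^ j := ⟨_, rfl⟩
  rw [← hl] at hij hwl hlE
  have hxl : Commute x l := by
    rw [hl]; exact ((Commute.refl x).zpow_right i).mul_right (hxy.zpow_right j)
  have hlx : l ∉ Subgroup.zpowers x := by
    intro h
    obtain ⟨k, hk⟩ := Subgroup.mem_zpowers_iff.1 h
    apply hwx
    apply commute_of_zpow H.prime (H.pow_p x hx) (k := k) _ (by rw [hk]; exact hwl)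
    rw [hk]; exact hij
  -- points x⁻¹ l^k
  have hpt : ∀ k : ℤ, x⁻¹ * l ^ k ≠ 1 → x⁻¹ * l ^ k ∈ E := by
    intro k hk
    have := H.line x hx l hlE hxl (-1) k (by simpa using hk)
    simpa using this
  have hpt1 : ∀ k : ℤ, l ^ k ≠ 1 → x⁻¹ * l ^ k ≠ 1 := by
    intro k hk h
    have h1 : l ^ k = x := by rw [inv_mul_eq_one] at h; exact h.symm
    exact hwx (by rw [← h1]; exact hwl.zpow_right k)
  have hxz : ∀ k : ℤ, Commute x (x⁻¹ * l ^ k) := fun k =>
    ((Commute.refl x).inv_right).mul_right (hxl.zpow_right k)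
  have hwxz : ∀ k : ℤ, Commute w (x * (x⁻¹ * l ^ k)) := fun k => by
    rw [mul_inv_cancel_left]; exact hwl.zpow_right k
  -- x^⊥ ⊆ l^⊥
  have hsub : ∀ v ∈ E, Commute x v → Commute l v := by
    intro v hv hxv
    have h1 : l ^ (1 : ℤ) ≠ 1 := by rw [zpow_one]; exact H.ne_one l hlE
    have h2 := step H hx (hpt 1 (hpt1 1 h1)) hw hv (hxz 1) (hwxz 1) hwx hns hxv
    have h3 : l = x * (x⁻¹ * l ^ (1 : ℤ)) := by rw [zpow_one]; group
    rw [h3]
    exact hxv.mul_left h2
  refine ⟨l, hlE, fun v hv => ?_⟩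
  obtain ⟨a, b, hab, hvs⟩ := H.oneAll x hx l hlE hxl hlx v hv
  by_cases hxa : x ^ a = 1
  · rw [hxa, one_mul] at hab hvs
    exact (commute_of_zpow H.prime (H.pow_p l hlE) hab hvs).symm
  · -- raise to a power to normalise
    have hpa : ¬ (p : ℤ) ∣ a := by
      rintro ⟨m, rfl⟩
      apply hxa
      rw [zpow_mul, zpow_natCast, H.pow_p x hx, one_zpow]
    obtain ⟨s, t, hst⟩ := (Nat.prime_iff_prime_int.1 H.prime).coprime_iff_not_dvd.2 hpa
    have h1 : (x ^ a * l ^ b) ^ (-t) = x⁻¹ * l ^ (-(b * t)) := by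
      have hc : Commute (x ^ a) (l ^ b) := (hxl.zpow_left a).zpow_right b
      rw [hc.mul_zpow, ← zpow_mul, ← zpow_mul]
      have h2 : x ^ (a * -t) = x⁻¹ := by
        have h3 : a * -t = (p : ℤ) * s + (-1) := by linear_combination (-1 : ℤ) * hst
        rw [h3, zpow_add, zpow_mul, zpow_natCast, H.pow_p x hx, one_zpow, one_mul, zpow_neg_one]
      rw [h2]
      congr 2
      ring
    have hvs' : Commute v (x⁻¹ * l ^ (-(b * t))) := by rw [← h1]; exact hvs.zpow_right _
    apply hsub v hv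
    by_cases hlk : l ^ (-(b * t)) = 1
    · rw [hlk, mul_one] at hvs'
      exact (Commute.inv_right_iff.1 hvs').symm
    · -- use `step` with the roles of x and z exchanged
      set z := x⁻¹ * l ^ (-(b * t)) with hzdef
      have hzE : z ∈ E := hpt _ (hpt1 _ hlk)
      have hxz' : Commute x z := hxz _
      have hwz : Commute w (z * x) := by rw [← hxz'.eq]; exact hwxz _
      have hwz' : ¬ Commute w z := by
        intro h
        apply hwx
        have h3 : x = (z * x) * z⁻¹ * (1 : G) := by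
          rw [← hxz'.eq]; group
        rw [h3]
        exact (hwz.mul_right h.inv_right).mul_right (Commute.one_right w)
      refine step H hzE hx hw hv hxz'.symm hwz hwz' ?_ hvs'.symm
      intro h
      apply hns
      -- z⁻¹ w z = x w x⁻¹
      have h3 : z⁻¹ * w * z = x * w * x⁻¹ := by
        have h4 : w * (z * x) = (z * x) * w := hwz
        calc z⁻¹ * w * z = z⁻¹ * (w * (z * x)) * x⁻¹ := by group
          _ = z⁻¹ * ((z * x) * w) * x⁻¹ := by rw [h4]
          _ = x * w * x⁻¹ := by group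
      rw [h3] at h
      have h5 : w * (x * w * x⁻¹) = (x * w * x⁻¹) * w := h
      change w * (x⁻¹ * w * x) = (x⁻¹ * w * x) * w
      calc w * (x⁻¹ * w * x) = x⁻¹ * ((x * w * x⁻¹) * w) * x := by group
        _ = x⁻¹ * (w * (x * w * x⁻¹)) * x := by rw [h5]
        _ = (x⁻¹ * w * x) * w := by group

/-- The main theorem. -/
theorem exists_central [Finite G] (H : Hyp p E) : ∃ v ∈ E, ∀ u ∈ E, Commute v u := by
  by_cases hns : ∃ x ∈ E, ∃ w ∈ E, ¬ Commute w x ∧ ¬ Commute w (x⁻¹ * w * x)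
  · obtain ⟨x, hx, w, hw, h1, h2⟩ := hns
    exact exists_central_of_nonspecial H hx hw h1 h2
  push Not at hns
  -- choose x with maximal perp
  obtain ⟨x0, hx0, -⟩ := H.exists_line
  obtain ⟨x, hx, hmax⟩ := Set.exists_max_image E (fun x => {v | v ∈ E ∧ Commute x v}.ncard) (Set.toFinite E) ⟨x0, hx0⟩
  refine ⟨x, hx, ?_⟩
  by_contra hcon
  push Not at hcon
  obtain ⟨w, hw, hxw⟩ := hcon
  have hwx : ¬ Commute w x := fun h => hxw h.symm
  -- r = w⁻¹ x⁻¹ w x
  obtain ⟨r, hr⟩ : ∃ r, r = w⁻¹ * x⁻¹ * w * x := ⟨_, rfl⟩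
  have hs1 : Commute w (x⁻¹ * w * x) := hns x hx w hw hwx
  have hs2 : Commute x (w⁻¹ * x * w) := hns w hw x hx hxw
  have hrw : Commute r w := by
    have : r = w⁻¹ * (x⁻¹ * w * x) := by rw [hr]; group
    rw [this]
    exact ((Commute.refl w).inv_left).mul_left hs1.symm
  have hrx : Commute r x := by
    have : r = (w⁻¹ * x * w)⁻¹ * x := by rw [hr]; group
    rw [this]
    exact (hs2.symm.inv_left).mul_left (Commute.refl x)
  have hr1 : r ≠ 1 := by
    intro h
    apply hwx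
    rw [h] at hr
    have h2 : w * x = x * w := by
      calc w * x = x * w * (w⁻¹ * x⁻¹ * w * x) := by group
        _ = x * w * 1 := by rw [← hr]
        _ = x * w := mul_one _
    exact h2
  have hw1E : x⁻¹ * w * x ∈ E := by simpa using H.conj w hw x⁻¹
  have hrE : r ∈ E := by
    have h1 : r = w ^ (-1 : ℤ) * (x⁻¹ * w * x) ^ (1 : ℤ) := by rw [hr]; group
    rw [h1]
    exact H.line w hw _ hw1E hs1 (-1) 1 (by rw [← h1]; exact hr1)
  -- x^⊥ ⊆ r^⊥
  have hsub : ∀ v ∈ E, Commute x v → Commute r v := by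
    intro v hv hxv
    by_cases hvw : Commute v w
    · rw [hr]
      exact (((hvw.symm.inv_left).mul_left hxv.inv_left).mul_left hvw.symm).mul_left hxv
    by_cases hvx : v ∈ Subgroup.zpowers x
    · exact commute_of_mem_zpowers hvx hrx
    obtain ⟨i, j, hij, hwt⟩ := H.oneAll x hx v hv hxv hvx w hw
    have hvj : v ^ j ≠ 1 := by
      intro h
      rw [h, mul_one] at hij hwt
      exact hwx (commute_of_zpow H.prime (H.pow_p x hx) hij hwt)
    have hpj : ¬ (p : ℤ) ∣ j := by
      rintro ⟨m, rfl⟩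
      apply hvj
      rw [zpow_mul, zpow_natCast, H.pow_p v hv, one_zpow]
    obtain ⟨s, t, hst⟩ := (Nat.prime_iff_prime_int.1 H.prime).coprime_iff_not_dvd.2 hpj
    -- t' = x^k v commutes with w
    set k : ℤ := i * t with hk
    have ht' : (x ^ i * v ^ j) ^ t = x ^ k * v := by
      have hc : Commute (x ^ i) (v ^ j) := (hxv.zpow_left i).zpow_right j
      rw [hc.mul_zpow, ← zpow_mul, ← zpow_mul]
      have h2 : v ^ (j * t) = v := by
        have h3 : j * t = (p : ℤ) * (-s) + 1 := by linear_combination hst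
        rw [h3, zpow_add, zpow_mul, zpow_natCast, H.pow_p v hv, one_zpow, one_mul, zpow_one]
      rw [h2]
    have hwt' : Commute w (x ^ k * v) := by rw [← ht']; exact hwt.zpow_right t
    have hxk : x ^ k ≠ 1 := by
      intro h
      rw [h, one_mul] at hwt'
      exact hvw hwt'.symm
    -- w⁻¹ x^k w = x^k r^(-k)
    have hxr : w⁻¹ * x * w = x * r⁻¹ := by
      have h1 : r = (w⁻¹ * x * w)⁻¹ * x := by rw [hr]; group
      rw [h1]; group
    have hxkr : w⁻¹ * x ^ k * w = x ^ k * (r ^ k)⁻¹ := by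
      have h1 : w⁻¹ * x ^ k * w = (w⁻¹ * x * w) ^ k := by
        have := conj_zpow (i := k) (a := w⁻¹) (b := x)
        simpa using this.symm
      rw [h1, hxr, (hrx.symm.inv_right).mul_zpow, inv_zpow]
    -- r_v = w⁻¹ v⁻¹ w v commutes with v
    have hrv : Commute (w⁻¹ * v * w) v := (hns w hw v hv hvw).symm
    -- w⁻¹ v w = (w⁻¹ x^k w)⁻¹ (x^k v)
    have h4 : w⁻¹ * v * w = r ^ k * v := by
      have h5 : w⁻¹ * (x ^ k * v) * w = x ^ k * v := by
        rw [mul_assoc, ← hwt'.eq]; group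
      have h6 : w⁻¹ * (x ^ k * v) * w = (w⁻¹ * x ^ k * w) * (w⁻¹ * v * w) := by group
      rw [h5, hxkr] at h6
      have h7 : w⁻¹ * v * w = r ^ k * (x ^ k)⁻¹ * (x ^ k * v) := by
        rw [h6]; group
      rw [h7]; group
    rw [h4] at hrv
    have h8 : Commute (r ^ k) v := by
      have h9 : r ^ k = (r ^ k * v) * v⁻¹ := by group
      rw [h9]
      exact hrv.mul_left ((Commute.refl v).inv_left)
    have hrk : r ^ k ≠ 1 := by
      intro h
      -- p ∣ k would give x^k = 1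
      apply hxk
      have hpk : (p : ℤ) ∣ k := by
        have ho : orderOf r = p := orderOf_eq_prime (H.pow_p r hrE) hr1 (hp := ⟨H.prime⟩)
        rw [← ho]
        exact orderOf_dvd_iff_zpow_eq_one.2 h
      obtain ⟨m, hm⟩ := hpk
      rw [hm, zpow_mul, zpow_natCast, H.pow_p x hx, one_zpow]
    exact (commute_of_zpow H.prime (H.pow_p r hrE) hrk h8.symm).symm
  have hlt : {v | v ∈ E ∧ Commute x v}.ncard < {v | v ∈ E ∧ Commute r v}.ncard := by
    apply Set.ncard_lt_ncard _ (Set.toFinite _)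
    refine ⟨fun v hv => ⟨hv.1, hsub v hv.1 hv.2⟩, fun h => ?_⟩
    have h1 : w ∈ {v | v ∈ E ∧ Commute r v} := ⟨hw, hrw⟩
    exact hxw (h h1).2
  have := hmax r hrE
  omega

end H58.PolarClass
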