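import Mathlib

/-! Two-groups with small upper central series: normal subgroups (helper58). -/

set_option autoImplicit false
set_option linter.style.haveILetI false

namespace H58.RuA

open Subgroup

variable {T : Type*} [Group T]

theorem ucs_lt (h0 : Group.IsNilpotent T) {n : ℕ} (h : Subgroup.upperCentralSeries T n ≠ ⊤) :
    Subgroup.upperCentralSeries T n < Subgroup.upperCentralSeries T (n + 1) := by
  refine lt_of_le_of_ne (Subgroup.upperCentralSeries_mono T (Nat.le_succ n)) ?_
  intro heq
  obtain ⟨c, hc⟩ := h0.nilpotent'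
  have h1 : ∀ m, Subgroup.upperCentralSeries T (n + m) = Subgroup.upperCentralSeries T n := by
    intro m
    induction m with
    | zero => rfl
    | succ m ih =>
      apply le_antisymm
      · intro x hx
        rw [← add_assoc, Subgroup.mem_upperCentralSeries_succ_iff] at hx
        rw [heq, Subgroup.mem_upperCentralSeries_succ_iff]
        intro y
        rw [← ih]
        exact hx y
      · exact Subgroup.upperCentralSeries_mono T (by omega)
  apply h
  rw [← h1 c, eq_top_iff, ← hc]
  exact Subgroup.upperCentralSeries_mono T (by omega)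

theorem two_mul_card_le [Finite T] {A B : Subgroup T} (h : A < B) : 2 * Nat.card A ≤ Nat.card B := by
  obtain ⟨k, hk⟩ := Subgroup.card_dvd_of_le h.le
  have h1 : k ≠ 0 := by
    rintro rfl
    rw [mul_zero] at hk
    exact Nat.card_pos.ne' hk
  have h2 : k ≠ 1 := by
    rintro rfl
    rw [mul_one] at hk
    exact h.ne (Subgroup.eq_of_le_of_card_ge h.le hk.le)
  rw [hk, mul_comm]
  exact Nat.mul_le_mul_left _ (by omega)

theorem card_ucs [Finite T] (hT : IsPGroup 2 T) (ha : 16 < Nat.card T)
    (hb : Nat.card (Subgroup.upperCentralSeries T 4) = 16) :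
    Nat.card (Subgroup.upperCentralSeries T 1) = 2 ∧ Nat.card (Subgroup.upperCentralSeries T 2) = 4 ∧
      Nat.card (Subgroup.upperCentralSeries T 3) = 8 := by
  haveI : Fact (Nat.Prime 2) := ⟨Nat.prime_two⟩
  have hnil : Group.IsNilpotent T := hT.isNilpotent
  have h4 : Subgroup.upperCentralSeries T 4 ≠ ⊤ := by
    intro h
    rw [h, Subgroup.card_top] at hb
    omega
  have hne : ∀ i, i ≤ 4 → Subgroup.upperCentralSeries T i ≠ ⊤ := by
    intro i hi h
    apply h4
    rw [eq_top_iff, ← h]
    exact Subgroup.upperCentralSeries_mono T hi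
  have h0 : Nat.card (Subgroup.upperCentralSeries T 0) = 1 := by
    rw [Subgroup.upperCentralSeries_zero, Subgroup.card_bot]
  have e0 := two_mul_card_le (ucs_lt hnil (hne 0 (by omega)))
  have e1 := two_mul_card_le (ucs_lt hnil (hne 1 (by omega)))
  have e2 := two_mul_card_le (ucs_lt hnil (hne 2 (by omega)))
  have e3 := two_mul_card_le (ucs_lt hnil (hne 3 (by omega)))
  simp only [zero_add, Nat.reduceAdd] at e0 e1 e2 e3
  omega

/-- a normal subgroup meets `Z_{i+1}` outside `Z_i`. -/
theorem exists_mem (h0 : Group.IsNilpotent T) {N : Subgroup T} [hN : N.Normal] {i : ℕ}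
    (h : ¬ N ≤ Subgroup.upperCentralSeries T i) :
    ∃ x ∈ N, x ∈ Subgroup.upperCentralSeries T (i + 1) ∧ x ∉ Subgroup.upperCentralSeries T i := by
  classical
  obtain ⟨c, hc⟩ := h0.nilpotent'
  have hex : ∃ k, ¬ (N ⊓ Subgroup.upperCentralSeries T k ≤ Subgroup.upperCentralSeries T i) := ⟨c, by rwa [hc, inf_top_eq]⟩
  have hk := Nat.find_spec hex
  have hmin : ∀ m < Nat.find hex, N ⊓ Subgroup.upperCentralSeries T m ≤ Subgroup.upperCentralSeries T i := by
    intro m hm
    by_contra hcon
    exact Nat.find_min hex hm hcon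
  rcases hcase : Nat.find hex with _ | k
  · rw [hcase, Subgroup.upperCentralSeries_zero, inf_bot_eq] at hk
    exact absurd bot_le hk
  · rw [hcase] at hk hmin
    rw [SetLike.not_le_iff_exists] at hk
    obtain ⟨x, hx, hxi⟩ := hk
    rw [mem_inf] at hx
    refine ⟨x, hx.1, ?_, hxi⟩
    rw [Subgroup.mem_upperCentralSeries_succ_iff]
    intro y
    apply hmin k (Nat.lt_succ_self k)
    rw [commutatorElement_def]
    refine mem_inf.2 ⟨?_, ?_⟩
    · have h1 : y * x⁻¹ * y⁻¹ ∈ N := hN.conj_mem _ (inv_mem hx.1) y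
      have h2 : x * (y * x⁻¹ * y⁻¹) ∈ N := mul_mem hx.1 h1
      simpa [mul_assoc] using h2
    · have h3 := (Subgroup.mem_upperCentralSeries_succ_iff).1 hx.2 y
      rwa [commutatorElement_def] at h3

theorem ucs_le_of_normal (h0 : Group.IsNilpotent T) {N : Subgroup T} [hN : N.Normal] {i : ℕ}
    (hcard : Nat.card (Subgroup.upperCentralSeries T (i + 1)) = 2 * Nat.card (Subgroup.upperCentralSeries T i)) [Finite T]
    (hi : Subgroup.upperCentralSeries T i ≤ N) (h : ¬ N ≤ Subgroup.upperCentralSeries T i) :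
    Subgroup.upperCentralSeries T (i + 1) ≤ N := by
  obtain ⟨x, hx, hx1, hx2⟩ := exists_mem h0 h
  have h1 : Subgroup.upperCentralSeries T i < N ⊓ Subgroup.upperCentralSeries T (i + 1) := by
    refine lt_of_le_of_ne (le_inf hi (Subgroup.upperCentralSeries_mono T (Nat.le_succ i))) ?_
    intro heq
    apply hx2
    rw [heq]
    exact mem_inf.2 ⟨hx, hx1⟩
  have h2 := two_mul_card_le h1
  rw [← hcard] at h2
  have h3 : N ⊓ Subgroup.upperCentralSeries T (i + 1) = Subgroup.upperCentralSeries T (i + 1) :=
    Subgroup.eq_of_le_of_card_ge inf_le_right h2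
  exact inf_eq_right.1 h3

/-- the statement for all four steps -/
theorem ucs_le [Finite T] (hT : IsPGroup 2 T) (ha : 16 < Nat.card T)
    (hb : Nat.card (Subgroup.upperCentralSeries T 4) = 16) {N : Subgroup T} [hN : N.Normal] {i : ℕ} (hi : i ≤ 3)
    (h : ¬ N ≤ Subgroup.upperCentralSeries T i) : Subgroup.upperCentralSeries T (i + 1) ≤ N := by
  haveI : Fact (Nat.Prime 2) := ⟨Nat.prime_two⟩
  have hnil : Group.IsNilpotent T := hT.isNilpotent
  obtain ⟨c1, c2, c3⟩ := card_ucs hT ha hb
  have c0 : Nat.card (Subgroup.upperCentralSeries T 0) = 1 := by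
    rw [Subgroup.upperCentralSeries_zero, Subgroup.card_bot]
  have hc : ∀ j, j ≤ 3 → Nat.card (Subgroup.upperCentralSeries T (j + 1)) = 2 * Nat.card (Subgroup.upperCentralSeries T j) := by
    intro j hj
    interval_cases j
    · rw [zero_add, c1, c0]
    · rw [c2, c1]
    · rw [c3, c2]
    · rw [hb, c3]
  induction i with
  | zero =>
    refine ucs_le_of_normal hnil (hc 0 (by omega)) ?_ h
    rw [Subgroup.upperCentralSeries_zero]; exact bot_le
  | succ j ih =>
    have h1 : ¬ N ≤ Subgroup.upperCentralSeries T j := fun h' => h (h'.trans (Subgroup.upperCentralSeries_mono T (Nat.le_succ j)))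
    exact ucs_le_of_normal hnil (hc (j + 1) hi) (ih (by omega) h1) h

/-- maximal subgroup lemma: a commutative finite group `A`, a subgroup `N ≠ ⊥` containing all squares.
There is a subgroup `B` of index at most `2 |N|` not containing `N`. -/
theorem exists_not_le {A : Type*} [Group A] [Finite A] (hA : ∀ x y : A, x * y = y * x) (N : Subgroup A) (hN : N ≠ ⊥)
    (hsq : ∀ x : A, x * x ∈ N) : ∃ B : Subgroup A, ¬ N ≤ B ∧ B.index ≤ 2 * Nat.card N := by
  classical
  obtain ⟨B, hB, hmax⟩ : ∃ B : Subgroup A, ¬ N ≤ B ∧ ∀ C : Subgroup A, ¬ N ≤ C → B ≤ C → B = C := by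
    have hfin : {B : Subgroup A | ¬ N ≤ B}.Finite := Set.toFinite _
    obtain ⟨B, hB⟩ := hfin.exists_maximal ⟨⊥, fun h => hN (le_bot_iff.1 h)⟩
    exact ⟨B, hB.1, fun C hC hBC => le_antisymm hBC (hB.2 hC hBC)⟩
  refine ⟨B, hB, ?_⟩
  letI : CommGroup A := { (inferInstance : Group A) with mul_comm := hA }
  haveI : B.Normal := inferInstance
  -- `sq : A/B → A/B`
  let sq : (A ⧸ B) →* (A ⧸ B) := powMonoidHom 2
  have hrange : Nat.card sq.range ≤ Nat.card N := by
    have h1 : sq.range ≤ N.map (QuotientGroup.mk' B) := by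
      rintro _ ⟨x, rfl⟩
      obtain ⟨a, rfl⟩ := QuotientGroup.mk_surjective x
      exact ⟨a * a, hsq a, by simp [sq, pow_two]⟩
    calc Nat.card sq.range ≤ Nat.card (N.map (QuotientGroup.mk' B)) := Subgroup.card_le_of_le h1
      _ ≤ Nat.card N := Nat.card_le_card_of_surjective _ ((QuotientGroup.mk' B).subgroupMap_surjective N)
  have hker : Nat.card sq.ker ≤ 2 := by
    by_contra hcon
    push Not at hcon
    -- there are two different nontrivial elements
    have : Nontrivial sq.ker := Finite.one_lt_card_iff_nontrivial.1 (by omega)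
    obtain ⟨u, hu⟩ := exists_ne (1 : sq.ker)
    have : ∃ v : sq.ker, v ≠ 1 ∧ v ≠ u := by
      by_contra hcon2
      push Not at hcon2
      have : (Set.univ : Set sq.ker) ⊆ {1, u} := by
        intro v _
        by_cases h : v = 1
        · exact Or.inl h
        · exact Or.inr (hcon2 v h)
      have h2 := Set.ncard_le_ncard this (Set.toFinite _)
      rw [Set.ncard_univ] at h2
      have h3 := Set.ncard_insert_le (1 : sq.ker) {u}
      rw [Set.ncard_singleton] at h3
      omega
    obtain ⟨v, hv, hvu⟩ := this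
    obtain ⟨a, ha⟩ := QuotientGroup.mk_surjective (u : A ⧸ B)
    obtain ⟨b, hb⟩ := QuotientGroup.mk_surjective (v : A ⧸ B)
    have hu2 : (u : A ⧸ B) * u = 1 := by
      have := u.2
      rw [MonoidHom.mem_ker] at this
      rw [← pow_two]; exact this
    have hv2 : (v : A ⧸ B) * v = 1 := by
      have := v.2
      rw [MonoidHom.mem_ker] at this
      rw [← pow_two]; exact this
    have key : ∀ (w : A ⧸ B) (c : A), (c : A ⧸ B) = w → w * w = 1 → w ≠ 1 → ∀ n ∈ N, (n : A ⧸ B) = 1 ∨ (n : A ⧸ B) = w := by
      intro w c hc hw2 hw1 n hn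
      have h1 : ¬ (N ≤ B ⊔ zpowers c) → False := by
        intro h
        have h2 := hmax _ h le_sup_left
        apply hw1
        rw [← hc, QuotientGroup.eq_one_iff, h2]
        exact Subgroup.mem_sup_right (mem_zpowers c)
      have h2 : n ∈ B ⊔ zpowers c := by
        by_contra h3
        exact h1 (fun h => h3 (h hn))
      have h3 : (n : A ⧸ B) ∈ zpowers w := by
        have : (n : A ⧸ B) ∈ (B ⊔ zpowers c).map (QuotientGroup.mk' B) := ⟨n, h2, rfl⟩
        rw [Subgroup.map_sup, MonoidHom.map_zpowers] at this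
        have h4 : B.map (QuotientGroup.mk' B) = ⊥ := by
          rw [Subgroup.map_eq_bot_iff, QuotientGroup.ker_mk']
        rw [h4, bot_sup_eq] at this
        rw [← hc]
        exact this
      obtain ⟨k, hk⟩ := mem_zpowers_iff.1 h3
      rcases Int.even_or_odd k with ⟨j, hj⟩ | ⟨j, hj⟩
      · left
        rw [← hk, hj, zpow_add, ← mul_zpow, hw2, one_zpow]
      · right
        rw [← hk, hj, zpow_add, zpow_one, zpow_mul]
        have : w ^ (2 : ℤ) = 1 := by
          rw [show (2 : ℤ) = ((2 : ℕ) : ℤ) by norm_num, zpow_natCast, pow_two, hw2]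
        rw [this, one_zpow, one_mul]
    apply hB
    intro n hn
    rw [← QuotientGroup.eq_one_iff]
    rcases key u a ha hu2 (fun h => hu (Subtype.ext h)) n hn with h | h
    · exact h
    · rcases key v b hb hv2 (fun h => hv (Subtype.ext h)) n hn with h' | h'
      · exact h'
      · exact absurd (Subtype.ext (h'.symm.trans h)) hvu
  have h1 : B.index = Nat.card (A ⧸ B) := rfl
  rw [h1]
  have h2 := Subgroup.card_mul_index sq.ker
  rw [Subgroup.index_ker] at h2
  rw [← h2]
  exact Nat.mul_le_mul hker hrange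

end H58.RuA
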