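import Mathlib

/-! Embedding of a module with simple socle in the coinduced module (helper58). -/

set_option autoImplicit false
set_option linter.style.haveILetI false

namespace H58.RuB

open Subgroup
open scoped commutatorElement

/-- characters of elementary abelian quotients. -/
theorem exists_char {N : Type*} [Group N] (P : Subgroup N) [P.Normal]
    (hsq : ∀ x : N, x * x ∈ P) (e : N) (he : e ∉ P) :
    ∃ l : N →* Multiplicative (ZMod 2), (∀ x ∈ P, l x = 1) ∧ l e ≠ 1 := by
  classical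
  have hsq' : ∀ x : N ⧸ P, x * x = 1 := by
    intro x
    obtain ⟨a, rfl⟩ := QuotientGroup.mk_surjective x
    rw [← QuotientGroup.mk_mul, QuotientGroup.eq_one_iff]
    exact hsq a
  letI : CommGroup (N ⧸ P) := { (inferInstance : Group (N ⧸ P)) with
    mul_comm := by
      intro a b
      have ha : a⁻¹ = a := inv_eq_of_mul_eq_one_left (hsq' a)
      have hb : b⁻¹ = b := inv_eq_of_mul_eq_one_left (hsq' b)
      have hab : (a * b)⁻¹ = a * b := inv_eq_of_mul_eq_one_left (hsq' (a * b))
      rw [← hab, mul_inv_rev, ha, hb] }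
  letI : Module (ZMod 2) (Additive (N ⧸ P)) := AddCommGroup.zmodModule (n := 2) (by
    intro x
    rw [two_nsmul]
    exact congrArg Additive.ofMul (hsq' x.toMul))
  have hv : Additive.ofMul (e : N ⧸ P) ≠ 0 := by
    intro h
    apply he
    rw [← QuotientGroup.eq_one_iff]
    exact congrArg Additive.toMul h
  have h1 : ¬ ∀ f : Module.Dual (ZMod 2) (Additive (N ⧸ P)), f (Additive.ofMul (e : N ⧸ P)) = 0 := by
    rw [Module.forall_dual_apply_eq_zero_iff]
    exact hv
  push Not at h1
  obtain ⟨f, hf⟩ := h1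
  let g : (N ⧸ P) →* Multiplicative (ZMod 2) := MonoidHom.mk' (fun q => Multiplicative.ofAdd (f (Additive.ofMul q)))
    (by intro a b; rw [ofMul_mul, map_add, ofAdd_add])
  refine ⟨g.comp (QuotientGroup.mk' P), ?_, ?_⟩
  · intro x hx
    rw [MonoidHom.comp_apply, QuotientGroup.mk'_apply, (QuotientGroup.eq_one_iff x).2 hx, map_one]
  · intro h
    apply hf
    exact congrArg Multiplicative.toAdd h

variable {T : Type*} [Group T]

theorem exists_embed (N P K : Subgroup T) [hN : N.Normal] [hP : P.Normal]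
    (hsq : ∀ x ∈ N, x * x ∈ P)
    (hK : ∀ x ∈ N, ∀ k ∈ K, ⁅k, x⁆ ∈ P) (hPN : P ≤ N) (e : T) (heN : e ∈ N) (heP : e ∉ P)
    (hmin : ∀ M : Subgroup T, M.Normal → P ≤ M → M ≤ N → e ∉ M → M = P) :
    ∃ L : N →* (T ⧸ K → Multiplicative (ZMod 2)), (∀ x : N, L x = 1 ↔ (x : T) ∈ P) ∧
      ∀ (s t : T) (x y : N), (y : T) = s⁻¹ * x * s → L y (t : T ⧸ K) = L x ((s * t : T) : T ⧸ K) := by
  classical
  haveI : (P.subgroupOf N).Normal := inferInstance
  obtain ⟨l, hl, hle⟩ := exists_char (P.subgroupOf N) (by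
    intro x
    rw [mem_subgroupOf]
    exact hsq _ x.2) ⟨e, heN⟩ (by rw [mem_subgroupOf]; exact heP)
  have hl' : ∀ (x y : N), (x : T) * (y : T)⁻¹ ∈ P → l x = l y := by
    intro x y h
    have h1 : l (x * y⁻¹) = 1 := hl _ (by rw [mem_subgroupOf]; exact h)
    rw [map_mul, map_inv, mul_inv_eq_one] at h1
    exact h1
  let c : T → N → N := fun t x => ⟨t⁻¹ * x * t, by
    have := hN.conj_mem x x.2 t⁻¹
    rwa [inv_inv] at this⟩
  have hc : ∀ t (x y : N), c t (x * y) = c t x * c t y := by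
    intro t x y
    apply Subtype.ext
    simp only [c, coe_mul]
    group
  let L : N →* (T ⧸ K → Multiplicative (ZMod 2)) := MonoidHom.mk' (fun x d => l (c d.out x)) (by
    intro x y
    funext d
    rw [Pi.mul_apply, hc, map_mul])
  have hL : ∀ (x : N) (t : T), L x (t : T ⧸ K) = l (c t x) := by
    intro x t
    change l (c (t : T ⧸ K).out x) = l (c t x)
    obtain ⟨k, hk⟩ := QuotientGroup.mk_out_eq_mul K t
    rw [hk]
    apply hl'
    simp only [c]
    have h1 := hK _ (c t x).2 (k : T)⁻¹ (inv_mem k.2)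
    rw [commutatorElement_def] at h1
    simp only [c] at h1
    have h2 : (t * (k : T))⁻¹ * (x : T) * (t * k) * (t⁻¹ * x * t)⁻¹ =
      (k : T)⁻¹ * (t⁻¹ * x * t) * (k : T)⁻¹⁻¹ * (t⁻¹ * x * t)⁻¹ := by group
    rw [h2]; exact h1
  have hequiv : ∀ (s t : T) (x y : N), (y : T) = s⁻¹ * x * s → L y (t : T ⧸ K) = L x ((s * t : T) : T ⧸ K) := by
    intro s t x y hxy
    rw [hL, hL]
    congr 1
    apply Subtype.ext
    simp only [c]
    rw [hxy]
    group
  refine ⟨L, ?_, hequiv⟩
  have hMP : (L.ker).map N.subtype = P := by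
    apply hmin
    · refine ⟨?_⟩
      rintro _ ⟨x, hx, rfl⟩ g
      have h3 : g * (x : T) * g⁻¹ ∈ N := hN.conj_mem _ x.2 g
      refine ⟨⟨g * x * g⁻¹, h3⟩, ?_, rfl⟩
      rw [SetLike.mem_coe, MonoidHom.mem_ker]
      funext d
      obtain ⟨t, rfl⟩ := QuotientGroup.mk_surjective d
      rw [hequiv g⁻¹ t x ⟨g * x * g⁻¹, h3⟩ (by simp)]
      rw [SetLike.mem_coe, MonoidHom.mem_ker] at hx
      rw [hx]
      rfl
    · intro x hx
      refine ⟨⟨x, hPN hx⟩, ?_, rfl⟩
      rw [SetLike.mem_coe, MonoidHom.mem_ker]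
      funext d
      obtain ⟨t, rfl⟩ := QuotientGroup.mk_surjective d
      rw [hL]
      apply hl
      rw [mem_subgroupOf]
      have := hP.conj_mem x hx t⁻¹
      rwa [inv_inv] at this
    · rintro _ ⟨x, -, rfl⟩
      exact x.2
    · rintro ⟨x, hx, hxe⟩
      rw [SetLike.mem_coe, MonoidHom.mem_ker] at hx
      apply hle
      have h4 := congrFun hx ((1 : T) : T ⧸ K)
      rw [hL] at h4
      have h5 : c 1 x = ⟨e, heN⟩ := by
        apply Subtype.ext
        simp only [c, inv_one, one_mul, mul_one]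
        exact hxe
      rw [h5] at h4
      exact h4
  intro x
  constructor
  · intro h
    rw [← hMP]
    exact ⟨x, h, rfl⟩
  · intro h
    rw [← hMP] at h
    obtain ⟨y, hy, hyx⟩ := h
    have : y = x := Subtype.ext hyx
    rw [← this]; exact hy

theorem card_bound [Finite T] {N P K : Subgroup T} (hPN : P ≤ N)
    (L : N →* (T ⧸ K → Multiplicative (ZMod 2))) (hL : ∀ x : N, L x = 1 ↔ (x : T) ∈ P) :
    Nat.card N ≤ 2 ^ K.index * Nat.card P ∧
      (Nat.card N = 2 ^ K.index * Nat.card P → Function.Surjective L) := by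
  have h1 : Nat.card (T ⧸ K → Multiplicative (ZMod 2)) = 2 ^ K.index := by
    rw [Nat.card_fun]
    congr 1
    rw [Nat.card_congr Multiplicative.toAdd, Nat.card_zmod]
  have h2 : Nat.card L.ker = Nat.card P := by
    have h3 : L.ker = P.subgroupOf N := by
      ext x
      rw [MonoidHom.mem_ker, hL, mem_subgroupOf]
    rw [h3]
    exact Nat.card_congr (Subgroup.subgroupOfEquivOfLe hPN).toEquiv
  have h4 : Nat.card L.range * Nat.card P = Nat.card N := by
    rw [← h2, ← Subgroup.index_ker, mul_comm, Subgroup.card_mul_index]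
  constructor
  · rw [← h4, ← h1]
    exact Nat.mul_le_mul_right _ (Subgroup.card_le_card_group _)
  · intro h
    rw [← h4] at h
    have h5 : Nat.card L.range = 2 ^ K.index := Nat.eq_of_mul_eq_mul_right Nat.card_pos h
    rw [← h1] at h5
    rw [← MonoidHom.range_eq_top]
    exact Subgroup.eq_top_of_card_eq _ h5

end H58.RuB
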