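import Mathlib
import Cfsg.Agent.Lib.H58.RuA
import Cfsg.Agent.Lib.H58.RuB
import Cfsg.Agent.Lib.H1.Frat

/-! The two-groups of S3174: orders (helper58). -/

set_option autoImplicit false
set_option linter.style.haveILetI false

namespace H58.RuC

open Subgroup
open scoped commutatorElement

variable {T : Type*} [Group T] [Finite T]

/-- the action on a normal subgroup `Z3` with a chain `1 < Z1 < Z2 < Z3` of factors of order two. -/
structure Chain (T : Type*) [Group T] (W : Subgroup T) (z1 z2 z3 : T) : Prop where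
  h1 : Subgroup.upperCentralSeries T 1 = zpowers z1
  z1sq : z1 * z1 = 1
  z1ne : z1 ≠ 1
  z1c : ∀ t : T, t * z1 = z1 * t
  z2mem : z2 ∈ Subgroup.upperCentralSeries T 2
  z2not : z2 ∉ Subgroup.upperCentralSeries T 1
  z3mem : z3 ∈ Subgroup.upperCentralSeries T 3
  z3not : z3 ∉ Subgroup.upperCentralSeries T 2
  c2 : ∀ x ∈ Subgroup.upperCentralSeries T 2, x ∈ Subgroup.upperCentralSeries T 1 ∨
    z2⁻¹ * x ∈ Subgroup.upperCentralSeries T 1
  c3 : ∀ x ∈ Subgroup.upperCentralSeries T 3, x ∈ Subgroup.upperCentralSeries T 2 ∨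
    z3⁻¹ * x ∈ Subgroup.upperCentralSeries T 2
  hW : W = centralizer ((Subgroup.upperCentralSeries T 3 : Subgroup T) : Set T)
  k1 : Nat.card (Subgroup.upperCentralSeries T 1) = 2
  k2 : Nat.card (Subgroup.upperCentralSeries T 2) = 4
  k3 : Nat.card (Subgroup.upperCentralSeries T 3) = 8
  k4 : Nat.card (Subgroup.upperCentralSeries T 4) = 16

theorem index_two_cases {A B : Subgroup T} (h : A ≤ B) (hc : Nat.card B = 2 * Nat.card A) {z : T} (hz : z ∈ B)
    (hzA : z ∉ A) {x : T} (hx : x ∈ B) : x ∈ A ∨ z⁻¹ * x ∈ A := by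
  have h1 : A.relIndex B = 2 := by
    have h2 := Subgroup.card_mul_index (A.subgroupOf B)
    rw [hc, Nat.card_congr (Subgroup.subgroupOfEquivOfLe h).toEquiv, mul_comm] at h2
    exact Nat.eq_of_mul_eq_mul_right Nat.card_pos h2
  have h3 : (A.subgroupOf B).index = 2 := h1
  by_contra hcon
  push Not at hcon
  have h4 := Subgroup.mul_mem_iff_of_index_two h3 (a := (⟨z, hz⟩ : B)⁻¹) (b := ⟨x, hx⟩)
  simp only [mem_subgroupOf, inv_mem_iff, coe_mul, coe_inv] at h4
  exact hcon.2 (h4.2 (by simp [hzA, hcon.1]))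

theorem exists_chain (hT : IsPGroup 2 T) (ha : 16 < Nat.card T)
    (hb : Nat.card (Subgroup.upperCentralSeries T 4) = 16) (W : Subgroup T)
    (hW : W = centralizer ((Subgroup.upperCentralSeries T 3 : Subgroup T) : Set T)) :
    ∃ z1 z2 z3 : T, Chain T W z1 z2 z3 := by
  obtain ⟨k1, k2, k3⟩ := RuA.card_ucs hT ha hb
  have hZ1 : Subgroup.upperCentralSeries T 1 = center T := Subgroup.upperCentralSeries_one T
  haveI : IsCyclic (Subgroup.upperCentralSeries T 1) := by
    haveI : Fact (Nat.Prime 2) := ⟨Nat.prime_two⟩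
    exact isCyclic_of_prime_card k1
  obtain ⟨g, hg⟩ := IsCyclic.exists_generator (α := Subgroup.upperCentralSeries T 1)
  have hgz : Subgroup.upperCentralSeries T 1 = zpowers (g : T) := by
    apply le_antisymm
    · intro x hx
      obtain ⟨k, hk⟩ := mem_zpowers_iff.1 (hg ⟨x, hx⟩)
      exact mem_zpowers_iff.2 ⟨k, congrArg Subtype.val hk⟩
    · rw [zpowers_le]; exact g.2
  have hsq : (g : T) * g = 1 := by
    have h1 : g ^ 2 = 1 := by rw [← k1]; exact pow_card_eq_one'
    rw [pow_two] at h1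
    exact congrArg Subtype.val h1
  have hgne : (g : T) ≠ 1 := by
    intro h
    rw [hgz, h, zpowers_one_eq_bot, Subgroup.card_bot] at k1
    omega
  have h12 : Subgroup.upperCentralSeries T 1 ≤ Subgroup.upperCentralSeries T 2 :=
    Subgroup.upperCentralSeries_mono T (by norm_num)
  have h23 : Subgroup.upperCentralSeries T 2 ≤ Subgroup.upperCentralSeries T 3 :=
    Subgroup.upperCentralSeries_mono T (by norm_num)
  have ex2 : ∃ x ∈ Subgroup.upperCentralSeries T 2, x ∉ Subgroup.upperCentralSeries T 1 := by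
    by_contra hcon
    push Not at hcon
    have := Subgroup.card_le_of_le hcon
    omega
  have ex3 : ∃ x ∈ Subgroup.upperCentralSeries T 3, x ∉ Subgroup.upperCentralSeries T 2 := by
    by_contra hcon
    push Not at hcon
    have := Subgroup.card_le_of_le hcon
    omega
  obtain ⟨z2, hz2, hz2'⟩ := ex2
  obtain ⟨z3, hz3, hz3'⟩ := ex3
  refine ⟨g, z2, z3, ⟨hgz, hsq, hgne, ?_, hz2, hz2', hz3, hz3', ?_, ?_, hW, k1, k2, k3, hb⟩⟩
  · intro t
    have h5 : (g : T) ∈ center T := by
      have h6 : ((g : T) ∈ Subgroup.upperCentralSeries T 1) := g.2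
      exact hZ1 ▸ h6
    exact mem_center_iff.1 h5 t
  · intro x hx
    exact index_two_cases h12 (by rw [k1, k2]) hz2 hz2' hx
  · intro x hx
    exact index_two_cases h23 (by rw [k2, k3]) hz3 hz3' hx

namespace Chain

variable {W : Subgroup T} {z1 z2 z3 : T} (C : Chain T W z1 z2 z3)

include C

omit [Finite T] in
theorem mem1 {x : T} (hx : x ∈ Subgroup.upperCentralSeries T 1) : x = 1 ∨ x = z1 := by
  rw [C.h1] at hx
  obtain ⟨k, hk⟩ := mem_zpowers_iff.1 hx
  rcases Int.even_or_odd k with ⟨j, hj⟩ | ⟨j, hj⟩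
  · left
    rw [← hk, hj, zpow_add, ← (Commute.refl z1).mul_zpow, C.z1sq, one_zpow]
  · right
    rw [← hk, hj, zpow_add, zpow_one, zpow_mul]
    have : z1 ^ (2 : ℤ) = 1 := by
      rw [show (2 : ℤ) = ((2 : ℕ) : ℤ) by norm_num, zpow_natCast, pow_two, C.z1sq]
    rw [this, one_zpow, one_mul]

omit [Finite T] in
theorem z1mem : z1 ∈ Subgroup.upperCentralSeries T 1 := by
  rw [C.h1]; exact mem_zpowers z1

omit [Finite T] in
theorem mem_W_iff {t : T} : t ∈ W ↔ t * z3 = z3 * t ∧ t * z2 = z2 * t := by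
  rw [C.hW, mem_centralizer_iff]
  constructor
  · intro h
    refine ⟨(h z3 C.z3mem).symm, (h z2 ?_).symm⟩
    exact Subgroup.upperCentralSeries_mono T (by norm_num) C.z2mem
  · rintro ⟨h3, h2⟩ x hx
    have e1 : ∀ y ∈ Subgroup.upperCentralSeries T 1, y * t = t * y := by
      intro y hy
      rcases C.mem1 hy with rfl | rfl
      · rw [one_mul, mul_one]
      · exact (C.z1c t).symm
    have e2 : ∀ y ∈ Subgroup.upperCentralSeries T 2, y * t = t * y := by
      intro y hy
      rcases C.c2 y hy with h | h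
      · exact e1 y h
      · have := e1 _ h
        rw [mul_assoc, inv_mul_eq_iff_eq_mul, ← mul_assoc, ← mul_assoc, ← h2, mul_assoc, mul_assoc,
          mul_inv_cancel_left] at this
        exact this
    rcases C.c3 x hx with h | h
    · exact e2 x h
    · have := e2 _ h
      rw [mul_assoc, inv_mul_eq_iff_eq_mul, ← mul_assoc, ← mul_assoc, ← h3, mul_assoc, mul_assoc,
        mul_inv_cancel_left] at this
      exact this

omit [Finite T] in
theorem c3mem (t : T) : ⁅t, z3⁆ ∈ Subgroup.upperCentralSeries T 2 := by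
  have := (Subgroup.mem_upperCentralSeries_succ_iff (G := T) (n := 2)).1 C.z3mem t
  rw [← commutatorElement_inv, inv_mem_iff]; exact this

omit [Finite T] in
theorem c2mem (t : T) : ⁅t, z2⁆ ∈ Subgroup.upperCentralSeries T 1 := by
  have := (Subgroup.mem_upperCentralSeries_succ_iff (G := T) (n := 1)).1 C.z2mem t
  rw [← commutatorElement_inv, inv_mem_iff]; exact this

noncomputable def pairMap : T ⧸ W → (Subgroup.upperCentralSeries T 2) × (Subgroup.upperCentralSeries T 1) :=
  fun d => (⟨⁅d.out, z3⁆, C.c3mem _⟩, ⟨⁅d.out, z2⁆, C.c2mem _⟩)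

omit [Finite T] C in
theorem comm_eq_iff (s t z : T) : ⁅s, z⁆ = ⁅t, z⁆ ↔ (s⁻¹ * t) * z = z * (s⁻¹ * t) := by
  rw [commutatorElement_def, commutatorElement_def, mul_left_inj]
  constructor
  · intro h
    have : s⁻¹ * (s * z * s⁻¹) * t = s⁻¹ * (t * z * t⁻¹) * t := by rw [h]
    have h2 : z * (s⁻¹ * t) = s⁻¹ * t * z := by
      calc z * (s⁻¹ * t) = s⁻¹ * (s * z * s⁻¹) * t := by group
        _ = s⁻¹ * (t * z * t⁻¹) * t := this
        _ = s⁻¹ * t * z := by group
    exact h2.symm
  · intro h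
    calc s * z * s⁻¹ = s * (z * (s⁻¹ * t)) * t⁻¹ := by group
      _ = s * (s⁻¹ * t * z) * t⁻¹ := by rw [h]
      _ = t * z * t⁻¹ := by group

omit [Finite T] in
theorem pairMap_injective : Function.Injective C.pairMap := by
  intro d d' h
  have h1 := congrArg (fun p => (p.1 : T)) h
  have h2 := congrArg (fun p => (p.2 : T)) h
  simp only [pairMap] at h1 h2
  rw [comm_eq_iff] at h1 h2
  have h3 : d.out⁻¹ * d'.out ∈ W := C.mem_W_iff.2 ⟨h1, h2⟩
  rw [← QuotientGroup.out_eq' d, ← QuotientGroup.out_eq' d', QuotientGroup.eq]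
  exact h3

theorem index_le : W.index ≤ 8 := by
  have h := Nat.card_le_card_of_injective _ C.pairMap_injective
  rw [Nat.card_prod, C.k2, C.k1] at h
  exact h

omit [Finite T] C in
theorem comm_out (t : T) (z : T) (hz : ∀ w ∈ W, w * z = z * w) : ⁅(t : T ⧸ W).out, z⁆ = ⁅t, z⁆ := by
  rw [comm_eq_iff]
  apply hz
  rw [← QuotientGroup.eq, QuotientGroup.out_eq']

theorem exists_elt (h8 : W.index = 8) {u v : T} (hu : u ∈ Subgroup.upperCentralSeries T 2)
    (hv : v ∈ Subgroup.upperCentralSeries T 1) : ∃ t : T, ⁅t, z3⁆ = u ∧ ⁅t, z2⁆ = v := by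
  have hsurj : Function.Surjective C.pairMap := by
    haveI : Fintype (T ⧸ W) := Fintype.ofFinite _
    haveI : Fintype ((Subgroup.upperCentralSeries T 2) × (Subgroup.upperCentralSeries T 1)) := Fintype.ofFinite _
    apply ((Fintype.bijective_iff_injective_and_card _).2 ⟨C.pairMap_injective, ?_⟩).2
    rw [← Nat.card_eq_fintype_card, ← Nat.card_eq_fintype_card, Nat.card_prod, C.k2, C.k1]
    exact h8
  obtain ⟨d, hd⟩ := hsurj (⟨u, hu⟩, ⟨v, hv⟩)
  exact ⟨d.out, congrArg (fun p => (p.1 : T)) hd, congrArg (fun p => (p.2 : T)) hd⟩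

omit [Finite T] in
theorem W_normal : W.Normal := by
  rw [C.hW]; infer_instance

end Chain

end H58.RuC
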