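import Mathlib
import Cfsg.Agent.Lib.H58.RuC

/-! The two-groups of S3174: orders, second part (helper58). -/

set_option autoImplicit false
set_option linter.style.haveILetI false

namespace H58.RuD

open Subgroup
open scoped commutatorElement

variable {T : Type*} [Group T] [Finite T]

theorem frattini_map_normal (W : Subgroup T) [hW : W.Normal] : ((frattini W).map W.subtype).Normal :=
  inferInstance

theorem orders (hT : IsPGroup 2 T) (ha : 2 ^ 14 ≤ Nat.card T) {W : Subgroup T} {z1 z2 z3 : T}
    (C : RuC.Chain T W z1 z2 z3) (hc : Nat.card (frattini W) ≤ 8) :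
    Nat.card T = 2 ^ 14 ∧ W.index = 8 ∧ Nat.card W = 2 ^ 11 ∧
      (frattini W).map W.subtype = Subgroup.upperCentralSeries T 3 := by
  haveI : Fact (Nat.Prime 2) := ⟨Nat.prime_two⟩
  haveI hWn : W.Normal := C.W_normal
  have ha' : 16 < Nat.card T := lt_of_lt_of_le (by norm_num) ha
  have hi := C.index_le
  have hcard := Subgroup.card_mul_index W
  have hW11 : 2 ^ 11 ≤ Nat.card W := by
    by_contra hcon
    push Not at hcon
    have : Nat.card W * W.index < 2 ^ 11 * 8 := by
      calc Nat.card W * W.index ≤ Nat.card W * 8 := Nat.mul_le_mul_left _ hi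
        _ < 2 ^ 11 * 8 := by omega
    omega
  set P : Subgroup T := (frattini W).map W.subtype with hP
  haveI hPn : P.Normal := frattini_map_normal W
  have hPW : P ≤ W := by
    rintro _ ⟨x, -, rfl⟩; exact x.2
  have hPc : Nat.card P = Nat.card (frattini W) := by
    rw [hP]
    exact Subgroup.card_map_of_injective W.subtype_injective
  have k := C.k4
  have hP3 : P ≤ Subgroup.upperCentralSeries T 3 := by
    by_contra hcon
    have h1 := RuA.ucs_le hT ha' k (N := P) (i := 3) (by norm_num) hcon
    have h2 := Subgroup.card_le_of_le h1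
    simp only [Nat.reduceAdd] at h2
    rw [k, hPc] at h2
    omega
  have hW4 : Subgroup.upperCentralSeries T 4 ≤ W := by
    refine RuA.ucs_le hT ha' k (N := W) (i := 3) (by norm_num) ?_
    intro hcon
    have h2 := Subgroup.card_le_of_le hcon
    rw [C.k3] at h2
    omega
  -- `P = Z_j`
  obtain ⟨j, hj, hPj⟩ : ∃ j, j ≤ 3 ∧ P = Subgroup.upperCentralSeries T j := by
    by_cases h0 : P ≤ Subgroup.upperCentralSeries T 0
    · refine ⟨0, by norm_num, le_antisymm h0 ?_⟩
      rw [Subgroup.upperCentralSeries_zero]; exact bot_le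
    by_cases h1 : P ≤ Subgroup.upperCentralSeries T 1
    · exact ⟨1, by norm_num, le_antisymm h1 (RuA.ucs_le hT ha' k (i := 0) (by norm_num) h0)⟩
    by_cases h2 : P ≤ Subgroup.upperCentralSeries T 2
    · exact ⟨2, by norm_num, le_antisymm h2 (RuA.ucs_le hT ha' k (i := 1) (by norm_num) h1)⟩
    · exact ⟨3, le_rfl, le_antisymm hP3 (RuA.ucs_le hT ha' k (i := 2) (by norm_num) h2)⟩
  have hnil : Group.IsNilpotent T := hT.isNilpotent
  have hlt : Subgroup.upperCentralSeries T j < Subgroup.upperCentralSeries T (j + 1) := by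
    apply RuA.ucs_lt hnil
    intro h
    have h2 : Subgroup.upperCentralSeries T 3 = ⊤ := by
      rw [eq_top_iff, ← h]; exact Subgroup.upperCentralSeries_mono T hj
    have h3 := C.k3
    rw [h2, Subgroup.card_top] at h3
    omega
  obtain ⟨e, he, he'⟩ := SetLike.exists_of_lt hlt
  have heW : e ∈ W := hW4 (Subgroup.upperCentralSeries_mono T (by omega) he)
  have hWp : IsPGroup 2 W := hT.to_subgroup W
  have hsqP : ∀ x ∈ W, x * x ∈ P := by
    intro x hx
    refine ⟨⟨x, hx⟩ ^ 2, H1.Frat.pow_mem_frattini hWp _, ?_⟩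
    rw [pow_two]; rfl
  have hcommP : ∀ x ∈ W, ∀ y ∈ W, ⁅y, x⁆ ∈ P := by
    intro x hx y hy
    haveI : Group.IsNilpotent W := hWp.isNilpotent
    refine ⟨⁅(⟨y, hy⟩ : W), ⟨x, hx⟩⁆, H1.Frat.commutator_le_frattini (Subgroup.commutator_mem_commutator (mem_top _) (mem_top _)), ?_⟩
    rfl
  obtain ⟨L, hL, -⟩ := RuB.exists_embed W P W hsqP hcommP hPW e heW (by rw [hPj]; exact he') (by
    intro M hM hPM hMW heM
    apply le_antisymm _ hPM
    rw [hPj]
    by_contra hcon
    exact heM (RuA.ucs_le hT ha' k (N := M) hj hcon he))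
  obtain ⟨hb1, -⟩ := RuB.card_bound hPW L hL
  have hPc8 : Nat.card P ≤ 8 := by rw [hPc]; exact hc
  have hidx : W.index = 8 := by
    by_contra hne
    have h7 : W.index ≤ 7 := by omega
    have h8 : Nat.card W ≤ 2 ^ 7 * 8 := by
      refine hb1.trans ?_
      exact Nat.mul_le_mul (Nat.pow_le_pow_right (by norm_num) h7) hPc8
    omega
  rw [hidx] at hb1 hcard
  have hW11' : Nat.card W ≤ 2 ^ 8 * 8 := hb1.trans (Nat.mul_le_mul_left _ hPc8)
  have hWe : Nat.card W = 2 ^ 11 := by omega
  refine ⟨by omega, hidx, hWe, ?_⟩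
  apply Subgroup.eq_of_le_of_card_ge hP3
  rw [C.k3]
  by_contra hcon
  push Not at hcon
  omega

/-- the fourth hypothesis forces the Frattini subgroup to be the derived subgroup. -/
theorem frattini_eq_commutator {W : Type*} [Group W] [Finite W] (hWp : IsPGroup 2 W)
    (hc : Nat.card (frattini W) ≤ 8)
    (hd : ∀ U : Subgroup W, U.index ≤ 16 → frattini W ≤ U) : _root_.commutator W = frattini W := by
  haveI : Fact (Nat.Prime 2) := ⟨Nat.prime_two⟩
  haveI : Group.IsNilpotent W := hWp.isNilpotent
  apply le_antisymm H1.Frat.commutator_le_frattini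
  by_contra hcon
  let f := QuotientGroup.mk' (_root_.commutator W)
  have hN : (frattini W).map f ≠ ⊥ := by
    intro h
    rw [Subgroup.map_eq_bot_iff, QuotientGroup.ker_mk'] at h
    exact hcon h
  have hAcomm : ∀ x y : W ⧸ _root_.commutator W, x * y = y * x := by
    intro x y
    exact mul_comm (G := Abelianization W) x y
  obtain ⟨B, hB, hBi⟩ := RuA.exists_not_le hAcomm ((frattini W).map f) hN (by
    intro x
    obtain ⟨a, rfl⟩ := QuotientGroup.mk_surjective x
    refine ⟨a ^ 2, H1.Frat.pow_mem_frattini hWp a, ?_⟩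
    rw [pow_two]; rfl)
  have h1 : Nat.card ((frattini W).map f) ≤ Nat.card (frattini W) :=
    Nat.card_le_card_of_surjective _ (f.subgroupMap_surjective _)
  have h2 : (B.comap f).index ≤ 16 := by
    rw [Subgroup.index_comap_of_surjective B (QuotientGroup.mk'_surjective _)]
    omega
  apply hB
  rw [Subgroup.map_le_iff_le_comap]
  exact hd _ h2

theorem sq_eq_one {W : Subgroup T} {z1 z2 z3 : T}
    (C : RuC.Chain T W z1 z2 z3) (hWp : IsPGroup 2 W)
    (hfr : (frattini W).map W.subtype = Subgroup.upperCentralSeries T 3)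
    (hcf : _root_.commutator W = frattini W) :
    ∀ z ∈ Subgroup.upperCentralSeries T 3, z * z = 1 := by
  haveI : Fact (Nat.Prime 2) := ⟨Nat.prime_two⟩
  have hcen : ∀ x ∈ frattini W, ∀ y : W, y * x = x * y := by
    intro x hx y
    have h1 : (x : T) ∈ Subgroup.upperCentralSeries T 3 := by rw [← hfr]; exact ⟨x, hx, rfl⟩
    have h2 : (y : T) ∈ centralizer ((Subgroup.upperCentralSeries T 3 : Subgroup T) : Set T) := by
      rw [← C.hW]; exact y.2
    exact Subtype.ext ((mem_centralizer_iff.1 h2 x h1).symm)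
  have key : ∀ x ∈ frattini W, x * x = 1 := by
    rw [← hcf]
    intro x hx
    rw [_root_.commutator_def, Subgroup.commutator_def] at hx
    have hcl : ∀ x ∈ closure {g : W | ∃ g₁ ∈ (⊤ : Subgroup W), ∃ g₂ ∈ (⊤ : Subgroup W), ⁅g₁, g₂⁆ = g}, x ∈ frattini W := by
      intro x hx
      rw [← hcf, _root_.commutator_def, Subgroup.commutator_def]; exact hx
    induction hx using closure_induction with
    | mem x hx =>
      obtain ⟨a, -, b, -, rfl⟩ := hx
      have h1 : ⁅a, b⁆ ∈ frattini W := by
        rw [← hcf]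
        exact Subgroup.commutator_mem_commutator (mem_top _) (mem_top _)
      have h2 := hcen _ h1 a
      have h3 := hcen _ (H1.Frat.pow_mem_frattini hWp a) b
      -- [a,b]^2 = [a^2,b]
      have h4 : ⁅a, b⁆ * ⁅a, b⁆ = ⁅a ^ 2, b⁆ := by
        have h5 : ⁅a ^ 2, b⁆ = a * ⁅a, b⁆ * a⁻¹ * ⁅a, b⁆ := by
          simp only [commutatorElement_def, pow_two]; group
        rw [h5, h2]; group
      rw [h4, commutatorElement_def, ← h3]
      group
    | one => rw [one_mul]
    | mul x y hx hy ihx ihy =>
      have h1 := hcen x (hcl x hx) y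
      calc x * y * (x * y) = x * (y * x) * y := by group
        _ = x * (x * y) * y := by rw [h1]
        _ = (x * x) * (y * y) := by group
        _ = 1 := by rw [ihx, ihy, one_mul]
    | inv x hx ih =>
      rw [← mul_inv_rev, ih, inv_one]
  intro z hz
  rw [← hfr] at hz
  obtain ⟨x, hx, rfl⟩ := hz
  exact congrArg Subtype.val (key x hx)

end H58.RuD
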