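import Mathlib
import Cfsg.Agent.Lib.H58.RuD
import Cfsg.Agent.Lib.H5.DihedralLift

/-! The two-groups of S3174: the dihedral quotient (helper58). -/

set_option autoImplicit false
set_option linter.style.haveILetI false

namespace H58.RuE

open Subgroup
open scoped commutatorElement

variable {T : Type*} [Group T]

theorem lift_inj {G : Type*} [Group G] (r s : G) (n : ℕ) (hn : n = orderOf r) (hr : r ^ n = 1) (hs : s * s = 1)
    (hsr : s * r * s⁻¹ = r⁻¹) (hsm : s ∉ Subgroup.zpowers r) :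
    Function.Injective (H5.DihedralLift.lift n r s hr hs hsr) := by
  subst hn
  exact H5.DihedralLift.lift_injective r s hs hsr hsm

/-- conjugation. -/
def cj (t z : T) : T := t * z * t⁻¹

theorem cj_cj (s t z : T) : cj s (cj t z) = cj (s * t) z := by unfold cj; group
theorem cj_two (s t z : T) : cj (s * t) z = cj s (cj t z) := by unfold cj; group
theorem cj_mul (t x y : T) : cj t (x * y) = cj t x * cj t y := by unfold cj; group
theorem cj_inv_iff (t x y : T) : cj t⁻¹ x = y ↔ x = cj t y := by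
  unfold cj
  constructor
  · rintro rfl; group
  · rintro rfl; group

/-- the data of the dihedral action. -/
structure Dih (T : Type*) [Group T] (W : Subgroup T) [W.Normal] (z1 z2 z3 r s : T) : Prop where
  r3 : cj r z3 = z3 * z2
  r2 : cj r z2 = z2 * z1
  s3 : cj s z3 = z3
  s2 : cj s z2 = z2 * z1
  c1 : ∀ t : T, cj t z1 = z1
  iso : ∃ E : DihedralGroup 4 ≃* T ⧸ W, E (.r 1) = (r : T ⧸ W) ∧ E (.sr 0) = (s : T ⧸ W)
  memW : ∀ t : T, t ∈ W ↔ cj t z3 = z3 ∧ cj t z2 = z2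

theorem exists_dih [Finite T] {W : Subgroup T} [W.Normal] {z1 z2 z3 : T} (C : RuC.Chain T W z1 z2 z3) (h8 : W.index = 8)
    (hsq : ∀ z ∈ Subgroup.upperCentralSeries T 3, z * z = 1) : ∃ r s : T, Dih T W z1 z2 z3 r s := by
  classical
  have hz2' : z2 ∈ Subgroup.upperCentralSeries T 3 := Subgroup.upperCentralSeries_mono T (by norm_num) C.z2mem
  have hz1' : z1 ∈ Subgroup.upperCentralSeries T 3 := Subgroup.upperCentralSeries_mono T (by norm_num) C.z1mem
  have hcomm : ∀ x ∈ Subgroup.upperCentralSeries T 3, ∀ y ∈ Subgroup.upperCentralSeries T 3, x * y = y * x := by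
    intro x hx y hy
    have h1 := hsq _ (mul_mem hx hy)
    have h2 : x⁻¹ = x := inv_eq_of_mul_eq_one_left (hsq x hx)
    have h3 : y⁻¹ = y := inv_eq_of_mul_eq_one_left (hsq y hy)
    have h4 : (x * y)⁻¹ = x * y := inv_eq_of_mul_eq_one_left h1
    rw [← h4, mul_inv_rev, h2, h3]
  obtain ⟨r, hr3, hr2⟩ := C.exists_elt h8 C.z2mem C.z1mem
  obtain ⟨s, hs3, hs2⟩ := C.exists_elt h8 (one_mem _) C.z1mem
  have cjc : ∀ t z u : T, ⁅t, z⁆ = u → cj t z = u * z := by
    intro t z u h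
    rw [cj, ← h, commutatorElement_def]; group
  have r3 : cj r z3 = z3 * z2 := by rw [cjc _ _ _ hr3, hcomm _ hz2' _ C.z3mem]
  have r2 : cj r z2 = z2 * z1 := by rw [cjc _ _ _ hr2, hcomm _ hz1' _ hz2']
  have s3 : cj s z3 = z3 := by rw [cjc _ _ _ hs3, one_mul]
  have s2 : cj s z2 = z2 * z1 := by rw [cjc _ _ _ hs2, hcomm _ hz1' _ hz2']
  have c1 : ∀ t : T, cj t z1 = z1 := by
    intro t
    rw [cj, C.z1c, mul_inv_cancel_right]
  have memW : ∀ t : T, t ∈ W ↔ cj t z3 = z3 ∧ cj t z2 = z2 := by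
    intro t
    rw [C.mem_W_iff, cj, cj, mul_inv_eq_iff_eq_mul, mul_inv_eq_iff_eq_mul]
  have q1 : z1 * z1 = 1 := C.z1sq
  have q2 : z2 * z2 = 1 := hsq z2 hz2'
  have q3 : z3 * z3 = 1 := hsq z3 C.z3mem
  have n2 : z2 ∉ Subgroup.upperCentralSeries T 1 := C.z2not
  have n21 : z2 * z1 ≠ z2 := by
    intro h
    exact C.z1ne (mul_eq_left.1 h)
  have n31 : z3 * z1 ≠ z3 := by
    intro h
    exact C.z1ne (mul_eq_left.1 h)
  have n2' : z2 ≠ 1 := by
    intro h; apply n2; rw [h]; exact one_mem _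
  have n32 : z3 * z2 ≠ z3 := by
    intro h
    exact n2' (mul_eq_left.1 h)
  have n321 : z3 * z2 * z1 ≠ z3 := by
    intro h
    rw [mul_assoc] at h
    have h1 : z2 * z1 = 1 := mul_eq_left.1 h
    apply n2
    have h2 : z2 = z1⁻¹ := eq_inv_of_mul_eq_one_left h1
    rw [h2]
    exact inv_mem C.z1mem
  -- powers of r
  have rr3 : cj (r * r) z3 = z3 * z1 := by
    rw [cj_two, r3, cj_mul, r3, r2]
    calc z3 * z2 * (z2 * z1) = z3 * (z2 * z2) * z1 := by group
      _ = z3 * z1 := by rw [q2, mul_one]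
  have rr2 : cj (r * r) z2 = z2 := by
    rw [cj_two, r2, cj_mul, r2, c1, mul_assoc, q1, mul_one]
  have rrr3 : cj (r * r * r) z3 = z3 * z2 * z1 := by
    rw [cj_two, r3, cj_mul, rr3, rr2, mul_assoc, mul_assoc, hcomm z1 hz1' z2 hz2']
  have rrrr3 : cj (r * r * (r * r)) z3 = z3 := by
    rw [cj_two, rr3, cj_mul, rr3, c1, mul_assoc, q1, mul_one]
  have rrrr2 : cj (r * r * (r * r)) z2 = z2 := by
    rw [cj_two, rr2, rr2]
  have ss3 : cj (s * s) z3 = z3 := by
    rw [cj_two, s3, s3]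
  have ss2 : cj (s * s) z2 = z2 := by
    rw [cj_two, s2, cj_mul, s2, c1, mul_assoc, q1, mul_one]
  have sr3 : cj (s * r) z3 = z3 * (z2 * z1) := by
    rw [cj_two, r3, cj_mul, s3, s2]
  have sr2 : cj (s * r) z2 = z2 := by
    rw [cj_two, r2, cj_mul, s2, c1, mul_assoc, q1, mul_one]
  have srsr3 : cj ((s * r) * (s * r)) z3 = z3 := by
    rw [cj_two, sr3, cj_mul, cj_mul, sr3, sr2, c1, mul_assoc]
    have h5 : z2 * z1 * (z2 * z1) = 1 := hsq _ (mul_mem hz2' hz1')
    rw [h5, mul_one]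
  have srsr2 : cj ((s * r) * (s * r)) z2 = z2 := by
    rw [cj_two, sr2, sr2]
  have hmk : ∀ t : T, (t : T ⧸ W) = 1 ↔ t ∈ W := fun t => QuotientGroup.eq_one_iff t
  have e4 : ((r : T) : T ⧸ W) ^ 4 = 1 := by
    have h6 : (r : T ⧸ W) ^ 4 = ((r * r * (r * r) : T) : T ⧸ W) := by
      rw [QuotientGroup.mk_mul, QuotientGroup.mk_mul, pow_succ, pow_succ, pow_two]
      simp only [mul_assoc]
    rw [h6, hmk, memW]
    exact ⟨rrrr3, rrrr2⟩
  have es : ((s : T) : T ⧸ W) * s = 1 := by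
    rw [← QuotientGroup.mk_mul, hmk, memW]
    exact ⟨ss3, ss2⟩
  have esr : ((s : T) : T ⧸ W) * r * (s : T ⧸ W)⁻¹ = (r : T ⧸ W)⁻¹ := by
    have h7 : ((s : T) : T ⧸ W) * r * (s * r) = 1 := by
      rw [← QuotientGroup.mk_mul, ← QuotientGroup.mk_mul, hmk, memW]
      exact ⟨srsr3, srsr2⟩
    have h8 : (s : T ⧸ W)⁻¹ = s := inv_eq_of_mul_eq_one_left es
    rw [h8]
    rw [← mul_assoc] at h7
    exact eq_inv_of_mul_eq_one_left h7
  have r2' : ((r : T) : T ⧸ W) ^ 2 ≠ 1 := by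
    intro h
    rw [pow_two, ← QuotientGroup.mk_mul, hmk, memW, rr3] at h
    exact n31 h.1
  have ho : orderOf ((r : T) : T ⧸ W) = 4 := by
    have := orderOf_eq_prime_pow (p := 2) (n := 1) (x := ((r : T) : T ⧸ W)) (by simpa using r2') (by simpa using e4)
    simpa using this
  have hsm : ((s : T) : T ⧸ W) ∉ zpowers ((r : T) : T ⧸ W) := by
    intro h
    obtain ⟨k, hk, hk2⟩ := Finset.mem_image.1 (mem_zpowers_iff_mem_range_orderOf.1 h)
    rw [ho, Finset.mem_range] at hk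
    have key : ∀ t : T, ((t : T) : T ⧸ W) = (s : T ⧸ W) → cj t z3 = z3 ∧ cj t z2 = z2 * z1 := by
      intro t ht
      rw [QuotientGroup.eq] at ht
      obtain ⟨h9, h10⟩ := (memW _).1 ht
      rw [cj_two, cj_inv_iff] at h9 h10
      exact ⟨by rw [← h9, s3], by rw [← h10, s2]⟩
    interval_cases k
    · have h11 := (key 1 (by rw [← hk2]; simp)).2
      apply n21
      rw [← h11]; unfold cj; group
    · have h11 := (key r (by rw [← hk2]; simp)).1
      rw [r3] at h11
      exact n32 h11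
    · have h11 := (key (r * r) (by rw [← hk2]; simp [pow_two])).1
      rw [rr3] at h11
      exact n31 h11
    · have h11 := (key (r * r * r) (by rw [← hk2]; simp [pow_succ])).1
      rw [rrr3] at h11
      exact n321 h11
  have hinj := lift_inj _ _ 4 ho.symm e4 es esr hsm
  have hbij : Function.Bijective (H5.DihedralLift.lift 4 ((r : T) : T ⧸ W) ((s : T) : T ⧸ W) e4 es esr) := by
    haveI : Fintype (T ⧸ W) := Fintype.ofFinite _
    refine (Fintype.bijective_iff_injective_and_card _).2 ⟨hinj, ?_⟩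
    rw [← Nat.card_eq_fintype_card, ← Nat.card_eq_fintype_card, DihedralGroup.nat_card]
    exact h8.symm
  refine ⟨r, s, ⟨r3, r2, s3, s2, c1, ⟨MulEquiv.ofBijective _ hbij, ?_, ?_⟩, memW⟩⟩
  · have := H5.DihedralLift.lift_r 4 ((r : T) : T ⧸ W) ((s : T) : T ⧸ W) e4 es esr 1
    rw [Int.cast_one, zpow_one] at this
    exact this
  · have := H5.DihedralLift.lift_sr 4 ((r : T) : T ⧸ W) ((s : T) : T ⧸ W) e4 es esr 0
    rw [Int.cast_zero, zpow_zero, mul_one] at this
    exact this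

end H58.RuE
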