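import Mathlib
import Cfsg.Agent.Lib.H58.RuE

/-! The two-groups of S3174: the commutator form (helper58). -/

set_option autoImplicit false
set_option linter.style.haveILetI false

namespace H58.RuF

open Subgroup
open scoped commutatorElement

variable {T : Type*} [Group T]

abbrev M2 := Multiplicative (ZMod 2)

theorem m2_ext : ∀ a b : M2, (a = 1 ↔ b = 1) → a = b := by decide
theorem m2_sq : ∀ a : M2, a * a = 1 := by decide

/-- the form `[x,y]` modulo `A`. -/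
theorem exists_form {W Z A : Subgroup T} [A.Normal]
    (hcz : ∀ x ∈ W, ∀ z ∈ Z, x * z = z * x) (hWW : ∀ x ∈ W, ∀ y ∈ W, ⁅x, y⁆ ∈ Z)
    (hsq : ∀ z ∈ Z, z * z = 1) {e : T} (he : e ∈ Z) (heA : e ∉ A) (h2 : ∀ x ∈ Z, x ∈ A ∨ e⁻¹ * x ∈ A) :
    ∃ B : W →* W →* M2, ∀ x y : W, B x y = 1 ↔ ⁅(x : T), (y : T)⁆ ∈ A := by
  obtain ⟨m, hm, hme⟩ := RuB.exists_char (A.subgroupOf Z) (by
    intro x
    rw [mem_subgroupOf, coe_mul, hsq _ x.2]; exact one_mem _) ⟨e, he⟩ (by rw [mem_subgroupOf]; exact heA)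
  have hm' : ∀ x : Z, m x = 1 ↔ (x : T) ∈ A := by
    intro x
    constructor
    · intro h
      rcases h2 x x.2 with h3 | h3
      · exact h3
      · exfalso
        have h4 : m (⟨e, he⟩⁻¹ * x) = 1 := hm _ (by rw [mem_subgroupOf]; exact h3)
        rw [map_mul, h, mul_one, map_inv, inv_eq_one] at h4
        exact hme h4
    · intro h
      exact hm x (by rw [mem_subgroupOf]; exact h)
  have e1 : ∀ x y y' : W, (⟨⁅(x : T), ((y * y' : W) : T)⁆, hWW _ x.2 _ (y * y').2⟩ : Z) =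
      ⟨⁅(x : T), (y : T)⁆, hWW _ x.2 _ y.2⟩ * ⟨⁅(x : T), (y' : T)⁆, hWW _ x.2 _ y'.2⟩ := by
    intro x y y'
    apply Subtype.ext
    simp only [coe_mul]
    have h3 := hcz _ y.2 _ (hWW _ x.2 _ y'.2)
    have h4 : ⁅(x : T), (y : T) * (y' : T)⁆ = ⁅(x : T), (y : T)⁆ * ((y : T) * ⁅(x : T), (y' : T)⁆ * (y : T)⁻¹) := by
      simp only [commutatorElement_def]; group
    rw [h4, h3]; group
  have e2 : ∀ x x' y : W, (⟨⁅((x * x' : W) : T), (y : T)⁆, hWW _ (x * x').2 _ y.2⟩ : Z) =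
      ⟨⁅(x : T), (y : T)⁆, hWW _ x.2 _ y.2⟩ * ⟨⁅(x' : T), (y : T)⁆, hWW _ x'.2 _ y.2⟩ := by
    intro x x' y
    apply Subtype.ext
    simp only [coe_mul]
    have h3 := hcz _ x.2 _ (hWW _ x'.2 _ y.2)
    have h5 : ⁅(x' : T), (y : T)⁆ * ⁅(x : T), (y : T)⁆ = ⁅(x : T), (y : T)⁆ * ⁅(x' : T), (y : T)⁆ :=
      (hcz _ (by
        have h6 : ⁅(x' : T), (y : T)⁆ ∈ W := by
          rw [commutatorElement_def]
          exact mul_mem (mul_mem (mul_mem x'.2 y.2) (inv_mem x'.2)) (inv_mem y.2)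
        exact h6) _ (hWW _ x.2 _ y.2))
    have h4 : ⁅(x : T) * (x' : T), (y : T)⁆ = ((x : T) * ⁅(x' : T), (y : T)⁆ * (x : T)⁻¹) * ⁅(x : T), (y : T)⁆ := by
      simp only [commutatorElement_def]; group
    rw [h4, h3, ← h5]; group
  refine ⟨MonoidHom.mk' (fun x => MonoidHom.mk' (fun y => m ⟨⁅(x : T), (y : T)⁆, hWW _ x.2 _ y.2⟩) ?_) ?_, ?_⟩
  · intro y y'
    rw [← map_mul, e1]
  · intro x x'
    ext y
    simp only [MonoidHom.mk'_apply, MonoidHom.mul_apply]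
    rw [← map_mul, e2]
  · intro x y
    simp only [MonoidHom.mk'_apply]
    exact hm' _

section gen

variable [Finite T] {W Z : Subgroup T} [hWn : W.Normal]

/-- delta function -/
def dl [DecidableEq (T ⧸ W)] (d : T ⧸ W) : T ⧸ W → M2 :=
  Pi.mulSingle (M := fun _ => M2) d (Multiplicative.ofAdd (1 : ZMod 2))

variable [DecidableEq (T ⧸ W)] (L : W →* (T ⧸ W → M2)) (hL1 : ∀ x : W, L x = 1 ↔ (x : T) ∈ Z)
  (hL2 : ∀ (s t : T) (x y : W), (y : T) = s⁻¹ * x * s → L y (t : T ⧸ W) = L x ((s * t : T) : T ⧸ W))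
  (w : W) (hw : L w = dl 1)

include hL2 in
omit [Finite T] [DecidableEq (T ⧸ W)] in
theorem L_conj (g : T) (x : W) (u : T) : L (MulAut.conjNormal g x) (u : T ⧸ W) = L x ((g⁻¹ * u : T) : T ⧸ W) := by
  apply hL2
  rw [MulAut.conjNormal_apply, inv_inv]

include hL2 hw in
omit [Finite T] in
theorem L_gen (g : T) : L (MulAut.conjNormal g w) = dl (g : T ⧸ W) := by
  funext d
  obtain ⟨u, rfl⟩ := QuotientGroup.mk_surjective d
  rw [L_conj L hL2, hw, dl, dl, Pi.mulSingle_apply, Pi.mulSingle_apply]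
  have : ((g⁻¹ * u : T) : T ⧸ W) = 1 ↔ (u : T ⧸ W) = (g : T ⧸ W) := by
    rw [QuotientGroup.eq_one_iff, eq_comm, QuotientGroup.eq]
  simp only [this]

include hL1 hL2 hw in
theorem gen_top (S : Subgroup W) (hS1 : ∀ x : W, (x : T) ∈ Z → x ∈ S) (hS2 : ∀ g : T, MulAut.conjNormal g w ∈ S) :
    ∀ x : W, x ∈ S := by
  have htop : ∀ f : (T ⧸ W → M2), f ∈ S.map L := by
    intro f
    haveI : Finite (T ⧸ W) := inferInstance
    refine Subgroup.pi_mem_of_mulSingle_mem f ?_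
    intro d
    obtain ⟨g, rfl⟩ := QuotientGroup.mk_surjective d
    have h3 : ∀ a : M2, a = 1 ∨ a = Multiplicative.ofAdd 1 := by decide
    rcases h3 (f (g : T ⧸ W)) with h | h
    · rw [h, Pi.mulSingle_one]; exact one_mem _
    · rw [h]
      exact ⟨_, hS2 g, L_gen L hL2 w hw g⟩
  intro x
  obtain ⟨y, hy, hyx⟩ := htop (L x)
  have h1 : L (x * y⁻¹) = 1 := by rw [map_mul, map_inv, hyx, mul_inv_cancel]
  have h2 := hS1 _ ((hL1 _).1 h1)
  have h4 := mul_mem h2 hy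
  rwa [inv_mul_cancel_right] at h4

include hL2 hw in
omit [Finite T] in
/-- the norm of the generator. -/
theorem exists_norm [Fintype (T ⧸ W)] (γ : W →* M2) :
    ∃ ν : W, (∀ g : T, (MulAut.conjNormal g ν : W) * ν⁻¹ ∈ L.ker) ∧
      γ ν = ∏ d : T ⧸ W, γ (MulAut.conjNormal d.out w) := by
  refine ⟨((Finset.univ : Finset (T ⧸ W)).toList.map (fun d => (MulAut.conjNormal d.out w : W))).prod, ?_, ?_⟩
  · intro g
    rw [MonoidHom.mem_ker, map_mul, map_inv, mul_inv_eq_one]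
    have h1 : L ((Finset.univ : Finset (T ⧸ W)).toList.map (fun d => (MulAut.conjNormal d.out w : W))).prod =
        fun _ => Multiplicative.ofAdd 1 := by
      rw [map_list_prod, List.map_map]
      rw [Finset.prod_map_toList]
      have h2 : (⇑L ∘ fun d : T ⧸ W => (MulAut.conjNormal d.out w : W)) =
          fun d => Pi.mulSingle (M := fun _ => M2) d (Multiplicative.ofAdd (1 : ZMod 2)) := by
        funext d
        simp only [Function.comp_apply]
        rw [L_gen L hL2 w hw, QuotientGroup.out_eq']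
        rfl
      rw [h2, Finset.univ_prod_mulSingle (fun _ : T ⧸ W => (Multiplicative.ofAdd 1 : M2))]
    funext d
    obtain ⟨u, rfl⟩ := QuotientGroup.mk_surjective d
    rw [L_conj L hL2, h1]
  · rw [map_list_prod, List.map_map, Finset.prod_map_toList]
    rfl

end gen

end H58.RuF
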