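import Mathlib
import Cfsg.Agent.Lib.H58.RuF

/-! The two-groups of S3174: the commutator form is degenerate (helper58). -/

set_option autoImplicit false
set_option linter.style.haveILetI false

namespace H58.RuG

open Subgroup H58.RuE H58.RuF
open scoped commutatorElement

variable {T : Type*} [Group T]

section form

variable {W Z A : Subgroup T} [hWn : W.Normal]
  (B : W →* W →* M2) (hB : ∀ x y : W, B x y = 1 ↔ ⁅(x : T), (y : T)⁆ ∈ A)

include hB in
theorem form_inv [A.Normal] (g : T) (x y : W) : B (MulAut.conjNormal g x) (MulAut.conjNormal g y) = B x y := by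
  apply m2_ext
  rw [hB, hB, MulAut.conjNormal_apply, MulAut.conjNormal_apply]
  have h1 : ⁅g * (x : T) * g⁻¹, g * (y : T) * g⁻¹⁆ = g * ⁅(x : T), (y : T)⁆ * g⁻¹ := by
    simp only [commutatorElement_def]; group
  rw [h1]
  constructor
  · intro h
    have := (inferInstance : A.Normal).conj_mem _ h g⁻¹
    simpa [mul_assoc] using this
  · intro h
    exact (inferInstance : A.Normal).conj_mem _ h g

include hB in
omit hWn in
theorem form_symm (x y : W) : B x y = B y x := by
  apply m2_ext
  rw [hB, hB, ← commutatorElement_inv, inv_mem_iff]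

include hB in
omit hWn in
theorem form_self (x : W) : B x x = 1 := by
  rw [hB, commutatorElement_self]; exact one_mem _

include hB in
omit hWn in
theorem form_central (hcz : ∀ x ∈ W, ∀ z ∈ Z, x * z = z * x) (x y : W) (hy : (y : T) ∈ Z) : B x y = 1 := by
  rw [hB, commutatorElement_eq_one_iff_mul_comm.2 (hcz x x.2 y hy)]; exact one_mem _

include hB in
theorem form_coset (hcz : ∀ x ∈ W, ∀ z ∈ Z, x * z = z * x) (hWW : ∀ x ∈ W, ∀ y ∈ W, ⁅x, y⁆ ∈ Z)
    [Z.Normal] (x y : W) (s t : T) (hst : (s : T ⧸ W) = (t : T ⧸ W)) :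
    B x (MulAut.conjNormal s y) = B x (MulAut.conjNormal t y) := by
  rw [QuotientGroup.eq] at hst
  have h1 : ((MulAut.conjNormal s y : W)⁻¹ * (MulAut.conjNormal t y : W) : W) = (MulAut.conjNormal s y : W)⁻¹ *
    (MulAut.conjNormal t y : W) := rfl
  have h2 : (((MulAut.conjNormal s y : W)⁻¹ * (MulAut.conjNormal t y : W) : W) : T) ∈ Z := by
    rw [coe_mul, coe_inv, MulAut.conjNormal_apply, MulAut.conjNormal_apply]
    have h3 := hWW _ (inv_mem y.2) _ hst
    have h4 := (inferInstance : Z.Normal).conj_mem _ h3 s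
    have h5 : s * ⁅(y : T)⁻¹, s⁻¹ * t⁆ * s⁻¹ = (s * y * s⁻¹)⁻¹ * (t * y * t⁻¹) := by
      simp only [commutatorElement_def]; group
    rw [← h5]; exact h4
  have h6 := form_central B hB hcz x _ h2
  rw [map_mul, map_inv, inv_mul_eq_one] at h6
  exact h6

end form

theorem comm_mul_central {x y z : T} (h : x * z = z * x) : ⁅x, y * z⁆ = ⁅x, y⁆ := by
  rw [commutatorElement_def, commutatorElement_def, mul_inv_rev]
  have h2 : x * (y * z) * x⁻¹ * (z⁻¹ * y⁻¹) = x * y * (z * x⁻¹ * z⁻¹) * y⁻¹ := by group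
  rw [h2]
  have h3 : z * x⁻¹ * z⁻¹ = x⁻¹ := by
    have h4 : z * x⁻¹ = x⁻¹ * z := by
      calc z * x⁻¹ = x⁻¹ * (x * z) * x⁻¹ := by group
        _ = x⁻¹ * (z * x) * x⁻¹ := by rw [h]
        _ = x⁻¹ * z := by group
    rw [h4]; group
  rw [h3]

/-- the value of the form at `(w, w^t)` for `t` an involution modulo `W` whose fixed points in `Z` lie in `A`. -/
theorem form_fixed {W Z A : Subgroup T} [hWn : W.Normal]
    (B : W →* W →* M2) (hB : ∀ x y : W, B x y = 1 ↔ ⁅(x : T), (y : T)⁆ ∈ A)
    (hcz : ∀ x ∈ W, ∀ z ∈ Z, x * z = z * x) (hWW : ∀ x ∈ W, ∀ y ∈ W, ⁅x, y⁆ ∈ Z) (hsq : ∀ z ∈ Z, z * z = 1)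
    (w : W) (t : T) (ht : t * t ∈ W) (hfix : ∀ c ∈ Z, cj t c = c → c ∈ A) :
    B w (MulAut.conjNormal t w) = 1 := by
  rw [hB]
  have hmem := hWW _ w.2 _ (MulAut.conjNormal t w).2
  apply hfix _ hmem
  rw [MulAut.conjNormal_apply] at hmem ⊢
  obtain ⟨x, hxW⟩ := w
  simp only at hmem ⊢
  have h1 : cj t ⁅x, t * x * t⁻¹⁆ = ⁅t * x * t⁻¹, x * (x⁻¹ * ((t * t) * x * (t * t)⁻¹))⁆ := by
    unfold cj
    simp only [commutatorElement_def]; group
  have hz : x⁻¹ * ((t * t) * x * (t * t)⁻¹) ∈ Z := by
    have := hWW _ (inv_mem hxW) _ ht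
    have h5 : x⁻¹ * ((t * t) * x * (t * t)⁻¹) = ⁅x⁻¹, t * t⁆ := by
      simp only [commutatorElement_def]; group
    rw [h5]; exact this
  rw [h1, comm_mul_central (hcz _ (hWn.conj_mem x hxW t) _ hz), ← commutatorElement_inv]
  exact inv_eq_of_mul_eq_one_left (hsq _ hmem)

/-- a sum over the dihedral group of order eight. -/
theorem dihedral_sum (F : DihedralGroup 4 → M2) (h0 : F (.r 0) = 1) (h2 : F (.r 2) = 1) (h13 : F (.r 3) = F (.r 1))
    (s1 : F (.sr 1) = 1) (s3 : F (.sr 3) = 1) (hs : ∏ x, F x = 1) : ∀ x, F (x * .r 2) = F x := by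
  have huniv : (Finset.univ : Finset (DihedralGroup 4)) =
      {.r 0, .r 1, .r 2, .r 3, .sr 0, .sr 1, .sr 2, .sr 3} := by decide
  rw [huniv, Finset.prod_insert (by decide), Finset.prod_insert (by decide), Finset.prod_insert (by decide),
    Finset.prod_insert (by decide), Finset.prod_insert (by decide), Finset.prod_insert (by decide),
    Finset.prod_insert (by decide), Finset.prod_singleton, h0, h2, h13, s1, s3] at hs
  have h4 : F (.sr 0) = F (.sr 2) := by
    have key : ∀ a b c : M2, 1 * (a * (1 * (a * (b * (1 * (c * 1)))))) = 1 → b = c := by decide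
    exact key _ _ _ hs
  intro x
  rcases x with i | i
  · fin_cases i
    · exact h2.trans h0.symm
    · exact h13
    · exact h0.trans h2.symm
    · exact h13.symm
  · fin_cases i
    · exact h4.symm
    · exact s3.trans s1.symm
    · exact h4
    · exact s1.trans s3.symm

/-- the abelian subgroup lemma. -/
theorem exists_abelian {X : Type*} [Group X] [Finite X] (N : Subgroup X) (hN : Nat.card N ≤ 2)
    (hcomm : ∀ x y : X, ⁅x, y⁆ ∈ N) (h1 : 2 ^ 9 ≤ Nat.card X) (h2 : 2 ^ 5 ≤ Nat.card (center X)) :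
    ∃ A : Subgroup X, center X ≤ A ∧ (∀ x ∈ A, ∀ y ∈ A, x * y = y * x) ∧ 2 ^ 7 ≤ Nat.card A := by
  have ext : ∀ (A : Subgroup X), (∀ x ∈ A, ∀ y ∈ A, x * y = y * x) → ∀ x, x ∉ A → (∀ y ∈ A, x * y = y * x) →
      (∀ u ∈ A ⊔ zpowers x, ∀ v ∈ A ⊔ zpowers x, u * v = v * u) ∧ 2 * Nat.card A ≤ Nat.card (A ⊔ zpowers x : Subgroup X) := by
    intro A hA x hx hxA
    constructor
    · have h3 : A ⊔ zpowers x ≤ centralizer ((A ⊔ zpowers x : Subgroup X) : Set X) := by
        apply sup_le
        · intro a ha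
          have h4 : A ⊔ zpowers x ≤ centralizer ({a} : Set X) := by
            apply sup_le
            · intro b hb
              rw [mem_centralizer_singleton_iff]
              exact hA b hb a ha
            · rw [zpowers_le, mem_centralizer_singleton_iff]
              exact hxA a ha
          rw [mem_centralizer_iff]
          intro u hu
          exact (mem_centralizer_singleton_iff.1 (h4 hu))
        · rw [zpowers_le, mem_centralizer_iff]
          intro u hu
          have h4 : A ⊔ zpowers x ≤ centralizer ({x} : Set X) := by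
            apply sup_le
            · intro b hb
              rw [mem_centralizer_singleton_iff]
              exact (hxA b hb).symm
            · rw [zpowers_le, mem_centralizer_singleton_iff]
          exact (mem_centralizer_singleton_iff.1 (h4 hu))
      intro u hu v hv
      exact (mem_centralizer_iff.1 (h3 hv) u hu)
    · apply RuA.two_mul_card_le
      refine lt_of_le_of_ne le_sup_left ?_
      intro h
      apply hx
      rw [h]
      exact mem_sup_right (mem_zpowers x)
  by_cases htop : center X = ⊤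
  · refine ⟨⊤, le_top, ?_, ?_⟩
    · intro x _ y _
      have : y ∈ center X := by rw [htop]; trivial
      exact (mem_center_iff.1 this x)
    · rw [Subgroup.card_top]; omega
  obtain ⟨x1, hx1⟩ : ∃ x1, x1 ∉ center X := by
    by_contra hcon
    push Not at hcon
    exact htop (eq_top_iff.2 fun x _ => hcon x)
  obtain ⟨hA1, hc1⟩ := ext (center X) (fun x hx y hy => (mem_center_iff.1 hy x)) x1 hx1
    (fun y hy => (mem_center_iff.1 hy x1))
  have hC : (centralizer ({x1} : Set X)).index ≤ 2 := by
    have hinj : Function.Injective (fun d : X ⧸ centralizer ({x1} : Set X) => (⟨⁅d.out, x1⁆, hcomm _ _⟩ : N)) := by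
      intro d d' h
      have h5 := congrArg (fun p : N => (p : X)) h
      simp only at h5
      rw [RuC.Chain.comm_eq_iff] at h5
      rw [← QuotientGroup.out_eq' d, ← QuotientGroup.out_eq' d', QuotientGroup.eq,
        mem_centralizer_singleton_iff]
      exact h5
    exact (Nat.card_le_card_of_injective _ hinj).trans hN
  have hCc := Subgroup.card_mul_index (centralizer ({x1} : Set X))
  have hC8 : 2 ^ 8 ≤ Nat.card (centralizer ({x1} : Set X)) := by
    by_contra hcon
    push Not at hcon
    have : Nat.card (centralizer ({x1} : Set X)) * (centralizer ({x1} : Set X)).index < 2 ^ 8 * 2 := by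
      calc _ ≤ Nat.card (centralizer ({x1} : Set X)) * 2 := Nat.mul_le_mul_left _ hC
        _ < _ := by omega
    omega
  by_cases hle : centralizer ({x1} : Set X) ≤ center X ⊔ zpowers x1
  · refine ⟨_, le_sup_left, hA1, ?_⟩
    have := Subgroup.card_le_of_le hle
    omega
  · rw [SetLike.not_le_iff_exists] at hle
    obtain ⟨x2, hx2, hx2'⟩ := hle
    have h6 : ∀ y ∈ center X ⊔ zpowers x1, x2 * y = y * x2 := by
      intro y hy
      have h7 : center X ⊔ zpowers x1 ≤ centralizer ({x2} : Set X) := by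
        apply sup_le
        · intro b hb
          rw [mem_centralizer_singleton_iff]
          exact (mem_center_iff.1 hb x2).symm
        · rw [zpowers_le, mem_centralizer_singleton_iff]
          exact (mem_centralizer_singleton_iff.1 hx2).symm
      exact (mem_centralizer_singleton_iff.1 (h7 hy)).symm
    obtain ⟨hA2, hc2⟩ := ext _ hA1 x2 hx2' h6
    refine ⟨_, le_sup_left.trans le_sup_left, hA2, ?_⟩
    omega

/-- the counting argument. -/
theorem false_of_rad {W : Type*} [Group W] [Finite W] (Z A R : Subgroup W) [A.Normal] (hAZ : A ≤ Z) (hZR : Z ≤ R)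
    (hA : Nat.card A = 4) (hZ : Nat.card Z = 8) (hW : Nat.card W = 2 ^ 11) (hR : 2 ^ 7 ≤ Nat.card R)
    (hWW : ∀ x y : W, ⁅x, y⁆ ∈ Z) (hsqW : ∀ x : W, x * x ∈ Z) (hRA : ∀ x : W, ∀ y ∈ R, ⁅x, y⁆ ∈ A)
    (hd : ∀ U : Subgroup W, U.index ≤ 16 → Z ≤ U) : False := by
  set f := QuotientGroup.mk' A with hf
  have hfs : Function.Surjective f := QuotientGroup.mk'_surjective A
  have hker : f.ker = A := QuotientGroup.ker_mk' A
  have hcardmap : ∀ H : Subgroup W, A ≤ H → Nat.card (H.map f) * 4 = Nat.card H := by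
    intro H hH
    have h1 := Subgroup.card_mul_index (A.subgroupOf H)
    have h2 : Nat.card (A.subgroupOf H) = 4 := by
      rw [Nat.card_congr (Subgroup.subgroupOfEquivOfLe hH).toEquiv, hA]
    have h3 : (A.subgroupOf H).index = Nat.card (H.map f) := by
      have := Subgroup.relIndex_ker (K := H) f
      rw [hker] at this
      exact this
    rw [h2, h3] at h1
    omega
  have hX : Nat.card (W ⧸ A) = 2 ^ 9 := by
    have h1 := Subgroup.card_mul_index A
    rw [hA, hW] at h1
    have h2 : A.index = Nat.card (W ⧸ A) := rfl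
    omega
  have hN2 : Nat.card (Z.map f) = 2 := by
    have := hcardmap Z hAZ
    omega
  have hcen : R.map f ≤ center (W ⧸ A) := by
    rintro _ ⟨y, hy, rfl⟩
    rw [mem_center_iff]
    intro g
    obtain ⟨x, rfl⟩ := hfs g
    rw [← commutatorElement_eq_one_iff_mul_comm, ← map_commutatorElement]
    have := hRA x y hy
    rw [← hker] at this
    exact this
  have hcc : 2 ^ 5 ≤ Nat.card (center (W ⧸ A)) := by
    have h1 := hcardmap R (hAZ.trans hZR)
    have h2 := Subgroup.card_le_of_le hcen
    omega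
  obtain ⟨A2, hA2, hab, hc7⟩ := exists_abelian (Z.map f) hN2.le (by
    intro x y
    obtain ⟨x, rfl⟩ := hfs x
    obtain ⟨y, rfl⟩ := hfs y
    rw [← map_commutatorElement]
    exact ⟨_, hWW x y, rfl⟩) hX.ge hcc
  have hNA : Z.map f ≤ A2 := (Subgroup.map_mono hZR).trans (hcen.trans hA2)
  have hNs : Nat.card ((Z.map f).subgroupOf A2) = 2 := by
    rw [Nat.card_congr (Subgroup.subgroupOfEquivOfLe hNA).toEquiv, hN2]
  obtain ⟨B, hB, hBi⟩ := RuA.exists_not_le (A := A2) (fun x y => Subtype.ext (hab x x.2 y y.2))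
    ((Z.map f).subgroupOf A2) (by
      intro h
      rw [h, Subgroup.card_bot] at hNs
      omega) (by
      intro x
      rw [mem_subgroupOf, coe_mul]
      obtain ⟨y, hy⟩ := hfs (x : W ⧸ A)
      rw [← hy, ← map_mul]
      exact ⟨_, hsqW y, rfl⟩)
  rw [hNs] at hBi
  have hBc := Subgroup.card_mul_index B
  have hB5 : 2 ^ 5 ≤ Nat.card B := by
    by_contra hcon
    push Not at hcon
    have : Nat.card B * B.index < 2 ^ 5 * (2 * 2) := by
      calc _ ≤ Nat.card B * (2 * 2) := Nat.mul_le_mul_left _ hBi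
        _ < _ := by omega
    omega
  have hBm : Nat.card (B.map A2.subtype) = Nat.card B := Subgroup.card_map_of_injective A2.subtype_injective
  have hUi : ((B.map A2.subtype).comap f).index ≤ 16 := by
    rw [Subgroup.index_comap_of_surjective _ hfs]
    have h1 := Subgroup.card_mul_index (B.map A2.subtype)
    rw [hX, hBm] at h1
    by_contra hcon
    push Not at hcon
    have : 2 ^ 5 * 17 ≤ Nat.card B * (B.map A2.subtype).index := Nat.mul_le_mul hB5 hcon
    omega
  have h9 := hd _ hUi
  apply hB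
  intro x hx
  rw [mem_subgroupOf] at hx
  obtain ⟨z, hz, hzx⟩ := hx
  obtain ⟨b, hb, hbx⟩ := h9 hz
  have : b = x := Subtype.ext (hbx.trans hzx)
  rw [← this]; exact hb

end H58.RuG
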