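import Mathlib
import Cfsg.Agent.Lib.H58.RuG

/-! The two-groups of S3174: the centre of `W` (helper58). -/

set_option autoImplicit false
set_option linter.style.haveILetI false

namespace H58.RuH

open Subgroup H58.RuE H58.RuF H58.RuG
open scoped commutatorElement

variable {T : Type*} [Group T] [Finite T]

omit [Finite T] in
theorem card_map_mul {W A : Type*} [Group W] [Finite W] [Group A] (f : W →* A) (K : Subgroup W) (h : f.ker ≤ K) :
    Nat.card (K.map f) * Nat.card f.ker = Nat.card K := by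
  have h1 := Subgroup.card_mul_index (f.ker.subgroupOf K)
  rw [Nat.card_congr (Subgroup.subgroupOfEquivOfLe h).toEquiv] at h1
  have h3 : (f.ker.subgroupOf K).index = Nat.card (K.map f) := Subgroup.relIndex_ker (K := K) f
  rw [h3] at h1
  rw [mul_comm]; exact h1

theorem center_le {W : Subgroup T} [hWn : W.Normal] {z1 z2 z3 r s : T} (hT : IsPGroup 2 T) (ha : 16 < Nat.card T)
    (C : RuC.Chain T W z1 z2 z3) (D : Dih T W z1 z2 z3 r s) (h8 : W.index = 8) (hW : Nat.card W = 2 ^ 11)
    (hsq : ∀ z ∈ Subgroup.upperCentralSeries T 3, z * z = 1)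
    (hfr : (frattini W).map W.subtype = Subgroup.upperCentralSeries T 3)
    (hd : ∀ U : Subgroup W, U.index ≤ 16 → frattini W ≤ U) :
    ∀ x ∈ (center W).map W.subtype, x ∈ Subgroup.upperCentralSeries T 3 := by
  classical
  haveI : Fact (Nat.Prime 2) := ⟨Nat.prime_two⟩
  set Z3 := Subgroup.upperCentralSeries T 3 with hZ3
  set Z2 := Subgroup.upperCentralSeries T 2 with hZ2
  have hZ23 : Z2 ≤ Z3 := Subgroup.upperCentralSeries_mono T (by norm_num)
  have hZW : Z3 ≤ W := by
    rw [← hfr]; rintro _ ⟨x, -, rfl⟩; exact x.2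
  have hcz : ∀ x ∈ W, ∀ z ∈ Z3, x * z = z * x := by
    intro x hx z hz
    rw [C.hW, mem_centralizer_iff] at hx
    exact (hx z hz).symm
  have hWp : IsPGroup 2 W := hT.to_subgroup W
  have hsqW : ∀ x ∈ W, x * x ∈ Z3 := by
    intro x hx
    rw [← hfr]
    refine ⟨⟨x, hx⟩ ^ 2, H1.Frat.pow_mem_frattini hWp _, ?_⟩
    rw [pow_two]; rfl
  have hWW : ∀ x ∈ W, ∀ y ∈ W, ⁅x, y⁆ ∈ Z3 := by
    intro x hx y hy
    haveI : Group.IsNilpotent W := hWp.isNilpotent
    rw [← hfr]
    refine ⟨⁅(⟨x, hx⟩ : W), ⟨y, hy⟩⁆, H1.Frat.commutator_le_frattini (Subgroup.commutator_mem_commutator (mem_top _) (mem_top _)), ?_⟩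
    rfl
  have hfrs : frattini W = Z3.subgroupOf W := by
    rw [← hfr]
    exact (Subgroup.comap_map_eq_self_of_injective W.subtype_injective _).symm
  -- the embedding
  have hnil : Group.IsNilpotent T := hT.isNilpotent
  have hlt : Z3 < Subgroup.upperCentralSeries T 4 := by
    apply RuA.ucs_lt hnil
    intro h
    have h3 := C.k3
    rw [h, Subgroup.card_top] at h3
    omega
  obtain ⟨e, he4, he3⟩ := SetLike.exists_of_lt hlt
  have hW4 : Subgroup.upperCentralSeries T 4 ≤ W := by
    refine RuA.ucs_le hT ha C.k4 (N := W) (i := 3) (by norm_num) ?_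
    intro hcon
    have h2 := Subgroup.card_le_of_le hcon
    rw [C.k3] at h2
    omega
  have hmin : ∀ N : Subgroup T, ∀ M : Subgroup T, M.Normal → Z3 ≤ M → M ≤ N → e ∉ M → M = Z3 := by
    intro N M hM hPM _ heM
    apply le_antisymm _ hPM
    by_contra hcon
    exact heM (RuA.ucs_le hT ha C.k4 (N := M) (i := 3) (by norm_num) hcon he4)
  obtain ⟨L, hL1, hL2⟩ := RuB.exists_embed W Z3 W hsqW (fun x hx y hy => hWW y hy x hx) hZW e (hW4 he4) he3 (hmin W)
  have hLs : Function.Surjective L := by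
    apply (RuB.card_bound hZW L hL1).2
    rw [hW, h8, C.k3]; norm_num
  obtain ⟨w, hw⟩ : ∃ w : W, L w = dl 1 := hLs _
  obtain ⟨B, hB⟩ := exists_form (W := W) (Z := Z3) (A := Z2) hcz hWW hsq C.z3mem C.z3not C.c3
  -- assume the centre is bigger
  by_contra hcon
  have hZ4c : Subgroup.upperCentralSeries T 4 ≤ (center W).map W.subtype := by
    apply RuA.ucs_le hT ha C.k4 (i := 3) (by norm_num)
    exact hcon
  have hcen : ∀ ν : W, (ν : T) ∈ Subgroup.upperCentralSeries T 4 → ∀ x, B x ν = 1 := by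
    intro ν hν x
    obtain ⟨y, hy, hyν⟩ := hZ4c hν
    have h1 : y = ν := Subtype.ext hyν
    rw [hB]
    have h2 : x * ν = ν * x := by rw [← h1]; exact mem_center_iff.1 hy x
    have h3 : (x : T) * ν = ν * x := congrArg Subtype.val h2
    rw [commutatorElement_eq_one_iff_mul_comm.2 h3]; exact one_mem _
  obtain ⟨E, hE1, hEs⟩ := D.iso
  haveI : Fintype (T ⧸ W) := Fintype.ofFinite _
  -- values of the function
  have f0 : ∀ t : T, t ∈ W → B w (MulAut.conjNormal t w) = 1 := by
    intro t ht
    have h1 : (t : T ⧸ W) = ((1 : T) : T ⧸ W) := by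
      rw [QuotientGroup.mk_one, QuotientGroup.eq_one_iff]; exact ht
    rw [form_coset B hB hcz hWW w w t 1 h1, map_one, MulAut.one_apply]
    exact form_self B hB w
  have finv : ∀ t : T, B w (MulAut.conjNormal t⁻¹ w) = B w (MulAut.conjNormal t w) := by
    intro t
    rw [← form_inv B hB t w, form_symm B hB, ← MulAut.mul_apply, ← map_mul, mul_inv_cancel, map_one, MulAut.one_apply]
  have fcos : ∀ s t : T, (s : T ⧸ W) = (t : T ⧸ W) → B w (MulAut.conjNormal s w) = B w (MulAut.conjNormal t w) :=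
    fun s t h => form_coset B hB hcz hWW w w s t h
  have hz2' : z2 ∈ Z3 := hZ23 C.z2mem
  have ffix : ∀ t : T, cj t z2 = z2 → cj t z3 ≠ z3 → B w (MulAut.conjNormal t w) = 1 := by
    intro t h2 h3
    have hZ2fix : ∀ v ∈ Z2, cj t v = v := by
      intro v hv
      have hZ1 : ∀ v ∈ Subgroup.upperCentralSeries T 1, cj t v = v := by
        intro v hv
        rcases C.mem1 hv with rfl | rfl
        · unfold cj; group
        · exact D.c1 t
      rcases C.c2 v hv with h | h
      · exact hZ1 v h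
      · have h4 := hZ1 _ h
        rw [cj_mul] at h4
        have h5 : cj t z2⁻¹ = z2⁻¹ := by
          have : cj t z2⁻¹ = (cj t z2)⁻¹ := by unfold cj; group
          rw [this, h2]
        rw [h5] at h4
        exact mul_left_cancel h4
    have hu : cj t z3 * z3⁻¹ ∈ Z2 := by
      have := C.c3mem t
      rw [commutatorElement_def] at this
      exact this
    refine form_fixed (Z := Z3) (A := Z2) B hB hcz hWW hsq w t ?_ ?_
    · rw [D.memW, cj_two, cj_two, h2, h2]
      refine ⟨?_, rfl⟩
      obtain ⟨u, hu'⟩ : ∃ u, u = cj t z3 * z3⁻¹ := ⟨_, rfl⟩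
      rw [← hu'] at hu
      have h6 : cj t z3 = u * z3 := by rw [hu']; group
      rw [h6, cj_mul, hZ2fix _ hu, h6, ← mul_assoc, hsq _ (hZ23 hu), one_mul]
    · intro c hc hcfix
      rcases C.c3 c hc with h | h
      · exact h
      · exfalso
        have h8 := hZ2fix _ h
        rw [cj_mul, hcfix] at h8
        have h9 := mul_right_cancel h8
        apply h3
        have h10 : cj t z3⁻¹ = (cj t z3)⁻¹ := by unfold cj; group
        rw [h10] at h9
        exact inv_injective h9
  -- the sum
  obtain ⟨ρ, hρ⟩ : ∃ ρ : T, ρ = r * r := ⟨_, rfl⟩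
  have hprod : ∏ d : T ⧸ W, B w (MulAut.conjNormal d.out w) = 1 := by
    obtain ⟨ν, hν1, hν2⟩ := exists_norm (W := W) L hL2 w hw (B w)
    rw [← hν2]
    apply hcen
    rw [Subgroup.mem_upperCentralSeries_succ_iff]
    intro t
    have h1 := (hL1 _).1 (MonoidHom.mem_ker.1 (hν1 t))
    rw [coe_mul, MulAut.conjNormal_apply, coe_inv] at h1
    have h2 : ⁅(ν : T), t⁆ = (t * ν * t⁻¹ * (ν : T)⁻¹)⁻¹ := by
      rw [commutatorElement_def]; group
    rw [h2]
    exact inv_mem h1
  have hfE : ∀ t : T, B w (MulAut.conjNormal t w) = B w (MulAut.conjNormal ((E (E.symm (t : T ⧸ W))).out) w) := by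
    intro t
    apply fcos
    rw [MulEquiv.apply_symm_apply, QuotientGroup.out_eq']
  have hFt : ∀ (x : DihedralGroup 4) (t : T), E x = (t : T ⧸ W) →
      B w (MulAut.conjNormal ((E x).out) w) = B w (MulAut.conjNormal t w) := by
    intro x t h
    apply fcos
    rw [QuotientGroup.out_eq', h]
  have hEr2 : E (.r 2) = (ρ : T ⧸ W) := by
    rw [hρ, QuotientGroup.mk_mul, ← hE1, ← map_mul]; rfl
  have hEsr1 : E (.sr 1) = ((s * r : T) : T ⧸ W) := by
    rw [QuotientGroup.mk_mul, ← hE1, ← hEs, ← map_mul]; rfl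
  have hEsr3 : E (.sr 3) = ((s * (r * (r * r)) : T) : T ⧸ W) := by
    rw [QuotientGroup.mk_mul, QuotientGroup.mk_mul, QuotientGroup.mk_mul, ← hE1, ← hEs, ← map_mul, ← map_mul, ← map_mul]
    rfl
  have q1 : z1 * z1 = 1 := C.z1sq
  have q2 : z2 * z2 = 1 := hsq z2 hz2'
  have n31 : z3 * z1 ≠ z3 := fun h => C.z1ne (mul_eq_left.1 h)
  have n32 : z3 * z2 ≠ z3 := by
    intro h
    have h2 : z2 = 1 := mul_eq_left.1 h
    apply C.z2not
    rw [h2]; exact one_mem _
  have n321 : z3 * (z2 * z1) ≠ z3 := by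
    intro h
    have h1 : z2 * z1 = 1 := mul_eq_left.1 h
    apply C.z2not
    have h2 : z2 = z1⁻¹ := eq_inv_of_mul_eq_one_left h1
    rw [h2]
    exact inv_mem C.z1mem
  have rr3 : cj (r * r) z3 = z3 * z1 := by
    rw [cj_two, D.r3, cj_mul, D.r3, D.r2]
    calc z3 * z2 * (z2 * z1) = z3 * (z2 * z2) * z1 := by group
      _ = z3 * z1 := by rw [q2, mul_one]
  have rr2 : cj (r * r) z2 = z2 := by
    rw [cj_two, D.r2, cj_mul, D.r2, D.c1, mul_assoc, q1, mul_one]
  have sr3 : cj (s * r) z3 = z3 * (z2 * z1) := by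
    rw [cj_two, D.r3, cj_mul, D.s3, D.s2]
  have sr2 : cj (s * r) z2 = z2 := by
    rw [cj_two, D.r2, cj_mul, D.s2, D.c1, mul_assoc, q1, mul_one]
  have srrr3 : cj (s * (r * (r * r))) z3 = z3 * z2 := by
    rw [cj_two, cj_two, rr3, cj_mul, D.r3, D.c1, cj_mul, cj_mul, D.s3, D.s2, D.c1, mul_assoc, mul_assoc, q1, mul_one]
  have srrr2 : cj (s * (r * (r * r))) z2 = z2 := by
    rw [cj_two, cj_two, rr2, D.r2, cj_mul, D.s2, D.c1, mul_assoc, q1, mul_one]
  have key := dihedral_sum (fun x => B w (MulAut.conjNormal ((E x).out) w))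
    (by
      rw [hFt (.r 0) 1 (by rw [← DihedralGroup.one_def, map_one]; rfl)]
      exact f0 1 (one_mem _))
    (by
      rw [hFt _ _ hEr2]
      rw [hρ]
      exact ffix _ rr2 (by rw [rr3]; exact n31))
    (by
      have h3 : E (.r 3) = ((r⁻¹ : T) : T ⧸ W) := by
        rw [QuotientGroup.mk_inv, ← hE1, ← map_inv]; rfl
      rw [hFt _ _ h3, hFt _ _ hE1, finv])
    (by
      rw [hFt _ _ hEsr1]
      exact ffix _ sr2 (by rw [sr3]; exact n321))
    (by
      rw [hFt _ _ hEsr3]
      exact ffix _ srrr2 (by rw [srrr3]; exact n32))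
    (by
      rw [← hprod]
      exact Equiv.prod_comp E.toEquiv (fun d : T ⧸ W => B w (MulAut.conjNormal d.out w)))
  have hρf : ∀ t : T, B w (MulAut.conjNormal (t * ρ) w) = B w (MulAut.conjNormal t w) := by
    intro t
    have h1 := key (E.symm (t : T ⧸ W))
    rw [hFt _ (t * ρ) (by rw [map_mul, hEr2, MulEquiv.apply_symm_apply, QuotientGroup.mk_mul]),
      hFt _ t (by rw [MulEquiv.apply_symm_apply])] at h1
    exact h1
  -- centrality of ρ modulo W
  have hρc : ∀ t : T, ((t * ρ : T) : T ⧸ W) = ((ρ * t : T) : T ⧸ W) := by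
    intro t
    rw [QuotientGroup.mk_mul, QuotientGroup.mk_mul, ← hEr2, ← E.apply_symm_apply (t : T ⧸ W), ← map_mul, ← map_mul]
    congr 1
    have : ∀ x : DihedralGroup 4, x * .r 2 = .r 2 * x := by decide
    exact this _
  have hBhg : ∀ h g : T, B (MulAut.conjNormal h w) (MulAut.conjNormal g w) = B w (MulAut.conjNormal (h⁻¹ * g) w) := by
    intro h g
    rw [← form_inv B hB h⁻¹, ← MulAut.mul_apply, ← map_mul, inv_mul_cancel, map_one, MulAut.one_apply,
      ← MulAut.mul_apply, ← map_mul]
  have hy : ∀ (g : T) (x : W), B x (MulAut.conjNormal g w * MulAut.conjNormal (g * ρ) w) = 1 := by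
    intro g
    have hS := gen_top L hL1 hL2 w hw (B.flip (MulAut.conjNormal g w * MulAut.conjNormal (g * ρ) w)).ker
      (by
        intro x hx
        rw [MonoidHom.mem_ker, MonoidHom.flip_apply, form_symm B hB]
        exact form_central B hB hcz _ _ hx)
      (by
        intro h
        rw [MonoidHom.mem_ker, MonoidHom.flip_apply, map_mul, hBhg, hBhg, ← mul_assoc, hρf]
        exact m2_sq _)
    intro x
    have := hS x
    rwa [MonoidHom.mem_ker, MonoidHom.flip_apply] at this
  have hθ : ∀ (y x : W), B x (y * MulAut.conjNormal ρ y) = 1 := by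
    intro y
    have hS := gen_top L hL1 hL2 w hw (B.flip * (B.flip.comp (MulAut.conjNormal ρ : MulAut W).toMonoidHom)).ker
      (by
        intro x hx
        rw [MonoidHom.mem_ker]
        ext u
        have hx' : ((MulAut.conjNormal ρ x : W) : T) ∈ Z3 := by
          rw [MulAut.conjNormal_apply]
          exact (inferInstance : Z3.Normal).conj_mem _ hx ρ
        have e1 := form_central B hB hcz u x hx
        have e2 := form_central B hB hcz u _ hx'
        simp only [MonoidHom.mul_apply, MonoidHom.flip_apply, MonoidHom.comp_apply, MulEquiv.coe_toMonoidHom,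
          MonoidHom.one_apply]
        rw [e1, e2, one_mul])
      (by
        intro h
        rw [MonoidHom.mem_ker]
        ext u
        have e3 : B u (MulAut.conjNormal ρ (MulAut.conjNormal h w)) = B u (MulAut.conjNormal (h * ρ) w) := by
          rw [← MulAut.mul_apply, ← map_mul]
          exact form_coset B hB hcz hWW u w _ _ (hρc h).symm
        have e4 := hy h u
        rw [map_mul] at e4
        simp only [MonoidHom.mul_apply, MonoidHom.flip_apply, MonoidHom.comp_apply, MulEquiv.coe_toMonoidHom,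
          MonoidHom.one_apply]
        rw [e3]
        exact e4)
    intro x
    have h1 := hS y
    rw [MonoidHom.mem_ker] at h1
    have h2 := DFunLike.congr_fun h1 x
    simp only [MonoidHom.mul_apply, MonoidHom.flip_apply, MonoidHom.comp_apply, MulEquiv.coe_toMonoidHom,
          MonoidHom.one_apply] at h2
    rw [map_mul]
    exact h2
  -- counting
  set θ : W →* (T ⧸ W → M2) := L * L.comp (MulAut.conjNormal ρ : MulAut W).toMonoidHom with hθdef
  have hθa : ∀ y : W, θ y = L (y * MulAut.conjNormal ρ y) := by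
    intro y
    rw [map_mul]; rfl
  have hθk : ∀ y : W, y ∈ θ.ker ↔ ∀ v : T, L y (v : T ⧸ W) * L y ((ρ⁻¹ * v : T) : T ⧸ W) = 1 := by
    intro y
    rw [MonoidHom.mem_ker, hθa, map_mul]
    constructor
    · intro h v
      have := congrFun h (v : T ⧸ W)
      rw [Pi.mul_apply, L_conj L hL2] at this
      exact this
    · intro h
      funext d
      obtain ⟨v, rfl⟩ := QuotientGroup.mk_surjective d
      rw [Pi.mul_apply, L_conj L hL2]
      exact h v
  have hLker : Nat.card L.ker = 8 := by
    have h3 : L.ker = Z3.subgroupOf W := by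
      ext x
      rw [MonoidHom.mem_ker, hL1, mem_subgroupOf]
    rw [h3, Nat.card_congr (Subgroup.subgroupOfEquivOfLe hZW).toEquiv, C.k3]
  have hR0k : L.ker ≤ B.flip.ker := by
    intro x hx
    rw [MonoidHom.mem_ker] at hx ⊢
    ext u
    exact form_central B hB hcz u x ((hL1 x).1 hx)
  have hrange : θ.range ≤ (B.flip.ker).map L := by
    rintro _ ⟨y, rfl⟩
    refine ⟨y * MulAut.conjNormal ρ y, ?_, (hθa y).symm⟩
    rw [SetLike.mem_coe, MonoidHom.mem_ker]
    ext u
    exact hθ y u
  have hT14 : Nat.card T = 2 ^ 14 := by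
    rw [← Subgroup.card_mul_index W, hW, h8]; norm_num
  have hC0 : Nat.card θ.ker ≤ 2 ^ 7 := by
    set N0 : Subgroup T := θ.ker.map W.subtype with hN0
    have hN0c : Nat.card N0 = Nat.card θ.ker := Subgroup.card_map_of_injective W.subtype_injective
    have hcomm : ∀ g v : T, ((g⁻¹ * (ρ⁻¹ * v) : T) : T ⧸ W) = ((ρ⁻¹ * (g⁻¹ * v) : T) : T ⧸ W) := by
      intro g v
      have h1 : Commute (g : T ⧸ W) (ρ : T ⧸ W) := by
        have := hρc g
        rw [QuotientGroup.mk_mul, QuotientGroup.mk_mul] at this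
        exact this
      have h2 := h1.inv_inv
      rw [QuotientGroup.mk_mul, QuotientGroup.mk_mul, QuotientGroup.mk_mul, QuotientGroup.mk_mul, ← mul_assoc,
        ← mul_assoc, QuotientGroup.mk_inv, QuotientGroup.mk_inv, h2.eq]
    haveI hN0n : N0.Normal := by
      refine ⟨?_⟩
      rintro _ ⟨y, hy, rfl⟩ g
      refine ⟨MulAut.conjNormal g y, ?_, MulAut.conjNormal_apply g y⟩
      rw [SetLike.mem_coe, hθk] at hy ⊢
      intro v
      rw [L_conj L hL2, L_conj L hL2, hcomm]
      exact hy _
    have hN0W : N0 ≤ W := by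
      rintro _ ⟨y, -, rfl⟩; exact y.2
    have hZN : Z3 ≤ N0 := by
      intro x hx
      refine ⟨⟨x, hZW hx⟩, ?_, rfl⟩
      rw [SetLike.mem_coe, hθk]
      intro v
      rw [(hL1 ⟨x, hZW hx⟩).2 hx]
      rfl
    have heN : e ∈ N0 := by
      refine ⟨⟨e, hW4 he4⟩, ?_, rfl⟩
      rw [SetLike.mem_coe, hθk]
      intro v
      have h1 : L (MulAut.conjNormal ρ ⟨e, hW4 he4⟩) = L ⟨e, hW4 he4⟩ := by
        rw [← mul_inv_eq_one, ← map_inv, ← map_mul, hL1, coe_mul, MulAut.conjNormal_apply, coe_inv]
        have h2 := (Subgroup.mem_upperCentralSeries_succ_iff).1 he4 ρ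
        have h3 : ρ * e * ρ⁻¹ * e⁻¹ = ⁅e, ρ⁆⁻¹ := by rw [commutatorElement_def]; group
        rw [h3]
        exact inv_mem h2
      have h4 := L_conj L hL2 ρ ⟨e, hW4 he4⟩ v
      rw [← h4, h1]
      exact m2_sq _
    have hK : ∀ x ∈ N0, ∀ k ∈ W ⊔ zpowers ρ, ⁅k, x⁆ ∈ Z3 := by
      intro x hx
      have hle : W ⊔ zpowers ρ ≤ (centralizer ({(x : T ⧸ Z3)} : Set (T ⧸ Z3))).comap (QuotientGroup.mk' Z3) := by
        apply sup_le
        · intro k hk
          rw [mem_comap, mem_centralizer_singleton_iff, QuotientGroup.mk'_apply,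
            ← commutatorElement_eq_one_iff_mul_comm]
          have h1 := hWW k hk x (hN0W hx)
          rw [← QuotientGroup.eq_one_iff] at h1
          exact h1
        · rw [zpowers_le, mem_comap, mem_centralizer_singleton_iff, QuotientGroup.mk'_apply,
            ← commutatorElement_eq_one_iff_mul_comm]
          have h1 : ⁅ρ, x⁆ ∈ Z3 := by
            obtain ⟨y, hy, rfl⟩ := hx
            rw [SetLike.mem_coe, MonoidHom.mem_ker, hθa] at hy
            have h2 : L (MulAut.conjNormal ρ y * y⁻¹) = 1 := by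
              rw [map_mul] at hy
              rw [map_mul, map_inv]
              have h3 : L y * L y = 1 := by
                funext d
                exact m2_sq _
              have h4 : (L y)⁻¹ = L y := inv_eq_of_mul_eq_one_left h3
              rw [h4, mul_comm]
              exact hy
            have h5 := (hL1 _).1 h2
            rw [coe_mul, MulAut.conjNormal_apply, coe_inv] at h5
            rw [commutatorElement_def]
            exact h5
          rw [← QuotientGroup.eq_one_iff] at h1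
          exact h1
      intro k hk
      have h6 := hle hk
      rw [mem_comap, mem_centralizer_singleton_iff, QuotientGroup.mk'_apply,
            ← commutatorElement_eq_one_iff_mul_comm] at h6
      rw [← QuotientGroup.eq_one_iff]
      exact h6
    obtain ⟨L', hL1', -⟩ := RuB.exists_embed N0 Z3 (W ⊔ zpowers ρ) (fun x hx => hsqW x (hN0W hx)) hK hZN e heN he3
      (hmin N0)
    have hb := (RuB.card_bound hZN L' hL1').1
    have hlt2 : W < W ⊔ zpowers ρ := by
      refine lt_of_le_of_ne le_sup_left ?_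
      intro h
      have h7 : ρ ∈ W := by rw [h]; exact mem_sup_right (mem_zpowers ρ)
      rw [D.memW, hρ, rr3] at h7
      exact n31 h7.1
    have h8' := RuA.two_mul_card_le hlt2
    have h9 := Subgroup.card_mul_index (W ⊔ zpowers ρ)
    rw [hT14] at h9
    have h10 : (W ⊔ zpowers ρ).index ≤ 4 := by
      by_contra hcon2
      push Not at hcon2
      have : 2 ^ 12 * 5 ≤ Nat.card (W ⊔ zpowers ρ : Subgroup T) * (W ⊔ zpowers ρ).index :=
        Nat.mul_le_mul (by omega) hcon2
      omega
    rw [hN0c, C.k3] at hb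
    have h11 : 2 ^ (W ⊔ zpowers ρ).index ≤ 2 ^ 4 := Nat.pow_le_pow_right (by norm_num) h10
    omega
  have hR0 : 2 ^ 7 ≤ Nat.card (B.flip.ker) := by
    have h1 : Nat.card (Subgroup.map L B.flip.ker) * Nat.card L.ker = Nat.card B.flip.ker :=
      card_map_mul L B.flip.ker hR0k
    have h2 := Subgroup.card_mul_index θ.ker
    rw [Subgroup.index_ker, hW] at h2
    have h3 : Nat.card θ.range ≤ Nat.card (Subgroup.map L B.flip.ker) := Subgroup.card_le_of_le hrange
    rw [hLker] at h1
    by_contra hcon2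
    push Not at hcon2
    have h4 : Nat.card θ.range < 2 ^ 4 := by omega
    have h5 : Nat.card θ.ker * Nat.card θ.range ≤ 2 ^ 7 * 15 := Nat.mul_le_mul hC0 (by omega)
    omega
  refine false_of_rad (W := W) (Z3.subgroupOf W) (Z2.subgroupOf W) B.flip.ker ?_ ?_ ?_ ?_ hW hR0 ?_ ?_ ?_ ?_
  · intro x hx
    exact hZ23 hx
  · intro x hx
    apply hR0k
    rw [MonoidHom.mem_ker, hL1]; exact hx
  · rw [Nat.card_congr (Subgroup.subgroupOfEquivOfLe (hZ23.trans hZW)).toEquiv, C.k2]
  · rw [Nat.card_congr (Subgroup.subgroupOfEquivOfLe hZW).toEquiv, C.k3]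
  · intro x y
    exact hWW x x.2 y y.2
  · intro x
    exact hsqW x x.2
  · intro x y hy'
    rw [MonoidHom.mem_ker] at hy'
    have h1 := DFunLike.congr_fun hy' x
    exact (hB x y).1 h1
  · intro U hU
    rw [← hfrs]
    exact hd U hU

end H58.RuH
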