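import Mathlib
import Cfsg.Agent.Lib.H58.RuH

/-! The two-groups of S3174: automorphisms of odd order are trivial (helper58). -/

set_option autoImplicit false
set_option linter.style.haveILetI false

namespace H58.RuI

open Subgroup H58.RuE H58.RuF H58.RuG
open scoped commutatorElement

variable {T : Type*} [Group T]

theorem fix_of {α : MulAut T} (hT : IsPGroup 2 T) {n : ℕ} (hn : Odd n) (hα : α ^ n = 1) {k : T}
    (h : α (α k * k⁻¹) = α k * k⁻¹) : α k = k := by
  obtain ⟨d, hd⟩ : ∃ d, d = α k * k⁻¹ := ⟨_, rfl⟩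
  rw [← hd] at h
  have h1 : α k = d * k := by rw [hd]; group
  have h2 : ∀ j : ℕ, (α ^ j) k = d ^ j * k := by
    intro j
    induction j with
    | zero => simp
    | succ j ih =>
      rw [pow_succ', MulAut.mul_apply, ih, map_mul, map_pow, h, h1, pow_succ, mul_assoc]
  have h3 := h2 n
  rw [hα, MulAut.one_apply] at h3
  have h4 : d ^ n = 1 := right_eq_mul.1 h3
  obtain ⟨m, hm⟩ := hT d
  have h5 : orderOf d ∣ n := orderOf_dvd_of_pow_eq_one h4
  have h6 : orderOf d ∣ 2 ^ m := orderOf_dvd_of_pow_eq_one hm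
  have h7 : orderOf d ∣ 1 := by
    have h8 : Nat.Coprime n (2 ^ m) := (Nat.Coprime.pow_right m (Nat.coprime_two_right.2 hn))
    rw [← h8.gcd_eq_one]
    exact Nat.dvd_gcd h5 h6
  have h9 : d = 1 := orderOf_eq_one_iff.1 (Nat.dvd_one.1 h7)
  rw [h1, h9, one_mul]

variable [Finite T]

theorem aut_trivial {W : Subgroup T} [hWn : W.Normal] {z1 z2 z3 : T} (hT : IsPGroup 2 T) (ha : 16 < Nat.card T)
    (C : RuC.Chain T W z1 z2 z3) (h8 : W.index = 8) (hW : Nat.card W = 2 ^ 11)
    (hfr : (frattini W).map W.subtype = Subgroup.upperCentralSeries T 3)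
    {α : MulAut T} {n : ℕ} (hn : Odd n) (hα : α ^ n = 1) : ∀ x, α x = x := by
  classical
  haveI : Fact (Nat.Prime 2) := ⟨Nat.prime_two⟩
  set Z3 := Subgroup.upperCentralSeries T 3 with hZ3
  have hZW : Z3 ≤ W := by
    rw [← hfr]; rintro _ ⟨x, -, rfl⟩; exact x.2
  have hWp : IsPGroup 2 W := hT.to_subgroup W
  have hsqW : ∀ x ∈ W, x * x ∈ Z3 := by
    intro x hx
    rw [← hfr]
    refine ⟨⟨x, hx⟩ ^ 2, H1.Frat.pow_mem_frattini hWp _, ?_⟩
    rw [pow_two]; rfl
  have hWW : ∀ x ∈ W, ∀ y ∈ W, ⁅x, y⁆ ∈ Z3 := by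
    intro x hx y hy
    haveI : Group.IsNilpotent W := hWp.isNilpotent
    rw [← hfr]
    refine ⟨⁅(⟨x, hx⟩ : W), ⟨y, hy⟩⁆, H1.Frat.commutator_le_frattini (Subgroup.commutator_mem_commutator (mem_top _) (mem_top _)), ?_⟩
    rfl
  have hnil : Group.IsNilpotent T := hT.isNilpotent
  have hlt : Z3 < Subgroup.upperCentralSeries T 4 := by
    apply RuA.ucs_lt hnil
    intro h
    have h3 := C.k3
    rw [h, Subgroup.card_top] at h3
    omega
  obtain ⟨e, he4, he3⟩ := SetLike.exists_of_lt hlt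
  have hW4 : Subgroup.upperCentralSeries T 4 ≤ W := by
    refine RuA.ucs_le hT ha C.k4 (N := W) (i := 3) (by norm_num) ?_
    intro hcon
    have h2 := Subgroup.card_le_of_le hcon
    rw [C.k3] at h2
    omega
  have hmin : ∀ M : Subgroup T, M.Normal → Z3 ≤ M → M ≤ W → e ∉ M → M = Z3 := by
    intro M hM hPM _ heM
    apply le_antisymm _ hPM
    by_contra hcon
    exact heM (RuA.ucs_le hT ha C.k4 (N := M) (i := 3) (by norm_num) hcon he4)
  obtain ⟨L, hL1, hL2⟩ := RuB.exists_embed W Z3 W hsqW (fun x hx y hy => hWW y hy x hx) hZW e (hW4 he4) he3 hmin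
  -- α fixes `Z_i`
  have hchar : ∀ i, ∀ x ∈ Subgroup.upperCentralSeries T i, α x ∈ Subgroup.upperCentralSeries T i := by
    intro i x hx
    have h1 : (Subgroup.upperCentralSeries T i).comap α.toMonoidHom = Subgroup.upperCentralSeries T i :=
      (inferInstance : (Subgroup.upperCentralSeries T i).Characteristic).fixed α
    rw [← h1] at hx
    exact hx
  have hchar' : ∀ i, ∀ x, α x ∈ Subgroup.upperCentralSeries T i → x ∈ Subgroup.upperCentralSeries T i := by
    intro i x hx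
    have h1 : (Subgroup.upperCentralSeries T i).comap α.toMonoidHom = Subgroup.upperCentralSeries T i :=
      (inferInstance : (Subgroup.upperCentralSeries T i).Characteristic).fixed α
    rw [← h1]
    exact hx
  have hstep : ∀ i, Nat.card (Subgroup.upperCentralSeries T (i + 1)) = 2 * Nat.card (Subgroup.upperCentralSeries T i) →
      (∀ x ∈ Subgroup.upperCentralSeries T i, α x = x) → ∀ x ∈ Subgroup.upperCentralSeries T (i + 1), α x = x := by
    intro i hi hfix x hx
    by_cases hxi : x ∈ Subgroup.upperCentralSeries T i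
    · exact hfix x hxi
    apply fix_of hT hn hα
    apply hfix
    rcases RuC.index_two_cases (Subgroup.upperCentralSeries_mono T (Nat.le_succ i)) hi hx hxi (hchar _ x hx) with h | h
    · exact absurd (hchar' _ _ h) hxi
    · have h2 : α x * x⁻¹ = x * (x⁻¹ * α x) * x⁻¹ := by group
      rw [h2]
      exact (inferInstance : (Subgroup.upperCentralSeries T i).Normal).conj_mem _ h x
  have f0 : ∀ x ∈ Subgroup.upperCentralSeries T 0, α x = x := by
    intro x hx
    rw [Subgroup.upperCentralSeries_zero, mem_bot] at hx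
    rw [hx, map_one]
  have c0 : Nat.card (Subgroup.upperCentralSeries T 0) = 1 := by
    rw [Subgroup.upperCentralSeries_zero, Subgroup.card_bot]
  have f1 := hstep 0 (by rw [zero_add, C.k1, c0]) f0
  have f2 := hstep 1 (by rw [C.k2, C.k1]) f1
  have f3 := hstep 2 (by rw [C.k3, C.k2]) f2
  have f4 := hstep 3 (by rw [C.k4, C.k3]) f3
  -- α preserves W and acts trivially on T/W
  have hαW : ∀ x ∈ W, α x ∈ W := by
    intro x hx
    rw [C.hW, mem_centralizer_iff] at hx ⊢
    intro z hz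
    have h1 := congrArg α (hx z hz)
    rw [map_mul, map_mul, f3 z hz] at h1
    exact h1
  have hαT : ∀ t : T, t⁻¹ * α t ∈ W := by
    intro t
    rw [C.hW, mem_centralizer_iff]
    intro z hz
    have h1 : α (t * z * t⁻¹) = t * z * t⁻¹ :=
      f3 _ ((inferInstance : Z3.Normal).conj_mem z hz t)
    rw [map_mul, map_mul, map_inv, f3 z hz] at h1
    calc z * (t⁻¹ * α t) = t⁻¹ * (t * z * t⁻¹) * α t := by group
      _ = t⁻¹ * (α t * z * (α t)⁻¹) * α t := by rw [h1]
      _ = t⁻¹ * α t * z := by group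
  -- the map u ↦ [u,α]
  let δ : W →* (T ⧸ W → M2) := MonoidHom.mk' (fun u => L ⟨α u, hαW _ u.2⟩ * (L u)⁻¹) (by
    intro a b
    have h1 : (⟨α ((a * b : W) : T), hαW _ (a * b).2⟩ : W) = ⟨α a, hαW _ a.2⟩ * ⟨α b, hαW _ b.2⟩ := by
      apply Subtype.ext
      simp only [coe_mul, map_mul]
    rw [h1, map_mul, map_mul, mul_inv]
    exact mul_mul_mul_comm _ _ _ _)
  have hLW : ∀ (t : T) (u x : W), (u : T) = t → L (MulAut.conjNormal t x) = L x := by
    intro t u x h
    have h1 : MulAut.conjNormal t x = u * x * u⁻¹ := by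
      apply Subtype.ext
      rw [MulAut.conjNormal_apply, coe_mul, coe_mul, coe_inv, h]
    rw [h1, map_mul, map_mul, map_inv, mul_comm (L u), mul_inv_cancel_right]
  set D : Subgroup T := (δ.range.comap L).map W.subtype with hD
  haveI hDn : D.Normal := by
    refine ⟨?_⟩
    rintro _ ⟨x, ⟨u, hu⟩, rfl⟩ t
    refine ⟨MulAut.conjNormal t x, ⟨MulAut.conjNormal t u, ?_⟩, MulAut.conjNormal_apply t x⟩
    obtain ⟨a, haT⟩ : ∃ a, a = t⁻¹ * α t := ⟨_, rfl⟩
    have haW : a ∈ W := by rw [haT]; exact hαT t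
    have hta : α t = t * a := by rw [haT]; group
    have h2 : (⟨α (MulAut.conjNormal t u : W), hαW _ (MulAut.conjNormal t u : W).2⟩ : W) =
        MulAut.conjNormal t (MulAut.conjNormal a ⟨α u, hαW _ u.2⟩) := by
      apply Subtype.ext
      simp only [MulAut.conjNormal_apply, map_mul, map_inv, hta]
      group
    have h3 : L (MulAut.conjNormal t (MulAut.conjNormal a ⟨α u, hαW _ u.2⟩)) =
        L (MulAut.conjNormal t ⟨α u, hαW _ u.2⟩) := by
      funext d
      obtain ⟨v, rfl⟩ := QuotientGroup.mk_surjective d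
      rw [L_conj L hL2 t, L_conj L hL2 t, hLW a ⟨a, haW⟩ _ rfl]
    change L ⟨α (MulAut.conjNormal t u : W), _⟩ * (L (MulAut.conjNormal t u))⁻¹ = L (MulAut.conjNormal t x)
    rw [h2, h3]
    have hu' : L ⟨α u, hαW _ u.2⟩ * (L u)⁻¹ = L x := hu
    funext d
    obtain ⟨v, rfl⟩ := QuotientGroup.mk_surjective d
    rw [Pi.mul_apply, Pi.inv_apply, L_conj L hL2, L_conj L hL2, L_conj L hL2, ← hu']
    rfl
  have hD3 : D ≤ Z3 := by
    by_contra hcon
    have h4 := RuA.ucs_le hT ha C.k4 (N := D) (i := 3) (by norm_num) hcon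
    obtain ⟨x, ⟨u, hu⟩, hxe⟩ := h4 he4
    have hu' : L ⟨α u, hαW _ u.2⟩ * (L u)⁻¹ = L x := hu
    have h5 : L (⟨α u, hαW _ u.2⟩ * u⁻¹ * x⁻¹) = 1 := by
      rw [map_mul, map_mul, map_inv, map_inv, hu', mul_inv_cancel]
    have h6 := (hL1 _).1 h5
    simp only [coe_mul, coe_inv] at h6
    have hxe' : (x : T) = e := hxe
    rw [hxe'] at h6
    have h7 : α u * (u : T)⁻¹ ∈ Subgroup.upperCentralSeries T 4 := by
      have h8 := mul_mem (Subgroup.upperCentralSeries_mono T (by norm_num : 3 ≤ 4) h6) he4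
      simpa using h8
    have h9 := fix_of hT hn hα (f4 _ h7)
    rw [h9, mul_inv_cancel, one_mul, inv_mem_iff] at h6
    exact he3 h6
  have hW3 : ∀ u ∈ W, α u * u⁻¹ ∈ Z3 := by
    intro u hu
    apply hD3
    refine ⟨⟨α u, hαW _ hu⟩ * ⟨u, hu⟩⁻¹, ⟨⟨u, hu⟩, ?_⟩, rfl⟩
    rw [map_mul, map_inv]; rfl
  have fW : ∀ u ∈ W, α u = u := fun u hu => fix_of hT hn hα (f3 _ (hW3 u hu))
  intro t
  apply fix_of hT hn hα
  apply fW
  have h2 : α t * t⁻¹ = t * (t⁻¹ * α t) * t⁻¹ := by group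
  rw [h2]
  exact hWn.conj_mem _ (hαT t) t

/-- weak closure argument, in the ambient group. -/
theorem weakly_closed {G : Type*} [Group G] [Finite G] {T W P : Subgroup G} (hWT : W ≤ T)
    (hT : Nat.card T = 2 ^ 14) (hW : Nat.card W = 2 ^ 11)
    (hc : ∀ x ∈ T, (∀ z ∈ P, z * x = x * z) → x ∈ W) (hc' : ∀ x ∈ W, ∀ z ∈ P, z * x = x * z)
    (hcomm : ∀ x ∈ W, ∀ y ∈ W, ⁅x, y⁆ ∈ P) (hsq : ∀ x ∈ W, x * x ∈ P)
    (hd : ∀ U : Subgroup G, U ≤ W → U.relIndex W ≤ 16 → P ≤ U) (g : G)
    (hg : W.map (MulAut.conj g).toMonoidHom ≤ T) : W.map (MulAut.conj g).toMonoidHom = W := by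
  classical
  set W1 := W.map (MulAut.conj g).toMonoidHom with hW1
  set P1 := P.map (MulAut.conj g).toMonoidHom with hP1
  have hW1c : Nat.card W1 = 2 ^ 11 := by
    rw [hW1, Subgroup.card_map_of_injective (MulAut.conj g).injective, hW]
  have hP1c : Nat.card P1 = Nat.card P := by
    rw [hP1, Subgroup.card_map_of_injective (MulAut.conj g).injective]
  have hidx : (W ⊓ W1).relIndex W ≤ 8 := by
    rw [Subgroup.inf_relIndex_left]
    have h1 : W1.relIndex T = 8 := by
      have h2 := Subgroup.card_mul_index (W1.subgroupOf T)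
      rw [Nat.card_congr (Subgroup.subgroupOfEquivOfLe hg).toEquiv, hT, hW1c] at h2
      have h3 : (W1.subgroupOf T).index = W1.relIndex T := rfl
      omega
    have h2 : W1.relIndex W ≤ W1.relIndex T :=
      Subgroup.relIndex_le_of_le_right hWT (by rw [h1]; norm_num)
    omega
  have hPI : P ≤ W ⊓ W1 := hd _ inf_le_left (hidx.trans (by norm_num))
  have hsq1 : ∀ x ∈ W1, x * x ∈ P1 := by
    rintro _ ⟨y, hy, rfl⟩
    rw [← map_mul]
    exact ⟨_, hsq y hy, rfl⟩
  have hPP : P ≤ P1 := by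
    by_contra hcon
    rw [SetLike.not_le_iff_exists] at hcon
    obtain ⟨e, he, he'⟩ := hcon
    -- a maximal subgroup of the intersection
    have hcommI : ∀ x ∈ W ⊓ W1, ∀ y ∈ W ⊓ W1, ⁅x, y⁆ ∈ P ⊓ P1 := by
      intro x hx y hy
      rw [mem_inf] at hx hy
      refine mem_inf.2 ⟨hcomm x hx.1 y hy.1, ?_⟩
      obtain ⟨x', hx', rfl⟩ := hx.2
      obtain ⟨y', hy', rfl⟩ := hy.2
      rw [← map_commutatorElement]
      exact ⟨_, hcomm x' hx' y' hy', rfl⟩
    haveI : ((P ⊓ P1).subgroupOf (W ⊓ W1)).Normal := by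
      refine ⟨?_⟩
      intro x hx y
      rw [mem_subgroupOf] at hx ⊢
      have h3 := hcommI y y.2 x x.2
      rw [commutatorElement_def] at h3
      have h4 := mul_mem h3 hx
      simpa using h4
    obtain ⟨l, hl, hle⟩ := RuB.exists_char ((P ⊓ P1).subgroupOf (W ⊓ W1)) (by
      intro x
      rw [mem_subgroupOf, coe_mul]
      exact mem_inf.2 ⟨hsq _ (mem_inf.1 x.2).1, hsq1 _ (mem_inf.1 x.2).2⟩) ⟨e, hPI he⟩ (by
      rw [mem_subgroupOf]
      intro h
      exact he' (mem_inf.1 h).2)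
    have h5 : l.ker.index ≤ 2 := by
      rw [Subgroup.index_ker]
      have h6 : Nat.card l.range ≤ Nat.card (Multiplicative (ZMod 2)) := Subgroup.card_le_card_group _
      rw [Nat.card_congr Multiplicative.toAdd, Nat.card_zmod] at h6
      exact h6
    have h7 : (l.ker.map (W ⊓ W1).subtype).relIndex W ≤ 16 := by
      have h8 := Subgroup.relIndex_mul_relIndex (l.ker.map (W ⊓ W1).subtype) (W ⊓ W1) W (by
        rintro _ ⟨y, -, rfl⟩; exact y.2) inf_le_left
      rw [← h8]
      have h9 : (l.ker.map (W ⊓ W1).subtype).relIndex (W ⊓ W1) = l.ker.index := by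
        rw [Subgroup.relIndex, Subgroup.subgroupOf, Subgroup.comap_map_eq_self_of_injective (W ⊓ W1).subtype_injective]
      rw [h9]
      calc _ ≤ 2 * 8 := Nat.mul_le_mul h5 hidx
        _ ≤ 16 := by norm_num
    have h10 := hd _ (by
      rintro _ ⟨y, -, rfl⟩; exact (mem_inf.1 y.2).1) h7 he
    obtain ⟨y, hy, hye⟩ := h10
    have h11 : y = ⟨e, hPI he⟩ := Subtype.ext hye
    rw [h11] at hy
    exact hle hy
  have hPeq : P = P1 := Subgroup.eq_of_le_of_card_ge hPP hP1c.le
  have hle : W1 ≤ W := by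
    intro x hx
    apply hc x (hg hx)
    intro z hz
    rw [hPeq] at hz
    obtain ⟨x', hx', rfl⟩ := hx
    obtain ⟨z', hz', rfl⟩ := hz
    rw [← map_mul, ← map_mul, hc' x' hx' z' hz']
  exact Subgroup.eq_of_le_of_card_ge hle (by rw [hW, hW1c])

end H58.RuI
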