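import Mathlib
import Cfsg.Agent.Lib.H58.SL2Dec

/-!
Representations of `SL₂(5)` of degree four over the field with three elements.
-/

namespace H58.SL25

open Matrix (SpecialLinearGroup)
open H58.SL2Dec H58.SL2Prod

section Lin

variable {F : Type*} [Field F]

theorem finrank_le_three_mul {V : Type*} [AddCommGroup V] [Module F V] [FiniteDimensional F V]
    (N : Module.End F V) (hN : N * N * N = 0) :
    Module.finrank F V ≤ 3 * Module.finrank F (LinearMap.ker N) := by
  have h1 := LinearMap.finrank_range_add_finrank_ker N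
  have h2 := LinearMap.finrank_range_add_finrank_ker (N.domRestrict (LinearMap.range N))
  have h3 : Module.finrank F (LinearMap.range (N.domRestrict (LinearMap.range N))) ≤
      Module.finrank F (LinearMap.ker N) := by
    apply Submodule.finrank_mono
    rintro _ ⟨⟨_, v, rfl⟩, rfl⟩
    rw [LinearMap.mem_ker]
    exact LinearMap.congr_fun hN v
  have h4 : Module.finrank F (LinearMap.ker (N.domRestrict (LinearMap.range N))) ≤
      Module.finrank F (LinearMap.ker N) := by
    have h5 : Function.Injective ((LinearMap.range N).subtype.domRestrict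
        (LinearMap.ker (N.domRestrict (LinearMap.range N)))) := by
      intro a b hab
      exact Subtype.ext (Subtype.ext hab)
    rw [← LinearMap.finrank_range_of_inj h5]
    apply Submodule.finrank_mono
    rintro _ ⟨⟨⟨_, v, rfl⟩, hv⟩, rfl⟩
    exact hv
  omega

variable [Fintype F]

theorem eq_one_of_pow_five (hF : Fintype.card F = 3) {U : Type*} [AddCommGroup U] [Module F U]
    [FiniteDimensional F U] (hd : Module.finrank F U ≤ 3) (T : Module.End F U) (hT : T ^ 5 = 1) :
    T = 1 := by
  set d := Module.finrank F U with hdd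
  let b : Module.Basis (Fin d) F U := Module.finBasis F U
  set M := LinearMap.toMatrixAlgEquiv b T with hM
  have hM5 : M ^ 5 = 1 := by rw [hM, ← map_pow, hT, map_one]
  let u : Matrix.GeneralLinearGroup (Fin d) F :=
    ⟨M, M ^ 4, by rw [← pow_succ']; exact hM5, by rw [← pow_succ]; exact hM5⟩
  have hu : u ^ 5 = 1 := Units.ext hM5
  have h1 : orderOf u ∣ 5 := orderOf_dvd_of_pow_eq_one hu
  have h2 : orderOf u ∣ Nat.card (Matrix.GeneralLinearGroup (Fin d) F) := orderOf_dvd_natCard u
  rw [Matrix.card_GL_field, hF] at h2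
  have h3 : orderOf u = 1 := by
    rcases (Nat.dvd_prime Nat.prime_five).1 h1 with h | h
    · exact h
    · exfalso
      rw [h] at h2
      have h4 : ∀ d : ℕ, d ≤ 3 → ¬ 5 ∣ ∏ i : Fin d, (3 ^ d - 3 ^ (i : ℕ)) := by
        intro d hd
        interval_cases d <;> decide
      exact h4 d hd h2
  have h4 : u = 1 := orderOf_eq_one_iff.1 h3
  have h5 : M = 1 := congrArg Units.val h4
  apply (LinearMap.toMatrixAlgEquiv b).injective
  rw [map_one, ← hM, h5]

theorem three_eq_zero (hF : Fintype.card F = 3) : (3 : F) = 0 := by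
  have := FiniteField.cast_card_eq_zero F
  rw [hF] at this
  exact_mod_cast this

theorem five_eq_zero (hF : Fintype.card F = 5) : (5 : F) = 0 := by
  have := FiniteField.cast_card_eq_zero F
  rw [hF] at this
  exact_mod_cast this

end Lin

section Five

variable {K : Type*} [Field K] [Fintype K]

theorem up_mul (s t : K) : up s * up t = up (s + t) := by
  apply H45.SL2.ext4
  · rw [H45.SL2.mul_00]; unfold up
    simp only [H45.SL2.mk2_00, H45.SL2.mk2_01, H45.SL2.mk2_10, H45.SL2.mk2_11]; ring
  · rw [H45.SL2.mul_01]; unfold up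
    simp only [H45.SL2.mk2_00, H45.SL2.mk2_01, H45.SL2.mk2_10, H45.SL2.mk2_11]; ring
  · rw [H45.SL2.mul_10]; unfold up
    simp only [H45.SL2.mk2_00, H45.SL2.mk2_01, H45.SL2.mk2_10, H45.SL2.mk2_11]; ring
  · rw [H45.SL2.mul_11]; unfold up
    simp only [H45.SL2.mk2_00, H45.SL2.mk2_01, H45.SL2.mk2_10, H45.SL2.mk2_11]; ring

theorem lo_mul (s t : K) : lo s * lo t = lo (s + t) := by
  apply H45.SL2.ext4
  · rw [H45.SL2.mul_00]; unfold lo
    simp only [H45.SL2.mk2_00, H45.SL2.mk2_01, H45.SL2.mk2_10, H45.SL2.mk2_11]; ring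
  · rw [H45.SL2.mul_01]; unfold lo
    simp only [H45.SL2.mk2_00, H45.SL2.mk2_01, H45.SL2.mk2_10, H45.SL2.mk2_11]; ring
  · rw [H45.SL2.mul_10]; unfold lo
    simp only [H45.SL2.mk2_00, H45.SL2.mk2_01, H45.SL2.mk2_10, H45.SL2.mk2_11]; ring
  · rw [H45.SL2.mul_11]; unfold lo
    simp only [H45.SL2.mk2_00, H45.SL2.mk2_01, H45.SL2.mk2_10, H45.SL2.mk2_11]; ring

theorem up_zero : up (0 : K) = 1 := by apply H45.SL2.ext4 <;> rfl
theorem lo_zero : lo (0 : K) = 1 := by apply H45.SL2.ext4 <;> rfl

theorem up_pow (t : K) (n : ℕ) : up t ^ n = up (n * t) := by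
  induction n with
  | zero => rw [pow_zero, Nat.cast_zero, zero_mul, up_zero]
  | succ n ih => rw [pow_succ, ih, up_mul]; congr 1; push_cast; ring

theorem lo_pow (t : K) (n : ℕ) : lo t ^ n = lo (n * t) := by
  induction n with
  | zero => rw [pow_zero, Nat.cast_zero, zero_mul, lo_zero]
  | succ n ih => rw [pow_succ, ih, lo_mul]; congr 1; push_cast; ring

theorem neg_one_eq : (-1 : SpecialLinearGroup (Fin 2) K) =
    (up (-1) * lo 1 * up (-1)) * (up (-1) * lo 1 * up (-1)) := by
  have h1 : (up (-1) * lo 1 * up (-1) : SpecialLinearGroup (Fin 2) K) = w := by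
    unfold w
    apply H45.SL2.ext4
    · rw [H45.SL2.mul_00, H45.SL2.mul_00, H45.SL2.mul_01]; unfold up lo
      simp only [H45.SL2.mk2_00, H45.SL2.mk2_01, H45.SL2.mk2_10, H45.SL2.mk2_11]; ring
    · rw [H45.SL2.mul_01, H45.SL2.mul_00, H45.SL2.mul_01]; unfold up lo
      simp only [H45.SL2.mk2_00, H45.SL2.mk2_01, H45.SL2.mk2_10, H45.SL2.mk2_11]; ring
    · rw [H45.SL2.mul_10, H45.SL2.mul_10, H45.SL2.mul_11]; unfold up lo
      simp only [H45.SL2.mk2_00, H45.SL2.mk2_01, H45.SL2.mk2_10, H45.SL2.mk2_11]; ring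
    · rw [H45.SL2.mul_11, H45.SL2.mul_10, H45.SL2.mul_11]; unfold up lo
      simp only [H45.SL2.mk2_00, H45.SL2.mk2_01, H45.SL2.mk2_10, H45.SL2.mk2_11]; ring
  rw [h1]
  symm
  apply H45.SL2.sq_of_tr_zero
  unfold w; rw [H45.SL2.tr_mk2]; ring

theorem two_ne_zero_of_five (hK : Fintype.card K = 5) : (2 : K) ≠ 0 :=
  two_ne_zero_of_odd (by rw [hK]; decide)

theorem tr_of_order_three (hK : Fintype.card K = 5) {x : SpecialLinearGroup (Fin 2) K}
    (hx : orderOf x = 3) : H45.SL2.tr x = -1 := by
  -- `x⁻¹ = x * x`, trace of `x * x` is `t^2 - 2`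
  have h1 : x * x * x = 1 := by rw [← pow_three', ← hx, pow_orderOf_eq_one]
  have h2 : x⁻¹ = x * x := by
    apply inv_eq_of_mul_eq_one_left; exact h1
  have h3 : H45.SL2.tr x = H45.SL2.tr (x * x) := by rw [← h2, H45.SL2.tr_inv]
  have hd := H45.SL2.det_eq x
  have h4 : H45.SL2.tr (x * x) = H45.SL2.tr x ^ 2 - 2 := by
    unfold H45.SL2.tr
    rw [H45.SL2.mul_00, H45.SL2.mul_11]
    linear_combination (-2) * hd
  rw [h4] at h3
  have h5 : (H45.SL2.tr x + 1) * (H45.SL2.tr x - 2) = 0 := by linear_combination -h3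
  rcases mul_eq_zero.1 h5 with h6 | h6
  · linear_combination h6
  · exfalso
    -- trace two: `(x - 1)^2 = 0`
    have h7 : H45.SL2.tr x = 2 := by linear_combination h6
    have h01 : (x⁻¹).1 0 1 = (x * x).1 0 1 := by rw [h2]
    have h10 : (x⁻¹).1 1 0 = (x * x).1 1 0 := by rw [h2]
    have h00 : (x⁻¹).1 0 0 = (x * x).1 0 0 := by rw [h2]
    rw [H45.SL2.inv_01, H45.SL2.mul_01] at h01
    rw [H45.SL2.inv_10, H45.SL2.mul_10] at h10
    rw [H45.SL2.inv_00, H45.SL2.mul_00] at h00
    unfold H45.SL2.tr at h7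
    have h11 : x.1 1 1 = 2 - x.1 0 0 := by linear_combination h7
    have h3ne : (3 : K) ≠ 0 := by
      intro h
      have h5 := five_eq_zero hK
      apply two_ne_zero_of_five hK
      linear_combination h5 - h
    have e01 : 3 * x.1 0 1 = 0 := by
      rw [h11] at h01; linear_combination -h01
    have e10 : 3 * x.1 1 0 = 0 := by
      rw [h11] at h10; linear_combination -h10
    have f01 : x.1 0 1 = 0 := (mul_eq_zero.1 e01).resolve_left h3ne
    have f10 : x.1 1 0 = 0 := (mul_eq_zero.1 e10).resolve_left h3ne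
    have e00 : 3 * (x.1 0 0 - 1) = 0 := by
      rw [h11, f01, f10] at hd
      rw [h11, f01, f10] at h00
      linear_combination hd - h00
    have f00 : x.1 0 0 = 1 := by linear_combination (mul_eq_zero.1 e00).resolve_left h3ne
    have : x = 1 := by
      apply H45.SL2.ext4
      · rw [f00, H45.SL2.one_00]
      · rw [f01, H45.SL2.one_01]
      · rw [f10, H45.SL2.one_10]
      · rw [h11, f00, H45.SL2.one_11]; ring
    rw [this, orderOf_one] at hx
    omega

theorem exists_partner (hK : Fintype.card K = 5) {x : SpecialLinearGroup (Fin 2) K}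
    (hx : orderOf x = 3) : ∃ g : SpecialLinearGroup (Fin 2) K,
      (x * (g * x * g⁻¹)) * (x * (g * x * g⁻¹)) = -1 := by
  have h5 := five_eq_zero hK
  let x0 : SpecialLinearGroup (Fin 2) K := H45.SL2.mk2 0 (-1) 1 (-1) (by ring)
  let y0 : SpecialLinearGroup (Fin 2) K := H45.SL2.mk2 2 (-2) 1 (-3) (by linear_combination (-1 : K) * h5)
  have htx := tr_of_order_three hK hx
  have hne : (H45.SL2.tr x) ^ 2 ≠ 4 := by
    rw [htx]
    intro h
    have h3ne : (3 : K) ≠ 0 := by
      intro h
      apply two_ne_zero_of_five hK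
      linear_combination h5 - h
    apply h3ne
    linear_combination -h
  have hc1 : IsConj x0 x := by
    apply H45.SL2.isConj_of_tr_eq
    · rw [htx]; show H45.SL2.tr (H45.SL2.mk2 0 (-1) 1 (-1) _) = -1
      rw [H45.SL2.tr_mk2]; ring
    · show (H45.SL2.tr (H45.SL2.mk2 0 (-1) 1 (-1) _)) ^ 2 ≠ 4
      rw [H45.SL2.tr_mk2]
      rw [htx] at hne
      convert hne using 2; ring
  obtain ⟨P, hP⟩ := isConj_iff.1 hc1
  have htr0 : H45.SL2.tr y0 = -1 := by
    show H45.SL2.tr (H45.SL2.mk2 2 (-2) 1 (-3) _) = -1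
    rw [H45.SL2.tr_mk2]; ring
  have hc2 : IsConj x (P * y0 * P⁻¹) := by
    apply H45.SL2.isConj_of_tr_eq
    · rw [htx, H45.SL2.tr_conj, htr0]
    · exact hne
  obtain ⟨g, hg⟩ := isConj_iff.1 hc2
  refine ⟨g, ?_⟩
  rw [hg]
  apply H45.SL2.sq_of_tr_zero
  have h6 : x * (P * y0 * P⁻¹) = P * (x0 * y0) * P⁻¹ := by rw [← hP]; group
  rw [h6, H45.SL2.tr_conj]
  unfold H45.SL2.tr
  rw [H45.SL2.mul_00, H45.SL2.mul_11]
  show (0 : K) * 2 + (-1) * 1 + (1 * (-2) + (-1) * (-3)) = 0
  ring

end Five

section Rep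

variable {F : Type*} [Field F] [Fintype F] {K : Type*} [Field K] [Fintype K]
variable {V : Type*} [AddCommGroup V] [Module F V] [FiniteDimensional F V]

theorem pow_five_act (hF : Fintype.card F = 3) {T : Module.End F V} (hT : T ^ 5 = 1)
    {U : Submodule F V} (hU : ∀ v ∈ U, T v ∈ U) (hd : Module.finrank F U ≤ 3) :
    ∀ v ∈ U, T v = v := by
  intro v hv
  have h1 : (T.restrict hU) ^ 5 = 1 := by
    rw [Module.End.pow_restrict 5]
    apply LinearMap.ext
    rintro ⟨u, hu⟩
    apply Subtype.ext
    rw [LinearMap.restrict_coe_apply]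
    rw [hT]; rfl
  have h2 := eq_one_of_pow_five hF hd _ h1
  have h3 := congrArg (fun f => ((f ⟨v, hv⟩ : U) : V)) h2
  exact h3

theorem neg_one_act (hF : Fintype.card F = 3) (hK : Fintype.card K = 5)
    (hV : Module.finrank F V = 4) (ρ : SpecialLinearGroup (Fin 2) K →* Module.End F V)
    (hρ : Function.Injective ρ) : ρ (-1) = -1 := by
  set Z := ρ (-1) with hZ
  have hZZ : Z * Z = 1 := by
    rw [hZ, ← map_mul, neg_mul_neg, one_mul, map_one]
  set U := LinearMap.ker (Z + 1) with hU
  have hmem : ∀ v, v ∈ U ↔ Z v = -v := by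
    intro v
    rw [hU, LinearMap.mem_ker, LinearMap.add_apply, Module.End.one_apply]
    exact add_eq_zero_iff_eq_neg
  have h3 := three_eq_zero hF
  have h5 := five_eq_zero hK
  by_cases htop : U = ⊤
  · apply LinearMap.ext
    intro v
    have : v ∈ U := by rw [htop]; trivial
    rw [(hmem v).1 this]; rfl
  · exfalso
    have hd : Module.finrank F U ≤ 3 := by
      have := Submodule.finrank_lt (lt_top_iff_ne_top.2 htop).ne
      omega
    have hact : ∀ g : SpecialLinearGroup (Fin 2) K, g ^ 5 = 1 → ∀ v ∈ U, ρ g v = v := by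
      intro g hg
      apply pow_five_act hF
      · rw [← map_pow, hg, map_one]
      · intro v hv
        rw [hmem] at hv ⊢
        have h6 : Z * ρ g = ρ g * Z := by
          rw [hZ, ← map_mul, ← map_mul]
          congr 1
          rw [neg_one_mul, mul_neg_one]
        have h7 := LinearMap.congr_fun h6 v
        rw [Module.End.mul_apply, Module.End.mul_apply, hv, map_neg] at h7
        exact h7
      · exact hd
    have hu5 : (up (-1) : SpecialLinearGroup (Fin 2) K) ^ 5 = 1 := by
      rw [up_pow]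
      have : ((5 : ℕ) : K) * (-1) = 0 := by push_cast; linear_combination -h5
      rw [this, up_zero]
    have hl5 : (lo 1 : SpecialLinearGroup (Fin 2) K) ^ 5 = 1 := by
      rw [lo_pow]
      have : ((5 : ℕ) : K) * 1 = 0 := by push_cast; linear_combination h5
      rw [this, lo_zero]
    have hUbot : ∀ v ∈ U, v = 0 := by
      intro v hv
      have h8 : Z v = v := by
        rw [hZ, neg_one_eq]
        simp only [map_mul, Module.End.mul_apply]
        rw [hact _ hu5 v hv, hact _ hl5 v hv, hact _ hu5 v hv, hact _ hu5 v hv, hact _ hl5 v hv,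
          hact _ hu5 v hv]
      have h9 := (hmem v).1 hv
      rw [h8] at h9
      -- `v = -v`, characteristic three
      have h10 : (3 : F) • v = v + v + v := by
        have : (3 : F) = 1 + 1 + 1 := by norm_num
        rw [this, add_smul, add_smul, one_smul]
      rw [h3, zero_smul] at h10
      have h11 : v + v = 0 := by
        nth_rewrite 1 [h9]; exact neg_add_cancel v
      rw [h11, zero_add] at h10
      exact h10.symm
    have h12 : Z = 1 := by
      apply LinearMap.ext
      intro v
      have h13 : Z v - v ∈ U := by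
        rw [hmem, map_sub]
        have := LinearMap.congr_fun hZZ v
        rw [Module.End.mul_apply, Module.End.one_apply] at this
        rw [this]; abel
      have h14 := hUbot _ h13
      rw [Module.End.one_apply]
      exact sub_eq_zero.1 h14
    rw [hZ, ← map_one ρ] at h12
    exact neg_one_ne_one (two_ne_zero_of_five hK) (hρ h12)

theorem finrank_fixed (hF : Fintype.card F = 3) (hK : Fintype.card K = 5)
    (hV : Module.finrank F V = 4) (ρ : SpecialLinearGroup (Fin 2) K →* Module.End F V)
    (hρ : Function.Injective ρ) {x : SpecialLinearGroup (Fin 2) K} (hx : orderOf x = 3) :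
    Module.finrank F (LinearMap.ker (ρ x - 1)) = 2 := by
  have h3 := three_eq_zero hF
  have hsmul : ∀ v : V, v + v + v = 0 := by
    intro v
    have h10 : (3 : F) • v = v + v + v := by
      have : (3 : F) = 1 + 1 + 1 := by norm_num
      rw [this, add_smul, add_smul, one_smul]
    rw [← h10, h3, zero_smul]
  have hx3 : ρ x * ρ x * ρ x = 1 := by
    rw [← map_mul, ← map_mul, ← pow_three', ← hx, pow_orderOf_eq_one, map_one]
  have hcube : (ρ x - 1) * (ρ x - 1) * (ρ x - 1) = 0 := by
    have h4 : (ρ x - 1) * (ρ x - 1) * (ρ x - 1) = (ρ x * ρ x * ρ x - 1) -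
        (ρ x * ρ x + ρ x * ρ x + ρ x * ρ x) + (ρ x + ρ x + ρ x) := by noncomm_ring
    rw [h4, hx3]
    apply LinearMap.ext
    intro v
    simp only [LinearMap.add_apply, LinearMap.sub_apply, hsmul, LinearMap.zero_apply, sub_self,
      sub_zero, add_zero]
  have h6 := finrank_le_three_mul _ hcube
  rw [hV] at h6
  have hle : Module.finrank F (LinearMap.ker (ρ x - 1)) ≤ 2 := by
    by_contra hcon
    push Not at hcon
    obtain ⟨g, hg⟩ := exists_partner hK hx
    set y := g * x * g⁻¹ with hy
    have hgg : ρ g * ρ g⁻¹ = 1 := by rw [← map_mul, mul_inv_cancel, map_one]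
    have hgg' : ρ g⁻¹ * ρ g = 1 := by rw [← map_mul, inv_mul_cancel, map_one]
    have hinj : Function.Injective (ρ g) := by
      intro a b hab
      have h7 := LinearMap.congr_fun hgg' a
      have h8 := LinearMap.congr_fun hgg' b
      rw [Module.End.mul_apply, Module.End.one_apply] at h7 h8
      rw [← h7, ← h8, hab]
    have h7 : Module.finrank F (LinearMap.ker (ρ x - 1)) ≤ Module.finrank F (LinearMap.ker (ρ y - 1)) := by
      have h8 : (LinearMap.ker (ρ x - 1)).map (ρ g) ≤ LinearMap.ker (ρ y - 1) := by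
        rintro _ ⟨v, hv, rfl⟩
        have hv' : ρ x v = v := by
          have : (ρ x - 1) v = 0 := hv
          rw [LinearMap.sub_apply, Module.End.one_apply] at this
          exact sub_eq_zero.1 this
        rw [LinearMap.mem_ker, LinearMap.sub_apply, Module.End.one_apply, hy, map_mul, map_mul,
          Module.End.mul_apply, Module.End.mul_apply]
        have h9 := LinearMap.congr_fun hgg' v
        rw [Module.End.mul_apply, Module.End.one_apply] at h9
        rw [h9, hv', sub_self]
      calc Module.finrank F (LinearMap.ker (ρ x - 1))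
          = Module.finrank F ((LinearMap.ker (ρ x - 1)).map (ρ g)) :=
            (LinearEquiv.finrank_eq (Submodule.equivMapOfInjective _ hinj _))
        _ ≤ _ := Submodule.finrank_mono h8
    have h8 := Submodule.finrank_sup_add_finrank_inf_eq (LinearMap.ker (ρ x - 1)) (LinearMap.ker (ρ y - 1))
    have h9 : Module.finrank F ↥(LinearMap.ker (ρ x - 1) ⊔ LinearMap.ker (ρ y - 1)) ≤ 4 := by
      rw [← hV]; exact Submodule.finrank_le _
    have h10 : 0 < Module.finrank F ↥(LinearMap.ker (ρ x - 1) ⊓ LinearMap.ker (ρ y - 1)) := by omega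
    rw [Module.finrank_pos_iff_exists_ne_zero] at h10
    obtain ⟨⟨v, hv⟩, hv0⟩ := h10
    apply hv0
    apply Subtype.ext
    show v = 0
    have hv1 : ρ x v = v := by
      have : (ρ x - 1) v = 0 := hv.1
      rw [LinearMap.sub_apply, Module.End.one_apply] at this
      exact sub_eq_zero.1 this
    have hv2 : ρ y v = v := by
      have : (ρ y - 1) v = 0 := hv.2
      rw [LinearMap.sub_apply, Module.End.one_apply] at this
      exact sub_eq_zero.1 this
    have h11 : ρ (-1) v = v := by
      rw [← hg]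
      simp only [map_mul, Module.End.mul_apply, hv1, hv2]
    rw [neg_one_act hF hK hV ρ hρ, LinearMap.neg_apply, Module.End.one_apply] at h11
    have h12 : v + v = 0 := by
      nth_rewrite 1 [← h11]; exact neg_add_cancel v
    have h13 := hsmul v
    rw [h12, zero_add] at h13
    exact h13
  omega

end Rep

end H58.SL25
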