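import Mathlib
import Cfsg.Agent.Lib.H58.SL2Dec

/-!
Uniqueness of the factors of a central product of two groups `SL₂(q₁)`, `SL₂(q₂)` with common
centre of order two (`q₁`, `q₂` odd, possibly `3`).
-/

namespace H58.SL2KS

open Matrix (SpecialLinearGroup)
open H58.SL2Dec H58.SL2Prod

variable {F : Type*} [Field F] [Fintype F]
variable {G : Type*} [Group G] {L : Subgroup G} (e : ↥L ≃* SpecialLinearGroup (Fin 2) F) {j : G}

include e in
theorem central_of (hF : Odd (Fintype.card F)) (hj : orderOf j = 2) (hjL : j ∈ L) {u : G} (hu : u ∈ L)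
    (h : ∀ y ∈ L, y * u * y⁻¹ = u ∨ y * u * y⁻¹ = j * u) : u = 1 ∨ u = j := by
  have h2 := two_ne_zero_of_odd hF
  have h3 : ∀ y : SpecialLinearGroup (Fin 2) F, Sg (y * e ⟨u, hu⟩ * y⁻¹) (e ⟨u, hu⟩) := by
    intro y
    have h4 := h (e.symm y) (e.symm y).2
    rcases h4 with h4 | h4
    · left
      have h5 : e.symm y * ⟨u, hu⟩ * (e.symm y)⁻¹ = ⟨u, hu⟩ := Subtype.ext h4
      have h6 := congrArg e h5
      rwa [map_mul, map_mul, map_inv, MulEquiv.apply_symm_apply] at h6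
    · right
      have h5 : e.symm y * ⟨u, hu⟩ * (e.symm y)⁻¹ = ⟨j, hjL⟩ * ⟨u, hu⟩ := Subtype.ext h4
      have h6 := congrArg e h5
      rwa [map_mul, map_mul, map_inv, MulEquiv.apply_symm_apply, map_mul, map_j e hF hj hjL,
        neg_one_mul] at h6
  rcases centerless h2 h3 with h4 | h4
  · left
    rw [map_eq_one_iff e e.injective] at h4
    exact congrArg Subtype.val h4
  · right
    rw [← map_j e hF hj hjL] at h4
    exact congrArg Subtype.val (e.injective h4)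

include e in
theorem le_or_le_of_gen (hF : Odd (Fintype.card F)) (hj : orderOf j = 2) (hjL : j ∈ L)
    {M N : Subgroup G} (hjM : j ∈ M) (hjN : j ∈ N)
    (hM : ∀ g ∈ L, ∀ x ∈ M, g * x * g⁻¹ ∈ M) (hN : ∀ g ∈ L, ∀ x ∈ N, g * x * g⁻¹ ∈ N)
    (hMN : ∀ x ∈ M, ∀ y ∈ N, x * y = y * x)
    (hgen : ∀ g ∈ L, ∃ x ∈ L ⊓ M, ∃ y ∈ L ⊓ N, x * y = g) : L ≤ M ∨ L ≤ N := by
  have h2 := two_ne_zero_of_odd hF
  have hmem : ∀ {K : Subgroup G} {A : SpecialLinearGroup (Fin 2) F},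
      A ∈ (K.subgroupOf L).map e.toMonoidHom ↔ ((e.symm A : ↥L) : G) ∈ K := by
    intro K A
    constructor
    · rintro ⟨x, hx, rfl⟩
      show ((e.symm (e x) : ↥L) : G) ∈ K
      rw [MulEquiv.symm_apply_apply]
      exact hx
    · intro h
      exact ⟨e.symm A, h, MulEquiv.apply_symm_apply e A⟩
  have hnorm : ∀ {K : Subgroup G}, (∀ g ∈ L, ∀ x ∈ K, g * x * g⁻¹ ∈ K) →
      ((K.subgroupOf L).map e.toMonoidHom).Normal := by
    intro K hK
    refine ⟨fun A hA g => ?_⟩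
    rw [hmem] at hA ⊢
    rw [map_mul, map_mul, map_inv]
    exact hK _ (e.symm g).2 _ hA
  have hm1 : ∀ {K : Subgroup G}, j ∈ K → (-1 : SpecialLinearGroup (Fin 2) F) ∈
      (K.subgroupOf L).map e.toMonoidHom := by
    intro K hK
    rw [hmem, ← map_j e hF hj hjL, MulEquiv.symm_apply_apply]
    exact hK
  have key := indecomposable (F := F) h2 (hnorm hM) (hnorm hN) (hm1 hjM) (hm1 hjN) (by
    intro x hx y hy
    rw [hmem] at hx hy
    left
    apply e.symm.injective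
    rw [map_mul, map_mul, map_inv]
    apply Subtype.ext
    have h3 := hMN _ hx _ hy
    show ((e.symm y : ↥L) : G) * (e.symm x : ↥L) * ((e.symm y : ↥L) : G)⁻¹ = (e.symm x : ↥L)
    rw [← h3, mul_inv_cancel_right]) (by
    intro g
    obtain ⟨x, hx, y, hy, hxy⟩ := hgen (e.symm g) (e.symm g).2
    refine ⟨e ⟨x, hx.1⟩, ?_, e ⟨y, hy.1⟩, ?_, ?_⟩
    · rw [hmem, MulEquiv.symm_apply_apply]; exact hx.2
    · rw [hmem, MulEquiv.symm_apply_apply]; exact hy.2
    · rw [← map_mul]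
      apply e.symm.injective
      rw [MulEquiv.symm_apply_apply]
      exact Subtype.ext hxy)
  have hback : ∀ {K : Subgroup G}, (∀ x ∈ (K.subgroupOf L).map e.toMonoidHom, x = 1 ∨ x = -1) →
      ∀ x ∈ L ⊓ K, x = 1 ∨ x = j := by
    intro K hK x hx
    have h3 := hK (e ⟨x, hx.1⟩) (by rw [hmem, MulEquiv.symm_apply_apply]; exact hx.2)
    rcases h3 with h4 | h4
    · left
      rw [map_eq_one_iff e e.injective] at h4
      exact congrArg Subtype.val h4
    · right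
      rw [← map_j e hF hj hjL] at h4
      exact congrArg Subtype.val (e.injective h4)
  rcases key with h | h
  · right
    intro g hg
    obtain ⟨x, hx, y, hy, rfl⟩ := hgen g hg
    rcases hback h x hx with rfl | rfl
    · exact mul_mem (one_mem _) hy.2
    · exact mul_mem hjN hy.2
  · left
    intro g hg
    obtain ⟨x, hx, y, hy, rfl⟩ := hgen g hg
    rcases hback h y hy with rfl | rfl
    · exact mul_mem hx.2 (one_mem _)
    · exact mul_mem hx.2 hjM

include e in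
theorem not_le_zpowers (hF : Odd (Fintype.card F)) (hj : orderOf j = 2) (hjL : j ∈ L) :
    ¬ L ≤ Subgroup.zpowers j := by
  intro h
  have hjj : j * j = 1 := by rw [← pow_two, ← hj, pow_orderOf_eq_one]
  have hjne : j ≠ 1 := by rintro rfl; rw [orderOf_one] at hj; omega
  obtain ⟨a, ha, haa⟩ := H58.SL2Prod.exists_sq_eq e hF hj hjL
  rcases (H58.SL2Prod.mem_zpowers_two hj).1 (h ha) with h3 | h3
  · apply hjne; rw [← haa, h3, one_mul]
  · apply hjne; rw [← haa, h3, hjj]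

/-- one factor is contained in one of the factors of a second decomposition -/
theorem le_or_le {F₁ : Type*} [Field F₁] [Fintype F₁] {F₂ : Type*} [Field F₂] [Fintype F₂]
    (hF₁ : Odd (Fintype.card F₁)) (hF₂ : Odd (Fintype.card F₂)) {L₁ L₂ : Subgroup G}
    (e₁ : ↥L₁ ≃* SpecialLinearGroup (Fin 2) F₁) (e₂ : ↥L₂ ≃* SpecialLinearGroup (Fin 2) F₂)
    (hc : ∀ x ∈ L₁, ∀ y ∈ L₂, x * y = y * x) (hj : orderOf j = 2)
    (hm : L₁ ⊓ L₂ = Subgroup.zpowers j) {M N : Subgroup G}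
    (hMN : ∀ x ∈ M, ∀ y ∈ N, x * y = y * x) (hmn : M ⊓ N = Subgroup.zpowers j)
    (h : L₁ ⊔ L₂ = M ⊔ N) : L₁ ≤ M ∨ L₁ ≤ N := by
  have hj1 : j ∈ L₁ := (inf_le_left : L₁ ⊓ L₂ ≤ L₁) (hm ▸ Subgroup.mem_zpowers j)
  have hj2 : j ∈ L₂ := (inf_le_right : L₁ ⊓ L₂ ≤ L₂) (hm ▸ Subgroup.mem_zpowers j)
  have hjM : j ∈ M := (inf_le_left : M ⊓ N ≤ M) (hmn ▸ Subgroup.mem_zpowers j)
  have hjN : j ∈ N := (inf_le_right : M ⊓ N ≤ N) (hmn ▸ Subgroup.mem_zpowers j)
  have hjj : j * j = 1 := by rw [← pow_two, ← hj, pow_orderOf_eq_one]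
  have hji : j⁻¹ = j := inv_eq_of_mul_eq_one_left hjj
  have hNM : ∀ x ∈ N, ∀ y ∈ M, x * y = y * x := fun x hx y hy => (hMN y hy x hx).symm
  -- elements of `Y` normalize `M` and `N`
  have hM : ∀ g ∈ L₁ ⊔ L₂, ∀ x ∈ M, g * x * g⁻¹ ∈ M := by
    intro g hg x hx
    rw [h] at hg
    obtain ⟨u, hu, v, hv, rfl⟩ := (mem_sup_iff hMN).1 hg
    have h3 : u * v * x * (u * v)⁻¹ = u * x * u⁻¹ := by
      have := hMN x hx v hv
      calc u * v * x * (u * v)⁻¹ = u * (v * x) * v⁻¹ * u⁻¹ := by group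
        _ = u * (x * v) * v⁻¹ * u⁻¹ := by rw [this]
        _ = u * x * u⁻¹ := by group
    rw [h3]
    exact mul_mem (mul_mem hu hx) (inv_mem hu)
  have hN : ∀ g ∈ L₁ ⊔ L₂, ∀ x ∈ N, g * x * g⁻¹ ∈ N := by
    intro g hg x hx
    rw [h] at hg
    obtain ⟨u, hu, v, hv, rfl⟩ := (mem_sup_iff hMN).1 hg
    have h3 : u * v * x * (u * v)⁻¹ = v * x * v⁻¹ := by
      have h4 := hMN u hu (v * x * v⁻¹) (mul_mem (mul_mem hv hx) (inv_mem hv))
      calc u * v * x * (u * v)⁻¹ = (u * (v * x * v⁻¹)) * u⁻¹ := by group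
        _ = v * x * v⁻¹ := by rw [h4, mul_inv_cancel_right]
    rw [h3]
    exact mul_mem (mul_mem hv hx) (inv_mem hv)
  -- key: if `c ∈ Y` and `L₂` fixes `c` modulo `⟨j⟩` then `c ∈ L₁`.
  have hkey : ∀ c ∈ L₁ ⊔ L₂, (∀ y ∈ L₂, y * c * y⁻¹ = c ∨ y * c * y⁻¹ = j * c) → c ∈ L₁ := by
    intro c hcY hcy
    obtain ⟨a, ha, b, hb, rfl⟩ := (mem_sup_iff hc).1 hcY
    have hb' : b = 1 ∨ b = j := by
      apply central_of e₂ hF₂ hj hj2 hb
      intro y hy
      have h3 : y * (a * b) * y⁻¹ = a * (y * b * y⁻¹) := by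
        have h4 := hc a ha y hy
        calc y * (a * b) * y⁻¹ = (y * a) * b * y⁻¹ := by group
          _ = a * (y * b * y⁻¹) := by rw [← h4]; group
      have h5 := hcy y hy
      rw [h3] at h5
      rcases h5 with h5 | h5
      · left; exact mul_left_cancel h5
      · right
        have h6 : j * (a * b) = a * (j * b) := by
          have := hc a ha j hj2
          rw [← mul_assoc, ← this, mul_assoc]
        rw [h6] at h5
        exact mul_left_cancel h5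
    rcases hb' with rfl | rfl
    · rwa [mul_one]
    · exact mul_mem ha hj1
  have hjc : ∀ g ∈ L₁ ⊔ L₂, g * j = j * g := by
    intro g hg
    obtain ⟨a, ha, b, hb, rfl⟩ := (mem_sup_iff hc).1 hg
    have h1 := hc a ha j hj2
    have h3 := hc j hj1 b hb
    rw [mul_assoc, ← h3, ← mul_assoc, h1, mul_assoc]
  have hMY : M ≤ L₁ ⊔ L₂ := h ▸ le_sup_left
  have hNY : N ≤ L₁ ⊔ L₂ := h ▸ le_sup_right
  refine le_or_le_of_gen e₁ hF₁ hj hj1 hjM hjN (fun g hg => hM g (Subgroup.mem_sup_left hg))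
    (fun g hg => hN g (Subgroup.mem_sup_left hg)) hMN ?_
  intro g hg
  have hgY : g ∈ M ⊔ N := h ▸ Subgroup.mem_sup_left hg
  obtain ⟨c, hcM, d, hdN, rfl⟩ := (mem_sup_iff hMN).1 hgY
  have hcd : ∀ y ∈ L₂, y * c * y⁻¹ = c ∨ y * c * y⁻¹ = j * c := by
    intro y hy
    have h3 : y * (c * d) * y⁻¹ = c * d := by
      rw [← hc _ hg y hy, mul_inv_cancel_right]
    have h4 : (y * c * y⁻¹) * (y * d * y⁻¹) = c * d := by rw [← h3]; group
    have h5 : c⁻¹ * (y * c * y⁻¹) = d * (y * d * y⁻¹)⁻¹ := by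
      rw [eq_mul_inv_iff_mul_eq, mul_assoc, h4, inv_mul_cancel_left]
    have h6 : c⁻¹ * (y * c * y⁻¹) ∈ Subgroup.zpowers j := by
      rw [← hmn]
      refine Subgroup.mem_inf.2 ⟨mul_mem (inv_mem hcM) (hM y (Subgroup.mem_sup_right hy) c hcM), ?_⟩
      rw [h5]
      exact mul_mem hdN (inv_mem (hN y (Subgroup.mem_sup_right hy) d hdN))
    rcases (mem_zpowers_two hj).1 h6 with h7 | h7
    · left
      exact (inv_mul_eq_one.1 h7).symm
    · right
      rw [inv_mul_eq_iff_eq_mul] at h7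
      rw [h7, hjc c (hMY hcM)]
  have hcL : c ∈ L₁ := hkey c (hMY hcM) hcd
  have hdL : d ∈ L₁ := by
    have : d = c⁻¹ * (c * d) := by group
    rw [this]; exact mul_mem (inv_mem hcL) hg
  exact ⟨c, ⟨hcL, hcM⟩, d, ⟨hdL, hdN⟩, rfl⟩

end H58.SL2KS
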