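import Mathlib
import Cfsg.Agent.Lib.H58.SL2Prod
import Cfsg.Agent.Lib.H58.Rel
import Cfsg.Agent.Lib.H2.PGrp

/-!
`C_G(j) = L₁L₂⟨n⟩` with `n² = j`, `n` interchanging `L₁`, `L₂ ≅ SL₂(q)`: the involution `j` is
isolated.
-/

set_option autoImplicit false

namespace H58.SL2Swap

open Matrix (SpecialLinearGroup)
open Subgroup
open H58.SL2Prod

section One

variable {F : Type*} [Field F] [Fintype F] {G : Type*} [Group G] {L : Subgroup G}
  (e : ↥L ≃* SpecialLinearGroup (Fin 2) F) {j : G}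

include e in
/-- an element inverting (= `j`-shifting) another one squares to `j` -/
theorem sq_of_anti (hF : Odd (Fintype.card F)) (hj : orderOf j = 2) (hjL : j ∈ L) {u a : G}
    (hu : u ∈ L) (ha : a ∈ L) (h : u * a * u⁻¹ = j * a) : u * u = j := by
  have h2 := two_ne_zero_of_odd hF
  have h1 : e ⟨u, hu⟩ * e ⟨a, ha⟩ * (e ⟨u, hu⟩)⁻¹ = -e ⟨a, ha⟩ := by
    rw [← map_mul, ← map_inv, ← map_mul, ← neg_one_mul, ← map_j e hF hj hjL, ← map_mul]
    congr 1
    exact Subtype.ext h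
  set A := e ⟨a, ha⟩
  set U := e ⟨u, hu⟩
  have h3 : U = - (A * U * A⁻¹) := by
    have h4 : U * A = -A * U := mul_inv_eq_iff_eq_mul.1 h1
    have h5 : A * U = - (U * A) := by rw [h4, neg_mul, neg_neg]
    rw [h5, neg_mul, neg_neg, mul_inv_cancel_right]
  have h4 : H45.SL2.tr U = 0 := by
    have h5 := congrArg H45.SL2.tr h3
    rw [H45.SL2.tr_neg, H45.SL2.tr_conj] at h5
    have h6 : 2 * H45.SL2.tr U = 0 := by linear_combination h5
    exact (mul_eq_zero.1 h6).resolve_left h2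
  have h5 := H45.SL2.sq_of_tr_zero h4
  have h6 : e ⟨u, hu⟩ * e ⟨u, hu⟩ = e ⟨j, hjL⟩ := by rw [map_j e hF hj hjL]; exact h5
  rw [← map_mul] at h6
  exact congrArg Subtype.val (e.injective h6)

include e in
theorem exists_anti (hF : Odd (Fintype.card F)) (hj : orderOf j = 2) (hjL : j ∈ L) {a : G}
    (ha : a ∈ L) (haa : a * a = j) (hja : j * a = a * j) : ∃ u ∈ L, u * a * u⁻¹ = j * a := by
  have hjj : j * j = 1 := by rw [← pow_two, ← hj, pow_orderOf_eq_one]
  apply conj_of_sq_eq e hF hj hjL ha (mul_mem hjL ha) haa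
  calc j * a * (j * a) = j * (a * j) * a := by group
    _ = j * (j * a) * a := by rw [← hja]
    _ = (j * j) * (a * a) := by group
    _ = j := by rw [hjj, haa, one_mul]

include e in
theorem pow_eq (hF : Odd (Fintype.card F)) (hj : orderOf j = 2) (hjL : j ∈ L) {u : G} (hu : u ∈ L)
    {m : ℕ} (hm : 1 ≤ m) (h : u ^ 2 ^ m = 1) : u ^ 2 ^ (m - 1) = 1 ∨ u ^ 2 ^ (m - 1) = j := by
  apply sq_one e hF hj hjL (pow_mem hu _)
  rw [← pow_two, ← pow_mul, ← pow_succ]
  rw [Nat.sub_add_cancel hm, h]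

end One

variable {G : Type*} [Group G] [Finite G] {F₁ : Type*} [Field F₁] [Fintype F₁] {F₂ : Type*} [Field F₂]
  [Fintype F₂]

theorem not_conj (hF₁ : Odd (Fintype.card F₁)) (hF₂ : Odd (Fintype.card F₂)) (L₁ L₂ : Subgroup G)
    (e₁ : ↥L₁ ≃* SpecialLinearGroup (Fin 2) F₁) (e₂ : ↥L₂ ≃* SpecialLinearGroup (Fin 2) F₂)
    (hc : ∀ x ∈ L₁, ∀ y ∈ L₂, x * y = y * x) {j : G} (hj : orderOf j = 2)
    (hm : L₁ ⊓ L₂ = Subgroup.zpowers j)
    (hinv : ∀ s ∈ centralizer ({j} : Set G), s * s = 1 → s ∈ L₁ ⊔ L₂)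
    {a b : G} (ha : a ∈ L₁) (hb : b ∈ L₂) (haa : a * a = j) (hbb : b * b = j) (g : G) :
    g * (a * b) * g⁻¹ ≠ j := by
  have hp : Fact (Nat.Prime 2) := ⟨Nat.prime_two⟩
  intro hgx
  have hj1 : j ∈ L₁ := (inf_le_left : L₁ ⊓ L₂ ≤ L₁) (hm ▸ Subgroup.mem_zpowers j)
  have hj2 : j ∈ L₂ := (inf_le_right : L₁ ⊓ L₂ ≤ L₂) (hm ▸ Subgroup.mem_zpowers j)
  have hjj : j * j = 1 := by rw [← pow_two, ← hj, pow_orderOf_eq_one]
  have hji : j⁻¹ = j := inv_eq_of_mul_eq_one_left hjj
  have hjne : j ≠ 1 := by rintro rfl; rw [orderOf_one] at hj; omega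
  have hjc1 : ∀ u ∈ L₁, j * u = u * j := fun u hu => (hc u hu j hj2).symm
  have hjc2 : ∀ u ∈ L₂, j * u = u * j := fun u hu => hc j hj1 u hu
  set C := centralizer ({j} : Set G) with hC
  have hL1C : L₁ ≤ C := by
    intro u hu; rw [hC, mem_centralizer_singleton_iff]; exact (hjc1 u hu).symm
  have hL2C : L₂ ≤ C := by
    intro u hu; rw [hC, mem_centralizer_singleton_iff]; exact (hjc2 u hu).symm
  set x := a * b with hx
  set D := C ⊓ centralizer ({x} : Set G) with hD
  -- classification of elements of `D ∩ Y`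
  have hcls : ∀ u ∈ L₁, ∀ v ∈ L₂, u * v ∈ D →
      (u * a = a * u ∧ v * b = b * v) ∨ (u * u = j ∧ v * v = j) := by
    intro u hu v hv huv
    have h1 : u * v * x = x * (u * v) := mem_centralizer_singleton_iff.1 huv.2
    have h2 : (u * a * u⁻¹) * (v * b * v⁻¹) = a * b := by
      have e1 := hc u⁻¹ (inv_mem hu) v hv
      have e2 := hc u⁻¹ (inv_mem hu) b hb
      have e3 := hc a ha v hv
      calc (u * a * u⁻¹) * (v * b * v⁻¹) = u * a * (u⁻¹ * v) * b * v⁻¹ := by group
        _ = u * a * (v * u⁻¹) * b * v⁻¹ := by rw [e1]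
        _ = u * (a * v) * (u⁻¹ * b) * v⁻¹ := by group
        _ = u * (v * a) * (b * u⁻¹) * v⁻¹ := by rw [e3, e2]
        _ = (u * v * (a * b)) * (v * u)⁻¹ := by group
        _ = (a * b) * (u * v) * (v * u)⁻¹ := by rw [← hx, h1]
        _ = a * b := by rw [hc u hu v hv]; group
    have h3 : a⁻¹ * (u * a * u⁻¹) = b * (v * b * v⁻¹)⁻¹ := by
      rw [eq_mul_inv_iff_mul_eq, mul_assoc, h2, inv_mul_cancel_left]
    have h4 : a⁻¹ * (u * a * u⁻¹) ∈ zpowers j := by
      rw [← hm]
      refine Subgroup.mem_inf.2 ⟨mul_mem (inv_mem ha) (mul_mem (mul_mem hu ha) (inv_mem hu)), ?_⟩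
      rw [h3]
      exact mul_mem hb (inv_mem (mul_mem (mul_mem hv hb) (inv_mem hv)))
    rcases (mem_zpowers_two hj).1 h4 with h5 | h5
    · left
      constructor
      · exact mul_inv_eq_iff_eq_mul.1 (inv_mul_eq_one.1 h5).symm
      · rw [h5] at h3
        exact mul_inv_eq_iff_eq_mul.1 (mul_inv_eq_one.1 h3.symm).symm
    · right
      constructor
      · apply sq_of_anti e₁ hF₁ hj hj1 hu ha
        rw [inv_mul_eq_iff_eq_mul] at h5
        rw [h5, hjc1 a ha]
      · apply sq_of_anti e₂ hF₂ hj hj2 hv hb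
        rw [h5] at h3
        have h6 : v * b * v⁻¹ = j⁻¹ * b := by
          rw [h3]; group
        rw [h6, hji]
  -- anti-commuting elements
  obtain ⟨w1, hw1, hw1a⟩ := exists_anti e₁ hF₁ hj hj1 ha haa (hjc1 a ha)
  obtain ⟨w2, hw2, hw2b⟩ := exists_anti e₂ hF₂ hj hj2 hb hbb (hjc2 b hb)
  have hw1w1 := sq_of_anti e₁ hF₁ hj hj1 hw1 ha hw1a
  have hw2w2 := sq_of_anti e₂ hF₂ hj hj2 hw2 hb hw2b
  set w := w1 * w2 with hw
  have hprod_sq : ∀ u ∈ L₁, ∀ v ∈ L₂, u * u = j → v * v = j → (u * v) * (u * v) = 1 := by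
    intro u hu v hv h1 h2
    calc (u * v) * (u * v) = u * (v * u) * v := by group
      _ = u * (u * v) * v := by rw [hc u hu v hv]
      _ = (u * u) * (v * v) := by group
      _ = 1 := by rw [h1, h2, hjj]
  have hww : w * w = 1 := hprod_sq w1 hw1 w2 hw2 hw1w1 hw2w2
  have hYC : L₁ ⊔ L₂ ≤ C := sup_le hL1C hL2C
  have hwY : w ∈ L₁ ⊔ L₂ := mul_mem (Subgroup.mem_sup_left hw1) (Subgroup.mem_sup_right hw2)
  -- products of commuting things
  have hxcomm : ∀ u ∈ L₁, ∀ v ∈ L₂, (u * v) * x * (u * v)⁻¹ = (u * a * u⁻¹) * (v * b * v⁻¹) := by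
    intro u hu v hv
    have e1 := hc u⁻¹ (inv_mem hu) v hv
    have e2 := hc u⁻¹ (inv_mem hu) b hb
    have e3 := hc a ha v hv
    have e4 := hc u hu v hv
    symm
    calc (u * a * u⁻¹) * (v * b * v⁻¹) = u * a * (u⁻¹ * v) * b * v⁻¹ := by group
        _ = u * a * (v * u⁻¹) * b * v⁻¹ := by rw [e1]
        _ = u * (a * v) * (u⁻¹ * b) * v⁻¹ := by group
        _ = u * (v * a) * (b * u⁻¹) * v⁻¹ := by rw [e3, e2]
        _ = (u * v * (a * b)) * (v * u)⁻¹ := by group
        _ = (u * v) * x * (u * v)⁻¹ := by rw [← hx, ← e4]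
  have hwD : w ∈ D := by
    refine Subgroup.mem_inf.2 ⟨hYC hwY, ?_⟩
    rw [mem_centralizer_singleton_iff]
    apply mul_inv_eq_iff_eq_mul.1
    rw [hxcomm w1 hw1 w2 hw2, hw1a, hw2b]
    calc j * a * (j * b) = j * (a * j) * b := by group
      _ = j * (j * a) * b := by rw [← hjc1 a ha]
      _ = (j * j) * (a * b) := by group
      _ = x := by rw [hjj, one_mul]
  -- 2-elements of the tori
  let K : Set G := {u | (u ∈ L₁ ∧ u * a = a * u) ∨ (u ∈ L₂ ∧ u * b = b * u)}
  let K2 : Set G := {u | u ∈ K ∧ ∃ k : ℕ, orderOf u = 2 ^ k}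
  have ha4 : orderOf a = 2 ^ 2 := by
    have h1 : a ^ 2 ^ 2 = 1 := by
      have : a ^ 2 ^ 2 = (a * a) * (a * a) := by
        show a ^ (2 * 2) = _
        rw [pow_mul, pow_two, pow_two]
      rw [this, haa, hjj]
    have h2 : ¬ a ^ 2 ^ 1 = 1 := by
      have : a ^ 2 ^ 1 = a * a := by rw [pow_one, pow_two]
      rw [this, haa]; exact hjne
    exact orderOf_eq_prime_pow h2 h1
  have haK : a ∈ K2 := ⟨Or.inl ⟨ha, rfl⟩, 2, ha4⟩
  obtain ⟨r, hrK, hrmax⟩ := Set.exists_max_image K2 orderOf (Set.toFinite _) ⟨a, haK⟩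
  obtain ⟨m, hrm⟩ := hrK.2
  have hm2 : 2 ≤ m := by
    have h1 := hrmax a haK
    rw [ha4, hrm] at h1
    exact (Nat.pow_le_pow_iff_right (by norm_num)).1 h1
  -- odd part
  obtain ⟨k0, o, ho, hGo⟩ := Nat.exists_eq_two_pow_mul_odd (n := Nat.card G) Nat.card_pos.ne'
  have hoK : ∀ u ∈ K, u ^ o ∈ K2 := by
    intro u hu
    refine ⟨?_, ?_⟩
    · rcases hu with ⟨h1, h2⟩ | ⟨h1, h2⟩
      · exact Or.inl ⟨pow_mem h1 _, ((show Commute u a from h2).pow_left o).eq⟩
      · exact Or.inr ⟨pow_mem h1 _, ((show Commute u b from h2).pow_left o).eq⟩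
    · have h1 : (u ^ o) ^ 2 ^ k0 = 1 := by
        rw [← pow_mul, mul_comm, ← hGo, pow_card_eq_one']
      obtain ⟨i, -, hi⟩ := (Nat.dvd_prime_pow Nat.prime_two).1 (orderOf_dvd_of_pow_eq_one h1)
      exact ⟨i, hi⟩
  have hKpow : ∀ u ∈ K, u ^ (o * 2 ^ (m - 1)) = 1 ∨ u ^ (o * 2 ^ (m - 1)) = j := by
    intro u hu
    have h1 := hoK u hu
    have h2 := hrmax _ h1
    obtain ⟨i, hi⟩ := h1.2
    rw [hi, hrm] at h2
    have h3 : i ≤ m := (Nat.pow_le_pow_iff_right (by norm_num)).1 h2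
    have h4 : (u ^ o) ^ 2 ^ m = 1 := by
      rw [← orderOf_dvd_iff_pow_eq_one, hi]
      exact pow_dvd_pow 2 h3
    rw [pow_mul]
    rcases hu with ⟨h5, -⟩ | ⟨h5, -⟩
    · exact pow_eq e₁ hF₁ hj hj1 (pow_mem h5 _) (by omega) h4
    · exact pow_eq e₂ hF₂ hj hj2 (pow_mem h5 _) (by omega) h4
  have hrj : r ^ 2 ^ (m - 1) = j := by
    have h1 : r ^ 2 ^ m = 1 := by rw [← hrm, pow_orderOf_eq_one]
    have h2 : r ^ 2 ^ (m - 1) = 1 ∨ r ^ 2 ^ (m - 1) = j := by
      rcases hrK.1 with ⟨h5, -⟩ | ⟨h5, -⟩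
      · exact pow_eq e₁ hF₁ hj hj1 h5 (by omega) h1
      · exact pow_eq e₂ hF₂ hj hj2 h5 (by omega) h1
    rcases h2 with h2 | h2
    · exfalso
      have h3 := orderOf_dvd_of_pow_eq_one h2
      rw [hrm] at h3
      have h4 := (Nat.pow_dvd_pow_iff_le_right (x := 2) (by norm_num)).1 h3
      omega
    · exact h2
  have hjo : j ^ o = j := by
    obtain ⟨i, hi⟩ := ho
    rw [hi, pow_succ, pow_mul, pow_two, hjj, one_pow, one_mul]
  have hrM : r ^ (o * 2 ^ (m - 1)) = j := by
    rw [mul_comm, pow_mul, hrj, hjo]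
  -- `r` in `Y ∩ D`, and `(w r)² = 1`
  have hrY : r ∈ L₁ ⊔ L₂ := by
    rcases hrK.1 with ⟨h5, -⟩ | ⟨h5, -⟩
    · exact Subgroup.mem_sup_left h5
    · exact Subgroup.mem_sup_right h5
  have hrD : r ∈ D := by
    refine Subgroup.mem_inf.2 ⟨hYC hrY, ?_⟩
    rw [mem_centralizer_singleton_iff]
    rcases hrK.1 with ⟨h5, h6⟩ | ⟨h5, h6⟩
    · calc r * x = (r * a) * b := by rw [hx]; group
        _ = a * (r * b) := by rw [h6]; group
        _ = a * (b * r) := by rw [hc r h5 b hb]
        _ = x * r := by rw [hx]; group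
    · calc r * x = (r * a) * b := by rw [hx]; group
        _ = (a * r) * b := by rw [hc a ha r h5]
        _ = a * (r * b) := by group
        _ = a * (b * r) := by rw [h6]
        _ = x * r := by rw [hx]; group
  have hwr : (w * r) * (w * r) = 1 := by
    rcases hrK.1 with ⟨h5, h6⟩ | ⟨h5, h6⟩
    · have h7 : w * r = (w1 * r) * w2 := by
        rw [hw, mul_assoc, mul_assoc, hc r h5 w2 hw2]
      rw [h7]
      apply hprod_sq _ (mul_mem hw1 h5) _ hw2 _ hw2w2
      apply sq_of_anti e₁ hF₁ hj hj1 (mul_mem hw1 h5) ha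
      calc w1 * r * a * (w1 * r)⁻¹ = w1 * (r * a) * r⁻¹ * w1⁻¹ := by group
        _ = w1 * (a * r) * r⁻¹ * w1⁻¹ := by rw [h6]
        _ = w1 * a * w1⁻¹ := by group
        _ = j * a := hw1a
    · have h7 : w * r = w1 * (w2 * r) := by rw [hw, mul_assoc]
      rw [h7]
      apply hprod_sq _ hw1 _ (mul_mem hw2 h5) hw1w1
      apply sq_of_anti e₂ hF₂ hj hj2 (mul_mem hw2 h5) hb
      calc w2 * r * b * (w2 * r)⁻¹ = w2 * (r * b) * r⁻¹ * w2⁻¹ := by group
        _ = w2 * (b * r) * r⁻¹ * w2⁻¹ := by rw [h6]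
        _ = w2 * b * w2⁻¹ := by group
        _ = j * b := hw2b
  -- the 2-group `⟨r, w⟩`
  have hR : IsPGroup 2 (zpowers w ⊔ zpowers r : Subgroup G) := by
    apply IsPGroup.to_sup_of_normal_right'
    · rintro ⟨_, i, rfl⟩
      refine ⟨1, Subtype.ext ?_⟩
      show (w ^ i) ^ (2 ^ 1) = 1
      rw [pow_one, ← zpow_natCast, ← zpow_mul, mul_comm, zpow_mul, zpow_natCast, pow_two, hww, one_zpow]
    · exact IsPGroup.of_card (n := m) (by rw [Nat.card_zpowers, hrm])
    · rw [zpowers_le]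
      have h1 : w * r * w⁻¹ = r⁻¹ := by
        have h2 : w⁻¹ = w := inv_eq_of_mul_eq_one_left hww
        have h3 : (w * r * w) * r = 1 := by rw [← hwr]; group
        rw [h2]; exact eq_inv_of_mul_eq_one_left h3
      rw [H58.Rel.mem_normalizer_iff_conj]
      apply Subgroup.eq_of_le_of_card_ge
      · rw [H58.Rel.map_conj_le_iff]
        rintro _ ⟨i, rfl⟩
        show w * r ^ i * w⁻¹ ∈ zpowers r
        rw [← conj_zpow, h1]
        exact zpow_mem (inv_mem (mem_zpowers r)) i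
      · rw [H58.Rel.card_map_conj]
  obtain ⟨T, hRT, hTD, hT2, hTi⟩ := H58.Rel.exists_le_sylowOf
    (show zpowers w ⊔ zpowers r ≤ D from sup_le ((zpowers_le).2 hwD) ((zpowers_le).2 hrD)) hR
  have hwT : w ∈ T := hRT (Subgroup.mem_sup_left (mem_zpowers w))
  have hrT : r ∈ T := hRT (Subgroup.mem_sup_right (mem_zpowers r))
  -- the subgroup generated by the involutions of `T`
  set T0 := Subgroup.closure {y : G | y ∈ T ∧ y * y = 1} with hT0
  have hrT0 : r ∈ T0 := by
    have h1 : w ∈ T0 := Subgroup.subset_closure ⟨hwT, hww⟩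
    have h2 : w * r ∈ T0 := Subgroup.subset_closure ⟨mul_mem hwT hrT, hwr⟩
    have h3 : r = w⁻¹ * (w * r) := by group
    rw [h3]; exact mul_mem (inv_mem h1) h2
  have hT0YD : T0 ≤ (L₁ ⊔ L₂) ⊓ D := by
    rw [hT0, Subgroup.closure_le]
    rintro y ⟨hyT, hyy⟩
    exact Subgroup.mem_inf.2 ⟨hinv y (hTD hyT).1 hyy, hTD hyT⟩
  have hT0pow : ∀ z ∈ T0, z ^ (o * 2 ^ (m - 1)) = 1 ∨ z ^ (o * 2 ^ (m - 1)) = j := by
    intro z hz
    obtain ⟨hzY, hzD⟩ := Subgroup.mem_inf.1 (hT0YD hz)
    obtain ⟨u, hu, v, hv, rfl⟩ := (mem_sup_iff hc).1 hzY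
    rcases hcls u hu v hv hzD with ⟨h1, h2⟩ | ⟨h1, h2⟩
    · have h3 := hKpow u (Or.inl ⟨hu, h1⟩)
      have h4 := hKpow v (Or.inr ⟨hv, h2⟩)
      rw [(show Commute u v from hc u hu v hv).mul_pow]
      rcases h3 with h3 | h3 <;> rcases h4 with h4 | h4 <;> rw [h3, h4]
      · left; exact one_mul 1
      · right; exact one_mul j
      · right; exact mul_one j
      · left; exact hjj
    · left
      have h3 := hprod_sq u hu v hv h1 h2
      have h4 : o * 2 ^ (m - 1) = 2 * (o * 2 ^ (m - 2)) := by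
        have : 2 ^ (m - 1) = 2 ^ (m - 2) * 2 := by rw [← pow_succ]; congr 1; omega
        rw [this]; ring
      rw [h4, pow_mul, pow_two, h3, one_pow]
  -- `N(T)` centralizes `j`
  have hNT : ∀ s ∈ normalizer (T : Set G), s * j * s⁻¹ = j := by
    intro s hs
    have h1 : ∀ z ∈ T0, s * z * s⁻¹ ∈ T0 := by
      intro z hz
      rw [hT0] at hz
      refine Subgroup.closure_induction (p := fun z _ => s * z * s⁻¹ ∈ T0) ?_ ?_ ?_ ?_ hz
      · rintro y ⟨hyT, hyy⟩
        apply Subgroup.subset_closure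
        refine ⟨(Subgroup.mem_normalizer_iff.1 hs y).1 hyT, ?_⟩
        calc s * y * s⁻¹ * (s * y * s⁻¹) = s * (y * y) * s⁻¹ := by group
          _ = 1 := by rw [hyy]; group
      · have : s * 1 * s⁻¹ = 1 := by group
        rw [this]; exact one_mem _
      · intro y z _ _ hy hz
        have : s * (y * z) * s⁻¹ = (s * y * s⁻¹) * (s * z * s⁻¹) := by group
        rw [this]; exact mul_mem hy hz
      · intro y _ hy
        have : s * y⁻¹ * s⁻¹ = (s * y * s⁻¹)⁻¹ := by group
        rw [this]; exact inv_mem hy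
    have h2 := hT0pow _ (h1 r hrT0)
    rw [conj_pow, hrM] at h2
    rcases h2 with h2 | h2
    · exfalso
      apply hjne
      rwa [mul_inv_eq_one, mul_eq_left] at h2
    · exact h2
  -- `T` is not Sylow in `C(x)`
  obtain ⟨U, hTU, hUx, hU2, hUi⟩ := H58.Rel.exists_le_sylowOf (hTD.trans inf_le_right) hT2
  have hne : T ≠ U := by
    intro hTU'
    rw [← hTU'] at hUi
    -- index of `D` in `C` is even
    have hsub : 2 ∣ D.relIndex C := by
      let D1 : Subgroup G :=
        { carrier := {c | c ∈ C ∧ (c * x * c⁻¹ = x ∨ c * x * c⁻¹ = j * x)}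
          mul_mem' := by
            rintro c d ⟨hc1, hc2⟩ ⟨hd1, hd2⟩
            refine ⟨mul_mem hc1 hd1, ?_⟩
            have hcj : c * j = j * c := mem_centralizer_singleton_iff.1 hc1
            have h1 : c * d * x * (c * d)⁻¹ = c * (d * x * d⁻¹) * c⁻¹ := by group
            have h2 : c * (j * x) * c⁻¹ = j * (c * x * c⁻¹) := by
              calc c * (j * x) * c⁻¹ = (c * j) * x * c⁻¹ := by group
                _ = j * (c * x * c⁻¹) := by rw [hcj]; group
            rw [h1]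
            rcases hd2 with h3 | h3 <;> rw [h3]
            · exact hc2
            · rw [h2]
              rcases hc2 with h4 | h4 <;> rw [h4]
              · right; rfl
              · left; rw [← mul_assoc, hjj, one_mul]
          one_mem' := ⟨one_mem _, Or.inl (by group)⟩
          inv_mem' := by
            rintro c ⟨hc1, hc2⟩
            refine ⟨inv_mem hc1, ?_⟩
            have hcj : c * j = j * c := mem_centralizer_singleton_iff.1 hc1
            rcases hc2 with h3 | h3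
            · left
              nth_rewrite 1 [← h3]; group
            · right
              have h4 : x = j * (c * x * c⁻¹) := by rw [h3, ← mul_assoc, hjj, one_mul]
              have h5 : c⁻¹ * j = j * c⁻¹ := by
                rw [inv_mul_eq_iff_eq_mul, ← mul_assoc, hcj, mul_inv_cancel_right]
              nth_rewrite 1 [h4]
              calc c⁻¹ * (j * (c * x * c⁻¹)) * c⁻¹⁻¹ = (c⁻¹ * j) * c * x := by group
                _ = j * x := by rw [h5]; group }
      have hD1C : D1 ≤ C := fun c hc => hc.1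
      have hDD1 : D ≤ D1 := by
        intro d hd
        refine ⟨hd.1, Or.inl ?_⟩
        have := mem_centralizer_singleton_iff.1 hd.2
        rw [this, mul_inv_cancel_right]
      have hw1D1 : w1 ∈ D1 := by
        refine ⟨hL1C hw1, Or.inr ?_⟩
        have h1 := hxcomm w1 hw1 1 (one_mem _)
        rw [mul_one] at h1
        rw [h1, hw1a]
        rw [one_mul, inv_one, mul_one, hx, mul_assoc]
      have hidx : D.relIndex D1 = 2 := by
        rw [relIndex_eq_two_iff_exists_notMem_and]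
        refine ⟨w1, hw1D1, ?_, ?_⟩
        · intro h
          have h1 := hw1D1.2
          have h2 : w1 * x * w1⁻¹ = x := by
            have := mem_centralizer_singleton_iff.1 h.2
            rw [this, mul_inv_cancel_right]
          have h3 : w1 * x * w1⁻¹ = j * x := by
            have h4 := hxcomm w1 hw1 1 (one_mem _)
            rw [mul_one] at h4
            rw [h4, hw1a, one_mul, inv_one, mul_one, hx, mul_assoc]
          rw [h2] at h3
          exact hjne (mul_eq_right.1 h3.symm)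
        · intro d hd
          rcases hd.2 with h1 | h1
          · right
            refine Subgroup.mem_inf.2 ⟨hd.1, ?_⟩
            rw [mem_centralizer_singleton_iff]
            exact mul_inv_eq_iff_eq_mul.1 h1
          · left
            refine Subgroup.mem_inf.2 ⟨mul_mem hd.1 (hL1C hw1), ?_⟩
            rw [mem_centralizer_singleton_iff]
            apply mul_inv_eq_iff_eq_mul.1
            have h3 : w1 * x * w1⁻¹ = j * x := by
              have h4 := hxcomm w1 hw1 1 (one_mem _)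
              rw [mul_one] at h4
              rw [h4, hw1a, one_mul, inv_one, mul_one, hx, mul_assoc]
            have hdj : d * j = j * d := mem_centralizer_singleton_iff.1 hd.1
            calc d * w1 * x * (d * w1)⁻¹ = d * (w1 * x * w1⁻¹) * d⁻¹ := by group
              _ = d * (j * x) * d⁻¹ := by rw [h3]
              _ = (d * j) * x * d⁻¹ := by group
              _ = j * (d * x * d⁻¹) := by rw [hdj]; group
              _ = x := by rw [h1, ← mul_assoc, hjj, one_mul]
      have h1 := Subgroup.relIndex_mul_relIndex D D1 C hDD1 hD1C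
      rw [hidx] at h1
      exact Dvd.intro _ h1
    -- cardinalities
    have hcard : Nat.card (centralizer ({x} : Set G)) = Nat.card C := by
      have h1 : (centralizer ({x} : Set G)).map (MulAut.conj g).toMonoidHom = C := by
        ext z
        rw [H58.Rel.mem_map_conj_iff, mem_centralizer_singleton_iff, hC, mem_centralizer_singleton_iff,
          ← hgx]
        constructor
        · intro h
          calc z * (g * x * g⁻¹) = g * ((g⁻¹ * z * g) * x) * g⁻¹ := by group
            _ = g * (x * (g⁻¹ * z * g)) * g⁻¹ := by rw [h]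
            _ = g * x * g⁻¹ * z := by group
        · intro h
          calc g⁻¹ * z * g * x = g⁻¹ * (z * (g * x * g⁻¹)) * g := by group
            _ = g⁻¹ * (g * x * g⁻¹ * z) * g := by rw [h]
            _ = x * (g⁻¹ * z * g) := by group
      rw [← h1, H58.Rel.card_map_conj]
    have hrel : ∀ A B : Subgroup G, A ≤ B → Nat.card A * A.relIndex B = Nat.card B := by
      intro A B hAB
      have h6 := Subgroup.card_mul_index (A.subgroupOf B)
      rw [Nat.card_congr (Subgroup.subgroupOfEquivOfLe hAB).toEquiv] at h6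
      exact h6
    have h1 := hrel T D hTD
    have h2 := hrel D C inf_le_left
    have h3 := hrel T _ (hTD.trans inf_le_right : T ≤ centralizer ({x} : Set G))
    rw [hcard, ← h2, ← h1, mul_assoc] at h3
    have h4 := Nat.eq_of_mul_eq_mul_left Nat.card_pos h3
    apply hUi
    rw [h4]
    exact Dvd.dvd.mul_left hsub _
  obtain ⟨s, hsU, hsT, hsN⟩ := H2.PGrp.exists_mem_normalizer hU2 (lt_of_le_of_ne hTU hne)
  -- `s ∈ D`
  have hsD : s ∈ D := by
    refine Subgroup.mem_inf.2 ⟨?_, hUx hsU⟩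
    rw [hC, mem_centralizer_singleton_iff]
    exact mul_inv_eq_iff_eq_mul.1 (hNT s hsN)
  -- contradiction with `T` Sylow in `D`
  have hTs : IsPGroup 2 (U ⊓ D : Subgroup G) := hU2.to_le inf_le_left
  obtain ⟨V, hV1, hV2, hV3, hV4⟩ := H58.Rel.exists_le_sylowOf (inf_le_right : U ⊓ D ≤ D) hTs
  have hTV : T ≤ V := (le_inf hTU hTD).trans hV1
  have h1 : T = V := by
    apply Subgroup.eq_of_le_of_card_ge hTV
    obtain ⟨d, hd, hdV⟩ := H58.Rel.exists_conj_eq_sylowOf hTD hV2 hT2 hTi hV3 hV4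
    rw [← hdV, H58.Rel.card_map_conj]
  apply hsT
  rw [h1]
  exact hV1 (Subgroup.mem_inf.2 ⟨hsU, hsD⟩)

end H58.SL2Swap
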