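import Mathlib
import Cfsg.Agent.Lib.H58.SL2Swap
import Cfsg.Agent.Lib.H58.ZUse

/-!
S3211 modulo the `Z*`-theorem.
-/

set_option autoImplicit false

namespace H58.SL2SwapMain

open Matrix (SpecialLinearGroup)
open Subgroup Cfsg
open H58.SL2Prod H58.ZUse

variable {G : Type*} [Group G] [Finite G] {F₁ : Type*} [Field F₁] [Fintype F₁] {F₂ : Type*} [Field F₂]
  [Fintype F₂]

theorem inv_mem_Y {L₁ L₂ : Subgroup G}
    (hc : ∀ x ∈ L₁, ∀ y ∈ L₂, x * y = y * x) {j : G} (hj : orderOf j = 2)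
    (hm : L₁ ⊓ L₂ = Subgroup.zpowers j)
    (hi : (L₁ ⊔ L₂).relIndex (centralizer ({j} : Set G)) = 2) {n : G}
    (hn : n ∈ centralizer ({j} : Set G)) (hn2 : n ^ 2 = j)
    (hswap : L₁.map (MulAut.conj n).toMonoidHom = L₂) :
    ∀ s ∈ centralizer ({j} : Set G), s * s = 1 → s ∈ L₁ ⊔ L₂ := by
  intro s hs hss
  by_contra hsY
  have hj1 : j ∈ L₁ := (inf_le_left : L₁ ⊓ L₂ ≤ L₁) (hm ▸ Subgroup.mem_zpowers j)
  have hj2 : j ∈ L₂ := (inf_le_right : L₁ ⊓ L₂ ≤ L₂) (hm ▸ Subgroup.mem_zpowers j)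
  have hjj : j * j = 1 := by rw [← pow_two, ← hj, pow_orderOf_eq_one]
  have hjne : j ≠ 1 := by rintro rfl; rw [orderOf_one] at hj; omega
  have hnn : n * n = j := by rw [← pow_two, hn2]
  have hjc2 : ∀ u ∈ L₂, j * u = u * j := fun u hu => hc j hj1 u hu
  have hjc1 : ∀ u ∈ L₁, j * u = u * j := fun u hu => (hc u hu j hj2).symm
  -- `n` swaps
  have hsw1 : ∀ u ∈ L₁, n * u * n⁻¹ ∈ L₂ := by
    intro u hu; rw [← hswap]; exact ⟨u, hu, rfl⟩
  have hsw2 : ∀ v ∈ L₂, n * v * n⁻¹ ∈ L₁ := by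
    intro v hv
    rw [← hswap] at hv
    obtain ⟨u, hu, rfl⟩ := hv
    show n * (n * u * n⁻¹) * n⁻¹ ∈ L₁
    have h1 : n * (n * u * n⁻¹) * n⁻¹ = u := by
      calc n * (n * u * n⁻¹) * n⁻¹ = (n * n) * u * (n * n)⁻¹ := by group
        _ = u := by rw [hnn, hjc1 u hu, mul_inv_cancel_right]
    rw [h1]; exact hu
  -- `n ∉ Y`
  have hnY : n ∉ L₁ ⊔ L₂ := by
    intro h
    obtain ⟨u, hu, v, hv, rfl⟩ := (mem_sup_iff hc).1 h
    -- then `L₁` is normalized, so `L₁ ≤ ⟨j⟩`; in particular swap is impossible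
    have h1 : ∀ w ∈ L₁, u * v * w * (u * v)⁻¹ ∈ L₁ := by
      intro w hw
      have h2 : u * v * w * (u * v)⁻¹ = u * w * u⁻¹ := by
        calc u * v * w * (u * v)⁻¹ = u * (v * w) * v⁻¹ * u⁻¹ := by group
          _ = u * (w * v) * v⁻¹ * u⁻¹ := by rw [hc w hw v hv]
          _ = u * w * u⁻¹ := by group
      rw [h2]; exact mul_mem (mul_mem hu hw) (inv_mem hu)
    have h2 : ∀ w ∈ L₁, w = 1 ∨ w = j := by
      intro w hw
      have h3 : u * v * w * (u * v)⁻¹ ∈ zpowers j := by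
        rw [← hm]; exact ⟨h1 w hw, hsw1 w hw⟩
      have hcj : u * v * j * (u * v)⁻¹ = j := by
        have := mem_centralizer_singleton_iff.1 hn
        rw [this, mul_inv_cancel_right]
      rcases (mem_zpowers_two hj).1 h3 with h4 | h4
      · left
        rwa [mul_inv_eq_one, mul_eq_left] at h4
      · right
        rw [← hcj] at h4
        exact mul_left_cancel (mul_right_cancel h4)
    have h3 : u * u = 1 := by
      rcases h2 u hu with h4 | h4 <;> rw [h4]
      · exact one_mul 1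
      · exact hjj
    have hv' : v = 1 ∨ v = j := by
      have h5 := hsw2 v hv
      rcases h2 _ h5 with h6 | h6
      · left; rwa [mul_inv_eq_one, mul_eq_left] at h6
      · right
        have hcj : u * v * j * (u * v)⁻¹ = j := by
          have := mem_centralizer_singleton_iff.1 hn
          rw [this, mul_inv_cancel_right]
        have h7 : u * v * v * (u * v)⁻¹ = u * v * j * (u * v)⁻¹ := by rw [hcj]; exact h6
        exact mul_left_cancel (mul_right_cancel h7)
    have h4 : v * v = 1 := by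
      rcases hv' with h4 | h4 <;> rw [h4]
      · exact one_mul 1
      · exact hjj
    apply hjne
    rw [← hnn]
    calc u * v * (u * v) = u * (v * u) * v := by group
      _ = u * (u * v) * v := by rw [hc u hu v hv]
      _ = (u * u) * (v * v) := by group
      _ = 1 := by rw [h3, h4, one_mul]
  -- `s = n y`
  have h1 : n⁻¹ * s ∈ L₁ ⊔ L₂ := by
    have h2 : (⟨n, hn⟩ : centralizer ({j} : Set G))⁻¹ * ⟨s, hs⟩ ∈ (L₁ ⊔ L₂).subgroupOf (centralizer ({j} : Set G)) := by
      rw [Subgroup.mul_mem_iff_of_index_two hi]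
      constructor
      · intro h; exact absurd (inv_mem_iff.1 h) hnY
      · intro h; exact absurd h hsY
    exact h2
  obtain ⟨u, hu, v, hv, huv⟩ := (mem_sup_iff hc).1 h1
  have hs' : s = n * (u * v) := by rw [huv]; group
  set u' := n * u * n⁻¹ with hu'
  set v' := n * v * n⁻¹ with hv'
  have hu'2 : u' ∈ L₂ := hsw1 u hu
  have hv'1 : v' ∈ L₁ := hsw2 v hv
  have h2 : s * s = (v' * u) * (u' * v) * j := by
    rw [hs']
    have e1 : n * (u * v) * (n * (u * v)) = u' * v' * (n * n) * (u * v) := by rw [hu', hv']; group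
    have hjv : j * (u * v) = (u * v) * j := by
      rw [← mul_assoc, hjc1 u hu, mul_assoc, hjc2 v hv, mul_assoc]
    rw [e1, hnn, mul_assoc, hjv]
    rw [← hc v' hv'1 u' hu'2]
    calc v' * u' * (u * v * j) = v' * (u' * u) * v * j := by group
      _ = v' * (u * u') * v * j := by rw [hc u hu u' hu'2]
      _ = (v' * u) * (u' * v) * j := by group
  rw [hss] at h2
  have h3 : (v' * u) = j * (u' * v)⁻¹ := by
    have h4 : (v' * u) * (u' * v) = j := by
      calc (v' * u) * (u' * v) = ((v' * u) * (u' * v) * j) * j := by rw [mul_assoc _ j j, hjj, mul_one]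
        _ = j := by rw [← h2, one_mul]
    rw [← h4]; group
  have h4 : v' * u ∈ zpowers j := by
    rw [← hm]
    refine Subgroup.mem_inf.2 ⟨mul_mem hv'1 hu, ?_⟩
    rw [h3]; exact mul_mem hj2 (inv_mem (mul_mem hu'2 hv))
  -- conjugate by `n`
  have h5 : n * (v' * u) * n⁻¹ = v * u' := by
    have h6 : n * v' * n⁻¹ = v := by
      rw [hv']
      calc n * (n * v * n⁻¹) * n⁻¹ = (n * n) * v * (n * n)⁻¹ := by group
        _ = v := by rw [hnn, hjc2 v hv, mul_inv_cancel_right]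
    calc n * (v' * u) * n⁻¹ = (n * v' * n⁻¹) * (n * u * n⁻¹) := by group
      _ = v * u' := by rw [h6]
  have hnj : n * j * n⁻¹ = j := by
    have := mem_centralizer_singleton_iff.1 hn
    rw [this, mul_inv_cancel_right]
  rcases (mem_zpowers_two hj).1 h4 with h6 | h6
  · -- `v' u = 1`: then `v u' = 1`, so `u' v = 1`
    rw [h6] at h5 h3
    have h7 : v * u' = 1 := by rw [← h5]; group
    have h8 : u' * v = 1 := by rw [← inv_eq_of_mul_eq_one_right h7, inv_mul_cancel]
    rw [h8] at h3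
    apply hjne
    rw [inv_one, mul_one] at h3
    exact h3.symm
  · rw [h6] at h5 h3
    rw [hnj] at h5
    have h7 : u' * v = 1 := by
      have h9 : j * (u' * v)⁻¹ = j * 1 := by rw [← h3, mul_one]
      have := mul_left_cancel h9
      rwa [inv_eq_one] at this
    have h8 : v * u' = 1 := by rw [← inv_eq_of_mul_eq_one_right h7, inv_mul_cancel]
    rw [h8] at h5
    exact hjne h5

theorem main (hZ : ZStarFor G) (hF₁ : Odd (Fintype.card F₁)) (hF₂ : Odd (Fintype.card F₂))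
    (L₁ L₂ : Subgroup G)
    (e₁ : ↥L₁ ≃* SpecialLinearGroup (Fin 2) F₁) (e₂ : ↥L₂ ≃* SpecialLinearGroup (Fin 2) F₂)
    (hc : ∀ x ∈ L₁, ∀ y ∈ L₂, x * y = y * x) (j : G) (hj : orderOf j = 2)
    (hm : L₁ ⊓ L₂ = Subgroup.zpowers j)
    (hi : (L₁ ⊔ L₂).relIndex (centralizer ({j} : Set G)) = 2) (n : G)
    (hn : n ∈ centralizer ({j} : Set G))
    (hn2 : n ^ 2 = j) (hswap : L₁.map (MulAut.conj n).toMonoidHom = L₂) :
    centralizer ({j} : Set G) ⊔ oddCore G = ⊤ := by
  have hp : Fact (Nat.Prime 2) := ⟨Nat.prime_two⟩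
  have hinv := inv_mem_Y hc hj hm hi hn hn2 hswap
  have hj1 : j ∈ L₁ := (inf_le_left : L₁ ⊓ L₂ ≤ L₁) (hm ▸ Subgroup.mem_zpowers j)
  have hj2 : j ∈ L₂ := (inf_le_right : L₁ ⊓ L₂ ≤ L₂) (hm ▸ Subgroup.mem_zpowers j)
  have hjj : j * j = 1 := by rw [← pow_two, ← hj, pow_orderOf_eq_one]
  -- conjugates of `j` commuting with `j` are `j`
  have hiso : ∀ g : G, g * j * g⁻¹ ∈ centralizer ({j} : Set G) → g * j * g⁻¹ = j := by
    intro g hg
    set y := g * j * g⁻¹ with hy
    have hyy : y * y = 1 := by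
      rw [hy]
      calc g * j * g⁻¹ * (g * j * g⁻¹) = g * (j * j) * g⁻¹ := by group
        _ = 1 := by rw [hjj]; group
    have hy2 : orderOf y = 2 := by rw [← hj]; exact MulEquiv.orderOf_eq (MulAut.conj g) j
    have hy1 : y ≠ 1 := by
      intro h; rw [h, orderOf_one] at hy2; omega
    have hyY := hinv y hg hyy
    obtain ⟨u, hu, v, hv, huv⟩ := (mem_sup_iff hc).1 hyY
    have h1 : (u * u) * (v * v) = 1 := by
      calc (u * u) * (v * v) = u * (u * v) * v := by group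
        _ = u * (v * u) * v := by rw [hc u hu v hv]
        _ = (u * v) * (u * v) := by group
        _ = 1 := by rw [huv, hyy]
    have h2 : u * u ∈ zpowers j := by
      rw [← hm]
      refine Subgroup.mem_inf.2 ⟨mul_mem hu hu, ?_⟩
      rw [eq_inv_of_mul_eq_one_left h1]
      exact inv_mem (mul_mem hv hv)
    rcases (mem_zpowers_two hj).1 h2 with h3 | h3
    · rw [h3, one_mul] at h1
      rcases sq_one e₁ hF₁ hj hj1 hu h3 with rfl | rfl <;>
      rcases sq_one e₂ hF₂ hj hj2 hv h1 with rfl | rfl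
      · exact absurd (huv.symm.trans (one_mul 1)) hy1
      · rw [← huv, one_mul]
      · rw [← huv, mul_one]
      · exact absurd (huv.symm.trans hjj) hy1
    · exfalso
      have h4 : v * v = j := by
        rw [h3] at h1
        rw [← mul_left_cancel_iff (a := j), h1, hjj]
      have h5 : g⁻¹ * (u * v) * g⁻¹⁻¹ = j := by
        rw [huv, hy]; group
      exact H58.SL2Swap.not_conj hF₁ hF₂ L₁ L₂ e₁ e₂ hc hj hm hinv hu hv h3 h4 g⁻¹ h5
  -- a Sylow subgroup of `C` is Sylow in `G`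
  set C := centralizer ({j} : Set G) with hC
  have hjC : j ∈ C := by rw [hC, mem_centralizer_singleton_iff]
  obtain ⟨S, hjS, hSC, hS2, hSi⟩ := H58.Rel.exists_le_sylowOf ((zpowers_le).2 hjC)
    (IsPGroup.of_card (n := 1) (p := 2) (by rw [Nat.card_zpowers, hj, pow_one]))
  have hjS' : j ∈ S := hjS (mem_zpowers j)
  obtain ⟨P, hP⟩ := hS2.exists_le_sylow
  have hSP : S = P := by
    by_contra hne
    obtain ⟨s, hsP, hsS, hsN⟩ := H2.PGrp.exists_mem_normalizer P.isPGroup' (lt_of_le_of_ne hP hne)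
    have h1 : s * j * s⁻¹ ∈ S := (Subgroup.mem_normalizer_iff.1 hsN j).1 hjS'
    have h2 := hiso s (hSC h1)
    have hsC : s ∈ C := by
      rw [hC, mem_centralizer_singleton_iff]
      exact mul_inv_eq_iff_eq_mul.1 h2
    obtain ⟨V, hV1, hV2, hV3, hV4⟩ := H58.Rel.exists_le_sylowOf
      (inf_le_right : (P : Subgroup G) ⊓ C ≤ C) (P.isPGroup'.to_le inf_le_left)
    have hSV : S ≤ V := (le_inf hP hSC).trans hV1
    have h3 : S = V := by
      apply Subgroup.eq_of_le_of_card_ge hSV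
      obtain ⟨d, hd, hdV⟩ := H58.Rel.exists_conj_eq_sylowOf hSC hV2 hS2 hSi hV3 hV4
      rw [← hdV, H58.Rel.card_map_conj]
    apply hsS
    rw [h3]
    exact hV1 (Subgroup.mem_inf.2 ⟨hsP, hsC⟩)
  have hPC : (P : Subgroup G) ≤ C := hSP ▸ hSC
  exact H58.ZUse.sup_eq_top hZ P hj (hP hjS') (fun g hg => hiso g (hPC hg))

end H58.SL2SwapMain
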