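import Cfsg.Agent.Lib.H58.TrS

/-! Splitting of large certificates (helper58). -/

set_option autoImplicit false

namespace H58.TrS

open H34.TC

structure CN (nr : Nat) (E : Tr) (N : Nat) : Prop where
  h : cntTr nr E 0 = N

theorem cn2 {nr : Nat} {E : Tr} {N : Nat} (h : Nat.beq (cntTr nr E 0) N = true) : CN nr E N := ⟨nbeq h⟩

theorem upper3 {G : Type*} [Group G] (ℓ : Nat → G) (H : Subgroup G) (m nr n N : Nat) (tabs : List Tr) (E D : Tr)
    (base : List (List Nat)) (ι : Nat → Nat) (WA : List (List (List Nat))) (HA : List (List (Nat × Bool × Nat)))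
    (WE : List (List Nat)) (HE : List (Nat × Bool × Nat)) (subs : List (List Nat × Nat × List Nat))
    (subE : List (List Nat × List Nat))
    (hm : m ≤ 32) (hn : nr ≤ n) (h0 : 0 < nr) (htabs : tabs.length = m)
    (hι : ∀ g, ℓ (ι g) = (ℓ g)⁻¹)
    (hbase : ∀ r ∈ base, (r.map ℓ).prod = 1)
    (hgen : Subgroup.closure {x | ∃ g < m, x = ℓ g} = ⊤)
    (hsub : ∀ s ∈ subs, wp ℓ (s.1 ++ s.2.1 :: s.2.2) ∈ H)
    (hsub' : ∀ s ∈ subE, wp ℓ (s.1 ++ s.2) ∈ H)
    (hW : ∀ g < m, (WA.getD g []).map (g :: ·) = (HA.getD g []).map (mkW ι base))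
    (hWE : WE = HE.map (mkW ι base))
    (hslot : ∀ g, g < m → Rng (fun i e => ∃ J, chkSlot (tabF tabs) E D (wAF ι WA g) subs nr g i e J = true) (tabF tabs g) 0 n)
    (heq : Rng (fun i e => ∃ J, chkEq (tabF tabs) E (wEF WE) subE nr i e J = true) E 0 n)
    (hN : CN nr E N) :
    H.FiniteIndex ∧ H.index ≤ N :=
  H34.TC.upper ℓ H m nr n N tabs E D base ι WA HA WE HE subs subE hm hn h0 htabs hι hbase hgen hsub hsub' hW hWE hslot heq hN.h

end H58.TrS
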