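import Mathlib
import Cfsg.Prelude.Def_CaseTheorems
import Cfsg.Prelude.Def_Transfer
import Cfsg.Agent.Lib.H1.Solv
import Cfsg.Agent.Lib.H1.Hall
import Cfsg.Agent.Lib.H1.Coprime2
import Cfsg.Agent.Lib.H1.FrobSyl
import Cfsg.Agent.Lib.H58.PFix

/-!
Solvable groups with `O(H) = 1` in which involution centralizers are 2-nilpotent.
-/

set_option autoImplicit false

namespace H58.TwoNilInv

open Subgroup Cfsg

variable {H : Type*} [Group H] [Finite H]

theorem odd_orderOf_pow_eq_one {x : H} {k : ℕ} (hx : Odd (orderOf x)) (h : x ^ 2 ^ k = 1) : x = 1 := by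
  have h1 := orderOf_dvd_of_pow_eq_one h
  obtain ⟨j, -, hj⟩ := (Nat.dvd_prime_pow Nat.prime_two).1 h1
  rw [hj] at hx
  rcases j with _ | j
  · rw [pow_zero, orderOf_eq_one_iff] at hj; exact hj
  · rw [pow_succ] at hx
    exact absurd (Nat.even_mul.2 (Or.inr even_two)) (Nat.not_even_iff_odd.2 hx)

theorem eq_one_of_odd_of_mem {Y : Subgroup H} (hY : IsPGroup 2 Y) {x : H} (hx : Odd (orderOf x))
    (hxY : x ∈ Y) : x = 1 := by
  obtain ⟨k, hk⟩ := hY ⟨x, hxY⟩
  exact odd_orderOf_pow_eq_one hx (congrArg Subtype.val hk)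

/-- an involution power of a nontrivial 2-element -/
theorem exists_involution_pow {y : H} {k : ℕ} (hy : y ^ 2 ^ k = 1) (h1 : y ≠ 1) :
    ∃ n : ℕ, orderOf (y ^ n) = 2 := by
  have h2 := orderOf_dvd_of_pow_eq_one hy
  obtain ⟨j, -, hj⟩ := (Nat.dvd_prime_pow Nat.prime_two).1 h2
  rcases j with _ | j
  · rw [pow_zero, orderOf_eq_one_iff] at hj; exact absurd hj h1
  · refine ⟨2 ^ j, ?_⟩
    rw [orderOf_pow' _ (by positivity), hj, pow_succ, Nat.gcd_mul_right_left,
      Nat.mul_div_cancel_left _ (by positivity)]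

/-- In a subgroup `D` with a normal 2-complement, an element of odd order and an element of a
2-subgroup normalized by `D` commute. -/
theorem commute_of_npc {D : Subgroup H} (hD : HasNormalPComplement 2 D) {Y : Subgroup H}
    (hY : IsPGroup 2 Y) (hYn : ∀ d ∈ D, ∀ y ∈ Y, d * y * d⁻¹ ∈ Y) {x c : H} (hx : x ∈ D)
    (hxo : Odd (orderOf x)) (hc : c ∈ D) (hcY : c ∈ Y) : x * c = c * x := by
  have hp : Fact (Nat.Prime 2) := ⟨Nat.prime_two⟩
  obtain ⟨P, N, hN, hNP⟩ := hD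
  have hNodd : Odd (Nat.card N) := by
    rw [← hNP.index_eq_card, ← Nat.not_even_iff_odd, even_iff_two_dvd]
    exact P.not_dvd_index
  have hNidx : ∃ k, N.index = 2 ^ k := by
    obtain ⟨k, hk⟩ := IsPGroup.iff_card.1 P.isPGroup'
    exact ⟨k, by rw [hNP.symm.index_eq_card, hk]⟩
  -- `x ∈ N`
  have hxN : (⟨x, hx⟩ : D) ∈ N := by
    obtain ⟨k, hk⟩ := hNidx
    rw [← QuotientGroup.eq_one_iff]
    have h1 : ((⟨x, hx⟩ : D) : D ⧸ N) ^ 2 ^ k = 1 := by
      rw [← hk, Subgroup.index]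
      exact pow_card_eq_one'
    have h2 : Odd (orderOf ((⟨x, hx⟩ : D) : D ⧸ N)) := by
      have h3 : orderOf ((⟨x, hx⟩ : D) : D ⧸ N) ∣ orderOf (⟨x, hx⟩ : D) := orderOf_map_dvd (QuotientGroup.mk' N) _
      have h4 : orderOf (⟨x, hx⟩ : D) = orderOf x := (Subgroup.orderOf_coe _).symm
      rw [h4] at h3
      exact Odd.of_dvd_nat hxo h3
    exact odd_orderOf_pow_eq_one h2 h1
  -- commutator
  have h1 : (⟨x, hx⟩ : D) * ⟨c, hc⟩ * (⟨x, hx⟩ : D)⁻¹ * (⟨c, hc⟩ : D)⁻¹ ∈ N := by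
    have h2 := N.mul_mem hxN (hN.conj_mem _ (N.inv_mem hxN) ⟨c, hc⟩)
    have h3 : (⟨x, hx⟩ : D) * (⟨c, hc⟩ * (⟨x, hx⟩ : D)⁻¹ * (⟨c, hc⟩ : D)⁻¹) =
      (⟨x, hx⟩ : D) * ⟨c, hc⟩ * (⟨x, hx⟩ : D)⁻¹ * (⟨c, hc⟩ : D)⁻¹ := by group
    rwa [h3] at h2
  have h2 : x * c * x⁻¹ * c⁻¹ ∈ Y := Y.mul_mem (hYn x hx c hcY) (Y.inv_mem hcY)
  have h3 : Odd (orderOf (x * c * x⁻¹ * c⁻¹)) := by
    have h4 : orderOf ((⟨x, hx⟩ : D) * ⟨c, hc⟩ * (⟨x, hx⟩ : D)⁻¹ * (⟨c, hc⟩ : D)⁻¹) ∣ Nat.card N := by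
      have := orderOf_dvd_natCard (⟨_, h1⟩ : N)
      rwa [← Subgroup.orderOf_coe] at this
    rw [← Subgroup.orderOf_coe] at h4
    exact Odd.of_dvd_nat hNodd h4
  have h4 := eq_one_of_odd_of_mem hY h3 h2
  rw [mul_inv_eq_one] at h4
  exact mul_inv_eq_iff_eq_mul.1 h4

section main

variable (hsol : Group.IsSolvable H) (hO : oddCore H = ⊥)
  (hI : ∀ t : H, orderOf t = 2 → HasNormalPComplement 2 ↥(centralizer ({t} : Set H)))

include hsol hO hI

theorem claimA {x : H} (hx : Odd (orderOf x)) (hx1 : x ≠ 1) {y : H} (hy : y ∈ pCore 2 H)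
    (hy1 : y ≠ 1) : x * y ≠ y * x := by
  have hp : Fact (Nat.Prime 2) := ⟨Nat.prime_two⟩
  intro hxy
  set Y := pCore 2 H with hYdef
  have hY : IsPGroup 2 Y := H1.Cores.isPGroup_pCore 2
  have hYn : Y.Normal := inferInstance
  obtain ⟨k, hk⟩ := hY ⟨y, hy⟩
  obtain ⟨n, hn⟩ := exists_involution_pow (k := k) (congrArg Subtype.val hk) hy1
  set z := y ^ n with hz
  have hzY : z ∈ Y := pow_mem hy n
  have hxz : x * z = z * x := (Commute.pow_right (show Commute x y from hxy) n).eq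
  set C := Y ⊓ centralizer ((zpowers x : Subgroup H) : Set H) with hC
  have hxC : ∀ c ∈ C, x * c = c * x := by
    intro c hc
    exact (Subgroup.mem_centralizer_iff.1 hc.2 x (mem_zpowers x))
  have hzC : z ∈ C := by
    refine ⟨hzY, ?_⟩
    show z ∈ centralizer ((zpowers x : Subgroup H) : Set H)
    rw [Subgroup.mem_centralizer_iff]
    rintro _ ⟨i, rfl⟩
    exact (Commute.zpow_left (show Commute x z from hxz) i).eq
  have hcard : Nat.card (zpowers x) = orderOf x := Nat.card_zpowers x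
  have h1 := H1.Coprime2.pq_lemma 2 C (zpowers x) (hY.to_le inf_le_left)
    (by rw [hcard]; exact (Nat.coprime_two_right).2 hx) inf_le_right _ Y rfl hY
    (by rw [Subgroup.normalizer_eq_top]; exact le_top) (by rw [Subgroup.normalizer_eq_top]; exact le_top) (by
      rintro c ⟨hcY, hcC⟩
      -- `c` commutes with `z`, hence lies in the centralizer of `z`
      have hcz : c * z = z * c := (Subgroup.mem_centralizer_iff.1 hcC z hzC).symm
      have h2 := commute_of_npc (hI z hn) hY (fun d _ y hy => hYn.conj_mem y hy d)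
        (Subgroup.mem_centralizer_singleton_iff.2 hxz) hx
        (Subgroup.mem_centralizer_singleton_iff.2 hcz) hcY
      show c ∈ centralizer ((zpowers x : Subgroup H) : Set H)
      rw [Subgroup.mem_centralizer_iff]
      rintro _ ⟨i, rfl⟩
      exact (Commute.zpow_left (show Commute x c from h2) i).eq)
  have h2 := H1.Solv.centralizer_pCore_le hsol 2 hO
  have h3 : x ∈ Y := h2 (h1 (mem_zpowers x))
  exact hx1 (eq_one_of_odd_of_mem hY hx h3)

theorem pCore_ne_bot [Nontrivial H] : pCore 2 H ≠ ⊥ := by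
  have hp : Fact (Nat.Prime 2) := ⟨Nat.prime_two⟩
  intro h
  have h2 := H1.Solv.centralizer_pCore_le hsol 2 hO
  rw [h] at h2
  obtain ⟨x, hx⟩ := exists_ne (1 : H)
  apply hx
  have h3 : x ∈ centralizer (((⊥ : Subgroup H)) : Set H) := by
    rw [Subgroup.mem_centralizer_iff]
    intro g hg
    rw [Subgroup.coe_bot, Set.mem_singleton_iff] at hg
    rw [hg, one_mul, mul_one]
  exact Subgroup.mem_bot.1 (h2 h3)

theorem claimB {x : H} (hx : Odd (orderOf x)) (hx1 : x ≠ 1) {t : H} (ht : orderOf t = 2) :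
    x * t ≠ t * x := by
  have hp : Fact (Nat.Prime 2) := ⟨Nat.prime_two⟩
  intro hxt
  have hnt : Nontrivial H := ⟨x, 1, hx1⟩
  set Y := pCore 2 H with hYdef
  have hY : IsPGroup 2 Y := H1.Cores.isPGroup_pCore 2
  have hYn : Y.Normal := inferInstance
  have htp : IsPGroup 2 (zpowers t) := IsPGroup.of_card (n := 1) (by rw [Nat.card_zpowers, ht, pow_one])
  obtain ⟨k, hkY, hk1, hk⟩ := H58.PFix.exists_centralized htp hY (pCore_ne_bot hsol hO hI)
    (fun g _ k hk => hYn.conj_mem k hk g)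
  have hkt : k * t = t * k := (hk t (mem_zpowers t)).symm
  exact claimA hsol hO hI hx hx1 hkY hk1 (commute_of_npc (hI t ht) hY
    (fun d _ y hy => hYn.conj_mem y hy d) (Subgroup.mem_centralizer_singleton_iff.2 hxt) hx
    (Subgroup.mem_centralizer_singleton_iff.2 hkt) hkY)

/-- `p`-subgroups, `p` odd, are cyclic. -/
theorem isCyclic_of_isPGroup {p : ℕ} [hp : Fact p.Prime] (hp2 : p ≠ 2) {P : Subgroup H}
    (hP : IsPGroup p P) : IsCyclic P := by
  have hp' : Fact (Nat.Prime 2) := ⟨Nat.prime_two⟩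
  rcases subsingleton_or_nontrivial H with hss | hnt
  · infer_instance
  have hodd : ∀ a ∈ P, Odd (orderOf a) := by
    intro a ha
    obtain ⟨k, hk⟩ := hP ⟨a, ha⟩
    have h1 : a ^ p ^ k = 1 := congrArg Subtype.val hk
    exact Odd.of_dvd_nat (Odd.pow (hp.out.odd_of_ne_two hp2)) (orderOf_dvd_of_pow_eq_one h1)
  rcases H1.FrobSyl.cyclic_or_quaternion P (pCore 2 H) (pCore_ne_bot hsol hO hI)
    (by rw [Subgroup.normalizer_eq_top]; exact le_top) (by
      intro a ha ha1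
      rw [Subgroup.eq_bot_iff_forall]
      rintro y ⟨hyY, hya⟩
      by_contra hy1
      exact claimA hsol hO hI (hodd a ha) ha1 hyY hy1
        (Subgroup.mem_centralizer_singleton_iff.1 hya).symm) p hP with h | ⟨h, -⟩
  · exact h
  · exact absurd h hp2

theorem isZGroup {X : Subgroup H} (hX : Odd (Nat.card X)) : IsZGroup X := by
  rw [isZGroup_iff]
  intro p hp P
  have hpf : Fact p.Prime := ⟨hp⟩
  by_cases hp2 : p = 2
  · subst hp2
    have h1 : Nat.card P = 1 := by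
      obtain ⟨k, hk⟩ := IsPGroup.iff_card.1 P.isPGroup'
      have h2 : Nat.card P ∣ Nat.card X := Subgroup.card_subgroup_dvd_card _
      rw [hk] at h2 ⊢
      have h3 := Odd.of_dvd_nat hX h2
      rcases k with _ | k
      · exact pow_zero 2
      · rw [pow_succ] at h3
        exact absurd (Nat.even_mul.2 (Or.inr even_two)) (Nat.not_even_iff_odd.2 h3)
    have h2 : Subsingleton P := (Nat.card_eq_one_iff_unique.1 h1).1
    infer_instance
  · have h1 := isCyclic_of_isPGroup hsol hO hI hp2 (P.isPGroup'.map X.subtype)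
    let e := (P : Subgroup X).equivMapOfInjective X.subtype X.subtype_injective
    exact isCyclic_of_surjective e.symm e.symm.surjective

/-- a nontrivial subgroup of odd prime power order has cyclic 2-subgroups in its normalizer -/
theorem isCyclic_of_normalizes {p : ℕ} [hp : Fact p.Prime] (hp2 : p ≠ 2) {Q : Subgroup H}
    (hQ : IsPGroup p Q) (hQ1 : Q ≠ ⊥) (T : Sylow 2 ↥(normalizer (Q : Set H))) : IsCyclic T := by
  have hcyc := isCyclic_of_isPGroup hsol hO hI hp2 hQ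
  obtain ⟨n, hn⟩ := IsPGroup.iff_card.1 hQ
  have h1 : IsCyclic (ZMod (Nat.card Q))ˣ := by
    rw [hn]; exact ZMod.isCyclic_units_of_prime_pow p hp.out hp2 n
  have h2 : IsCyclic (MulAut Q) :=
    isCyclic_of_surjective (IsCyclic.mulAutMulEquiv Q).symm (IsCyclic.mulAutMulEquiv Q).symm.surjective
  let f : ↥(T : Subgroup ↥(normalizer (Q : Set H))) →* MulAut Q :=
    (Q.normalizerMonoidHom).comp (T : Subgroup ↥(normalizer (Q : Set H))).subtype
  apply isCyclic_of_injective f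
  rw [injective_iff_map_eq_one]
  intro t ht
  by_contra ht1
  have h3 : (t : ↥(normalizer (Q : Set H))) ∈ Q.normalizerMonoidHom.ker := ht
  rw [Subgroup.normalizerMonoidHom_ker, Subgroup.mem_subgroupOf] at h3
  -- an involution centralizing `Q`
  obtain ⟨k, hk⟩ := T.isPGroup' t
  set s : H := ((t : ↥(normalizer (Q : Set H))) : H) with hs
  have hs1 : s ≠ 1 := by
    intro h
    exact ht1 (Subtype.ext (Subtype.ext h))
  have hsk : s ^ 2 ^ k = 1 := by
    have h4 := congrArg (fun z : ↥(T : Subgroup ↥(normalizer (Q : Set H))) =>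
      ((z : ↥(normalizer (Q : Set H))) : H)) hk
    exact h4
  obtain ⟨m, hm⟩ := exists_involution_pow hsk hs1
  obtain ⟨⟨x, hxQ⟩, hx1⟩ := Subgroup.ne_bot_iff_exists_ne_one.1 hQ1
  have hx1' : x ≠ 1 := fun h => hx1 (Subtype.ext h)
  have hxodd : Odd (orderOf x) := by
    obtain ⟨k, hk⟩ := hQ ⟨x, hxQ⟩
    have h1 : x ^ p ^ k = 1 := congrArg Subtype.val hk
    exact Odd.of_dvd_nat (Odd.pow (hp.out.odd_of_ne_two hp2)) (orderOf_dvd_of_pow_eq_one h1)
  have h5 : x * s = s * x := Subgroup.mem_centralizer_iff.1 h3 x hxQ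
  exact claimB hsol hO hI hxodd hx1' hm ((show Commute x s from h5).pow_right m).eq

theorem structure_quotient (X : Subgroup H) (hXodd : Odd (Nat.card X)) (hXidx : ∃ k : ℕ, X.index = 2 ^ k) :
    (X ⊔ pCore 2 H).Normal ∧ ∀ hN : (X ⊔ pCore 2 H).Normal,
      IsCyclic (H ⧸ (X ⊔ pCore 2 H)) ∧ IsPGroup 2 (H ⧸ (X ⊔ pCore 2 H)) := by
  have hp : Fact (Nat.Prime 2) := ⟨Nat.prime_two⟩
  set Y := pCore 2 H with hYdef
  have hYn : Y.Normal := inferInstance
  have hY : IsPGroup 2 Y := H1.Cores.isPGroup_pCore 2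
  let π := QuotientGroup.mk' Y
  have hπ : Function.Surjective π := QuotientGroup.mk'_surjective Y
  have hker : π.ker = Y := QuotientGroup.ker_mk' Y
  have hsolQ : Group.IsSolvable (H ⧸ Y) := inferInstance
  set F := fittingSubgroup (H ⧸ Y) with hF
  have hFn : F.Normal := H1.Cores.fittingSubgroup_normal
  have hFnil : Group.IsNilpotent F := H1.Cores.isNilpotent_fittingSubgroup
  have hcore : pCore 2 (H ⧸ Y) = ⊥ := H1.Cores.pCore_quotient_pCore 2
  have hFodd : Odd (Nat.card F) := by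
    have h1 := H1.Cores.not_dvd_relIndex_pCore_fittingSubgroup (G := H ⧸ Y) 2
    rw [hcore, Subgroup.relIndex_bot_left] at h1
    rw [← Nat.not_even_iff_odd, even_iff_two_dvd]
    exact h1
  set Xb := X.map π with hXb
  have hFX : F ≤ Xb := by
    -- image of `F` in `(H/Y)/...`: use indices
    have h1 : Xb.relIndex F ∣ Xb.index := by
      have h2 := H1.Hall.card_sup_mul_card_inf Xb F
      have h3 : Nat.card (Xb ⊓ F : Subgroup (H ⧸ Y)) * Xb.relIndex F = Nat.card F := by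
        have h4 := Subgroup.card_mul_index (Xb.subgroupOf F)
        have h5 : Nat.card (Xb.subgroupOf F) = Nat.card (Xb ⊓ F : Subgroup (H ⧸ Y)) := by
          rw [← Subgroup.inf_subgroupOf_right]
          exact Nat.card_congr (Subgroup.subgroupOfEquivOfLe inf_le_right).toEquiv
        rw [h5] at h4
        exact h4
      have h4 : Nat.card (Xb ⊔ F : Subgroup (H ⧸ Y)) = Nat.card Xb * Xb.relIndex F := by
        apply Nat.eq_of_mul_eq_mul_right (Nat.card_pos (α := (Xb ⊓ F : Subgroup (H ⧸ Y))))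
        rw [h2, mul_assoc, mul_comm (Xb.relIndex F), h3]
      have h5 : Nat.card (Xb ⊔ F : Subgroup (H ⧸ Y)) ∣ Nat.card (H ⧸ Y) := Subgroup.card_subgroup_dvd_card _
      rw [h4, ← Subgroup.card_mul_index Xb] at h5
      exact Nat.dvd_of_mul_dvd_mul_left Nat.card_pos h5
    have h2 : Xb.index ∣ X.index := Subgroup.index_map_dvd _ hπ
    obtain ⟨k, hk⟩ := hXidx
    rw [hk] at h2
    obtain ⟨j, -, hj⟩ := (Nat.dvd_prime_pow Nat.prime_two).1 (h1.trans h2)
    have h3 : Xb.relIndex F ∣ Nat.card F := Subgroup.relIndex_dvd_card _ _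
    have h4 := Odd.of_dvd_nat hFodd h3
    rw [← Subgroup.relIndex_eq_one, hj]
    rcases j with _ | j
    · exact pow_zero 2
    · rw [hj, pow_succ] at h4
      exact absurd (Nat.even_mul.2 (Or.inr even_two)) (Nat.not_even_iff_odd.2 h4)
  have hXz : IsZGroup X := isZGroup hsol hO hI hXodd
  have hXbz : IsZGroup Xb := by
    exact IsZGroup.of_surjective (f := π.subgroupMap X) (π.subgroupMap_surjective X)
  have hFz : IsZGroup F := IsZGroup.of_injective (f := Subgroup.inclusion hFX) (Subgroup.inclusion_injective hFX)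
  have hFc : IsCyclic F := inferInstance
  obtain ⟨f, hf⟩ := hFc.exists_zpow_surjective
  have hcomm : ∀ g h : H ⧸ Y, g * h * g⁻¹ * h⁻¹ ∈ F := by
    intro g h
    apply H1.Solv.centralizer_fitting_le hsolQ
    obtain ⟨i, hi⟩ := hf ⟨g * f * g⁻¹, hFn.conj_mem _ f.2 g⟩
    obtain ⟨j, hj⟩ := hf ⟨h * f * h⁻¹, hFn.conj_mem _ f.2 h⟩
    have hi' : g * f * g⁻¹ = (f : H ⧸ Y) ^ i := (congrArg Subtype.val hi).symm
    have hj' : h * f * h⁻¹ = (f : H ⧸ Y) ^ j := (congrArg Subtype.val hj).symm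
    have h1 : g * (h * f * h⁻¹) * g⁻¹ = h * (g * f * g⁻¹) * h⁻¹ := by
      rw [hi', hj', ← conj_zpow, ← conj_zpow, hi', hj', ← zpow_mul, ← zpow_mul, mul_comm]
    have h2 : (g * h * g⁻¹ * h⁻¹) * f * (g * h * g⁻¹ * h⁻¹)⁻¹ = f := by
      have h3 : (g * h * g⁻¹ * h⁻¹) * f * (g * h * g⁻¹ * h⁻¹)⁻¹ =
          g * (h * (g⁻¹ * (h⁻¹ * f * h) * g) * h⁻¹) * g⁻¹ := by group
      -- conjugation by `g⁻¹` and `h⁻¹` commute as well
      have h4 : g⁻¹ * (h⁻¹ * f * h) * g = h⁻¹ * (g⁻¹ * f * g) * h := by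
        obtain ⟨i, hi⟩ := hf ⟨g⁻¹ * f * g⁻¹⁻¹, hFn.conj_mem _ f.2 g⁻¹⟩
        obtain ⟨j, hj⟩ := hf ⟨h⁻¹ * f * h⁻¹⁻¹, hFn.conj_mem _ f.2 h⁻¹⟩
        have hi' : g⁻¹ * f * g⁻¹⁻¹ = (f : H ⧸ Y) ^ i := (congrArg Subtype.val hi).symm
        have hj' : h⁻¹ * f * h⁻¹⁻¹ = (f : H ⧸ Y) ^ j := (congrArg Subtype.val hj).symm
        have h5 : g⁻¹ * (h⁻¹ * f * h⁻¹⁻¹) * g⁻¹⁻¹ = h⁻¹ * (g⁻¹ * f * g⁻¹⁻¹) * h⁻¹⁻¹ := by
          rw [hi', hj', ← conj_zpow, ← conj_zpow, hi', hj', ← zpow_mul, ← zpow_mul, mul_comm]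
        rwa [inv_inv, inv_inv] at h5
      rw [h3, h4]; group
    rw [Subgroup.mem_centralizer_iff]
    intro y hy
    obtain ⟨l, hl⟩ := hf ⟨y, hy⟩
    have hl' : y = (f : H ⧸ Y) ^ l := (congrArg Subtype.val hl).symm
    have h5 : (g * h * g⁻¹ * h⁻¹) * f = f * (g * h * g⁻¹ * h⁻¹) := mul_inv_eq_iff_eq_mul.1 h2
    rw [hl']
    exact (Commute.zpow_right (show Commute (g * h * g⁻¹ * h⁻¹) (f : H ⧸ Y) from h5) l).eq.symm
  have hXbn : Xb.Normal := by
    refine ⟨fun x hx g => ?_⟩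
    have h1 : g * x * g⁻¹ = (g * x * g⁻¹ * x⁻¹) * x := by group
    rw [h1]
    exact mul_mem (hFX (hcomm g x)) hx
  have hXY : X ⊔ Y = Xb.comap π := by
    rw [hXb, Subgroup.comap_map_eq, hker]
  have hXYn : (X ⊔ Y).Normal := by
    rw [hXY]; infer_instance
  refine ⟨hXYn, fun hN => ?_⟩
  have hW : IsPGroup 2 (H ⧸ (X ⊔ Y)) := by
    have h1 : (X ⊔ Y).index ∣ X.index := Subgroup.index_dvd_of_le le_sup_left
    obtain ⟨k, hk⟩ := hXidx
    rw [hk] at h1
    obtain ⟨j, -, hj⟩ := (Nat.dvd_prime_pow Nat.prime_two).1 h1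
    exact IsPGroup.of_card (n := j) hj
  refine ⟨?_, hW⟩
  -- a prime `p` with nontrivial `p`-core of the quotient
  by_cases hFb : F = ⊥
  · have h1 : (⊤ : Subgroup (H ⧸ Y)) ≤ ⊥ := by
      have h2 := H1.Solv.centralizer_fitting_le hsolQ
      rw [← hF, hFb] at h2
      intro g _
      apply h2
      rw [Subgroup.mem_centralizer_iff]
      intro y hy
      rw [Subgroup.coe_bot, Set.mem_singleton_iff] at hy
      rw [hy, one_mul, mul_one]
    have h2 : Y = ⊤ := by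
      rw [eq_top_iff]
      intro h _
      have h3 : π h ∈ (⊥ : Subgroup (H ⧸ Y)) := h1 (mem_top _)
      rw [Subgroup.mem_bot] at h3
      exact (QuotientGroup.eq_one_iff h).1 h3
    have h3 : X ⊔ Y = ⊤ := by rw [h2]; exact sup_top_eq X
    have h4 : Subsingleton (H ⧸ (X ⊔ Y)) := by
      refine ⟨fun a b => ?_⟩
      obtain ⟨a, rfl⟩ := QuotientGroup.mk'_surjective (X ⊔ Y) a
      obtain ⟨b, rfl⟩ := QuotientGroup.mk'_surjective (X ⊔ Y) b
      apply (QuotientGroup.eq).2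
      rw [h3]; trivial
    infer_instance
  · obtain ⟨p, hpp, hpc⟩ : ∃ p : ℕ, p.Prime ∧ pCore p (H ⧸ Y) ≠ ⊥ := by
      by_contra hcon
      push Not at hcon
      apply hFb
      rw [hF, H1.Cores.fittingSubgroup_eq_iSup_pCore, eq_bot_iff]
      refine iSup_le fun q => ?_
      rw [hcon q q.2]
    have hpf : Fact p.Prime := ⟨hpp⟩
    have hp2 : p ≠ 2 := by
      rintro rfl
      exact hpc hcore
    set K := (pCore p (H ⧸ Y)).comap π with hK
    have hKn : K.Normal := inferInstance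
    obtain ⟨Q⟩ : Nonempty (Sylow p K) := inferInstance
    set Q' := (Q : Subgroup K).map K.subtype with hQ'
    have hQ'p : IsPGroup p Q' := Q.isPGroup'.map _
    -- `Q` maps onto the `p`-core
    have hQmap : Q'.map π = pCore p (H ⧸ Y) := by
      let φ : K →* ↥(pCore p (H ⧸ Y)) := (π.comp K.subtype).codRestrict _ (fun x => x.2)
      have hφ : Function.Surjective φ := by
        rintro ⟨z, hz⟩
        obtain ⟨h, rfl⟩ := hπ z
        exact ⟨⟨h, hz⟩, rfl⟩
      have h1 : ((Q.mapSurjective hφ : Sylow p ↥(pCore p (H ⧸ Y))) : Subgroup ↥(pCore p (H ⧸ Y))) = ⊤ := by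
        have h2 : IsPGroup p (⊤ : Subgroup ↥(pCore p (H ⧸ Y))) := (H1.Cores.isPGroup_pCore (G := H ⧸ Y) p).of_equiv Subgroup.topEquiv.symm
        exact ((Q.mapSurjective hφ).is_maximal' h2 le_top).symm
      apply le_antisymm
      · rintro _ ⟨_, ⟨⟨q, hqK⟩, hq, rfl⟩, rfl⟩
        exact hqK
      · intro z hz
        have h2 : (⟨z, hz⟩ : ↥(pCore p (H ⧸ Y))) ∈ ((Q.mapSurjective hφ : Sylow p ↥(pCore p (H ⧸ Y))) : Subgroup ↥(pCore p (H ⧸ Y))) := by
          rw [h1]; trivial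
        obtain ⟨q, hq, hqz⟩ := h2
        exact ⟨q, ⟨q, hq, rfl⟩, congrArg Subtype.val hqz⟩
    have hQ'1 : Q' ≠ ⊥ := by
      intro h
      rw [h, Subgroup.map_bot] at hQmap
      exact hpc hQmap.symm
    have hfr := Sylow.normalizer_sup_eq_top Q
    set N := normalizer ((Q' : Subgroup H) : Set H) with hNdef
    obtain ⟨T⟩ : Nonempty (Sylow 2 N) := inferInstance
    have hT := isCyclic_of_normalizes hsol hO hI hp2 hQ'p hQ'1 T
    -- `N` maps onto the quotient
    let ρ : N →* H ⧸ (X ⊔ Y) := (QuotientGroup.mk' (X ⊔ Y)).comp N.subtype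
    have hρ : Function.Surjective ρ := by
      intro w
      obtain ⟨h, rfl⟩ := QuotientGroup.mk'_surjective (X ⊔ Y) w
      have h1 : h ∈ N ⊔ K := by
        have : h ∈ (⊤ : Subgroup H) := mem_top h
        rw [← hfr] at this
        exact this
      rw [← SetLike.mem_coe, Subgroup.mul_normal] at h1
      obtain ⟨n, hn, k, hk, rfl⟩ := h1
      -- `k = q * y`
      have h2 : π k ∈ Q'.map π := by rw [hQmap]; exact hk
      obtain ⟨q, hq, hqk⟩ := h2
      have h3 : q⁻¹ * k ∈ Y := by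
        rw [← hker, MonoidHom.mem_ker, map_mul, map_inv, hqk, inv_mul_cancel]
      refine ⟨⟨n * q, mul_mem hn (Subgroup.le_normalizer hq)⟩, ?_⟩
      show QuotientGroup.mk' (X ⊔ Y) (n * q) = QuotientGroup.mk' (X ⊔ Y) (n * k)
      apply (QuotientGroup.eq).2
      have h4 : (n * q)⁻¹ * (n * k) = q⁻¹ * k := by group
      rw [h4]
      exact Subgroup.mem_sup_right h3
    have h1 : ((T.mapSurjective hρ : Sylow 2 (H ⧸ (X ⊔ Y))) : Subgroup (H ⧸ (X ⊔ Y))) = ⊤ := by
      have h2 : IsPGroup 2 (⊤ : Subgroup (H ⧸ (X ⊔ Y))) := hW.of_equiv Subgroup.topEquiv.symm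
      exact ((T.mapSurjective hρ).is_maximal' h2 le_top).symm
    have h2 : Function.Surjective (ρ.comp (T : Subgroup N).subtype) := by
      intro w
      have h3 : w ∈ ((T.mapSurjective hρ : Sylow 2 (H ⧸ (X ⊔ Y))) : Subgroup (H ⧸ (X ⊔ Y))) := by
        rw [h1]; trivial
      obtain ⟨t, ht, rfl⟩ := h3
      exact ⟨⟨t, ht⟩, rfl⟩
    exact isCyclic_of_surjective _ h2

end main

end H58.TwoNilInv
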