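import Mathlib
import Cfsg.Agent.Lib.H58.WCc

/-!
# `T` is strongly closed, all its involutions are in `D`, and it is central in `S`
-/

set_option autoImplicit false
set_option linter.style.haveILetI false
set_option linter.unusedSectionVars false

open Subgroup
open scoped commutatorElement

namespace H58.WC

variable {G : Type*} [Group G] {D : Set G} {t : G} {S : Sylow 2 G} {j : A5 →* G}

namespace Cf

variable (c : Cf D t S j)
include c

theorem v3ne : j s1 * j s2 ≠ 1 := fun h => s12_ne (c.L.inj (by rw [map_mul, h, map_one]))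

theorem tnV {x : G} (hx : x ∈ A D t) : t ≠ x := fun h => c.L.dA (h ▸ hx)

theorem not_both {x y : G} (hx : x ∈ A D t) (hy : y ∈ A D t) : t * x ≠ y := fun h => c.L.dA (by
  have h1 : t = y * x⁻¹ := by rw [← h]; group
  have h2 : y * x⁻¹ ∈ A D t := mul_mem hy (inv_mem hx)
  rwa [← h1] at h2)

variable [Finite G]

theorem orbit_odd (h : j s1 ∈ D ∨ t * j s1 ∈ D) : Odd ({x | x ∈ D ∧ x ∈ T D t S} : Set G).ncard := by
  have h1 := relIndex_orbit (normalizer ((T D t S : Subgroup G) : Set G)) t {x | x ∈ D ∧ x ∈ T D t S} (by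
    intro y
    constructor
    · rintro ⟨hy1, hy2⟩
      obtain ⟨n, hn, hn1, hn2⟩ := c.fuse h hy1 hy2
      refine ⟨n, ?_, hn⟩
      rw [mem_normalizer_iff]
      intro x
      constructor
      · exact hn1 x
      · intro hx
        have := hn2 _ hx
        simpa [mul_assoc] using this
    · rintro ⟨n, hn, rfl⟩
      exact ⟨c.h.conj t c.ht n, (mem_normalizer_iff.1 hn t).1 c.tT⟩)
  rw [← h1]
  have hSM : (S : Subgroup G) ≤ normalizer ((T D t S : Subgroup G) : Set G) := by
    intro s hs
    rw [mem_normalizer_iff]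
    intro x
    constructor
    · exact c.S_norm hs
    · intro hx
      have := c.S_norm ((S : Subgroup G).inv_mem hs) hx
      simpa [mul_assoc] using this
  have hSC : (S : Subgroup G) ≤ centralizer {t} := fun y hy => mem_centralizer_singleton_iff.2 (c.cS y hy)
  have h2 : (centralizer ({t} : Set G)).relIndex (normalizer ((T D t S : Subgroup G) : Set G)) ∣
      (S : Subgroup G).relIndex (normalizer ((T D t S : Subgroup G) : Set G)) := relIndex_dvd_of_le_left _ hSC
  rw [← Nat.not_even_iff_odd, even_iff_two_dvd]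
  exact fun h3 => c.S_relIndex hSM (h3.trans h2)

theorem allV : j s1 ∈ D ∧ t * j s1 ∈ D := by
  classical
  have hor := c.exists_other
  have hodd := c.orbit_odd hor
  by_contra hcon
  rcases hor with h | h
  · have h' : t * j s1 ∉ D := fun h1 => hcon ⟨h, h1⟩
    have e : {x | x ∈ D ∧ x ∈ T D t S} = (({t, j s1, j s2, j s1 * j s2} : Finset G) : Set G) := by
      ext x
      simp only [Set.mem_ofPred_eq, Finset.coe_insert, Finset.coe_singleton, Set.mem_insert_iff, Set.mem_singleton_iff]
      constructor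
      · rintro ⟨hx1, hx2⟩
        rcases c.T_half hx2 with ⟨h2, h3⟩ | ⟨h2, h3⟩
        · rcases c.memV h2 h3 with h4 | h4 | h4 | h4
          · exact absurd h4 (c.h.ne1 x hx1)
          · exact Or.inr (Or.inl h4)
          · exact Or.inr (Or.inr (Or.inl h4))
          · exact Or.inr (Or.inr (Or.inr h4))
        · by_cases h5 : t * x = 1
          · left
            calc x = t⁻¹ * (t * x) := by group
              _ = t := by rw [h5, mul_one, c.h.inv c.ht]
          · exfalso
            apply h'
            refine c.tV_of h2 h3 h5 ?_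
            rw [← mul_assoc, c.tt, one_mul]
            exact hx1
      · rintro (h2 | h2 | h2 | h2) <;> rw [h2]
        · exact ⟨c.ht, c.tT⟩
        · exact ⟨h, c.v1T⟩
        · exact ⟨(c.Vall h).1, c.v2T⟩
        · exact ⟨(c.Vall h).2, mul_mem c.v1T c.v2T⟩
    rw [e, Set.ncard_coe_finset, Finset.card_insert_of_notMem, Finset.card_insert_of_notMem, Finset.card_insert_of_notMem,
      Finset.card_singleton] at hodd
    · revert hodd; decide
    · rw [Finset.mem_singleton]
      intro h2
      exact c.v1ne (mul_right_cancel (b := j s2) (by rw [one_mul]; exact h2.symm))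
    · simp only [Finset.mem_insert, Finset.mem_singleton, not_or]
      exact ⟨c.v12ne, fun h2 => c.v2ne (mul_left_cancel (a := j s1) (by rw [mul_one]; exact h2.symm))⟩
    · simp only [Finset.mem_insert, Finset.mem_singleton, not_or]
      exact ⟨c.tnV c.v1A, c.tnV c.v2A, c.tnV (mul_mem c.v1A c.v2A)⟩
  · have h' : j s1 ∉ D := fun h1 => hcon ⟨h1, h⟩
    have e : {x | x ∈ D ∧ x ∈ T D t S} = (({t, t * j s1, t * j s2, t * (j s1 * j s2)} : Finset G) : Set G) := by
      ext x
      simp only [Set.mem_ofPred_eq, Finset.coe_insert, Finset.coe_singleton, Set.mem_insert_iff, Set.mem_singleton_iff]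
      constructor
      · rintro ⟨hx1, hx2⟩
        rcases c.T_half hx2 with ⟨h2, h3⟩ | ⟨h2, h3⟩
        · exfalso
          exact h' (c.V_of h2 h3 (c.h.ne1 x hx1) hx1)
        · have e : x = t * (t * x) := by rw [← mul_assoc, c.tt, one_mul]
          rcases c.memV h2 h3 with h4 | h4 | h4 | h4
          · left
            rw [e, h4, mul_one]
          · right; left; rw [← h4]; exact e
          · right; right; left; rw [← h4]; exact e
          · right; right; right; rw [← h4]; exact e
      · rintro (h2 | h2 | h2 | h2) <;> rw [h2]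
        · exact ⟨c.ht, c.tT⟩
        · exact ⟨h, mul_mem c.tT c.v1T⟩
        · exact ⟨(c.tVall h).1, mul_mem c.tT c.v2T⟩
        · exact ⟨(c.tVall h).2, mul_mem c.tT (mul_mem c.v1T c.v2T)⟩
    rw [e, Set.ncard_coe_finset, Finset.card_insert_of_notMem, Finset.card_insert_of_notMem, Finset.card_insert_of_notMem,
      Finset.card_singleton] at hodd
    · revert hodd; decide
    · rw [Finset.mem_singleton]
      intro h2
      have h3 := mul_left_cancel h2
      exact c.v1ne (mul_right_cancel (b := j s2) (by rw [one_mul]; exact h3.symm))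
    · simp only [Finset.mem_insert, Finset.mem_singleton, not_or]
      exact ⟨fun h2 => c.v12ne (mul_left_cancel h2), fun h2 => c.v2ne (mul_left_cancel (a := j s1) (by
        rw [mul_one]; exact (mul_left_cancel h2).symm))⟩
    · simp only [Finset.mem_insert, Finset.mem_singleton, not_or]
      refine ⟨fun h2 => c.v1ne (mul_left_cancel (a := t) (by rw [mul_one]; exact h2.symm)),
        fun h2 => c.v2ne (mul_left_cancel (a := t) (by rw [mul_one]; exact h2.symm)),
        fun h2 => c.v3ne (mul_left_cancel (a := t) (by rw [mul_one]; exact h2.symm))⟩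

/-- all involutions of `T` are in `D` -/
theorem T_D {x : G} (hx : x ∈ T D t S) (hx1 : x ≠ 1) : x ∈ D := by
  obtain ⟨h1, h2⟩ := c.allV
  rcases c.T_half hx with ⟨h3, h4⟩ | ⟨h3, h4⟩
  · rcases c.memV h3 h4 with h | h | h | h
    · exact absurd h hx1
    · rw [h]; exact h1
    · rw [h]; exact (c.Vall h1).1
    · rw [h]; exact (c.Vall h1).2
  · have e : x = t * (t * x) := by rw [← mul_assoc, c.tt, one_mul]
    rcases c.memV h3 h4 with h | h | h | h
    · rw [e, h, mul_one]; exact c.ht
    · rw [e, h]; exact h2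
    · rw [e, h]; exact (c.tVall h2).1
    · rw [e, h]; exact (c.tVall h2).2

theorem T_W {e : G} (he : e ∈ T D t S) : T D t S ≤ W D e := by
  intro x hx
  have h1 := c.T_closure c.exists_other hx
  refine closure_mono ?_ h1
  rintro y ⟨hy1, hy2⟩
  exact ⟨hy1, c.T_comm (c.DS_T hy1 hy2) he⟩

theorem v_fix {s : G} (hs : s ∈ S) : ∃ v, v ∈ A D t ∧ v ∈ S ∧ v ≠ 1 ∧ s * v = v * s := by
  classical
  haveI : Fact (Nat.Prime 2) := ⟨Nat.prime_two⟩
  obtain ⟨k, hk⟩ := (IsPGroup.iff_orderOf.1 S.isPGroup') ⟨s, hs⟩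
  have hk' : s ^ (2 ^ k) = 1 := by
    rw [← hk, Subgroup.orderOf_mk]
    exact pow_orderOf_eq_one s
  have h1 := fix_mod 2 k s {x | x ∈ A D t ∧ x ∈ S ∧ x ≠ 1} (Set.toFinite _) (by
    rintro x ⟨hx1, hx2, hx3⟩
    refine ⟨c.h.A_cent (c.cS s hs) hx1, (S : Subgroup G).mul_mem ((S : Subgroup G).mul_mem hs hx2) ((S : Subgroup G).inv_mem hs), ?_⟩
    intro h
    apply hx3
    have : s * x * s⁻¹ = s * 1 * s⁻¹ := by rw [h]; group
    exact mul_left_cancel (mul_right_cancel this)) (by
    intro x _
    rw [hk', one_mul, mul_one])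
  have e : {x | x ∈ A D t ∧ x ∈ S ∧ x ≠ 1} = (({j s1, j s2, j s1 * j s2} : Finset G) : Set G) := by
    ext x
    simp only [Set.mem_ofPred_eq, Finset.coe_insert, Finset.coe_singleton, Set.mem_insert_iff, Set.mem_singleton_iff]
    constructor
    · rintro ⟨h2, h3, h4⟩
      rcases c.memV h2 h3 with h | h | h | h
      · exact absurd h h4
      · exact Or.inl h
      · exact Or.inr (Or.inl h)
      · exact Or.inr (Or.inr h)
    · rintro (h | h | h) <;> rw [h]
      · exact ⟨c.v1A, c.v1S, c.v1ne⟩
      · exact ⟨c.v2A, c.v2S, c.v2ne⟩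
      · exact ⟨mul_mem c.v1A c.v2A, (S : Subgroup G).mul_mem c.v1S c.v2S, c.v3ne⟩
  have h3 : ({x | x ∈ A D t ∧ x ∈ S ∧ x ≠ 1} : Set G).ncard = 3 := by
    rw [e, Set.ncard_coe_finset, Finset.card_insert_of_notMem, Finset.card_insert_of_notMem, Finset.card_singleton]
    · rw [Finset.mem_singleton]
      intro h2
      exact c.v1ne (mul_right_cancel (b := j s2) (by rw [one_mul]; exact h2.symm))
    · simp only [Finset.mem_insert, Finset.mem_singleton, not_or]
      exact ⟨c.v12ne, fun h2 => c.v2ne (mul_left_cancel (a := j s1) (by rw [mul_one]; exact h2.symm))⟩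
  rw [h3] at h1
  by_contra hcon
  push Not at hcon
  have h4 : {x | x ∈ ({x | x ∈ A D t ∧ x ∈ S ∧ x ≠ 1} : Set G) ∧ s * x = x * s} = ∅ := by
    ext x
    simp only [Set.mem_ofPred_eq, Set.mem_empty_iff_false, iff_false, not_and]
    rintro ⟨a1, a2, a3⟩
    exact hcon x a1 a2 a3
  rw [h4, Set.ncard_empty] at h1
  revert h1
  decide

/-- `T` is central in `S` -/
theorem S_T {s x : G} (hs : s ∈ S) (hx : x ∈ T D t S) : s * x = x * s := by
  obtain ⟨v, hvA, hvS, hv1, hsv⟩ := c.v_fix hs
  have hvT : v ∈ T D t S := ⟨hvS, Hy.AW hvA⟩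
  have hvD := c.T_D hvT hv1
  obtain ⟨j', L'⟩ := c.h.exists_loc hvD
  have hst := c.cS s hs
  -- commutators with `s` of elements of `V`
  have hV : ∀ a, a ∈ A D t → a ∈ S → s * a * s⁻¹ = a ∨ s * a * s⁻¹ = a * v := by
    intro a ha haS
    by_cases ha1 : a = 1
    · left; rw [ha1]; group
    by_cases hav : a = v
    · left; rw [hav, hsv]; group
    have hb := c.h.A_cent hst ha
    have hbS : s * a * s⁻¹ ∈ S := (S : Subgroup G).mul_mem ((S : Subgroup G).mul_mem hs haS) ((S : Subgroup G).inv_mem hs)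
    rcases c.fourG hvA hvS ha haS hb hbS hv1 ha1 hav with h | h | h | h
    · exfalso
      apply ha1
      have : s * a * s⁻¹ = s * 1 * s⁻¹ := by rw [h]; group
      exact mul_left_cancel (mul_right_cancel this)
    · exfalso
      apply hav
      have : s * a * s⁻¹ = s * v * s⁻¹ := by rw [h, hsv]; group
      exact mul_left_cancel (mul_right_cancel this)
    · exact Or.inl h
    · exact Or.inr h
  have hT : ∀ x, x ∈ T D t S → s * x * s⁻¹ = x ∨ s * x * s⁻¹ = x * v := by
    intro x hx
    rcases c.T_half hx with ⟨h1, h2⟩ | ⟨h1, h2⟩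
    · exact hV x h1 h2
    · have e : ∀ y, s * (t * y) * s⁻¹ = t * (s * y * s⁻¹) := by
        intro y
        calc s * (t * y) * s⁻¹ = (s * t) * y * s⁻¹ := by group
          _ = (t * s) * y * s⁻¹ := by rw [hst]
          _ = _ := by group
      rcases hV _ h1 h2 with h | h
      · left
        rw [e] at h
        exact mul_left_cancel h
      · right
        rw [e, mul_assoc t x v] at h
        exact mul_left_cancel h
  -- elements of `A_v ∩ T` commute with `s`
  have hAv : ∀ u, u ∈ T D t S → u ∈ A D v → s * u = u * s := by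
    intro u hu huA
    rcases hT u hu with h | h
    · exact mul_inv_eq_iff_eq_mul.1 h
    · exfalso
      apply L'.dA
      have h2 := c.h.A_cent hsv huA
      have h3 : v = u⁻¹ * (s * u * s⁻¹) := by rw [h]; group
      have h4 : u⁻¹ * (s * u * s⁻¹) ∈ A D v := mul_mem (inv_mem huA) h2
      rwa [← h3] at h4
  rcases L'.half x (c.T_W hvT hx) with h | h
  · exact hAv x hx h
  · have h1 := hAv (v * x) (mul_mem hvT hx) h
    have : v * (s * x) = v * (x * s) := by
      calc v * (s * x) = (v * s) * x := by group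
        _ = (s * v) * x := by rw [hsv]
        _ = s * (v * x) := by group
        _ = v * x * s := h1
        _ = _ := by group
    exact mul_left_cancel this

/-- a 2-group containing `d ∈ D` centralises it -/
theorem two_cent {P : Subgroup G} (hP : IsPGroup 2 P) {d : G} (hd : d ∈ D) (hdP : d ∈ P) {x : G} (hx : x ∈ P) : x * d = d * x := by
  haveI : Fact (Nat.Prime 2) := ⟨Nat.prime_two⟩
  obtain ⟨Q, hQ⟩ := hP.exists_le_sylow
  obtain ⟨g, hg⟩ := MulAction.exists_smul_eq G Q S
  have hmem : ∀ y, y ∈ Q → g * y * g⁻¹ ∈ S := by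
    intro y hy
    rw [← hg]
    change g * y * g⁻¹ ∈ ((g • Q : Sylow 2 G) : Subgroup G)
    rw [Sylow.coe_subgroup_smul, Subgroup.mem_pointwise_smul_iff_inv_smul_mem]
    simpa [mul_assoc] using (show y ∈ (Q : Subgroup G) from hy)
  have h1 := hmem d (hQ hdP)
  have h2 := hmem x (hQ hx)
  have h3 := c.DS_T (c.h.conj d hd g) h1
  have h4 := c.S_T h2 h3
  have h5 : g * (x * d) * g⁻¹ = g * (d * x) * g⁻¹ := by
    calc g * (x * d) * g⁻¹ = (g * x * g⁻¹) * (g * d * g⁻¹) := by group
      _ = (g * d * g⁻¹) * (g * x * g⁻¹) := h4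
      _ = _ := by group
  exact mul_left_cancel (mul_right_cancel h5)

/-- a 2-element normalising `T` centralises `T` -/
theorem two_norm {s : G} {k : ℕ} (hs : s ^ (2 ^ k) = 1) (hn : ∀ x ∈ T D t S, s * x * s⁻¹ ∈ T D t S) {x : G} (hx : x ∈ T D t S) :
    s * x = x * s := by
  haveI : Fact (Nat.Prime 2) := ⟨Nat.prime_two⟩
  by_cases hx1 : x = 1
  · rw [hx1, one_mul, mul_one]
  have h1 : IsPGroup 2 (zpowers s) := by
    obtain ⟨m, _, hm⟩ := (Nat.dvd_prime_pow Nat.prime_two).1 (orderOf_dvd_of_pow_eq_one hs)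
    exact IsPGroup.of_card (n := m) (by rw [Nat.card_zpowers, hm])
  have h2 : IsPGroup 2 (T D t S) := S.isPGroup'.to_le inf_le_left
  have hmap : (T D t S).map (MulAut.conj s).toMonoidHom = T D t S := by
    apply Subgroup.eq_of_le_of_card_ge
    · rintro _ ⟨x, hx, rfl⟩
      exact hn x hx
    · rw [H58.Rel.card_map_conj]
  have h3 : zpowers s ≤ normalizer ((T D t S : Subgroup G) : Set G) := by
    rw [zpowers_le, H58.Rel.mem_normalizer_iff_conj]
    exact hmap
  have h4 : IsPGroup 2 (zpowers s ⊔ T D t S : Subgroup G) := h1.to_sup_of_normal_right' h2 h3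
  exact c.two_cent h4 (c.T_D hx hx1) (le_sup_right (a := zpowers s) hx) (le_sup_left (b := T D t S) (mem_zpowers s))

end Cf

end H58.WC
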