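import Mathlib
import Cfsg.Agent.Lib.H58.WCd

/-!
# The centraliser of `t`: `C(t) = A C(T)` and `C(T)` acts on `A` as `T ∩ A`
-/

set_option autoImplicit false
set_option linter.style.haveILetI false
set_option linter.unusedSectionVars false

open Subgroup
open scoped commutatorElement

namespace H58.WC

variable {G : Type*} [Group G] {D : Set G} {t : G} {S : Sylow 2 G} {j : A5 →* G}

namespace Cf

variable (c : Cf D t S j)
include c

theorem f_V {x : G} (hx : x ∈ A D t) (hxS : x ∈ S) : j f0 * x * (j f0)⁻¹ ∈ S := by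
  rcases c.memV hx hxS with h | h | h | h
  · rw [h]
    have : j f0 * 1 * (j f0)⁻¹ = 1 := by group
    rw [this]
    exact (S : Subgroup G).one_mem
  · rw [h, c.f1']; exact c.v2S
  · rw [h, c.f2']; exact (S : Subgroup G).mul_mem c.v1S c.v2S
  · rw [h, c.f3']; exact c.v1S

theorem f_T {x : G} (hx : x ∈ T D t S) : j f0 * x * (j f0)⁻¹ ∈ T D t S := by
  refine ⟨?_, c.h.W_cent (c.at_comm c.fA) hx.2⟩
  rcases c.T_half hx with ⟨h1, h2⟩ | ⟨h1, h2⟩
  · exact c.f_V h1 h2
  · have h3 := c.f_V h1 h2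
    rw [c.ft] at h3
    have h4 := (S : Subgroup G).mul_mem c.tS h3
    rwa [← mul_assoc, c.tt, one_mul] at h4

theorem f_fix_V {x : G} (hx : x ∈ A D t) (hxS : x ∈ S) (hf : j f0 * x = x * j f0) : x = 1 := by
  have hf' : j f0 * x * (j f0)⁻¹ = x := mul_inv_eq_iff_eq_mul.2 hf
  rcases c.memV hx hxS with h | h | h | h
  · exact h
  · rw [h, c.f1'] at hf'; exact absurd hf'.symm c.v12ne
  · rw [h, c.f2'] at hf'
    exact absurd (mul_right_cancel (b := j s2) (by rw [one_mul]; exact hf')) c.v1ne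
  · rw [h, c.f3'] at hf'
    exact absurd (mul_left_cancel (a := j s1) (by rw [mul_one]; exact hf'.symm)) c.v2ne

theorem f_fix {x : G} (hx : x ∈ T D t S) (hf : j f0 * x = x * j f0) : x = 1 ∨ x = t := by
  rcases c.T_half hx with ⟨h1, h2⟩ | ⟨h1, h2⟩
  · exact Or.inl (c.f_fix_V h1 h2 hf)
  · right
    have ht := c.at_comm c.fA
    have h3 := c.f_fix_V h1 h2 (by
      calc j f0 * (t * x) = (j f0 * t) * x := by group
        _ = (t * j f0) * x := by rw [ht]
        _ = t * (j f0 * x) := by group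
        _ = t * (x * j f0) := by rw [hf]
        _ = _ := by group)
    calc x = t⁻¹ * (t * x) := by group
      _ = t := by rw [h3, mul_one, c.h.inv c.ht]

variable [Finite G]

theorem S_rel_A : ¬ 2 ∣ (S : Subgroup G).relIndex (A D t) := by
  have hAC : A D t ≤ centralizer {t} := fun x hx => mem_centralizer_singleton_iff.2 (c.at_comm hx)
  have hSC : (S : Subgroup G) ≤ centralizer {t} := fun x hx => mem_centralizer_singleton_iff.2 (c.cS x hx)
  have hn : ((A D t).subgroupOf (centralizer {t})).Normal := ⟨fun n hn g => by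
    rw [mem_subgroupOf] at hn ⊢
    exact c.h.A_cent (mem_centralizer_singleton_iff.1 g.2) hn⟩
  have h1 := relIndex_dvd_index ((S : Subgroup G).subgroupOf (centralizer {t})) ((A D t).subgroupOf (centralizer {t}))
  rw [relIndex_subgroupOf hAC] at h1
  have h2 : ((S : Subgroup G).subgroupOf (centralizer {t})).index ∣ (S : Subgroup G).index := Subgroup.relIndex_dvd_index_of_le hSC
  exact fun h4 => S.not_dvd_index ((h4.trans h1).trans h2)

/-- an element of `C(t)` normalising `T` and centralising an involution of `T ∩ A` centralises `T` -/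
theorem norm_cases {n : G} (hnt : n * t = t * n) (hnV : ∀ x, x ∈ A D t → x ∈ S → n * x * n⁻¹ ∈ S) {v : G} (hvA : v ∈ A D t)
    (hvS : v ∈ S) (hv1 : v ≠ 1) (hnv : n * v = v * n) {x : G} (hx : x ∈ T D t S) : n * x = x * n := by
  -- n normalises T
  have hnT : ∀ y ∈ T D t S, n * y * n⁻¹ ∈ T D t S := by
    intro y hy
    refine ⟨?_, c.h.W_cent hnt hy.2⟩
    rcases c.T_half hy with ⟨h1, h2⟩ | ⟨h1, h2⟩
    · exact hnV y h1 h2
    · have h3 := hnV _ h1 h2
      have e : n * (t * y) * n⁻¹ = t * (n * y * n⁻¹) := by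
        calc n * (t * y) * n⁻¹ = (n * t) * y * n⁻¹ := by group
          _ = (t * n) * y * n⁻¹ := by rw [hnt]
          _ = _ := by group
      rw [e] at h3
      have h4 := (S : Subgroup G).mul_mem c.tS h3
      rwa [← mul_assoc, c.tt, one_mul] at h4
  -- odd part
  obtain ⟨k, m, hm, hkm⟩ := Nat.exists_eq_two_pow_mul_odd (n := orderOf n) (orderOf_pos n).ne'
  have hs : (n ^ m) ^ (2 ^ k) = 1 := by
    rw [← pow_mul, mul_comm, ← hkm, pow_orderOf_eq_one]
  have hsn : ∀ y ∈ T D t S, n ^ m * y * (n ^ m)⁻¹ ∈ T D t S := by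
    have : ∀ i : ℕ, ∀ y ∈ T D t S, n ^ i * y * (n ^ i)⁻¹ ∈ T D t S := by
      intro i
      induction i with
      | zero => intro y hy; simpa using hy
      | succ i ih =>
        intro y hy
        have := hnT _ (ih y hy)
        have e : n ^ (i + 1) * y * (n ^ (i + 1))⁻¹ = n * (n ^ i * y * (n ^ i)⁻¹) * n⁻¹ := by
          rw [pow_succ']; group
        rw [e]; exact this
    exact this m
  have hV : ∀ a, a ∈ A D t → a ∈ S → n * a = a * n := by
    intro a ha haS
    by_cases ha1 : a = 1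
    · rw [ha1, one_mul, mul_one]
    by_cases hav : a = v
    · rw [hav]; exact hnv
    rcases c.fourG hvA hvS ha haS (c.h.A_cent hnt ha) (hnV a ha haS) hv1 ha1 hav with h | h | h | h
    · exfalso
      apply ha1
      have : n * a * n⁻¹ = n * 1 * n⁻¹ := by rw [h]; group
      exact mul_left_cancel (mul_right_cancel this)
    · exfalso
      apply hav
      have : n * a * n⁻¹ = n * v * n⁻¹ := by rw [h, hnv]; group
      exact mul_left_cancel (mul_right_cancel this)
    · exact mul_inv_eq_iff_eq_mul.1 h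
    · exfalso
      have hna : n * a = a * v * n := mul_inv_eq_iff_eq_mul.1 h
      have h2 := c.two_norm hs hsn (x := a) ⟨haS, Hy.AW ha⟩
      obtain ⟨q, hq⟩ := hm
      have hvv : v * v = 1 := c.V_sq hvA hvS
      have hn2 : n * n * a = a * (n * n) := by
        calc n * n * a = n * (n * a) := by group
          _ = n * (a * v * n) := by rw [hna]
          _ = (n * a) * v * n := by group
          _ = a * v * (n * v) * n := by rw [hna]; group
          _ = a * v * (v * n) * n := by rw [hnv]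
          _ = a * (v * v) * (n * n) := by group
          _ = _ := by rw [hvv, mul_one]
      have hn2q : (n * n) ^ q * a = a * (n * n) ^ q := ((show Commute (n * n) a from hn2).pow_left q)
      have hn2v : (n * n) ^ q * v = v * (n * n) ^ q := by
        have : Commute (n * n) v := (show Commute n v from hnv).mul_left hnv
        exact this.pow_left q
      have hnm : n ^ m = (n * n) ^ q * n := by rw [hq, pow_succ, pow_mul, pow_two]
      apply hv1
      have h3 : a * (v * n ^ m) = a * (1 * n ^ m) := by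
        calc a * (v * n ^ m) = a * (v * (n * n) ^ q) * n := by rw [hnm]; group
          _ = a * ((n * n) ^ q * v) * n := by rw [hn2v]
          _ = (a * (n * n) ^ q) * v * n := by group
          _ = ((n * n) ^ q * a) * v * n := by rw [hn2q]
          _ = (n * n) ^ q * (a * v * n) := by group
          _ = (n * n) ^ q * (n * a) := by rw [hna]
          _ = n ^ m * a := by rw [hnm]; group
          _ = a * n ^ m := h2
          _ = _ := by rw [one_mul]
      exact mul_right_cancel (mul_left_cancel h3)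
  rcases c.T_half hx with ⟨h1, h2⟩ | ⟨h1, h2⟩
  · exact hV x h1 h2
  · have h3 := hV _ h1 h2
    have : t * (n * x) = t * (x * n) := by
      calc t * (n * x) = (t * n) * x := by group
        _ = (n * t) * x := by rw [hnt]
        _ = n * (t * x) := by group
        _ = t * x * n := h3
        _ = _ := by group
    exact mul_left_cancel this

/-- `f`-power moving an involution of `T ∩ A` to `v₁` -/
theorem exists_fpow {y : G} (hy : y ∈ A D t) (hyS : y ∈ S) (hy1 : y ≠ 1) : ∃ i : ℕ, j f0 ^ i * y * (j f0 ^ i)⁻¹ = j s1 := by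
  rcases c.memV hy hyS with h | h | h | h
  · exact absurd h hy1
  · exact ⟨0, by rw [h]; group⟩
  · refine ⟨2, ?_⟩
    rw [h]
    calc j f0 ^ 2 * j s2 * (j f0 ^ 2)⁻¹ = j f0 * (j f0 * j s2 * (j f0)⁻¹) * (j f0)⁻¹ := by rw [pow_two]; group
      _ = j s1 := by rw [c.f2', c.f3']
  · refine ⟨1, ?_⟩
    rw [h, pow_one, c.f3']

theorem fpow_V (i : ℕ) {x : G} (hx : x ∈ A D t) (hxS : x ∈ S) : j f0 ^ i * x * (j f0 ^ i)⁻¹ ∈ A D t ∧ j f0 ^ i * x * (j f0 ^ i)⁻¹ ∈ S := by
  induction i with
  | zero => simpa using ⟨hx, hxS⟩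
  | succ i ih =>
    have e : j f0 ^ (i + 1) * x * (j f0 ^ (i + 1))⁻¹ = j f0 * (j f0 ^ i * x * (j f0 ^ i)⁻¹) * (j f0)⁻¹ := by
      rw [pow_succ']; group
    rw [e]
    exact ⟨c.h.A_cent (c.at_comm c.fA) ih.1, c.f_V ih.1 ih.2⟩

/-- an element of `C(t)` normalising `T ∩ A` is in `⟨f⟩ C(T)` -/
theorem norm_fpow {n : G} (hnt : n * t = t * n) (hnV : ∀ x, x ∈ A D t → x ∈ S → n * x * n⁻¹ ∈ S) :
    ∃ i : ℕ, ∀ x ∈ T D t S, (j f0 ^ i * n) * x = x * (j f0 ^ i * n) := by
  have h1 : n * j s1 * n⁻¹ ≠ 1 := by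
    intro h
    apply c.v1ne
    have : n * j s1 * n⁻¹ = n * 1 * n⁻¹ := by rw [h]; group
    exact mul_left_cancel (mul_right_cancel this)
  obtain ⟨i, hi⟩ := c.exists_fpow (c.h.A_cent hnt c.v1A) (hnV _ c.v1A c.v1S) h1
  refine ⟨i, fun x hx => ?_⟩
  have hft : j f0 ^ i * t = t * j f0 ^ i := ((show Commute (j f0) t from c.at_comm c.fA).pow_left i)
  refine c.norm_cases (v := j s1) ?_ ?_ c.v1A c.v1S c.v1ne ?_ hx
  · calc j f0 ^ i * n * t = j f0 ^ i * (n * t) := by group
      _ = j f0 ^ i * (t * n) := by rw [hnt]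
      _ = (j f0 ^ i * t) * n := by group
      _ = t * (j f0 ^ i * n) := by rw [hft]; group
  · intro y hy hyS
    have := (c.fpow_V i (c.h.A_cent hnt hy) (hnV y hy hyS)).2
    have e : j f0 ^ i * n * y * (j f0 ^ i * n)⁻¹ = j f0 ^ i * (n * y * n⁻¹) * (j f0 ^ i)⁻¹ := by group
    rw [e]; exact this
  · rw [← mul_inv_eq_iff_eq_mul]
    calc j f0 ^ i * n * j s1 * (j f0 ^ i * n)⁻¹ = j f0 ^ i * (n * j s1 * n⁻¹) * (j f0 ^ i)⁻¹ := by group
      _ = j s1 := hi

/-- `C(t) = A C(T)` -/
theorem exists_AK {x : G} (hx : x * t = t * x) : ∃ a ∈ A D t, ∀ y ∈ T D t S, (a * x) * y = y * (a * x) := by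
  haveI : Fact (Nat.Prime 2) := ⟨Nat.prime_two⟩
  let V : Subgroup G := (S : Subgroup G) ⊓ A D t
  have hV2 : IsPGroup 2 V := S.isPGroup'.to_le inf_le_left
  obtain ⟨a, ha, haS⟩ := H58.Rel.exists_conj_mem_sylowOf (H := A D t) (P := V.map (MulAut.conj x).toMonoidHom) (Q := S) (by
    rintro _ ⟨y, hy, rfl⟩
    exact c.h.A_cent hx hy.2) (hV2.map _) S.isPGroup' c.S_rel_A
  have hat := c.at_comm ha
  have hn : ∀ y, y ∈ A D t → y ∈ S → (a * x) * y * (a * x)⁻¹ ∈ S := by
    intro y hy hyS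
    have := haS (x * y * x⁻¹) ⟨y, ⟨hyS, hy⟩, rfl⟩
    have e : a * x * y * (a * x)⁻¹ = a * (x * y * x⁻¹) * a⁻¹ := by group
    rw [e]; exact this
  have hnt : (a * x) * t = t * (a * x) := by
    calc a * x * t = a * (x * t) := by group
      _ = (a * t) * x := by rw [hx]; group
      _ = t * (a * x) := by rw [hat]; group
  obtain ⟨i, hi⟩ := c.norm_fpow hnt hn
  refine ⟨j f0 ^ i * a, mul_mem (pow_mem c.fA i) ha, fun y hy => ?_⟩
  have := hi y hy
  have e : j f0 ^ i * a * x = j f0 ^ i * (a * x) := by group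
  rw [e]; exact this

/-- elements of `C(T)` act on `A` as elements of `T ∩ A` -/
theorem K_act {k : G} (hk : ∀ y ∈ T D t S, k * y = y * k) :
    ∃ v, v ∈ A D t ∧ v ∈ S ∧ ∀ a ∈ A D t, k * a * k⁻¹ = v * a * v⁻¹ := by
  have hkt := hk t c.tT
  let e : A5 ≃* j.range := MonoidHom.ofInjective c.L.inj
  have he : ∀ y, ((e y : j.range) : G) = j y := fun y => rfl
  have hr : ∀ y : A5, ((MulAut.conj k).toMonoidHom.comp j) y ∈ j.range := by
    intro y
    have h1 : k * j y * k⁻¹ ∈ A D t := c.h.A_cent hkt (c.L.mem y)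
    obtain ⟨z, hz⟩ := (c.L.rng _).1 h1
    exact ⟨z, hz⟩
  let β : A5 →* A5 := e.symm.toMonoidHom.comp (((MulAut.conj k).toMonoidHom.comp j).codRestrict j.range hr)
  have hβ : ∀ y, j (β y) = k * j y * k⁻¹ := by
    intro y
    have h1 : e (β y) = (((MulAut.conj k).toMonoidHom.comp j).codRestrict j.range hr) y := e.apply_symm_apply _
    rw [← he, h1]
    rfl
  have hβi : Function.Injective β := by
    intro a b hab
    have h1 : k * j a * k⁻¹ = k * j b * k⁻¹ := by rw [← hβ, ← hβ, hab]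
    exact c.L.inj (mul_left_cancel (mul_right_cancel h1))
  let α : A5 ≃* A5 := MulEquiv.ofBijective β ((Finite.injective_iff_bijective).1 hβi)
  have hα : ∀ y, α y = β y := fun y => rfl
  have a1 : α s1 = s1 := by
    apply c.L.inj
    rw [hα, hβ, hk _ c.v1T]; group
  have a2 : α s2 = s2 := by
    apply c.L.inj
    rw [hα, hβ, hk _ c.v2T]; group
  obtain ⟨v, hv, hvα⟩ := aut_V α a1 a2
  refine ⟨j v, c.L.mem v, (c.hV v).2 hv, fun a ha => ?_⟩
  obtain ⟨y, rfl⟩ := (c.L.rng a).1 ha
  rw [← hβ, ← hα, hvα, map_mul, map_mul, map_inv]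

/-- the same `T` from another involution of `T` -/
theorem move {e : G} (he : e ∈ T D t S) (he1 : e ≠ 1) : ∃ j' : A5 →* G, Cf D e S j' ∧ T D e S = T D t S := by
  have heD := c.T_D he he1
  have hcS : ∀ s ∈ S, s * e = e * s := fun s hs => c.S_T hs he
  obtain ⟨j', L', hV'⟩ := c.h.exists_coord heD S hcS
  have c' : Cf D e S j' := ⟨c.h, heD, he.1, hcS, L', hV'⟩
  refine ⟨j', c', ?_⟩
  have key : ∀ {u : G} {i : A5 →* G}, Cf D u S i → T D u S = closure {x | x ∈ D ∧ x ∈ S} := by
    intro u i cu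
    apply le_antisymm (cu.T_closure cu.exists_other)
    refine (closure_le _).2 ?_
    rintro x ⟨h1, h2⟩
    exact cu.DS_T h1 h2
  rw [key c', key c]

end Cf

end H58.WC
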