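import Mathlib
import Cfsg.Agent.Lib.H58.WCe

/-!
# The group `L` of elements of `N(T)` acting trivially on `C(T)/T`, and the complement `K₀`
-/

set_option autoImplicit false
set_option linter.style.haveILetI false
set_option linter.unusedSectionVars false

open Subgroup
open scoped commutatorElement

namespace H58.WC

variable {G : Type*} [Group G] {D : Set G} {t : G} {S : Sylow 2 G} {j : A5 →* G}

/-- elements normalising `U` and acting trivially on `C(U)/U` -/
def LL (U : Subgroup G) : Subgroup G where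
  carrier := {l | l ∈ normalizer (U : Set G) ∧ ∀ k ∈ centralizer (U : Set G), k * l * k⁻¹ * l⁻¹ ∈ U}
  one_mem' := ⟨one_mem _, fun k _ => by
    have : k * 1 * k⁻¹ * 1⁻¹ = 1 := by group
    rw [this]; exact one_mem _⟩
  mul_mem' := by
    rintro a b ⟨ha, ha'⟩ ⟨hb, hb'⟩
    refine ⟨mul_mem ha hb, fun k hk => ?_⟩
    have e : k * (a * b) * k⁻¹ * (a * b)⁻¹ = (k * a * k⁻¹ * a⁻¹) * (a * (k * b * k⁻¹ * b⁻¹) * a⁻¹) := by group
    rw [e]
    exact mul_mem (ha' k hk) ((mem_normalizer_iff.1 ha _).1 (hb' k hk))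
  inv_mem' := by
    rintro a ⟨ha, ha'⟩
    refine ⟨inv_mem ha, fun k hk => ?_⟩
    have e : k * a⁻¹ * k⁻¹ * a⁻¹⁻¹ = a⁻¹ * (k * a * k⁻¹ * a⁻¹)⁻¹ * a⁻¹⁻¹ := by group
    rw [e]
    exact (mem_normalizer_iff.1 (inv_mem ha) _).1 (inv_mem (ha' k hk))

theorem mem_LL {U : Subgroup G} {l : G} :
    l ∈ LL U ↔ l ∈ normalizer (U : Set G) ∧ ∀ k ∈ centralizer (U : Set G), k * l * k⁻¹ * l⁻¹ ∈ U := Iff.rfl

/-- in a group of order 21 an element of order 7 generates a normal subgroup -/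
theorem normal_of_21 {Q : Type*} [Group Q] [Finite Q] (hQ : Nat.card Q = 21) {q : Q} (hq : orderOf q = 7) (x : Q) :
    x * q * x⁻¹ ∈ zpowers q := by
  haveI : Fact (Nat.Prime 7) := ⟨by norm_num⟩
  have h1 : IsPGroup 7 (zpowers q) := IsPGroup.of_card (n := 1) (by rw [Nat.card_zpowers, hq]; norm_num)
  obtain ⟨P, hP⟩ := h1.exists_le_sylow
  have hPc : Nat.card P = 7 := by
    obtain ⟨k, hk⟩ := (IsPGroup.iff_card).1 P.isPGroup'
    have h2 : Nat.card P ∣ 21 := by rw [← hQ]; exact card_subgroup_dvd_card _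
    have h3 : 7 ∣ Nat.card P := by
      have := card_dvd_of_le hP
      rwa [Nat.card_zpowers, hq] at this
    rw [hk] at h2 h3 ⊢
    rcases k with _ | _ | k
    · norm_num at h3
    · norm_num
    · exfalso
      have h4 : 49 ∣ 21 := (Dvd.intro _ (by rw [pow_succ, pow_succ]; ring : 49 * 7 ^ k = 7 ^ (k + 1 + 1))).trans h2
      norm_num at h4
  have hPz : (P : Subgroup Q) = zpowers q := by
    symm
    apply Subgroup.eq_of_le_of_card_ge hP
    rw [hPc, Nat.card_zpowers, hq]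
  have hidx : (P : Subgroup Q).index = 3 := by
    have := (P : Subgroup Q).card_mul_index
    rw [hPc, hQ] at this
    omega
  have h5 := P.card_dvd_index
  rw [hidx] at h5
  have h6 := card_sylow_modEq_one 7 Q
  have h7 : Nat.card (Sylow 7 Q) = 1 := by
    rcases (Nat.dvd_prime Nat.prime_three).1 h5 with h | h
    · exact h
    · rw [h] at h6
      exfalso
      revert h6; decide
  have h8 : (normalizer ((P : Subgroup Q) : Set Q)).index = 1 := by
    have := Sylow.card_eq_index_normalizer P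
    rw [h7] at this
    exact this.symm
  rw [index_eq_one] at h8
  rw [← hPz]
  have hx : x ∈ normalizer ((P : Subgroup Q) : Set Q) := by rw [h8]; exact mem_top x
  exact (mem_normalizer_iff.1 hx q).1 (hP (mem_zpowers q))

namespace Cf

variable (c : Cf D t S j) [Finite G]
include c

theorem normT {n : G} (h : ∀ x ∈ T D t S, n * x * n⁻¹ ∈ T D t S) : n ∈ normalizer ((T D t S : Subgroup G) : Set G) := by
  rw [H58.Rel.mem_normalizer_iff_conj]
  apply Subgroup.eq_of_le_of_card_ge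
  · rintro _ ⟨x, hx, rfl⟩
    exact h x hx
  · rw [H58.Rel.card_map_conj]

theorem memK {k : G} : k ∈ centralizer ((T D t S : Subgroup G) : Set G) ↔ ∀ x ∈ T D t S, k * x = x * k := by
  rw [mem_centralizer_iff]
  exact ⟨fun h x hx => (h x hx).symm, fun h x hx => (h x hx).symm⟩

theorem f_LL : j f0 ∈ LL (T D t S) := by
  refine ⟨c.normT (fun x hx => c.f_T hx), fun k hk => ?_⟩
  obtain ⟨v, hvA, hvS, hv⟩ := c.K_act (c.memK.1 hk)
  rw [hv _ c.fA]
  have hvT : v ∈ T D t S := ⟨hvS, Hy.AW hvA⟩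
  have e : v * j f0 * v⁻¹ * (j f0)⁻¹ = v * (j f0 * v⁻¹ * (j f0)⁻¹) := by group
  rw [e]
  exact mul_mem hvT (c.f_T (inv_mem hvT))

/-- the three-elements -/
theorem exists_f {e : G} (he : e ∈ T D t S) (he1 : e ≠ 1) : ∃ f ∈ LL (T D t S), f * f * f = 1 ∧ f * e = e * f ∧
    ∀ x ∈ T D t S, f * x = x * f → x = 1 ∨ x = e := by
  obtain ⟨j', c', hT⟩ := c.move he he1
  refine ⟨j' f0, ?_, ?_, c'.at_comm c'.fA, ?_⟩
  · rw [← hT]; exact c'.f_LL
  · rw [← map_mul, ← map_mul, f0_cube, map_one]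
  · intro x hx
    rw [← hT] at hx
    exact c'.f_fix hx

theorem card_T1 : ({x | x ∈ T D t S ∧ x ≠ 1} : Set G).ncard = 7 := by
  classical
  let F : Finset G := {j s1, j s2, j s1 * j s2}
  have hF3 : F.card = 3 := by
    rw [Finset.card_insert_of_notMem, Finset.card_insert_of_notMem, Finset.card_singleton]
    · rw [Finset.mem_singleton]
      intro h2
      exact c.v1ne (mul_right_cancel (b := j s2) (by rw [one_mul]; exact h2.symm))
    · simp only [Finset.mem_insert, Finset.mem_singleton, not_or]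
      exact ⟨c.v12ne, fun h2 => c.v2ne (mul_left_cancel (a := j s1) (by rw [mul_one]; exact h2.symm))⟩
  have hFA : ∀ x, x ∈ F ↔ (x ∈ A D t ∧ x ∈ S ∧ x ≠ 1) := by
    intro x
    simp only [F, Finset.mem_insert, Finset.mem_singleton]
    constructor
    · rintro (h | h | h) <;> rw [h]
      · exact ⟨c.v1A, c.v1S, c.v1ne⟩
      · exact ⟨c.v2A, c.v2S, c.v2ne⟩
      · exact ⟨mul_mem c.v1A c.v2A, (S : Subgroup G).mul_mem c.v1S c.v2S, c.v3ne⟩
    · rintro ⟨h2, h3, h4⟩
      rcases c.memV h2 h3 with h | h | h | h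
      · exact absurd h h4
      · exact Or.inl h
      · exact Or.inr (Or.inl h)
      · exact Or.inr (Or.inr h)
  let F2 : Finset G := insert t (F.image (fun x => t * x))
  have e : ({x | x ∈ T D t S ∧ x ≠ 1} : Set G) = ((F ∪ F2 : Finset G) : Set G) := by
    ext x
    simp only [Set.mem_ofPred_eq, Finset.coe_union, Set.mem_union, SetLike.mem_coe, F2, Finset.mem_insert, Finset.mem_image, hFA]
    constructor
    · rintro ⟨hx, hx1⟩
      rcases c.T_half hx with ⟨h1, h2⟩ | ⟨h1, h2⟩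
      · exact Or.inl ⟨h1, h2, hx1⟩
      · right
        have e : x = t * (t * x) := by rw [← mul_assoc, c.tt, one_mul]
        by_cases h3 : t * x = 1
        · left; rw [e, h3, mul_one]
        · right; exact ⟨t * x, ⟨h1, h2, h3⟩, e.symm⟩
    · rintro (⟨h1, h2, h3⟩ | h | ⟨y, ⟨h1, h2, h3⟩, rfl⟩)
      · exact ⟨⟨h2, Hy.AW h1⟩, h3⟩
      · rw [h]; exact ⟨c.tT, c.h.ne1 t c.ht⟩
      · refine ⟨mul_mem c.tT ⟨h2, Hy.AW h1⟩, fun h => ?_⟩
        exact c.not_both h1 (one_mem _) h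
  have hd : Disjoint F F2 := by
    rw [Finset.disjoint_left]
    intro x hx hx2
    rw [hFA] at hx
    simp only [F2, Finset.mem_insert, Finset.mem_image, hFA] at hx2
    rcases hx2 with h | ⟨y, ⟨h1, h2, h3⟩, h4⟩
    · exact c.tnV hx.1 h.symm
    · exact c.not_both h1 hx.1 h4
  have hF2 : F2.card = 4 := by
    rw [Finset.card_insert_of_notMem, Finset.card_image_of_injective, hF3]
    · exact mul_right_injective t
    · rw [Finset.mem_image]
      rintro ⟨y, hy, h⟩
      rw [hFA] at hy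
      exact hy.2.2 (mul_left_cancel (a := t) (by rw [mul_one]; exact h))
  rw [e, Set.ncard_coe_finset, Finset.card_union_of_disjoint hd, hF3, hF2]

/-- `L` is transitive on the involutions of `T` -/
theorem LL_trans {e : G} (he : e ∈ T D t S) (he1 : e ≠ 1) : ∃ l ∈ LL (T D t S), l * t * l⁻¹ = e := by
  haveI : Fact (Nat.Prime 3) := ⟨Nat.prime_three⟩
  by_contra hcon
  push Not at hcon
  let O : Set G := {x | ∃ l ∈ LL (T D t S), l * t * l⁻¹ = x}
  have hO1 : ∀ x ∈ O, x ∈ T D t S ∧ x ≠ 1 := by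
    rintro x ⟨l, hl, rfl⟩
    refine ⟨(mem_normalizer_iff.1 hl.1 t).1 c.tT, fun h => ?_⟩
    apply c.h.ne1 t c.ht
    have : l * t * l⁻¹ = l * 1 * l⁻¹ := by rw [h]; group
    exact mul_left_cancel (mul_right_cancel this)
  have hO2 : ∀ l ∈ LL (T D t S), ∀ x ∈ O, l * x * l⁻¹ ∈ O := by
    rintro l hl x ⟨l', hl', rfl⟩
    exact ⟨l * l', mul_mem hl hl', by group⟩
  have key : ∀ u : G, u ∈ T D t S → u ≠ 1 → O.ncard ≡ (O ∩ {u}).ncard [MOD 3] := by
    intro u hu hu1
    obtain ⟨f, hf1, hf2, hf3, hf4⟩ := c.exists_f hu hu1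
    have h1 := fix_mod 3 1 f O (Set.toFinite _) (hO2 f hf1) (by
      intro x _
      have : f ^ (3 ^ 1) = 1 := by rw [pow_one, pow_succ, pow_two, hf2]
      rw [this, one_mul, mul_one])
    have h2 : {x | x ∈ O ∧ f * x = x * f} = O ∩ {u} := by
      ext x
      simp only [Set.mem_ofPred_eq, Set.mem_inter_iff, Set.mem_singleton_iff]
      constructor
      · rintro ⟨h3, h4⟩
        refine ⟨h3, ?_⟩
        rcases hf4 x (hO1 x h3).1 h4 with h5 | h5
        · exact absurd h5 (hO1 x h3).2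
        · exact h5
      · rintro ⟨h3, h4⟩
        rw [h4]
        rw [h4] at h3
        exact ⟨h3, hf3⟩
    rwa [h2] at h1
  have k1 := key t c.tT (c.h.ne1 t c.ht)
  have k2 := key e he he1
  have e1 : O ∩ {t} = {t} := by
    rw [Set.inter_eq_right, Set.singleton_subset_iff]
    exact ⟨1, one_mem _, by group⟩
  have e2 : O ∩ {e} = ∅ := by
    rw [Set.inter_singleton_eq_empty]
    rintro ⟨l, hl, h⟩
    exact hcon l hl h
  rw [e1, Set.ncard_singleton] at k1
  rw [e2, Set.ncard_empty] at k2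
  have k3 := k1.symm.trans k2
  revert k3
  decide

theorem relIndex_K : (centralizer ((T D t S : Subgroup G) : Set G)).relIndex (LL (T D t S)) = 21 := by
  classical
  set Lg := LL (T D t S) with hLg
  set K := centralizer ((T D t S : Subgroup G) : Set G) with hK
  have h7 : (centralizer ({t} : Set G)).relIndex Lg = 7 := by
    rw [relIndex_orbit Lg t {x | x ∈ T D t S ∧ x ≠ 1}, c.card_T1]
    intro y
    constructor
    · rintro ⟨h1, h2⟩
      exact c.LL_trans h1 h2
    · rintro ⟨l, hl, rfl⟩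
      refine ⟨(mem_normalizer_iff.1 hl.1 t).1 c.tT, fun h => ?_⟩
      apply c.h.ne1 t c.ht
      have : l * t * l⁻¹ = l * 1 * l⁻¹ := by rw [h]; group
      exact mul_left_cancel (mul_right_cancel this)
  have hnV : ∀ n ∈ Lg, n * t = t * n → ∀ x, x ∈ A D t → x ∈ S → n * x * n⁻¹ ∈ S := by
    intro n hn hnt x hx hxS
    exact ((mem_normalizer_iff.1 hn.1 x).1 ⟨hxS, Hy.AW hx⟩).1
  have h3 : (centralizer ({j s1} : Set G)).relIndex (centralizer ({t} : Set G) ⊓ Lg) = 3 := by
    rw [relIndex_orbit _ (j s1) (({j s1, j s2, j s1 * j s2} : Finset G) : Set G)]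
    · rw [Set.ncard_coe_finset, Finset.card_insert_of_notMem, Finset.card_insert_of_notMem, Finset.card_singleton]
      · rw [Finset.mem_singleton]
        intro h2
        exact c.v1ne (mul_right_cancel (b := j s2) (by rw [one_mul]; exact h2.symm))
      · simp only [Finset.mem_insert, Finset.mem_singleton, not_or]
        exact ⟨c.v12ne, fun h2 => c.v2ne (mul_left_cancel (a := j s1) (by rw [mul_one]; exact h2.symm))⟩
    · intro y
      simp only [Finset.coe_insert, Finset.coe_singleton, Set.mem_insert_iff, Set.mem_singleton_iff]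
      have hfm : j f0 ∈ centralizer ({t} : Set G) ⊓ Lg := ⟨mem_centralizer_singleton_iff.2 (c.at_comm c.fA), c.f_LL⟩
      constructor
      · rintro (h | h | h) <;> rw [h]
        · exact ⟨1, one_mem _, by group⟩
        · exact ⟨j f0, hfm, c.f1'⟩
        · refine ⟨j f0 * j f0, mul_mem hfm hfm, ?_⟩
          calc j f0 * j f0 * j s1 * (j f0 * j f0)⁻¹ = j f0 * (j f0 * j s1 * (j f0)⁻¹) * (j f0)⁻¹ := by group
            _ = _ := by rw [c.f1', c.f2']
      · rintro ⟨n, ⟨hn1, hn2⟩, rfl⟩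
        have hnt := mem_centralizer_singleton_iff.1 hn1
        rcases c.memV (c.h.A_cent hnt c.v1A) (hnV n hn2 hnt _ c.v1A c.v1S) with h | h | h | h
        · exfalso
          apply c.v1ne
          have : n * j s1 * n⁻¹ = n * 1 * n⁻¹ := by rw [h]; group
          exact mul_left_cancel (mul_right_cancel this)
        · exact Or.inl h
        · exact Or.inr (Or.inl h)
        · exact Or.inr (Or.inr h)
  have h4 : (centralizer ({j s1} : Set G)) ⊓ (centralizer ({t} : Set G) ⊓ Lg) = K ⊓ Lg := by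
    ext n
    constructor
    · rintro ⟨h5, h6, h7⟩
      refine ⟨(c.memK (k := n)).2 ?_, h7⟩
      intro x hx
      have hnt := mem_centralizer_singleton_iff.1 h6
      exact c.norm_cases hnt (hnV n h7 hnt) c.v1A c.v1S c.v1ne (mem_centralizer_singleton_iff.1 h5) hx
    · rintro ⟨h5, h6⟩
      have h5 := (c.memK (k := n)).1 h5
      exact ⟨mem_centralizer_singleton_iff.2 (h5 _ c.v1T), mem_centralizer_singleton_iff.2 (h5 _ c.tT), h6⟩
  have h5 := relIndex_mul_relIndex (K ⊓ Lg) (centralizer ({t} : Set G) ⊓ Lg) Lg (by rw [← h4]; exact inf_le_right) inf_le_right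
  rw [← h4, inf_relIndex_right, h3, inf_relIndex_right, h7] at h5
  rw [h4, inf_relIndex_right] at h5
  omega

/-- an element of order 7 modulo `C(T)` -/
theorem exists_g : ∃ g ∈ LL (T D t S), (∀ x ∈ T D t S, g * x = x * g → x = 1) ∧
    ∀ l ∈ LL (T D t S), ∃ (i : ℤ), ∃ k ∈ centralizer ((T D t S : Subgroup G) : Set G), l * g * l⁻¹ = g ^ i * k := by
  haveI : Fact (Nat.Prime 7) := ⟨by norm_num⟩
  set Lg := LL (T D t S) with hLg
  set K := centralizer ((T D t S : Subgroup G) : Set G) with hK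
  have hn : (K.subgroupOf Lg).Normal := ⟨fun k hk l => by
    rw [mem_subgroupOf] at hk ⊢
    rw [hK, c.memK] at hk ⊢
    intro x hx
    have hx' := (mem_normalizer_iff.1 (inv_mem l.2.1) x).1 hx
    have h1 := hk _ hx'
    rw [inv_inv] at h1
    have h2 : (l : G) * ((k : G) * ((l : G)⁻¹ * x * l)) * (l : G)⁻¹ = (l : G) * (((l : G)⁻¹ * x * l) * k) * (l : G)⁻¹ := by rw [h1]
    change (l : G) * k * (l : G)⁻¹ * x = x * ((l : G) * k * (l : G)⁻¹)
    calc (l : G) * k * (l : G)⁻¹ * x = (l : G) * ((k : G) * ((l : G)⁻¹ * x * l)) * (l : G)⁻¹ := by group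
      _ = _ := h2
      _ = _ := by group⟩
  have hcard : Nat.card (Lg ⧸ K.subgroupOf Lg) = 21 := c.relIndex_K
  obtain ⟨q, hq⟩ := exists_prime_orderOf_dvd_card' (G := Lg ⧸ K.subgroupOf Lg) 7 (by rw [hcard]; norm_num)
  obtain ⟨g, rfl⟩ := QuotientGroup.mk_surjective q
  have hgK : (g : G) ∉ K := by
    intro h
    have : (QuotientGroup.mk g : Lg ⧸ K.subgroupOf Lg) = 1 := (QuotientGroup.eq_one_iff g).2 (mem_subgroupOf.2 h)
    rw [this, orderOf_one] at hq
    norm_num at hq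
  have hg7 : (g : G) ^ 7 ∈ K := by
    have h1 : (QuotientGroup.mk (g ^ 7) : Lg ⧸ K.subgroupOf Lg) = 1 := by
      rw [QuotientGroup.mk_pow, ← hq, pow_orderOf_eq_one]
    exact mem_subgroupOf.1 ((QuotientGroup.eq_one_iff _).1 h1)
  refine ⟨g, g.2, ?_, ?_⟩
  · intro x hx hgx
    by_contra hx1
    have h1 := fix_mod 7 1 (g : G) {x | x ∈ T D t S ∧ x ≠ 1} (Set.toFinite _) (by
      rintro y ⟨hy, hy1⟩
      refine ⟨(mem_normalizer_iff.1 g.2.1 y).1 hy, fun h => hy1 ?_⟩
      have : (g : G) * y * (g : G)⁻¹ = g * 1 * (g : G)⁻¹ := by rw [h]; group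
      exact mul_left_cancel (mul_right_cancel this)) (by
      rintro y ⟨hy, _⟩
      rw [pow_one]
      exact (c.memK.1 hg7) y hy)
    rw [c.card_T1] at h1
    have h2 : ({y | y ∈ ({x | x ∈ T D t S ∧ x ≠ 1} : Set G) ∧ (g : G) * y = y * g} : Set G).ncard ≤ 7 := by
      rw [← c.card_T1]
      exact Set.ncard_le_ncard (fun y hy => hy.1) (Set.toFinite _)
    have h3 : 0 < ({y | y ∈ ({x | x ∈ T D t S ∧ x ≠ 1} : Set G) ∧ (g : G) * y = y * g} : Set G).ncard := by
      rw [Set.ncard_pos (Set.toFinite _)]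
      exact ⟨x, ⟨hx, hx1⟩, hgx⟩
    have h4 : ({y | y ∈ ({x | x ∈ T D t S ∧ x ≠ 1} : Set G) ∧ (g : G) * y = y * g} : Set G).ncard = 7 := by
      have := h1
      unfold Nat.ModEq at this
      omega
    have h5 : ({y | y ∈ ({x | x ∈ T D t S ∧ x ≠ 1} : Set G) ∧ (g : G) * y = y * g} : Set G) = {x | x ∈ T D t S ∧ x ≠ 1} := by
      apply Set.eq_of_subset_of_ncard_le (fun y hy => hy.1)
      · rw [h4, c.card_T1]
    apply hgK
    rw [hK, c.memK]
    intro y hy
    by_cases hy1 : y = 1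
    · rw [hy1, mul_one, one_mul]
    · have : y ∈ ({x | x ∈ T D t S ∧ x ≠ 1} : Set G) := ⟨hy, hy1⟩
      rw [← h5] at this
      exact this.2
  · intro l hl
    have h1 := normal_of_21 hcard hq (QuotientGroup.mk (⟨l, hl⟩ : Lg))
    obtain ⟨i, hi⟩ := mem_zpowers_iff.1 h1
    have h2 : (QuotientGroup.mk (g ^ i) : Lg ⧸ K.subgroupOf Lg) = QuotientGroup.mk (⟨l, hl⟩ * g * (⟨l, hl⟩ : Lg)⁻¹) := by
      rw [QuotientGroup.mk_zpow, hi]; rfl
    have h3 := QuotientGroup.eq.1 h2
    rw [mem_subgroupOf] at h3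
    refine ⟨i, _, h3, ?_⟩
    change l * g * l⁻¹ = (g : G) ^ i * (((g : G) ^ i)⁻¹ * (l * g * l⁻¹))
    group

end Cf

end H58.WC
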