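import Mathlib
import Cfsg.Agent.Lib.H58.WCf

/-!
# The complement `K₀`: `C(e) = W(e) × K₀` for all involutions `e` of `T`
-/

set_option autoImplicit false
set_option linter.style.haveILetI false
set_option linter.unusedSectionVars false

open Subgroup
open scoped commutatorElement

namespace H58.WC

variable {G : Type*} [Group G] {D : Set G} {t : G} {S : Sylow 2 G} {j : A5 →* G}

structure Res (D : Set G) (t : G) (S : Sylow 2 G) (K0 : Subgroup G) : Prop where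
  K0T : ∀ k ∈ K0, ∀ x ∈ T D t S, k * x = x * k
  K0W : ∀ e ∈ T D t S, e ≠ 1 → ∀ k ∈ K0, ∀ w ∈ W D e, k * w = w * k
  CWK : ∀ e ∈ T D t S, e ≠ 1 → ∀ x, x * e = e * x → ∃ w ∈ W D e, ∃ k ∈ K0, x = w * k
  disj : ∀ e ∈ T D t S, e ≠ 1 → ∀ x ∈ W D e, x ∈ K0 → x = 1
  fus : ∀ e ∈ T D t S, e ≠ 1 → ∃ l : G, l * t * l⁻¹ = e ∧ ∀ k ∈ K0, k * l = l * k
  SK : ∀ s ∈ S, ∃ x ∈ T D t S, ∃ k ∈ K0, s = x * k

namespace Cf

variable (c : Cf D t S j) [Finite G]
include c

theorem exists_Res : ∃ K0 : Subgroup G, Res D t S K0 := by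
  classical
  obtain ⟨g, hgL, hgT, hgn⟩ := c.exists_g
  set K := centralizer ((T D t S : Subgroup G) : Set G) with hK
  have memK : ∀ {k : G}, k ∈ K ↔ ∀ x ∈ T D t S, k * x = x * k := fun {k} => c.memK
  have TK : ∀ x ∈ T D t S, x ∈ K := fun x hx => memK.2 (fun y hy => c.T_comm hx hy)
  let K0 : Subgroup G := K ⊓ centralizer {g}
  have K0K : ∀ k ∈ K0, k ∈ K := fun k hk => hk.1
  have K0g : ∀ k ∈ K0, k * g = g * k := fun k hk => mem_centralizer_singleton_iff.1 hk.2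
  -- K = T K0
  have hgnT : ∀ x ∈ T D t S, g * x * g⁻¹ ∈ T D t S := fun x hx => (mem_normalizer_iff.1 hgL.1 x).1 hx
  have KT : ∀ k ∈ K, ∃ x ∈ T D t S, ∃ k' ∈ K0, k = x * k' := by
    intro k hk
    let F : T D t S → T D t S := fun x => ⟨x * g * (x : G)⁻¹ * g⁻¹, by
      have e : (x : G) * g * (x : G)⁻¹ * g⁻¹ = x * (g * (x : G)⁻¹ * g⁻¹) := by group
      rw [e]
      exact mul_mem x.2 (hgnT _ (inv_mem x.2))⟩
    have hF : Function.Injective F := by
      intro x y hxy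
      have h1 : (x : G) * g * (x : G)⁻¹ * g⁻¹ = y * g * (y : G)⁻¹ * g⁻¹ := congrArg Subtype.val hxy
      have h2 : (x : G) * g * (x : G)⁻¹ = y * g * (y : G)⁻¹ := mul_right_cancel h1
      have h3 := hgT ((y : G)⁻¹ * x) (mul_mem (inv_mem y.2) x.2) (by
        have h4 : (y : G)⁻¹ * (x * g * (x : G)⁻¹) * x = (y : G)⁻¹ * (y * g * (y : G)⁻¹) * x := by rw [h2]
        calc g * ((y : G)⁻¹ * x) = (y : G)⁻¹ * (y * g * (y : G)⁻¹) * x := by group
          _ = (y : G)⁻¹ * (x * g * (x : G)⁻¹) * x := h4.symm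
          _ = _ := by group)
      apply Subtype.ext
      exact (inv_mul_eq_one.1 h3).symm
    obtain ⟨x, hx⟩ := (Finite.injective_iff_surjective.1 hF) ⟨k * g * k⁻¹ * g⁻¹, hgL.2 k hk⟩
    have hx' : (x : G) * g * (x : G)⁻¹ * g⁻¹ = k * g * k⁻¹ * g⁻¹ := congrArg Subtype.val hx
    have hx2 : (x : G) * g * (x : G)⁻¹ = k * g * k⁻¹ := mul_right_cancel hx'
    refine ⟨x, x.2, (x : G)⁻¹ * k, mem_inf.2 ⟨K.mul_mem (K.inv_mem (TK _ x.2)) hk, mem_centralizer_singleton_iff.2 ?_⟩, by group⟩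
    calc (x : G)⁻¹ * k * g = (x : G)⁻¹ * (k * g * k⁻¹) * k := by group
      _ = (x : G)⁻¹ * (x * g * (x : G)⁻¹) * k := by rw [hx2]
      _ = _ := by group
  -- L ∩ K is centralised by K
  have LK : ∀ m ∈ LL (T D t S), m ∈ K → ∀ k ∈ K, k * m = m * k := by
    intro m hm hmK k hk
    have hε := hm.2 k hk
    have h1 : g * (k * m * k⁻¹ * m⁻¹) * g⁻¹ = k * m * k⁻¹ * m⁻¹ := by
      have e1 : ∀ y ∈ K, ∃ e ∈ T D t S, g * y * g⁻¹ = e * y := by
        intro y hy
        refine ⟨g * y * g⁻¹ * y⁻¹, ?_, by group⟩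
        have := inv_mem (hgL.2 y hy)
        have e : (y * g * y⁻¹ * g⁻¹)⁻¹ = g * y * g⁻¹ * y⁻¹ := by group
        rwa [e] at this
      obtain ⟨a, ha, hak⟩ := e1 k hk
      obtain ⟨b, hb, hbm⟩ := e1 m hmK
      have ka := (memK.1 hk) a ha
      have kb := (memK.1 hk) b hb
      have ma := (memK.1 hmK) a ha
      have ab := c.T_comm ha hb
      have e2 : g * (k * m * k⁻¹ * m⁻¹) * g⁻¹ = (g * k * g⁻¹) * (g * m * g⁻¹) * (g * k * g⁻¹)⁻¹ * (g * m * g⁻¹)⁻¹ := by group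
      rw [e2, hak, hbm]
      have A1 : Commute a k := (show Commute k a from ka).symm
      have A2 : Commute b k := (show Commute k b from kb).symm
      have A3 : Commute a m := (show Commute m a from ma).symm
      have A4 : Commute a b := ab
      have A5 : Commute a (b * m) := A4.mul_right A3
      calc a * k * (b * m) * (a * k)⁻¹ * (b * m)⁻¹ = a * (k * b) * m * k⁻¹ * a⁻¹ * (b * m)⁻¹ := by group
        _ = a * (b * k) * m * k⁻¹ * a⁻¹ * (b * m)⁻¹ := by rw [A2.eq]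
        _ = (a * b) * (k * m * k⁻¹) * (a⁻¹ * (b * m)⁻¹) := by group
        _ = (b * a) * (k * m * k⁻¹) * ((b * m)⁻¹ * a⁻¹) := by rw [A4.eq, (A5.inv_inv).eq]
        _ = b * (a * (k * m * k⁻¹)) * m⁻¹ * b⁻¹ * a⁻¹ := by group
        _ = b * ((k * m * k⁻¹) * a) * m⁻¹ * b⁻¹ * a⁻¹ := by rw [((A1.mul_right A3).mul_right A1.inv_right).eq]
        _ = b * (k * m * k⁻¹) * (a * m⁻¹) * b⁻¹ * a⁻¹ := by group
        _ = b * (k * m * k⁻¹) * (m⁻¹ * a) * b⁻¹ * a⁻¹ := by rw [A3.inv_right.eq]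
        _ = b * (k * m * k⁻¹ * m⁻¹) * (a * b⁻¹) * a⁻¹ := by group
        _ = b * (k * m * k⁻¹ * m⁻¹) * (b⁻¹ * a) * a⁻¹ := by rw [A4.inv_right.eq]
        _ = b * (k * m * k⁻¹ * m⁻¹) * b⁻¹ := by group
        _ = (k * m * k⁻¹ * m⁻¹) * b * b⁻¹ := by rw [c.T_comm hb hε]
        _ = _ := by group
    have h2 := hgT _ hε (mul_inv_eq_iff_eq_mul.1 h1)
    have h3 : k * m * k⁻¹ = m := mul_inv_eq_one.1 h2
    exact mul_inv_eq_iff_eq_mul.1 h3
  -- K0 centralises L
  have K0L : ∀ k ∈ K0, ∀ l ∈ LL (T D t S), k * l = l * k := by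
    intro k hk l hl
    have hε := hl.2 k (K0K k hk)
    obtain ⟨i, k', hk', hlg⟩ := hgn l hl
    have hk'L : k' ∈ LL (T D t S) := by
      have : k' = (g ^ i)⁻¹ * (l * g * l⁻¹) := by rw [hlg]; group
      rw [this]
      exact mul_mem (inv_mem (zpow_mem hgL i)) (mul_mem (mul_mem hl hgL) (inv_mem hl))
    have hkg' : k * (l * g * l⁻¹) = (l * g * l⁻¹) * k := by
      rw [hlg]
      have B1 : Commute k (g ^ i) := (show Commute k g from K0g k hk).zpow_right i
      have B2 : Commute k k' := LK k' hk'L hk' k (K0K k hk)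
      exact (B1.mul_right B2).eq
    set ε := k * l * k⁻¹ * l⁻¹ with hεd
    have h1 : k * l * k⁻¹ = ε * l := by rw [hεd]; group
    have h2 : ε * (l * g * l⁻¹) = (l * g * l⁻¹) * ε := by
      have h3 : k * (l * g * l⁻¹) * k⁻¹ = ε * (l * g * l⁻¹) * ε⁻¹ := by
        calc k * (l * g * l⁻¹) * k⁻¹ = (k * l * k⁻¹) * (k * g * k⁻¹) * (k * l * k⁻¹)⁻¹ := by group
          _ = (ε * l) * (g * k * k⁻¹) * (ε * l)⁻¹ := by rw [h1, K0g k hk]
          _ = _ := by group
      rw [hkg', mul_inv_cancel_right] at h3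
      exact (mul_inv_eq_iff_eq_mul.1 h3.symm)
    have h4 := hgT (l⁻¹ * ε * l) (by
      have := (mem_normalizer_iff.1 (inv_mem hl.1) ε).1 hε
      rwa [inv_inv] at this) (by
      calc g * (l⁻¹ * ε * l) = l⁻¹ * ((l * g * l⁻¹) * ε) * l := by group
        _ = l⁻¹ * (ε * (l * g * l⁻¹)) * l := by rw [h2]
        _ = _ := by group)
    have h5 : ε = 1 := by
      calc ε = l * (l⁻¹ * ε * l) * l⁻¹ := by group
        _ = 1 := by rw [h4]; group
    rw [h5, one_mul] at h1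
    exact mul_inv_eq_iff_eq_mul.1 h1
  -- K0 centralises W(e)
  have K0A : ∀ e ∈ T D t S, e ≠ 1 → ∀ k ∈ K0, ∀ a ∈ A D e, k * a = a * k := by
    intro e he he1 k hk a ha
    obtain ⟨j', c', hT⟩ := c.move he he1
    obtain ⟨v, hvA, hvS, hv⟩ := c'.K_act (k := k) (by rw [hT]; exact memK.1 (K0K k hk))
    have hfL : j' f0 ∈ LL (T D t S) := by rw [← hT]; exact c'.f_LL
    have h1 := K0L k hk _ hfL
    have h2 := hv _ c'.fA
    rw [h1, mul_inv_cancel_right] at h2
    have h3 := c'.f_fix_V hvA hvS (by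
      calc j' f0 * v = (v * j' f0 * v⁻¹) * v := by rw [← h2]
        _ = _ := by group)
    have h4 := hv a ha
    rw [h3] at h4
    have : k * a * k⁻¹ = a := by rw [h4]; group
    exact mul_inv_eq_iff_eq_mul.1 this
  have K0W : ∀ e ∈ T D t S, e ≠ 1 → ∀ k ∈ K0, ∀ w ∈ W D e, k * w = w * k := by
    intro e he he1 k hk w hw
    obtain ⟨j', c', hT⟩ := c.move he he1
    have hke := (memK.1 (K0K k hk)) e he
    rcases c'.L.half w hw with h | h
    · exact K0A e he he1 k hk w h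
    · have h1 := K0A e he he1 k hk _ h
      have : e * (k * w) = e * (w * k) := by
        calc e * (k * w) = (e * k) * w := by group
          _ = (k * e) * w := by rw [hke]
          _ = k * (e * w) := by group
          _ = e * w * k := h1
          _ = _ := by group
      exact mul_left_cancel this
  refine ⟨K0, fun k hk x hx => memK.1 (K0K k hk) x hx, K0W, ?_, ?_, ?_, ?_⟩
  · intro e he he1 x hxe
    obtain ⟨j', c', hT⟩ := c.move he he1
    obtain ⟨a, ha, hax⟩ := c'.exists_AK hxe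
    rw [hT] at hax
    obtain ⟨y, hy, k, hk, hyk⟩ := KT (a * x) (memK.2 hax)
    refine ⟨a⁻¹ * y, mul_mem (inv_mem (Hy.AW ha)) (c.T_W he hy), k, hk, ?_⟩
    calc x = a⁻¹ * (a * x) := by group
      _ = _ := by rw [hyk]; group
  · intro e he he1 x hx hxK
    obtain ⟨j', c', hT⟩ := c.move he he1
    rcases c'.L.cent_W c.h c'.ht hx (fun b hb => K0A e he he1 x hxK b hb) with h | h
    · exact h
    · rw [h] at hxK
      exact hgT _ (by rw [h]; exact he) (by rw [h]; exact (K0g _ hxK).symm)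
  · intro e he he1
    obtain ⟨l, hl, hle⟩ := c.LL_trans he he1
    exact ⟨l, hle, fun k hk => K0L k hk l hl⟩
  · intro s hs
    exact KT s (memK.2 (fun x hx => c.S_T hs hx))

end Cf

end H58.WC
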