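import Mathlib
import Cfsg.Agent.Lib.H58.WCg
import Cfsg.Agent.Lib.H58.ZUse
import Cfsg.Agent.S0058

/-!
# `H = N(K₀)`: control of `D`-fusion and centralisers
-/

set_option autoImplicit false
set_option linter.style.haveILetI false
set_option linter.unusedSectionVars false

open Subgroup
open scoped commutatorElement

namespace H58.WC

variable {G : Type*} [Group G] {D : Set G} {t : G} {S : Sylow 2 G} {j : A5 →* G}

theorem pow_conj_d {d x : G} (hd : d * d = 1) (hx : x * x = 1) (i : ℕ) : (d * x) ^ i * d * (d * x) ^ i = d := by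
  induction i with
  | zero => simp
  | succ i ih =>
    have e : (d * x) ^ (i + 1) * d * (d * x) ^ (i + 1) = (d * x) ^ i * (d * x * d * (d * x)) * (d * x) ^ i := by
      rw [pow_succ]
      have : (d * x) ^ i * (d * x) = (d * x) * (d * x) ^ i := by rw [← pow_succ, pow_succ']
      calc (d * x) ^ i * (d * x) * d * ((d * x) ^ i * (d * x)) = (d * x) ^ i * (d * x) * d * ((d * x) * (d * x) ^ i) := by rw [this]
        _ = _ := by simp only [mul_assoc]
    have e2 : d * x * d * (d * x) = d := by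
      calc d * x * d * (d * x) = d * x * (d * d) * x := by group
        _ = d * (x * x) := by rw [hd]; group
        _ = d := by rw [hx, mul_one]
    rw [e, e2, ih]

/-- all involutions of `W(d)` are in `D` -/
theorem Hy.W_inv [Finite G] (h : Hy D) {d w : G} (hd : d ∈ D) (hw : w ∈ W D d) (hww : w * w = 1) (hw1 : w ≠ 1) : w ∈ D := by
  haveI : Fact (Nat.Prime 2) := ⟨Nat.prime_two⟩
  obtain ⟨S', j', c⟩ := h.exists_Cf hd
  have hSC : (S' : Subgroup G) ≤ centralizer {d} := fun y hy => mem_centralizer_singleton_iff.2 (c.cS y hy)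
  have hwd : w * d = d * w := Hy.cW hw
  have hP : IsPGroup 2 (zpowers w) := by
    refine IsPGroup.of_card (n := 1) ?_
    rw [Nat.card_zpowers, pow_one]
    exact orderOf_eq_prime (by rw [pow_two, hww]) hw1
  obtain ⟨g, hg, hgS⟩ := H58.Rel.exists_conj_mem_sylowOf (H := centralizer {d}) (P := zpowers w) (Q := S')
    (by rw [zpowers_le]; exact mem_centralizer_singleton_iff.2 hwd) hP S'.isPGroup' (c.S_relIndex hSC)
  have hgd : g * d = d * g := mem_centralizer_singleton_iff.1 hg
  have h1 : g * w * g⁻¹ ∈ T D d S' := ⟨hgS w (mem_zpowers w), h.W_cent hgd hw⟩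
  have h2 : g * w * g⁻¹ ≠ 1 := by
    intro h3
    apply hw1
    have : g * w * g⁻¹ = g * 1 * g⁻¹ := by rw [h3]; group
    exact mul_left_cancel (mul_right_cancel this)
  have h3 := h.conj _ (c.T_D h1 h2) g⁻¹
  have e : g⁻¹ * (g * w * g⁻¹) * g⁻¹⁻¹ = w := by group
  rwa [e] at h3

namespace Res

variable {K0 : Subgroup G} (r : Res D t S K0) (c : Cf D t S j) [Finite G]
include r c

theorem cent_le {x : G} (hx : ∀ k ∈ K0, k * x = x * k) : x ∈ normalizer (K0 : Set G) := by
  rw [mem_normalizer_iff]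
  intro k
  constructor
  · intro hk
    rw [← hx k hk, mul_inv_cancel_right]
    exact hk
  · intro hk
    have h1 := hx _ hk
    have : k = x * k * x⁻¹ := by
      calc k = x⁻¹ * ((x * k * x⁻¹) * x) := by group
        _ = x⁻¹ * (x * (x * k * x⁻¹)) := by rw [h1]
        _ = _ := by group
    rw [this]; exact hk

theorem K0_le : K0 ≤ normalizer (K0 : Set G) := le_normalizer

theorem T_le : T D t S ≤ normalizer (K0 : Set G) := fun x hx => r.cent_le c (fun k hk => r.K0T k hk x hx)

theorem S_le : (S : Subgroup G) ≤ normalizer (K0 : Set G) := by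
  intro s hs
  obtain ⟨x, hx, k, hk, rfl⟩ := r.SK s hs
  exact mul_mem (r.T_le c hx) (r.K0_le c hk)

theorem Ce_le {e : G} (he : e ∈ T D t S) (he1 : e ≠ 1) {x : G} (hx : x * e = e * x) : x ∈ normalizer (K0 : Set G) := by
  obtain ⟨w, hw, k, hk, rfl⟩ := r.CWK e he he1 x hx
  exact mul_mem (r.cent_le c (fun k hk => r.K0W e he he1 k hk w hw)) (r.K0_le c hk)

theorem D_conj {d : G} (hd : d ∈ D) (hdH : d ∈ normalizer (K0 : Set G)) : ∃ h ∈ normalizer (K0 : Set G), h * t * h⁻¹ = d := by
  haveI : Fact (Nat.Prime 2) := ⟨Nat.prime_two⟩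
  have hP : IsPGroup 2 (zpowers d) := by
    refine IsPGroup.of_card (n := 1) ?_
    rw [Nat.card_zpowers, pow_one]
    exact orderOf_eq_prime (by rw [pow_two, c.h.sq d hd]) (c.h.ne1 d hd)
  obtain ⟨g, hg, hgS⟩ := H58.Rel.exists_conj_mem_sylowOf (H := normalizer (K0 : Set G)) (P := zpowers d) (Q := S)
    (by rw [zpowers_le]; exact hdH) hP S.isPGroup' (c.S_relIndex (r.S_le c))
  have h1 := c.DS_T (c.h.conj d hd g) (hgS d (mem_zpowers d))
  obtain ⟨l, hl, hlK⟩ := r.fus _ h1 (c.h.ne1 _ (c.h.conj d hd g))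
  refine ⟨g⁻¹ * l, mul_mem (inv_mem hg) (r.cent_le c hlK), ?_⟩
  calc g⁻¹ * l * t * (g⁻¹ * l)⁻¹ = g⁻¹ * (l * t * l⁻¹) * g := by group
    _ = d := by rw [hl]; group

theorem Ct_le {x : G} (hx : x * t = t * x) : x ∈ normalizer (K0 : Set G) := r.Ce_le c c.tT (c.h.ne1 t c.ht) hx

theorem Cd_le {d : G} (hd : d ∈ D) (hdH : d ∈ normalizer (K0 : Set G)) {x : G} (hx : x * d = d * x) : x ∈ normalizer (K0 : Set G) := by
  obtain ⟨h, hh, rfl⟩ := r.D_conj c hd hdH
  have h1 := r.Ct_le c (x := h⁻¹ * x * h) (by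
    calc h⁻¹ * x * h * t = h⁻¹ * (x * (h * t * h⁻¹)) * h := by group
      _ = h⁻¹ * (h * t * h⁻¹ * x) * h := by rw [hx]
      _ = _ := by group)
  have : x = h * (h⁻¹ * x * h) * h⁻¹ := by group
  rw [this]
  exact mul_mem (mul_mem hh h1) (inv_mem hh)

/-- an element moving `t` into `H` is in `H` -/
theorem mem_of_conj {g : G} (h : g * t * g⁻¹ ∈ normalizer (K0 : Set G)) : g ∈ normalizer (K0 : Set G) := by
  obtain ⟨h', hh, he⟩ := r.D_conj c (c.h.conj t c.ht g) h
  have h1 := r.Ct_le c (x := h'⁻¹ * g) (by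
    calc h'⁻¹ * g * t = h'⁻¹ * (g * t * g⁻¹) * g := by group
      _ = h'⁻¹ * (h' * t * h'⁻¹) * g := by rw [he]
      _ = _ := by group)
  have : g = h' * (h'⁻¹ * g) := by group
  rw [this]
  exact mul_mem hh h1

theorem mem_of_conj' {d g : G} (hd : d ∈ D) (hdH : d ∈ normalizer (K0 : Set G)) (h : g * d * g⁻¹ ∈ normalizer (K0 : Set G)) :
    g ∈ normalizer (K0 : Set G) := by
  obtain ⟨h', hh, rfl⟩ := r.D_conj c hd hdH
  have h1 := r.mem_of_conj c (g := g * h') (by
    have : g * h' * t * (g * h')⁻¹ = g * (h' * t * h'⁻¹) * g⁻¹ := by group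
    rw [this]; exact h)
  have : g = (g * h') * h'⁻¹ := by group
  rw [this]
  exact mul_mem h1 (inv_mem hh)

/-- products of elements of `D` inside and outside `H` have odd order -/
theorem odd_order {d x : G} (hd : d ∈ D) (hdH : d ∈ normalizer (K0 : Set G)) (hx : x ∈ D) (hxH : x ∉ normalizer (K0 : Set G)) :
    Odd (orderOf (d * x)) := by
  by_contra hcon
  rw [Nat.not_odd_iff_even] at hcon
  obtain ⟨m, hm⟩ := hcon
  have hdd := c.h.sq d hd
  have hxx := c.h.sq x hx
  set z := (d * x) ^ m with hz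
  have hpos := orderOf_pos (d * x)
  have hz1 : z ≠ 1 := by
    intro h
    have := orderOf_dvd_of_pow_eq_one h
    have := Nat.le_of_dvd (by omega) this
    omega
  have hzz : z * z = 1 := by
    rw [hz, ← pow_add, ← hm, pow_orderOf_eq_one]
  have hzd : z * d = d * z := by
    have := pow_conj_d hdd hxx m
    rw [← hz] at this
    calc z * d = (z * d * z) * z⁻¹ := by group
      _ = d * z⁻¹ := by rw [this]
      _ = d * z := by rw [inv_eq_of_mul_eq_one_right hzz]
  have hzc : z * (d * x) = (d * x) * z := by rw [hz, ← pow_succ, pow_succ']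
  have hzx : z * x = x * z := by
    have h1 : d * (z * x) = d * (x * z) := by
      calc d * (z * x) = (d * z) * x := by group
        _ = (z * d) * x := by rw [hzd]
        _ = z * (d * x) := by group
        _ = d * x * z := hzc
        _ = _ := by group
    exact mul_left_cancel h1
  have hdzD : d * z ∈ D := by
    rcases Nat.even_or_odd' m with ⟨q, hq | hq⟩
    · have h1 : d * z = ((d * x) ^ q)⁻¹ * d * ((d * x) ^ q)⁻¹⁻¹ := by
        have h2 := pow_conj_d hdd hxx q
        rw [inv_inv]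
        calc d * z = ((d * x) ^ q)⁻¹ * ((d * x) ^ q * d * (d * x) ^ q) * (d * x) ^ q := by
              rw [hz, hq, two_mul, pow_add]; group
          _ = _ := by rw [h2]
      rw [h1]
      exact c.h.conj d hd _
    · have h1 : d * z = ((d * x) ^ q)⁻¹ * x * ((d * x) ^ q)⁻¹⁻¹ := by
        have h2 := pow_conj_d hdd hxx q
        have h3 : x = d * (d * x) := by rw [← mul_assoc, hdd, one_mul]
        rw [inv_inv]
        calc d * z = ((d * x) ^ q)⁻¹ * ((d * x) ^ q * d * (d * x) ^ q) * ((d * x) ^ (q + 1)) := by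
              rw [hz, hq, two_mul, add_assoc, pow_add]; group
          _ = ((d * x) ^ q)⁻¹ * (d * (d * x)) * (d * x) ^ q := by rw [h2, pow_succ']; simp only [mul_assoc]
          _ = _ := by rw [← h3]
      rw [h1]
      exact c.h.conj x hx _
  have hdzW : d * z ∈ W D d := subset_closure ⟨hdzD, by
    calc d * z * d = d * (z * d) := by group
      _ = d * (d * z) := by rw [hzd]⟩
  have hzW : z ∈ W D d := by
    have := mul_mem (c.h.dW hd) hdzW
    rwa [← mul_assoc, hdd, one_mul] at this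
  have hzD := c.h.W_inv hd hzW hzz hz1
  have hzH := r.Cd_le c hd hdH hzd
  exact hxH (r.Cd_le c hzD hzH hzx.symm)

/-- centralisers of `e k'` are in `H` -/
theorem cent_ek (hZ : ∀ b : G, H58.ZUse.ZStarFor ↥(centralizer ({b} : Set G))) {e k : G} (he : e ∈ T D t S) (he1 : e ≠ 1)
    (hk : k ∈ K0) {g : G} (hg : g * (e * k) = (e * k) * g) : g ∈ normalizer (K0 : Set G) := by
  haveI : Fact (Nat.Prime 2) := ⟨Nat.prime_two⟩
  set b := e * k with hb
  have heD := c.T_D he he1
  have heH := r.T_le c he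
  have hee := c.T_sq he
  have hke := r.K0T k hk e he
  have heb : e * b = b * e := by
    rw [hb]
    calc e * (e * k) = e * (k * e) := by rw [hke]
      _ = _ := by group
  let u : centralizer ({b} : Set G) := ⟨e, mem_centralizer_singleton_iff.2 heb⟩
  have hu : orderOf u = 2 := by
    rw [Subgroup.orderOf_mk]
    exact orderOf_eq_prime (by rw [pow_two, hee]) he1
  have hup : IsPGroup 2 (zpowers u) := IsPGroup.of_card (n := 1) (by rw [Nat.card_zpowers, hu, pow_one])
  obtain ⟨P, hP⟩ := hup.exists_le_sylow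
  have huP : u ∈ P := hP (mem_zpowers u)
  have hiso : ∀ y : centralizer ({b} : Set G), y * u * y⁻¹ ∈ P → y * u * y⁻¹ = u := by
    intro y hy
    have hPm : IsPGroup 2 ((P : Subgroup (centralizer ({b} : Set G))).map (centralizer ({b} : Set G)).subtype) := P.isPGroup'.map _
    have h1 : (y : G) * e * (y : G)⁻¹ * e = e * ((y : G) * e * (y : G)⁻¹) :=
      c.two_cent hPm heD ⟨u, huP, rfl⟩ ⟨y * u * y⁻¹, hy, rfl⟩
    have hyH : (y : G) ∈ normalizer (K0 : Set G) := r.mem_of_conj' c heD heH (r.Ce_le c he he1 h1)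
    have hyk : (y : G) * k * (y : G)⁻¹ ∈ K0 := (mem_normalizer_iff.1 hyH k).1 hk
    have hyb : (y : G) * b * (y : G)⁻¹ = b := by
      have := mem_centralizer_singleton_iff.1 y.2
      rw [this]; group
    have h2 : e⁻¹ * ((y : G) * e * (y : G)⁻¹) = k * ((y : G) * k * (y : G)⁻¹)⁻¹ := by
      have h3 : ((y : G) * e * (y : G)⁻¹) * ((y : G) * k * (y : G)⁻¹) = e * k := by
        rw [← hb]
        calc ((y : G) * e * (y : G)⁻¹) * ((y : G) * k * (y : G)⁻¹) = (y : G) * (e * k) * (y : G)⁻¹ := by group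
          _ = b := hyb
      calc e⁻¹ * ((y : G) * e * (y : G)⁻¹) = e⁻¹ * (((y : G) * e * (y : G)⁻¹) * ((y : G) * k * (y : G)⁻¹)) * ((y : G) * k * (y : G)⁻¹)⁻¹ := by group
        _ = e⁻¹ * (e * k) * ((y : G) * k * (y : G)⁻¹)⁻¹ := by rw [h3]
        _ = _ := by group
    have h4 : e⁻¹ * ((y : G) * e * (y : G)⁻¹) ∈ W D e :=
      mul_mem (inv_mem (c.h.dW heD)) (subset_closure ⟨c.h.conj e heD y, h1⟩)
    have h5 : e⁻¹ * ((y : G) * e * (y : G)⁻¹) ∈ K0 := by
      rw [h2]; exact mul_mem hk (inv_mem hyk)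
    have h6 := r.disj e he he1 _ h4 h5
    apply Subtype.ext
    change (y : G) * e * (y : G)⁻¹ = e
    exact (inv_mul_eq_one.1 h6).symm
  have htop := H58.ZUse.sup_eq_top (hZ b) P hu huP hiso
  -- odd core
  let N : Subgroup G := (Cfsg.oddCore ↥(centralizer ({b} : Set G))).map (centralizer ({b} : Set G)).subtype
  have hNodd : Odd (Nat.card N) := by
    have h1 : Nat.card N = Nat.card (Cfsg.oddCore ↥(centralizer ({b} : Set G))) :=
      Subgroup.card_map_of_injective (Subgroup.subtype_injective _)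
    rw [h1]
    have := (H1.Cores.coprime_card_pPrimeCore (G := ↥(centralizer ({b} : Set G))) 2)
    exact (Nat.coprime_two_right).1 this
  have hTb : T D t S ≤ centralizer ({b} : Set G) := by
    intro x hx
    rw [mem_centralizer_singleton_iff, hb]
    have a1 := c.T_comm hx he
    have a2 := r.K0T k hk x hx
    calc x * (e * k) = (x * e) * k := by group
      _ = e * (x * k) := by rw [a1]; group
      _ = e * (k * x) := by rw [a2]
      _ = _ := by group
  have hTN : T D t S ≤ normalizer (N : Set G) := by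
    intro x hx
    rw [H58.Rel.mem_normalizer_iff_conj]
    apply Subgroup.eq_of_le_of_card_ge
    · rintro _ ⟨_, ⟨y, hy, rfl⟩, rfl⟩
      have hn : (Cfsg.oddCore ↥(centralizer ({b} : Set G))).Normal := inferInstance
      exact ⟨_, hn.conj_mem y hy ⟨x, hTb hx⟩, rfl⟩
    · rw [H58.Rel.card_map_conj]
  haveI : IsMulCommutative (T D t S) := ⟨⟨fun x y => Subtype.ext (c.T_comm x.2 y.2)⟩⟩
  have hTp : IsPGroup 2 (T D t S) := S.isPGroup'.to_le inf_le_left
  have hncyc : ¬ IsCyclic (T D t S) := by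
    intro hcyc
    obtain ⟨z, hz⟩ := hcyc.exists_generator
    have hzz : (z : G) * z = 1 := c.T_sq z.2
    have hmem : ∀ x ∈ T D t S, x = 1 ∨ x = z := by
      intro x hx
      obtain ⟨i, hi⟩ := mem_zpowers_iff.1 (hz ⟨x, hx⟩)
      have hi' : (z : G) ^ i = x := by
        have := congrArg Subtype.val hi
        simpa using this
      rcases Int.even_or_odd' i with ⟨q, hq | hq⟩
      · left
        rw [← hi', hq, zpow_mul, zpow_two, hzz, one_zpow]
      · right
        rw [← hi', hq, zpow_add, zpow_mul, zpow_two, hzz, one_zpow, one_mul, zpow_one]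
    have h1 := (hmem t c.tT).resolve_left (c.h.ne1 t c.ht)
    have h2 := (hmem _ c.v1T).resolve_left c.v1ne
    exact c.tnV c.v1A (h1.trans h2.symm)
  have hcop : (Nat.card (T D t S)).Coprime (Nat.card N) := by
    obtain ⟨n, hn⟩ := (IsPGroup.iff_card).1 hTp
    rw [hn]
    exact Nat.Coprime.pow_left n ((Nat.coprime_two_left).2 hNodd)
  have hgen := Cfsg.Agent.S0058.result (T D t S) N hncyc hTN hcop
  have hNH : N ≤ normalizer (K0 : Set G) := by
    rw [← hgen]
    refine iSup₂_le ?_
    rintro a ⟨ha, ha1⟩ x ⟨_, hx⟩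
    exact r.Ce_le c ha ha1 (mem_centralizer_singleton_iff.1 hx)
  have hall : (⊤ : Subgroup ↥(centralizer ({b} : Set G))) ≤ (normalizer (K0 : Set G)).subgroupOf (centralizer ({b} : Set G)) := by
    rw [← htop]
    refine sup_le ?_ ?_
    · intro y hy
      rw [mem_subgroupOf]
      have := mem_centralizer_singleton_iff.1 hy
      exact r.Ce_le c he he1 (congrArg Subtype.val this)
    · intro y hy
      rw [mem_subgroupOf]
      exact hNH ⟨y, hy, rfl⟩
  have := hall (mem_top ⟨g, mem_centralizer_singleton_iff.2 hg⟩)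
  exact this

end Res

end H58.WC
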