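import Mathlib
import Cfsg.Agent.Lib.H58.WCh
import Cfsg.Prelude.Def_Involutions

/-!
# All of `D` lies in `H = N(K₀)` (via Bender's theorem: strongly embedded subgroups are solvable)
-/

set_option autoImplicit false
set_option linter.style.haveILetI false
set_option linter.unusedSectionVars false

open Subgroup
open scoped commutatorElement

namespace H58.WC

universe u

/-- strongly embedded subgroups of groups of 2-rank at least two are solvable -/
def BendS : Prop := ∀ (X : Type u) [Group X] [Finite X], (∃ a b : X, a ≠ 1 ∧ b ≠ 1 ∧ a ≠ b ∧ a * a = 1 ∧ b * b = 1 ∧ a * b = b * a) →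
  ∀ H : Subgroup X, Cfsg.IsStronglyEmbedded H → Group.IsSolvable ↥H

theorem not_solvable_A5 : ¬ Group.IsSolvable A5 := by
  intro h
  haveI : Nontrivial A5 := ⟨⟨s1, 1, s1_ne⟩⟩
  have h1 := Group.IsSolvable.commutator_lt_top_of_nontrivial (G := A5)
  have h2 : _root_.commutator A5 = ⊤ := commutator_A5
  rw [h2] at h1
  exact lt_irrefl _ h1

variable {G : Type u} [Group G] {D : Set G} {t : G} {S : Sylow 2 G} {j : A5 →* G}

/-- in a dihedral group of twice odd order an involution of the same class swaps the two generators -/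
theorem dihedral_swap {D : Set G} (hc : ∀ x ∈ D, ∀ g : G, g * x * g⁻¹ ∈ D) {d x : G} (hdD : d ∈ D) (hd : d * d = 1) (hx : x * x = 1)
    (hodd : Odd (orderOf (d * x))) : ∃ y ∈ D, y * y = 1 ∧ y * d * y⁻¹ = x ∧ y ∈ closure {d, x} := by
  obtain ⟨q, hq⟩ := hodd
  -- y = (dx)^{-(q+1)} d
  have key : ∀ i : ℕ, ((d * x) ^ i)⁻¹ * d * (d * x) ^ i = d * (d * x) ^ (i + i) := by
    intro i
    have h2 := pow_conj_d hd hx i
    calc ((d * x) ^ i)⁻¹ * d * (d * x) ^ i = ((d * x) ^ i)⁻¹ * ((d * x) ^ i * d * (d * x) ^ i) * (d * x) ^ i := by rw [h2]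
      _ = d * ((d * x) ^ i * (d * x) ^ i) := by group
      _ = _ := by rw [← pow_add]
  have hone : (d * x) ^ (2 * q + 1) = 1 := by rw [← hq, pow_orderOf_eq_one]
  have hx3 : x = d * (d * x) := by rw [← mul_assoc, hd, one_mul]
  have hρ : (d * x) ^ (q + 1 + (q + 1)) = d * x := by
    have : q + 1 + (q + 1) = (2 * q + 1) + 1 := by ring
    rw [this, pow_succ, hone, one_mul]
  have hdm : d ∈ closure ({d, x} : Set G) := subset_closure (by simp)
  have hxm : x ∈ closure ({d, x} : Set G) := subset_closure (by simp)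
  -- y := d (dx)^(q+1)
  have hyD : d * (d * x) ^ (q + 1) ∈ D := by
    have h1 := key ((q + 1) * (q + 1))
    have h2 : (d * x) ^ ((q + 1) * (q + 1) + (q + 1) * (q + 1)) = (d * x) ^ (q + 1) := by
      have : (q + 1) * (q + 1) + (q + 1) * (q + 1) = (q + 1 + (q + 1)) * (q + 1) := by ring
      rw [this, pow_mul, hρ]
    rw [h2] at h1
    rw [← h1]
    have h3 := hc d hdD ((d * x) ^ ((q + 1) * (q + 1)))⁻¹
    rwa [inv_inv] at h3
  have hyy : (d * (d * x) ^ (q + 1)) * (d * (d * x) ^ (q + 1)) = 1 := by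
    have h2 := pow_conj_d hd hx (q + 1)
    calc (d * (d * x) ^ (q + 1)) * (d * (d * x) ^ (q + 1)) = d * ((d * x) ^ (q + 1) * d * (d * x) ^ (q + 1)) := by group
      _ = 1 := by rw [h2, hd]
  refine ⟨_, hyD, hyy, ?_, mul_mem hdm (pow_mem (mul_mem hdm hxm) _)⟩
  have h4 := key (q + 1)
  rw [hρ, ← hx3] at h4
  have hinv : (d * (d * x) ^ (q + 1))⁻¹ = d * (d * x) ^ (q + 1) := inv_eq_of_mul_eq_one_right hyy
  have h5 : ((d * x) ^ (q + 1))⁻¹ * d = d * (d * x) ^ (q + 1) := by
    have h2 := pow_conj_d hd hx (q + 1)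
    calc ((d * x) ^ (q + 1))⁻¹ * d = ((d * x) ^ (q + 1))⁻¹ * ((d * x) ^ (q + 1) * d * (d * x) ^ (q + 1)) := by rw [h2]
      _ = _ := by group
  have h6 : (d * (d * x) ^ (q + 1))⁻¹ = d⁻¹ * (d * x) ^ (q + 1) := by
    rw [hinv, inv_eq_of_mul_eq_one_right hd]
  rw [h6, ← h5]
  calc ((d * x) ^ (q + 1))⁻¹ * d * d * (d⁻¹ * (d * x) ^ (q + 1)) = ((d * x) ^ (q + 1))⁻¹ * d * (d * x) ^ (q + 1) := by group
    _ = x := h4

namespace Res

variable {K0 : Subgroup G} (r : Res D t S K0) (c : Cf D t S j) [Finite G]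
include r c

theorem tK0 {x : G} (hx : x ∈ T D t S) (hxK : x ∈ K0) : x = 1 := by
  by_contra h
  exact h (r.disj x hx h x (c.h.dW (c.T_D hx h)) hxK)

/-- 2-subgroups of `H` centralised by an element of `D` outside `H` are in `K₀` -/
theorem two_le_K0 (hZ : ∀ b : G, H58.ZUse.ZStarFor ↥(centralizer ({b} : Set G))) {P : Subgroup G} (hP : IsPGroup 2 P)
    (hPH : P ≤ normalizer (K0 : Set G)) {y : G} (hyH : y ∉ normalizer (K0 : Set G)) (hyP : ∀ p ∈ P, y * p = p * y) : P ≤ K0 := by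
  haveI : Fact (Nat.Prime 2) := ⟨Nat.prime_two⟩
  intro p hp
  obtain ⟨h, hh, hhS⟩ := H58.Rel.exists_conj_mem_sylowOf (H := normalizer (K0 : Set G)) (P := P) (Q := S)
    hPH hP S.isPGroup' (c.S_relIndex (r.S_le c))
  obtain ⟨x, hx, k, hk, hxk⟩ := r.SK _ (hhS p hp)
  by_cases hx1 : x = 1
  · rw [hx1, one_mul] at hxk
    rw [← hxk] at hk
    exact (mem_normalizer_iff.1 hh p).2 hk
  · exfalso
    apply hyH
    have h1 := r.cent_ek c hZ hx hx1 hk (g := h * y * h⁻¹) (by
      rw [← hxk]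
      calc h * y * h⁻¹ * (h * p * h⁻¹) = h * (y * p) * h⁻¹ := by group
        _ = h * (p * y) * h⁻¹ := by rw [hyP p hp]
        _ = _ := by group)
    have : y = h⁻¹ * (h * y * h⁻¹) * h := by group
    rw [this]
    exact mul_mem (mul_mem (inv_mem hh) h1) hh

theorem D_le (hZ : ∀ b : G, H58.ZUse.ZStarFor ↥(centralizer ({b} : Set G))) (hB : BendS.{u}) {x0 : G} (hx0 : x0 ∈ D) :
    x0 ∈ normalizer (K0 : Set G) := by
  classical
  haveI : Fact (Nat.Prime 2) := ⟨Nat.prime_two⟩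
  by_contra hx0H
  set H := normalizer (K0 : Set G) with hH
  let RR : Set (Subgroup G) := {R | R ≤ K0 ∧ IsPGroup 2 R ∧ ∃ x ∈ D, x ∉ H ∧ ∀ y ∈ R, x * y = y * x}
  have hbot : (⊥ : Subgroup G) ∈ RR := ⟨bot_le, IsPGroup.of_bot, x0, hx0, hx0H, fun y hy => by
    rw [mem_bot.1 hy, mul_one, one_mul]⟩
  obtain ⟨R, ⟨hRK, hR2, x1, hx1, hx1H, hx1R⟩, hmax⟩ := Set.exists_max_image RR (fun R => Nat.card R) (Set.toFinite _) ⟨_, hbot⟩
  set G1 := normalizer (R : Set G) with hG1
  have hR1 : R ≤ G1 := le_normalizer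
  have hRH : R ≤ H := hRK.trans (r.K0_le c)
  have centG1 : ∀ x : G, (∀ k ∈ R, k * x = x * k) → x ∈ G1 := by
    intro x hx
    rw [hG1, mem_normalizer_iff]
    intro k
    constructor
    · intro hk
      rw [← hx k hk, mul_inv_cancel_right]
      exact hk
    · intro hk
      have h1 := hx _ hk
      have : k = x * k * x⁻¹ := by
        calc k = x⁻¹ * ((x * k * x⁻¹) * x) := by group
          _ = x⁻¹ * (x * (x * k * x⁻¹)) := by rw [h1]
          _ = _ := by group
      rw [this]; exact hk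
  have hx1G : x1 ∈ G1 := centG1 x1 (fun k hk => (hx1R k hk).symm)
  have hTG : T D t S ≤ G1 := fun x hx => centG1 x (fun k hk => r.K0T k (hRK hk) x hx)
  have htG : t ∈ G1 := hTG c.tT
  let X := G1 ⧸ (R.subgroupOf G1)
  have hRn : (R.subgroupOf G1).Normal := normal_in_normalizer
  let π : G1 →* X := QuotientGroup.mk' _
  have hπ1 : ∀ g : G1, π g = 1 ↔ (g : G) ∈ R := by
    intro g
    rw [QuotientGroup.mk'_apply, QuotientGroup.eq_one_iff, mem_subgroupOf]
  let Hb : Subgroup X := (H.subgroupOf G1).map π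
  have memHb : ∀ g : G1, π g ∈ Hb ↔ (g : G) ∈ H := by
    intro g
    constructor
    · rintro ⟨h, hh, hgh⟩
      have h1 : π (h⁻¹ * g) = 1 := by rw [map_mul, map_inv, hgh]; group
      rw [hπ1] at h1
      have h2 : (g : G) = h * ((h⁻¹ * g : G1) : G) := by
        change (g : G) = h * ((h : G)⁻¹ * g)
        group
      rw [h2]
      exact mul_mem (mem_subgroupOf.1 hh) (hRH h1)
    · intro hg
      exact ⟨g, mem_subgroupOf.2 hg, rfl⟩
  have tR : ∀ x ∈ T D t S, x ≠ 1 → x ∉ R := fun x hx hx1 hxR => hx1 (r.tK0 c hx (hRK hxR))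
  have hse : Cfsg.IsStronglyEmbedded Hb := by
    refine ⟨?_, ?_, ?_⟩
    · intro htop
      apply hx1H
      rw [← memHb ⟨x1, hx1G⟩, htop]
      exact mem_top _
    · have h1 : π ⟨t, htG⟩ ∈ Hb := (memHb _).2 (r.T_le c c.tT)
      have h2 : orderOf (π ⟨t, htG⟩) = 2 := by
        refine orderOf_eq_prime ?_ ?_
        · rw [pow_two, ← map_mul]
          have : (⟨t, htG⟩ : G1) * ⟨t, htG⟩ = 1 := Subtype.ext c.tt
          rw [this, map_one]
        · rw [Ne, hπ1]
          exact tR t c.tT (c.h.ne1 t c.ht)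
      rw [even_iff_two_dvd, ← h2]
      have h3 := orderOf_dvd_natCard (⟨π ⟨t, htG⟩, h1⟩ : Hb)
      rwa [Subgroup.orderOf_mk] at h3
    · intro gb hgb
      by_contra hcon
      rw [Nat.not_odd_iff_even, even_iff_two_dvd] at hcon
      obtain ⟨q, hq⟩ := exists_prime_orderOf_dvd_card' 2 hcon
      obtain ⟨q, hqm⟩ := q
      rw [Subgroup.orderOf_mk] at hq
      obtain ⟨hq1, hq2⟩ := mem_inf.1 hqm
      obtain ⟨g, rfl⟩ := QuotientGroup.mk'_surjective (R.subgroupOf G1) gb
      change π g ∉ Hb at hgb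
      obtain ⟨b, rfl⟩ := QuotientGroup.mk'_surjective (R.subgroupOf G1) q
      change π b ∈ Hb at hq1
      change orderOf (π b) = 2 at hq
      rw [memHb] at hgb hq1
      have hq3 : (g : G)⁻¹ * b * g ∈ H := by
        rw [H58.Rel.mem_map_conj_iff] at hq2
        have : π (g⁻¹ * b * g) ∈ Hb := hq2
        rw [memHb] at this
        exact this
      have hbR : (b : G) ∉ R := by
        intro h
        rw [← hπ1] at h
        rw [h, orderOf_one] at hq
        norm_num at hq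
      have hbbR : (b : G) ^ 2 ∈ R := by
        have : π (b ^ 2) = 1 := by rw [map_pow, ← hq, pow_orderOf_eq_one]
        rw [hπ1] at this
        exact this
      -- the involution y
      have ht'D := c.h.conj t c.ht (g : G)
      have ht'H : (g : G) * t * (g : G)⁻¹ ∉ H := fun h => hgb (r.mem_of_conj c h)
      have ht'G : (g : G) * t * (g : G)⁻¹ ∈ G1 := mul_mem (mul_mem g.2 htG) (inv_mem g.2)
      have hodd := r.odd_order c c.ht (r.T_le c c.tT) ht'D ht'H
      obtain ⟨y, hyD, hyy, hyt, hycl⟩ := dihedral_swap c.h.conj c.ht c.tt (c.h.sq _ ht'D) hodd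
      have hyG : y ∈ G1 := by
        have : closure ({t, (g : G) * t * (g : G)⁻¹} : Set G) ≤ G1 := by
          rw [closure_le]
          rintro z (hz | hz)
          · rw [hz]; exact htG
          · rw [hz]; exact ht'G
        exact this hycl
      have hygH : y⁻¹ * (g : G) ∈ H := r.Ct_le c (by
        have h1 : y⁻¹ * ((g : G) * t * (g : G)⁻¹) * y = t := by rw [← hyt]; group
        calc y⁻¹ * (g : G) * t = (y⁻¹ * ((g : G) * t * (g : G)⁻¹) * y) * (y⁻¹ * g) := by group
          _ = _ := by rw [h1])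
      have hyH : y ∉ H := by
        intro h
        apply hgb
        have : (g : G) = y * (y⁻¹ * g) := by group
        rw [this]; exact mul_mem h hygH
      have hyinv : y⁻¹ = y := inv_eq_of_mul_eq_one_right hyy
      -- B
      let Hy' : Subgroup G := H.map (MulAut.conj y).toMonoidHom
      let B : Subgroup G := G1 ⊓ (H ⊓ Hy')
      have memB : ∀ z, z ∈ B ↔ z ∈ G1 ∧ z ∈ H ∧ y⁻¹ * z * y ∈ H := by
        intro z
        rw [mem_inf, mem_inf, H58.Rel.mem_map_conj_iff]
      have hyB : ∀ z ∈ B, y * z * y⁻¹ ∈ B := by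
        intro z hz
        rw [memB] at hz ⊢
        obtain ⟨h1, h2, h3⟩ := hz
        refine ⟨mul_mem (mul_mem hyG h1) (inv_mem hyG), ?_, ?_⟩
        · rw [hyinv] at h3 ⊢
          exact h3
        · have : y⁻¹ * (y * z * y⁻¹) * y = z := by group
          rw [this]; exact h2
      have hbB : (b : G) ∈ B := by
        rw [memB]
        refine ⟨b.2, hq1, ?_⟩
        have : y⁻¹ * (b : G) * y = (y⁻¹ * g) * ((g : G)⁻¹ * b * g) * (y⁻¹ * g)⁻¹ := by group
        rw [this]
        exact mul_mem (mul_mem hygH hq3) (inv_mem hygH)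
      have hRB : R ≤ B := by
        intro z hz
        rw [memB]
        refine ⟨hR1 hz, hRH hz, hRH ?_⟩
        have := (mem_normalizer_iff.1 (inv_mem hyG) z).1 hz
        rwa [inv_inv] at this
      -- P0 = R ⟨b⟩
      have hb2 : IsPGroup 2 (zpowers (b : G)) := by
        obtain ⟨n, hn⟩ := (IsPGroup.iff_orderOf.1 hR2) ⟨_, hbbR⟩
        rw [Subgroup.orderOf_mk] at hn
        have h1 : (b : G) ^ (2 ^ (n + 1)) = 1 := by
          rw [pow_succ', pow_mul, ← hn, pow_orderOf_eq_one]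
        obtain ⟨m, _, hm⟩ := (Nat.dvd_prime_pow Nat.prime_two).1 (orderOf_dvd_of_pow_eq_one h1)
        exact IsPGroup.of_card (n := m) (by rw [Nat.card_zpowers, hm])
      let P0 : Subgroup G := zpowers (b : G) ⊔ R
      have hP0 : IsPGroup 2 P0 := hb2.to_sup_of_normal_right' hR2 (by rw [zpowers_le]; exact b.2)
      have hP0B : P0 ≤ B := sup_le (by rw [zpowers_le]; exact hbB) hRB
      -- B1 = B ⟨y⟩
      let B1 : Subgroup G := B ⊔ zpowers y
      have hnB : B1 ≤ normalizer (B : Set G) := by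
        refine sup_le le_normalizer ?_
        rw [zpowers_le, H58.Rel.mem_normalizer_iff_conj]
        apply Subgroup.eq_of_le_of_card_ge
        · rintro _ ⟨x, hx, rfl⟩
          exact hyB x hx
        · rw [H58.Rel.card_map_conj]
      have hB1G : B1 ≤ G1 := sup_le inf_le_left (by rw [zpowers_le]; exact hyG)
      have hyp : IsPGroup 2 (zpowers y) := by
        refine IsPGroup.of_card (n := 1) ?_
        rw [Nat.card_zpowers, pow_one]
        exact orderOf_eq_prime (by rw [pow_two, hyy]) (c.h.ne1 y hyD)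
      obtain ⟨P1, hyP1, hP1B, hP1, hP1i⟩ := H58.Rel.exists_le_sylowOf (H := B1) (P := zpowers y) le_sup_right hyp
      obtain ⟨h, hh, hhP⟩ := H58.Rel.exists_conj_mem_sylowOf (H := B1) (P := P0) (Q := P1) (hP0B.trans le_sup_left) hP0 hP1 hP1i
      let P2 : Subgroup G := P0.map (MulAut.conj h).toMonoidHom
      have hP2P1 : P2 ≤ P1 := by
        rintro _ ⟨z, hz, rfl⟩
        exact hhP z hz
      have hP2 : IsPGroup 2 P2 := hP0.map _
      have hP2B : P2 ≤ B := by
        rintro _ ⟨z, hz, rfl⟩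
        exact (mem_normalizer_iff.1 (hnB hh) z).1 (hP0B hz)
      have hyP2 : ∀ p ∈ P2, y * p = p * y := by
        intro p hp
        exact (c.two_cent hP1 hyD (hyP1 (mem_zpowers y)) (hP2P1 hp)).symm
      have hP2K := r.two_le_K0 c hZ hP2 (fun z hz => ((memB z).1 (hP2B hz)).2.1) hyH hyP2
      have hm := hmax P2 ⟨hP2K, hP2, y, hyD, hyH, hyP2⟩
      have hm' : Nat.card P2 ≤ Nat.card R := hm
      rw [show Nat.card P2 = Nat.card P0 from H58.Rel.card_map_conj h P0] at hm'
      have heq : R = P0 := Subgroup.eq_of_le_of_card_ge le_sup_right hm'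
      apply hbR
      rw [heq]
      exact (le_sup_left : zpowers (b : G) ≤ P0) (mem_zpowers _)
  -- Bender
  have hv1G : j s1 ∈ G1 := hTG c.v1T
  have hsol := hB X ⟨π ⟨t, htG⟩, π ⟨j s1, hv1G⟩, by
      rw [Ne, hπ1]; exact tR t c.tT (c.h.ne1 t c.ht), by
      rw [Ne, hπ1]; exact tR _ c.v1T c.v1ne, by
      intro h
      have h1 : π (⟨t, htG⟩⁻¹ * ⟨j s1, hv1G⟩) = 1 := by rw [map_mul, map_inv, h]; group
      rw [hπ1] at h1
      have h2 : t⁻¹ * j s1 ∈ T D t S := mul_mem (inv_mem c.tT) c.v1T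
      exact tR _ h2 (fun h3 => c.tnV c.v1A (inv_mul_eq_one.1 h3)) h1, by
      rw [← map_mul]
      have : (⟨t, htG⟩ : G1) * ⟨t, htG⟩ = 1 := Subtype.ext c.tt
      rw [this, map_one], by
      rw [← map_mul]
      have : (⟨j s1, hv1G⟩ : G1) * ⟨j s1, hv1G⟩ = 1 := Subtype.ext c.v1sq
      rw [this, map_one], by
      rw [← map_mul, ← map_mul]
      have : (⟨t, htG⟩ : G1) * ⟨j s1, hv1G⟩ = ⟨j s1, hv1G⟩ * ⟨t, htG⟩ := Subtype.ext (c.T_comm c.tT c.v1T)
      rw [this]⟩ Hb hse
  -- A5 embeds in Hb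
  have hjK : ∀ y : A5, ∀ k ∈ K0, k * j y = j y * k := fun y k hk =>
    r.K0W t c.tT (c.h.ne1 t c.ht) k hk _ (Hy.AW (c.L.mem y))
  have hjH : ∀ y : A5, j y ∈ H := fun y => r.cent_le c (hjK y)
  have hjG : ∀ y : A5, j y ∈ G1 := fun y => centG1 _ (fun k hk => hjK y k (hRK hk))
  let ι : A5 →* Hb := (π.comp (j.codRestrict G1 hjG)).codRestrict Hb (fun y => (memHb _).2 (hjH y))
  have hι : Function.Injective ι := by
    rw [injective_iff_map_eq_one]
    intro y hy
    have h1 : π (j.codRestrict G1 hjG y) = 1 := congrArg Subtype.val hy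
    rw [hπ1] at h1
    have h2 : j y ∈ K0 := hRK h1
    have h3 := r.disj t c.tT (c.h.ne1 t c.ht) _ (Hy.AW (c.L.mem y)) h2
    exact c.L.inj (by rw [h3, map_one])
  haveI := hsol
  exact not_solvable_A5 (Group.isSolvable_of_isSolvable_injective hι)

end Res

end H58.WC
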