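import Mathlib
import Cfsg.Agent.Lib.H58.WCi
import Cfsg.Prelude.Def_SporadicB
import Cfsg.Prelude.Def_TwoFusion
import Cfsg.Prelude.Def_Spor_J1
import Cfsg.Prelude.Def_KGroupFacts

/-!
# `⟨D⟩ ≅ J₁`
-/

set_option autoImplicit false
set_option linter.style.haveILetI false
set_option linter.unusedSectionVars false

open Subgroup
open scoped commutatorElement

namespace H58.WC

universe u

/-- recognition of `J₁` from the centraliser `2 × A₅` -/
def Rec5 : Prop := ∀ (X : Type u) [Group X] [Finite X], ¬ Group.IsSolvable X → (∀ N : Subgroup X, N.Normal → N.index ≠ 2) →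
  ∀ J : X, Cfsg.IsTwoCentralInvolution J → ∀ U : Subgroup X, Nonempty (↥U ≃* A5) →
    Cfsg.IsInternalDirectProduct (zpowers J) U (centralizer ({J} : Set X)) → Cfsg.Spor.IsoJ1 X

def StemJ1 : Prop := ∀ (Γ : Type u) [Group Γ] [Finite Γ] (σ : Γ →* ↥Cfsg.Spor.J1), Cfsg.IsStemExtension σ → ∀ w ∈ σ.ker, w = 1

variable {G : Type u} [Group G] {D : Set G} {t : G} {S : Sylow 2 G} {j : A5 →* G}

namespace Res

variable {K0 : Subgroup G} (r : Res D t S K0) (c : Cf D t S j) [Finite G]
include r c

theorem iso (hD : ∀ x ∈ D, x ∈ normalizer (K0 : Set G)) (hrec : Rec5.{u}) (hstem : StemJ1.{u}) (N : Subgroup G)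
    (hN : N = closure D) : Cfsg.Spor.IsoJ1 ↥N := by
  classical
  haveI : Fact (Nat.Prime 2) := ⟨Nat.prime_two⟩
  have hDN : ∀ x ∈ D, x ∈ N := fun x hx => by rw [hN]; exact subset_closure hx
  have hDK : ∀ x ∈ D, ∀ k ∈ K0, k * x = x * k := by
    intro x hx k hk
    obtain ⟨h, hh, rfl⟩ := r.D_conj c hx (hD x hx)
    have h1 : h⁻¹ * k * h ∈ K0 := by
      have := (mem_normalizer_iff.1 (inv_mem hh) k).1 hk
      rwa [inv_inv] at this
    have h2 := r.K0T _ h1 t c.tT
    calc k * (h * t * h⁻¹) = h * ((h⁻¹ * k * h) * t) * h⁻¹ := by group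
      _ = h * (t * (h⁻¹ * k * h)) * h⁻¹ := by rw [h2]
      _ = _ := by group
  have hNK : ∀ x ∈ N, ∀ k ∈ K0, k * x = x * k := by
    intro x hx k hk
    have h1 : N ≤ centralizer ({k} : Set G) := by
      rw [hN, closure_le]
      intro y hy
      exact mem_centralizer_singleton_iff.2 (hDK y hy k hk).symm
    exact (mem_centralizer_singleton_iff.1 (h1 hx)).symm
  have hall : ∀ g : G, g ∈ normalizer (K0 : Set G) := fun g => r.mem_of_conj c (hD _ (c.h.conj t c.ht g))
  have hNn : N.Normal := by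
    refine ⟨fun n hn g => ?_⟩
    rw [hN] at hn ⊢
    have h1 : closure D ≤ (closure D).comap (MulAut.conj g).toMonoidHom := by
      rw [closure_le]
      intro y hy
      exact subset_closure (c.h.conj y hy g)
    exact h1 hn
  have htN : t ∈ N := hDN t c.ht
  have hWN : W D t ≤ N := by
    unfold W
    rw [closure_le]
    intro y hy
    exact hDN y hy.1
  have hjN : ∀ y, j y ∈ N := fun y => hWN (Hy.AW (c.L.mem y))
  have ht1 := c.h.ne1 t c.ht
  have htt := c.tt
  -- N is perfect
  have hperf : ⁅N, N⁆ = N := by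
    apply le_antisymm (commutator_le_self N)
    have hv : j s1 ∈ ⁅N, N⁆ := commutator_mono hWN hWN c.v1A
    have hn : (⁅N, N⁆ : Subgroup G).Normal := inferInstance
    conv_lhs => rw [hN]
    rw [closure_le]
    intro y hy
    obtain ⟨g, hg⟩ := c.h.trans (j s1) (c.allV.1) y hy
    rw [← hg]
    exact hn.conj_mem _ hv g
  have hperf' : _root_.commutator N = ⊤ := by
    have h1 := map_subtype_commutator N
    rw [hperf] at h1
    rw [eq_top_iff]
    intro x _
    have h2 : (x : G) ∈ (_root_.commutator N).map N.subtype := by rw [h1]; exact x.2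
    obtain ⟨y, hy, hyx⟩ := h2
    have : y = x := Subtype.ext hyx
    rwa [← this]
  let Z : Subgroup N := K0.subgroupOf N
  have hZn : Z.Normal := ⟨fun z hz n => by
    rw [mem_subgroupOf] at hz ⊢
    exact (mem_normalizer_iff.1 (hall n) z).1 hz⟩
  let π : N →* (N ⧸ Z) := QuotientGroup.mk' Z
  have hπ1 : ∀ n : N, π n = 1 ↔ (n : G) ∈ K0 := by
    intro n
    rw [QuotientGroup.mk'_apply, QuotientGroup.eq_one_iff, mem_subgroupOf]
  have hπs : Function.Surjective π := QuotientGroup.mk'_surjective Z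
  let ι : A5 →* (N ⧸ Z) := π.comp (j.codRestrict N hjN)
  have hι : ∀ y, ι y = π ⟨j y, hjN y⟩ := fun y => rfl
  have hιi : Function.Injective ι := by
    rw [injective_iff_map_eq_one]
    intro y hy
    rw [hι, hπ1] at hy
    have h3 := r.disj t c.tT ht1 _ (Hy.AW (c.L.mem y)) hy
    exact c.L.inj (by rw [h3, map_one])
  have hperfQ : _root_.commutator (N ⧸ Z) = ⊤ := by
    have h1 : (_root_.commutator N).map π = _root_.commutator (N ⧸ Z) := by
      rw [_root_.commutator_def, _root_.commutator_def, map_commutator, map_top_of_surjective π hπs]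
    rw [← h1, hperf', map_top_of_surjective π hπs]
  have hQ : Cfsg.Spor.IsoJ1 (N ⧸ Z) := by
    refine hrec (N ⧸ Z) ?_ ?_ (π ⟨t, htN⟩) ?_ ι.range ⟨(MonoidHom.ofInjective hιi).symm⟩ ?_
    · intro hs
      exact not_solvable_A5 (Group.isSolvable_of_isSolvable_injective hιi)
    · intro M hMn hM
      have h1 : _root_.commutator (N ⧸ Z) ≤ M := by
        rw [_root_.commutator_def, commutator_le]
        intro a _ b _
        rw [commutatorElement_def]
        have h2 := fun (x y : N ⧸ Z) => mul_mem_iff_of_index_two hM (a := x) (b := y)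
        rw [h2, h2, h2, inv_mem_iff, inv_mem_iff]
        tauto
      rw [hperfQ, top_le_iff] at h1
      rw [h1, index_top] at hM
      norm_num at hM
    · refine ⟨?_, ?_⟩
      · refine orderOf_eq_prime ?_ ?_
        · rw [pow_two, ← map_mul]
          have : (⟨t, htN⟩ : N) * ⟨t, htN⟩ = 1 := Subtype.ext htt
          rw [this, map_one]
        · rw [Ne, hπ1]
          intro h
          exact ht1 (r.tK0 c c.tT h)
      · have h1 : IsPGroup 2 ((S : Subgroup G).subgroupOf N) := S.isPGroup'.comap_subtype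
        have h2 : ¬ 2 ∣ ((S : Subgroup G).subgroupOf N).index := by
          intro h3
          exact S.not_dvd_index (h3.trans (relIndex_dvd_index (S : Subgroup G) N))
        let P0 : Sylow 2 N := h1.toSylow h2
        refine ⟨P0.mapSurjective hπs, ?_, ?_⟩
        · exact ⟨⟨t, htN⟩, c.tS, rfl⟩
        · rintro _ ⟨s, hs, rfl⟩
          rw [← map_mul, ← map_mul]
          congr 1
          exact Subtype.ext (c.cS s hs)
    · refine ⟨?_, ?_, ?_, ?_, ?_⟩
      · rw [zpowers_le, mem_centralizer_singleton_iff]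
      · rintro _ ⟨y, rfl⟩
        rw [mem_centralizer_singleton_iff, hι, ← map_mul, ← map_mul]
        congr 1
        exact Subtype.ext (c.at_comm (c.L.mem y))
      · rintro a ha _ ⟨y, rfl⟩
        obtain ⟨i, rfl⟩ := mem_zpowers_iff.1 ha
        have h1 : Commute (π ⟨t, htN⟩) (ι y) := by
          rw [Commute, SemiconjBy, hι, ← map_mul, ← map_mul]
          congr 1
          exact Subtype.ext (c.at_comm (c.L.mem y)).symm
        exact (h1.zpow_left i).eq
      · rw [eq_bot_iff]
        rintro x ⟨hx1, y, hy⟩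
        obtain ⟨i, rfl⟩ := mem_zpowers_iff.1 hx1
        have hone : (π ⟨t, htN⟩) * (π ⟨t, htN⟩) = 1 := by
          rw [← map_mul]
          have : (⟨t, htN⟩ : N) * ⟨t, htN⟩ = 1 := Subtype.ext htt
          rw [this, map_one]
        rw [mem_bot]
        rcases Int.even_or_odd' i with ⟨q, hq | hq⟩
        · rw [hq, zpow_mul, zpow_two, hone, one_zpow]
        · exfalso
          rw [hq, zpow_add, zpow_mul, zpow_two, hone, one_zpow, one_mul, zpow_one] at hy
          have h1 : π (⟨t, htN⟩⁻¹ * ⟨j y, hjN y⟩) = 1 := by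
            rw [map_mul, map_inv, ← hy, hι]; group
          rw [hπ1] at h1
          have h2 : t⁻¹ * j y ∈ W D t := mul_mem (inv_mem (c.h.dW c.ht)) (Hy.AW (c.L.mem y))
          have h3 := r.disj t c.tT ht1 _ h2 h1
          exact c.tnV (c.L.mem y) (inv_mul_eq_one.1 h3)
      · apply le_antisymm
        · refine sup_le ?_ ?_
          · rw [zpowers_le, mem_centralizer_singleton_iff]
          · rintro _ ⟨y, rfl⟩
            rw [mem_centralizer_singleton_iff, hι, ← map_mul, ← map_mul]
            congr 1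
            exact Subtype.ext (c.at_comm (c.L.mem y))
        · intro x hx
          obtain ⟨n, rfl⟩ := hπs x
          rw [mem_centralizer_singleton_iff] at hx
          have h1 : π (n * ⟨t, htN⟩ * n⁻¹ * (⟨t, htN⟩)⁻¹) = 1 := by
            rw [map_mul, map_mul, map_mul, map_inv, map_inv, hx]; group
          rw [hπ1] at h1
          have h1' : (n : G) * t * (n : G)⁻¹ * t⁻¹ ∈ K0 := h1
          have h2 := r.K0T _ h1' t c.tT
          have hcom : ((n : G) * t * (n : G)⁻¹) * t = t * ((n : G) * t * (n : G)⁻¹) := by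
            calc ((n : G) * t * (n : G)⁻¹) * t = ((n : G) * t * (n : G)⁻¹ * t⁻¹ * t) * t := by group
              _ = (t * ((n : G) * t * (n : G)⁻¹ * t⁻¹)) * t := by rw [h2]
              _ = _ := by group
          have h3 : (n : G) * t * (n : G)⁻¹ ∈ W D t := subset_closure ⟨c.h.conj t c.ht n, hcom⟩
          have h4 := r.disj t c.tT ht1 _ (mul_mem h3 (inv_mem (c.h.dW c.ht))) h1'
          have h5 : (n : G) * t = t * n := by
            have := mul_inv_eq_one.1 h4
            exact mul_inv_eq_iff_eq_mul.1 this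
          obtain ⟨w, hw, k, hk, hnwk⟩ := r.CWK t c.tT ht1 n h5
          have hwN := hWN hw
          have hkN : k ∈ N := by
            have : k = w⁻¹ * n := by rw [hnwk]; group
            rw [this]; exact mul_mem (inv_mem hwN) n.2
          have h6 : π n = π ⟨w, hwN⟩ := by
            have e : n = ⟨w, hwN⟩ * ⟨k, hkN⟩ := Subtype.ext hnwk
            rw [e, map_mul, (hπ1 ⟨k, hkN⟩).2 hk, mul_one]
          rw [h6]
          rcases c.L.half w hw with h | h
          · obtain ⟨y, hy⟩ := (c.L.rng w).1 h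
            have e : (⟨w, hwN⟩ : N) = ⟨j y, hjN y⟩ := Subtype.ext hy.symm
            rw [e, ← hι]
            exact mem_sup_right ⟨y, rfl⟩
          · obtain ⟨y, hy⟩ := (c.L.rng _).1 h
            have e : (⟨w, hwN⟩ : N) = ⟨t, htN⟩ * ⟨j y, hjN y⟩ := Subtype.ext (by
              change w = t * j y
              rw [hy, ← mul_assoc, htt, one_mul])
            rw [e, map_mul, ← hι]
            exact mul_mem (mem_sup_left (mem_zpowers _)) (mem_sup_right ⟨y, rfl⟩)
  -- stem extension
  obtain ⟨e⟩ := hQ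
  let σ : N →* ↥Cfsg.Spor.J1 := e.toMonoidHom.comp π
  have hker : ∀ n : N, n ∈ σ.ker ↔ (n : G) ∈ K0 := by
    intro n
    rw [MonoidHom.mem_ker, ← hπ1]
    change e (π n) = 1 ↔ _
    rw [map_eq_one_iff e e.injective]
  have hst : Cfsg.IsStemExtension σ := by
    refine ⟨e.surjective.comp hπs, ?_, ?_⟩
    · intro n hn
      rw [mem_center_iff]
      intro g
      apply Subtype.ext
      exact (hNK g g.2 n ((hker n).1 hn)).symm
    · rw [hperf']; exact le_top
  have htriv := hstem N σ hst
  have hσi : Function.Injective σ := by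
    rw [injective_iff_map_eq_one]
    intro n hn
    exact htriv n hn
  exact ⟨MulEquiv.ofBijective σ ⟨hσi, hst.1⟩⟩

end Res

/-- the main theorem -/
theorem main {G : Type u} [Group G] [Finite G] {D : Set G} (h : Hy D) (hne : D.Nonempty)
    (hZ : ∀ b : G, H58.ZUse.ZStarFor ↥(centralizer ({b} : Set G))) (hB : BendS.{u}) (hrec : Rec5.{u}) (hstem : StemJ1.{u})
    (N : Subgroup G) (hN : N = closure D) : Cfsg.Spor.IsoJ1 ↥N := by
  obtain ⟨t, ht⟩ := hne
  obtain ⟨S, j, c⟩ := h.exists_Cf ht
  obtain ⟨K0, r⟩ := c.exists_Res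
  exact r.iso c (fun x hx => r.D_le c hZ hB hx) hrec hstem N hN

/-- setting up the hypothesis from a single involution -/
theorem hy_of {G : Type u} [Group G] [Finite G] (t : G) (ht : orderOf t = 2) (S : Sylow 2 G) (htS : t ∈ (S : Subgroup G))
    (htc : ∀ s ∈ (S : Subgroup G), s * t = t * s)
    (hW : Nonempty (↥(closure {x : G | ∃ g : G, x = g * t * g⁻¹ ∧ x * t = t * x}) ≃* (Multiplicative (ZMod 2) × A5))) :
    Hy {x : G | ∃ g : G, x = g * t * g⁻¹} := by
  have htt : t * t = 1 := by rw [← pow_two, ← ht, pow_orderOf_eq_one]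
  have ht1 : t ≠ 1 := by
    intro h
    rw [h, orderOf_one] at ht
    norm_num at ht
  set D := {x : G | ∃ g : G, x = g * t * g⁻¹} with hD
  have hconj : ∀ x ∈ D, ∀ g : G, g * x * g⁻¹ ∈ D := by
    rintro x ⟨h, rfl⟩ g
    exact ⟨g * h, by group⟩
  have hset : {x : G | ∃ g : G, x = g * t * g⁻¹ ∧ x * t = t * x} = {x | x ∈ D ∧ x * t = t * x} := by
    ext x
    simp only [Set.mem_ofPred_eq, hD]
    exact exists_and_right
  rw [hset] at hW
  refine ⟨hconj, ?_, ?_, ?_, ?_, ?_⟩
  · rintro x ⟨g, rfl⟩ y ⟨h, rfl⟩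
    exact ⟨h * g⁻¹, by group⟩
  · rintro x ⟨g, rfl⟩
    calc g * t * g⁻¹ * (g * t * g⁻¹) = g * (t * t) * g⁻¹ := by group
      _ = 1 := by rw [htt]; group
  · rintro x ⟨g, rfl⟩ h
    apply ht1
    have : g * t * g⁻¹ = g * 1 * g⁻¹ := by rw [h]; group
    exact mul_left_cancel (mul_right_cancel this)
  · rintro x ⟨g, rfl⟩
    refine ⟨g • S, ?_, ?_⟩
    · change g * t * g⁻¹ ∈ ((g • S : Sylow 2 G) : Subgroup G)
      rw [Sylow.coe_subgroup_smul, Subgroup.mem_pointwise_smul_iff_inv_smul_mem]
      simpa [mul_assoc] using htS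
    · intro s hs
      change s ∈ ((g • S : Sylow 2 G) : Subgroup G) at hs
      rw [Sylow.coe_subgroup_smul, Subgroup.mem_pointwise_smul_iff_inv_smul_mem] at hs
      have h1 : g⁻¹ * s * g ∈ (S : Subgroup G) := by simpa [mul_assoc] using hs
      have h2 := htc _ h1
      calc s * (g * t * g⁻¹) = g * ((g⁻¹ * s * g) * t) * g⁻¹ := by group
        _ = g * (t * (g⁻¹ * s * g)) * g⁻¹ := by rw [h2]
        _ = _ := by group
  · rintro x ⟨g, rfl⟩
    obtain ⟨φ⟩ := hW
    have hmap : (W D t).map (MulAut.conj g).toMonoidHom = W D (g * t * g⁻¹) := by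
      have key : ∀ (g d : G), (W D d).map (MulAut.conj g).toMonoidHom ≤ W D (g * d * g⁻¹) := by
        intro g d
        rw [Subgroup.map_le_iff_le_comap]
        unfold W
        rw [closure_le]
        rintro y ⟨hy1, hy2⟩
        refine subset_closure ⟨hconj y hy1 g, ?_⟩
        change g * y * g⁻¹ * (g * d * g⁻¹) = g * d * g⁻¹ * (g * y * g⁻¹)
        calc g * y * g⁻¹ * (g * d * g⁻¹) = g * (y * d) * g⁻¹ := by group
          _ = g * (d * y) * g⁻¹ := by rw [hy2]
          _ = _ := by group
      apply le_antisymm (key g t)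
      intro y hy
      have h1 := key g⁻¹ (g * t * g⁻¹) ⟨y, hy, rfl⟩
      have e : g⁻¹ * (g * t * g⁻¹) * g⁻¹⁻¹ = t := by group
      rw [e] at h1
      refine ⟨g⁻¹ * y * g, ?_, ?_⟩
      · have e2 : (MulAut.conj g⁻¹).toMonoidHom y = g⁻¹ * y * g := by simp
        rw [e2] at h1
        exact h1
      · change g * (g⁻¹ * y * g) * g⁻¹ = y
        group
    have e1 : W D t ≃* W D (g * t * g⁻¹) :=
      ((W D t).equivMapOfInjective (MulAut.conj g).toMonoidHom (MulAut.conj g).injective).trans (MulEquiv.subgroupCongr hmap)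
    exact ⟨e1.symm.trans φ⟩

end H58.WC
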